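import Mathlib
import Cfsg.Prelude.Def_Solvable
import Cfsg.Prelude.Def_OddOrderLocal
import Cfsg.Agent.Lib.Transfer.ThompsonFact
import Cfsg.Agent.Lib.Geo.PrimSolvable
import Cfsg.Agent.Lib.Techniques.Bender2
import Cfsg.Agent.Lib.Techniques.Bender
import Cfsg.Agent.Lib.OddLocal.MaxF3
import Cfsg.Agent.Lib.Uniq.Basic
import Cfsg.Agent.Lib.PGroup.PiHall

/-!
# Centralizers of `SCN` subgroups of `F(H)`, `H` a Hall subgroup of a solvable group

If `F(Z) ≤ E`, `A` is self-centralizing normal in `E` and `x` is a `q`-element (`q ≥ 5`) of `C_Z(A)`,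
then `x ∈ A`.  The reason: `x` acts quadratically on `F(Z)`, hence trivially on `O_{q'}(F(Z))` and
(`q`-stability) as an element of `O_q` of the automizer on `O_q(Z)`; the resulting normal subgroup is
nilpotent.
-/

set_option autoImplicit false

namespace Cfsg.Agent.Lib.Techniques.CentSCN

open Cfsg Subgroup Cfsg.Agent.Lib.Core Cfsg.Agent.Lib.PLocal Cfsg.Agent.Lib.PLocal.QuadMat
open scoped commutatorElement

variable {Z : Type*} [Group Z] [Finite Z]

theorem pow_card_subgroup (H : Subgroup Z) {x : Z} (hx : x ∈ H) : x ^ Nat.card H = 1 := by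
  have h : (⟨x, hx⟩ : H) ^ Nat.card H = 1 := pow_card_eq_one'
  exact congrArg Subtype.val h

theorem mem_of_centralizes_scn [hsol : Group.IsSolvable Z] {q : ℕ} [hq : Fact q.Prime] (h2 : q ≠ 2) (h3 : q ≠ 3)
    (E A : Subgroup Z) (hFE : fittingSubgroup Z ≤ E) (hEA : E ≤ normalizer (A : Set Z))
    (hCA : E ⊓ centralizer (A : Set Z) ≤ A) {x : Z} (hxA : x ∈ centralizer (A : Set Z)) {k : ℕ}
    (hxq : x ^ (q ^ k) = 1) : x ∈ A := by
  classical
  have hAx : zpowers x ≤ centralizer (A : Set Z) := zpowers_le.2 hxA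
  have hFA : ⁅fittingSubgroup Z, A⁆ ≤ A := commutator_le.2 (fun f hf a ha => by
    rw [commutatorElement_def]
    exact mul_mem ((mem_normalizer_iff.1 (hEA (hFE hf)) a).1 ha) (inv_mem ha))
  have h1 : ⁅⁅fittingSubgroup Z, A⁆, zpowers x⁆ = ⊥ := by
    rw [commutator_eq_bot_iff_le_centralizer]
    exact hFA.trans (le_centralizer_iff.1 hAx)
  have hAzx : ⁅A, zpowers x⁆ = ⊥ := by
    rw [commutator_eq_bot_iff_le_centralizer]; exact le_centralizer_iff.1 hAx
  have h2' : ⁅⁅A, zpowers x⁆, fittingSubgroup Z⁆ = ⊥ := by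
    rw [hAzx, commutator_bot_left]
  have h3' := commutator_commutator_eq_bot_of_rotate h1 h2'
  have hzF : ⁅zpowers x, fittingSubgroup Z⁆ ≤ A := by
    apply le_trans _ hCA
    refine le_inf ((commutator_le_right _ _).trans hFE) ?_
    rwa [commutator_eq_bot_iff_le_centralizer] at h3'
  have hquad : ⁅⁅pCore q Z, zpowers x⁆, zpowers x⁆ = ⊥ := by
    have h4 : ⁅pCore q Z, zpowers x⁆ ≤ A := by
      rw [commutator_comm]
      exact (commutator_mono le_rfl (pCore_le_fittingSubgroup q)).trans hzF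
    rw [eq_bot_iff, ← hAzx]
    exact commutator_mono h4 le_rfl
  have hNo := Cfsg.Agent.Lib.Transfer.noSL2_of_solvable h2 hsol (fun h => absurd h h3)
  have hst := isPStableOn_pgroup_of_noSL2 h2 hNo (pCore q Z) (pCore_isPGroup q Z)
  have hxU := hst x hquad
  -- the `q'`-part of the Fitting subgroup
  obtain ⟨W, hWd⟩ : ∃ W : Subgroup Z, W = pPrimeCore q Z ⊓ fittingSubgroup Z := ⟨_, rfl⟩
  haveI hWn : W.Normal := hWd ▸ inferInstance
  have hWc : (Nat.card W).Coprime q := by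
    have hle : W ≤ pPrimeCore q Z := hWd ▸ inf_le_left
    exact Nat.Coprime.coprime_dvd_left (card_dvd_of_le hle) (pPrimeCore_coprime q Z)
  have hWF : W ≤ fittingSubgroup Z := hWd ▸ inf_le_right
  have hxW : x ∈ centralizer (W : Set Z) := by
    rw [mem_centralizer_iff]
    intro w hw
    have hbA : ⁅x, w⁆ ∈ A := hzF (commutator_mem_commutator (mem_zpowers x) (hWF hw))
    have hbW : ⁅x, w⁆ ∈ W := by
      rw [commutatorElement_def]
      exact mul_mem (hWn.conj_mem w hw x) (inv_mem hw)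
    have hxb : x * ⁅x, w⁆ = ⁅x, w⁆ * x := (mem_centralizer_iff.1 hxA _ hbA).symm
    have he : x * w * x⁻¹ = ⁅x, w⁆ * w := by
      simp only [commutatorElement_def]; group
    have hpow := Cfsg.Agent.Lib.Techniques.pow_conj_of_comm hxb he (q ^ k)
    rw [hxq] at hpow
    have hb1 : ⁅x, w⁆ ^ (q ^ k) = 1 := by
      have : (1 : Z) * w * (1 : Z)⁻¹ = w := by simp
      rw [this] at hpow
      exact (mul_eq_right.1 hpow.symm)
    have hb2 : ⁅x, w⁆ ^ (Nat.card W) = 1 := by
      exact pow_card_subgroup W hbW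
    have hb := Cfsg.Agent.Lib.Techniques.eq_one_of_pow_coprime hb2 hb1 hWc
    exact (commutatorElement_eq_one_iff_mul_comm.1 hb).symm
  have hFsup : fittingSubgroup Z ≤ pCore q Z ⊔ W := by
    rw [fittingSubgroup_eq_iSup_pCore]
    apply iSup_le
    intro r
    by_cases hr : (r : ℕ) = q
    · rw [hr]; exact le_sup_left
    · haveI : Fact (r : ℕ).Prime := ⟨r.2⟩
      refine le_trans ?_ le_sup_right
      rw [hWd]
      refine le_inf (le_pPrimeCore (pCore_normal _ _) ?_) (pCore_le_fittingSubgroup _)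
      obtain ⟨n, hn⟩ := IsPGroup.iff_card.1 (pCore_isPGroup (r : ℕ) Z)
      rw [hn]
      exact Nat.Coprime.pow_left n ((Nat.coprime_primes r.2 hq.out).2 hr)
  -- the normal subgroup
  let π := QuotientGroup.mk' (centralizer (pCore q Z : Set Z))
  let U : Subgroup Z := (pCore q (Z ⧸ centralizer (pCore q Z : Set Z))).comap π
  haveI hUn : U.Normal := (pCore_normal q _).comap π
  haveI hCWn : (centralizer (W : Set Z)).Normal := inferInstance
  let M : Subgroup Z := U ⊓ centralizer (W : Set Z)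
  haveI hMn : M.Normal := inferInstance
  have hxM : x ∈ M := ⟨hxU, hxW⟩
  have hkey : ∀ y ∈ M, ∀ n : ℕ, n.Coprime q → y ^ n = 1 → ∀ m ∈ M, y * m = m * y := by
    intro y hy n hn hyn m hm
    have hyU : π y ∈ pCore q (Z ⧸ centralizer (pCore q Z : Set Z)) := hy.1
    obtain ⟨t, ht⟩ := pCore_isPGroup q (Z ⧸ centralizer (pCore q Z : Set Z)) ⟨_, hyU⟩
    have ht' : (π y) ^ (q ^ t) = 1 := by simpa using congrArg Subtype.val ht
    have hy1 : π y = 1 := Cfsg.Agent.Lib.Techniques.eq_one_of_pow_coprime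
      (by rw [← map_pow, hyn, map_one]) ht' hn
    have hyC : y ∈ centralizer (pCore q Z : Set Z) := (QuotientGroup.eq_one_iff y).1 hy1
    have hyW : y ∈ centralizer (W : Set Z) := hy.2
    have hyF : y ∈ centralizer (fittingSubgroup Z : Set Z) := by
      rw [mem_centralizer_iff]
      intro f hf
      have := hFsup hf
      rw [mem_sup_of_normal_right] at this
      obtain ⟨a, ha, w, hw, rfl⟩ := this
      have e1 := mem_centralizer_iff.1 hyC a ha
      have e2 := mem_centralizer_iff.1 hyW w hw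
      rw [mul_assoc, e2, ← mul_assoc, e1, mul_assoc]
    have hyF' : y ∈ fittingSubgroup Z := Cfsg.Agent.Lib.Geo.centralizer_fitting_le_of_solvable hyF
    have := hFsup hyF'
    rw [mem_sup_of_normal_right] at this
    obtain ⟨a, ha, w, hw, hyaw⟩ := this
    -- `a = 1`
    have hcw : Commute y w := (mem_centralizer_iff.1 hyW w hw).symm
    have hae : a = y * w⁻¹ := by rw [← hyaw]; group
    have ha1 : a ^ (n * Nat.card W) = 1 := by
      rw [hae, (hcw.inv_right).mul_pow, pow_mul, hyn, one_pow, one_mul, inv_pow, mul_comm, pow_mul]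
      have h5 : w ^ (Nat.card W) = 1 := pow_card_subgroup W hw
      rw [h5, one_pow, inv_one]
    obtain ⟨s, hs⟩ := pCore_isPGroup q Z ⟨a, ha⟩
    have hs' : a ^ (q ^ s) = 1 := by simpa using congrArg Subtype.val hs
    have ha2 : a = 1 := Cfsg.Agent.Lib.Techniques.eq_one_of_pow_coprime ha1 hs'
      (Nat.Coprime.mul_left hn hWc)
    have hyw : y = w := by rw [← hyaw, ha2, one_mul]
    rw [hyw]
    exact mem_centralizer_iff.1 hm.2 w hw
  -- nilpotency of `M`
  have hPq : IsPGroup q (↥M ⧸ center ↥M) := by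
    intro g
    obtain ⟨y, rfl⟩ := QuotientGroup.mk_surjective g
    obtain ⟨a, m₀, hm₀, hord⟩ := Nat.exists_eq_pow_mul_and_not_dvd (n := orderOf y)
      (orderOf_pos y).ne' q hq.out.ne_one
    refine ⟨a, ?_⟩
    rw [← QuotientGroup.mk_pow, QuotientGroup.eq_one_iff]
    rw [mem_center_iff]
    intro m
    apply Subtype.ext
    have hcop : m₀.Coprime q := (Nat.coprime_comm.1 ((Nat.Prime.coprime_iff_not_dvd hq.out).2 hm₀))
    have hu1 : ((y : Z) ^ (q ^ a)) ^ m₀ = 1 := by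
      rw [← pow_mul, ← hord]
      rw [← Subgroup.coe_pow, pow_orderOf_eq_one]
      rfl
    have := hkey ((y : Z) ^ (q ^ a)) (pow_mem y.2 _) m₀ hcop hu1 m m.2
    simpa using this.symm
  haveI hnil : Group.IsNilpotent (↥M ⧸ center ↥M) := hPq.isNilpotent
  haveI hnilM : Group.IsNilpotent ↥M := Group.of_quotient_center_nilpotent hnil
  have hMF : M ≤ fittingSubgroup Z := le_fittingSubgroup hMn hnilM
  exact hCA ⟨hFE (hMF hxM), hxA⟩

section Main

variable {S : Type*} [Group S] [Finite S] [Group.IsSolvable S]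

open Cfsg.Agent.Lib.PGroup.PiHall Cfsg.Agent.Lib.Uniq Cfsg.Agent.Lib.OddLocal

theorem mem_of_centralizes_hall (π : Set ℕ) (h2 : 2 ∉ π) (h3 : 3 ∉ π) (H : Subgroup S)
    (hH : Cfsg.IsPiHall π H) (A : Subgroup S)
    (hA : Cfsg.IsSCN ((Cfsg.fittingSubgroup H).map H.subtype) A) {q : ℕ} [hq : Fact q.Prime]
    (hqπ : q ∈ π) {x : S} (hxA : x ∈ centralizer (A : Set S)) {k : ℕ} (hxq : x ^ (q ^ k) = 1) :
    x ∈ A := by
  classical
  obtain ⟨E₀, hE₀⟩ : ∃ E₀ : Subgroup S, E₀ = (Cfsg.fittingSubgroup H).map H.subtype := ⟨_, rfl⟩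
  rw [← hE₀] at hA
  obtain ⟨hA1, hA2, hA3⟩ := hA
  have hE₀H : E₀ ≤ H := hE₀ ▸ map_subtype_le _
  have hAH : A ≤ H := hA1.trans hE₀H
  obtain ⟨K, hKd⟩ : ∃ K : Subgroup S, K = piCore πᶜ S := ⟨_, rfl⟩
  haveI hKn : K.Normal := by
    rw [hKd]
    have := piCore_characteristic' πᶜ S
    exact Subgroup.normal_of_characteristic _
  have hKp : ∀ r : ℕ, r.Prime → r ∣ Nat.card K → r ∉ π := fun r hr hd =>
    primes_piCore πᶜ S r hr (hKd ▸ hd)
  have hcop : Nat.Coprime (Nat.card H) (Nat.card K) :=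
    Nat.Coprime.symm (Nat.coprime_of_dvd (fun r hr h1 h2 => hKp r hr h1 (hH.1 r hr h2)))
  have hHK : H ⊓ K = ⊥ := disjoint_iff.1 (Subgroup.disjoint_of_coprime_natCard hcop)
  let φ : S →* S ⧸ K := QuotientGroup.mk' K
  have hφ : ∀ y, φ y = 1 ↔ y ∈ K := fun y => QuotientGroup.eq_one_iff y
  have hφH : ∀ y ∈ H, φ y = 1 → y = 1 := fun y hy h1 => by
    have : y ∈ H ⊓ K := ⟨hy, (hφ y).1 h1⟩
    rw [hHK] at this
    exact this
  -- the Fitting subgroup of the quotient
  have hFZ : fittingSubgroup (S ⧸ K) ≤ E₀.map φ := by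
    have hFsig : IsSig π (fittingSubgroup (S ⧸ K)) := by
      intro r hr hd
      by_contra hnr
      haveI : Fact r.Prime := ⟨hr⟩
      have h0 : pCore r (S ⧸ K) = ⊥ := by
        subst hKd
        exact pCore_quot_piCore_eq_bot πᶜ hnr
      exact Cfsg.Agent.Lib.Techniques.pCore_ne_bot_of_dvd hd h0
    have hle : fittingSubgroup (S ⧸ K) ≤ H.map φ :=
      le_of_hall_of_normal_sig (isPiHall_map K hH) hFsig
    intro z hz
    obtain ⟨h, hh, rfl⟩ := hle hz
    let f : ↥H →* S ⧸ K := φ.comp H.subtype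
    let N₀ : Subgroup ↥H := (fittingSubgroup (S ⧸ K)).comap f
    haveI hN₀ : N₀.Normal := inferInstance
    let g : ↥N₀ →* ↥(fittingSubgroup (S ⧸ K)) := (f.comp N₀.subtype).codRestrict _ (fun y => y.2)
    have hg : g.ker ≤ center ↥N₀ := by
      intro y hy
      have h1 : f y.1 = 1 := congrArg Subtype.val (MonoidHom.mem_ker.1 hy)
      have h2 := hφH y.1.1 y.1.2 h1
      have h3 : y = 1 := Subtype.ext (Subtype.ext h2)
      rw [h3]
      exact one_mem _
    haveI : Group.IsNilpotent ↥(fittingSubgroup (S ⧸ K)) := isNilpotent_fittingSubgroup (S ⧸ K)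
    haveI : Group.IsNilpotent ↥N₀ := Subgroup.isNilpotent_of_ker_le_center g hg
    have hN₀F : N₀ ≤ Cfsg.fittingSubgroup H := le_fittingSubgroup hN₀ inferInstance
    refine ⟨h, ?_, rfl⟩
    rw [hE₀]
    exact ⟨⟨h, hh⟩, hN₀F hz, rfl⟩
  have hEA : E₀.map φ ≤ normalizer ((A.map φ : Subgroup (S ⧸ K)) : Set (S ⧸ K)) := by
    rintro _ ⟨e, he, rfl⟩
    exact Subgroup.le_normalizer_map φ (Subgroup.mem_map_of_mem φ (hA2 he))
  have hCA : E₀.map φ ⊓ centralizer ((A.map φ : Subgroup (S ⧸ K)) : Set (S ⧸ K)) ≤ A.map φ := by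
    rintro _ ⟨⟨e, he, rfl⟩, hz⟩
    have hec : e ∈ centralizer (A : Set S) := by
      rw [mem_centralizer_iff]
      intro a ha
      have h1 := mem_centralizer_iff.1 hz (φ a) (Subgroup.mem_map_of_mem φ ha)
      have h2 : φ ⁅a, e⁆ = 1 := by
        rw [map_commutatorElement]
        exact commutatorElement_eq_one_iff_mul_comm.2 h1
      have h3 : ⁅a, e⁆ ∈ H := by
        rw [commutatorElement_def]
        exact mul_mem (mul_mem (mul_mem (hAH ha) (hE₀H he)) (inv_mem (hAH ha))) (inv_mem (hE₀H he))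
      exact commutatorElement_eq_one_iff_mul_comm.1 (hφH _ h3 h2)
    exact Subgroup.mem_map_of_mem φ (hA3 ▸ (⟨he, hec⟩ : e ∈ E₀ ⊓ centralizer (A : Set S)))
  have hxbar : φ x ∈ centralizer ((A.map φ : Subgroup (S ⧸ K)) : Set (S ⧸ K)) := by
    rw [mem_centralizer_iff]
    rintro _ ⟨a, ha, rfl⟩
    rw [← map_mul, ← map_mul, mem_centralizer_iff.1 hxA a ha]
  have hq2 : q ≠ 2 := fun h => h2 (h ▸ hqπ)
  have hq3 : q ≠ 3 := fun h => h3 (h ▸ hqπ)
  have hmem := mem_of_centralizes_scn hq2 hq3 (E₀.map φ) (A.map φ) hFZ hEA hCA hxbar (k := k)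
    (by rw [← map_pow, hxq, map_one])
  obtain ⟨a, ha, hax⟩ := hmem
  obtain ⟨y, hyd⟩ : ∃ y, y = a⁻¹ * x := ⟨_, rfl⟩
  have hyK : y ∈ K := by
    rw [← hφ, hyd, map_mul, map_inv, hax, inv_mul_cancel]
  have hcax : Commute a y := by
    have h1 : a * x = x * a := mem_centralizer_iff.1 hxA a ha
    show a * y = y * a
    rw [hyd, mul_assoc, ← h1]
    group
  have hxay : x = a * y := by rw [hyd]; group
  have hAc : Nat.Coprime (Nat.card A) (Nat.card K) :=
    Nat.Coprime.coprime_dvd_left (card_dvd_of_le hAH) hcop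
  have hy1 : y ^ (Nat.card A) = 1 := by
    have e1 : x ^ (Nat.card A) = y ^ (Nat.card A) := by
      rw [hxay, hcax.mul_pow, pow_card_subgroup A ha, one_mul]
    have hq' : (Nat.card K).Coprime q := by
      apply Nat.Coprime.symm
      rw [Nat.Prime.coprime_iff_not_dvd hq.out]
      exact fun hd => hKp q hq.out hd hqπ
    apply Cfsg.Agent.Lib.Techniques.eq_one_of_pow_coprime (n := Nat.card K) (r := q) (k := k) _ _ hq'
    · rw [← pow_mul, mul_comm, pow_mul, pow_card_subgroup K hyK, one_pow]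
    · rw [← e1, ← pow_mul, mul_comm, pow_mul, hxq, one_pow]
  have hy2 : y = 1 := by
    have h1 := orderOf_dvd_of_pow_eq_one hy1
    have h2 := orderOf_dvd_of_pow_eq_one (pow_card_subgroup K hyK)
    have h3 := Nat.Coprime.eq_one_of_dvd (Nat.Coprime.coprime_dvd_left h1 hAc) h2
    exact orderOf_eq_one_iff.1 h3
  rw [hxay, hy2, mul_one]
  exact ha

/-- The theorem. -/
theorem centralizer_scn_decomp (π : Set ℕ) (h2 : 2 ∉ π) (h3 : 3 ∉ π) (H : Subgroup S)
    (hH : Cfsg.IsPiHall π H) (A : Subgroup S)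
    (hA : Cfsg.IsSCN ((Cfsg.fittingSubgroup H).map H.subtype) A) :
    ∃ D : Subgroup S, D ≤ Subgroup.centralizer (A : Set S) ∧
      (∀ c ∈ Subgroup.centralizer (A : Set S), ∀ d ∈ D, c * d * c⁻¹ ∈ D) ∧
      A ⊓ D = ⊥ ∧ A ⊔ D = Subgroup.centralizer (A : Set S) ∧
      ∀ q : ℕ, q.Prime → q ∣ Nat.card D → q ∉ π := by
  classical
  have hAC : A ≤ centralizer (A : Set S) := by
    have h := hA.2.2
    intro a ha
    rw [← h] at ha
    exact ha.2
  have hAE : A ≤ H := hA.1.trans (map_subtype_le _)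
  obtain ⟨C, hCd⟩ : ∃ C : Subgroup S, C = centralizer (A : Set S) := ⟨_, rfl⟩
  rw [← hCd] at hAC ⊢
  have hcen : ∀ c ∈ C, ∀ a ∈ A, c * a = a * c := fun c hc a ha =>
    (mem_centralizer_iff.1 (hCd ▸ hc) a ha).symm
  obtain ⟨A', hA'⟩ : ∃ A' : Subgroup ↥C, A' = A.subgroupOf C := ⟨_, rfl⟩
  have hA'mem : ∀ y : ↥C, y ∈ A' ↔ (y : S) ∈ A := fun y => by rw [hA', mem_subgroupOf]
  haveI hA'n : A'.Normal := by
    refine ⟨fun n hn g => ?_⟩
    rw [hA'mem] at hn ⊢
    have e : (g : S) * n * (g : S)⁻¹ = n := by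
      rw [hcen g.1 g.2 n.1 hn]; group
    show (g : S) * n * (g : S)⁻¹ ∈ A
    rw [e]
    exact hn
  have hA'card : Nat.card A' = Nat.card A := by
    rw [hA']
    exact Nat.card_congr (subgroupOfEquivOfLe hAC).toEquiv
  have hnd : ∀ r : ℕ, r.Prime → r ∈ π → ¬ r ∣ A'.index := by
    intro r hr hrπ hd
    haveI : Fact r.Prime := ⟨hr⟩
    obtain ⟨T⟩ : Nonempty (Sylow r ↥C) := inferInstance
    have hTA : (T : Subgroup ↥C) ≤ A' := by
      intro t ht
      rw [hA'mem]
      obtain ⟨k, hk⟩ := T.isPGroup' ⟨t, ht⟩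
      have hk' : (t : S) ^ (r ^ k) = 1 := by
        have := congrArg (fun z : ↥(T : Subgroup ↥C) => ((z : ↥C) : S)) hk
        simpa using this
      exact mem_of_centralizes_hall π h2 h3 H hH A hA hrπ (hCd ▸ t.2) hk'
    exact T.not_dvd_index (hd.trans (Subgroup.index_dvd_of_le hTA))
  have hcop : Nat.Coprime (Nat.card A') A'.index := by
    apply Nat.coprime_of_dvd
    intro r hr h1 h2'
    rw [hA'card] at h1
    exact hnd r hr (hH.1 r hr (h1.trans (card_dvd_of_le hAE))) h2'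
  obtain ⟨H₀, hH₀⟩ := exists_right_complement'_of_coprime hcop
  have hdecomp : ∀ c : ↥C, ∃ a ∈ A', ∃ h ∈ H₀, c = a * h := fun c => by
    have : c ∈ A' ⊔ H₀ := by rw [hH₀.sup_eq_top]; trivial
    rw [mem_sup_of_normal_left] at this
    obtain ⟨a, ha, h, hh, e⟩ := this
    exact ⟨a, ha, h, hh, e.symm⟩
  refine ⟨H₀.map C.subtype, map_subtype_le _, ?_, ?_, ?_, ?_⟩
  · rintro c hc _ ⟨d, hd, rfl⟩
    obtain ⟨a, ha, h, hh, e⟩ := hdecomp ⟨c, hc⟩
    have hc' : c = (a : S) * h := congrArg Subtype.val e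
    refine ⟨h * d * h⁻¹, mul_mem (mul_mem hh hd) (inv_mem hh), ?_⟩
    have haA : (a : S) ∈ A := (hA'mem a).1 ha
    have hz : ∀ w ∈ C, (a : S) * w = w * a := fun w hw => (hcen w hw a haA).symm
    show (h : S) * d * (h : S)⁻¹ = c * (d : S) * c⁻¹
    rw [hc']
    have e1 : (a : S) * h * d * ((a : S) * h)⁻¹ = (a : S) * ((h : S) * d * (h : S)⁻¹) * (a : S)⁻¹ := by
      group
    rw [e1, hz _ (mul_mem (mul_mem h.2 d.2) (inv_mem h.2))]
    group
  · rw [eq_bot_iff]
    rintro x ⟨hxA, ⟨y, hy, rfl⟩⟩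
    have hy1 : y ∈ A' := (hA'mem y).2 hxA
    have := Subgroup.disjoint_def.1 hH₀.disjoint hy1 hy
    rw [this]
    exact one_mem _
  · apply le_antisymm
    · exact sup_le hAC (map_subtype_le _)
    · intro c hc
      obtain ⟨a, ha, h, hh, e⟩ := hdecomp ⟨c, hc⟩
      have hc' : c = (a : S) * h := congrArg Subtype.val e
      rw [hc']
      exact mul_mem_sup ((hA'mem a).1 ha) (mem_map_of_mem _ hh)
  · intro q hq hd hqπ
    have hcard : Nat.card H₀ = A'.index := by
      exact hH₀.symm.index_eq_card.symm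
    have e : Nat.card (H₀.map C.subtype) = Nat.card H₀ :=
      Nat.card_congr (H₀.equivMapOfInjective _ (subtype_injective _)).symm.toEquiv
    rw [e, hcard] at hd
    exact hnd q hq hqπ hd

end Main

end Cfsg.Agent.Lib.Techniques.CentSCN
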