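import Mathlib
import Cfsg.Agent.Lib.Techniques.Control

/-! Reduction of the extremal induction to centric, fully normalized subgroups, and conjugacy functors
containing the centre together with a central functor. -/

set_option autoImplicit false
set_option linter.style.haveILetI false

namespace Cfsg.Agent.Lib.Techniques

open Cfsg
open scoped commutatorElement

section General

variable {G : Type*} [Group G] [Finite G] {p : ℕ} [hp : Fact p.Prime] {S : Subgroup G}
  {Good : Set G → G → Prop}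

/-- The centre of `S` lies in any Sylow subgroup of a normalizer of a subgroup `H ≤ Q ≤ S`. -/
theorem center_le_of_sylowIn (hSp : IsPGroup p S) {H Q : Subgroup G} (hHQ : H ≤ Q) (hQS : Q ≤ S)
    (hQ : SylowIn p Q (Subgroup.normalizer (H : Set G))) :
    S ⊓ Subgroup.centralizer (S : Set G) ≤ Q := by
  have hZ : S ⊓ Subgroup.centralizer (S : Set G) ≤ Subgroup.normalizer (H : Set G) := by
    intro z hz
    refine Subgroup.centralizer_le_normalizer _ ?_
    rw [Subgroup.mem_centralizer_iff]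
    intro h hh
    exact (Subgroup.mem_centralizer_iff.1 hz.2) h (hQS (hHQ hh))
  have h1 : Q ⊔ (S ⊓ Subgroup.centralizer (S : Set G)) ≤ S := sup_le hQS inf_le_left
  have h2 := hQ.eq_of_le (le_sup_left : Q ≤ Q ⊔ (S ⊓ Subgroup.centralizer (S : Set G)))
    (sup_le hQ.1 hZ) (hSp.to_le h1)
  rw [← h2]
  exact le_sup_right

/-- Reduction of the extremal induction to centric fully normalized subgroups. -/
theorem centric_reduction (hS : SylowIn p S ⊤) (hG : IsConjGroupoid Good)
    (hcongr : ∀ {A : Set G} {g h : G}, (∀ a ∈ A, g * a * g⁻¹ = h * a * h⁻¹) → Good A g → Good A h)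
    (hstep : ∀ U : Subgroup G, U ≤ S → FullyNorm p S U → S ⊓ Subgroup.centralizer (U : Set G) ≤ U →
      (∀ T : Subgroup G, T ≤ S → Nat.card U < Nat.card T → ∀ g : G, conjS g T ≤ S → Good (T : Set G) g) →
      ∀ y ∈ Subgroup.normalizer (U : Set G), Good (U : Set G) y) :
    ∀ T : Subgroup G, T ≤ S → ∀ g : G, conjS g T ≤ S → Good (T : Set G) g := by
  suffices H : ∀ (n : ℕ) (T : Subgroup G), T ≤ S → Nat.card S - Nat.card T = n →
      ∀ g : G, conjS g T ≤ S → Good (T : Set G) g from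
    fun T hT g hg => H _ T hT rfl g hg
  intro n
  induction n using Nat.strong_induction_on with
  | _ n ih =>
    intro T hT hn g hg
    have IH : ∀ Q : Subgroup G, Q ≤ S → Nat.card T < Nat.card Q → ∀ g : G, conjS g Q ≤ S →
        Good (Q : Set G) g := by
      intro Q hQ hlt g hg
      have h1 : Nat.card Q ≤ Nat.card S := Subgroup.card_le_of_le hQ
      exact ih (Nat.card S - Nat.card Q) (by omega) Q hQ rfl g hg
    obtain ⟨a, hUS, hfn, -⟩ := exists_fullyNorm_conj hS hT
    set U : Subgroup G := conjS a T with hU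
    have hcardU : Nat.card U = Nat.card T := card_conjS _ _
    have IHU : ∀ Q : Subgroup G, Q ≤ S → Nat.card U < Nat.card Q → ∀ g : G, conjS g Q ≤ S →
        Good (Q : Set G) g := by rw [hcardU]; exact IH
    have hRU : ∀ y ∈ Subgroup.normalizer (U : Set G), Good (U : Set G) y := by
      by_cases hc : S ⊓ Subgroup.centralizer (U : Set G) ≤ U
      · exact hstep U hUS hfn hc IHU
      · intro y hy
        -- `C_S(U)` is Sylow in `C(U)`
        have hCN : Subgroup.centralizer (U : Set G) ≤ Subgroup.normalizer (U : Set G) :=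
          Subgroup.centralizer_le_normalizer _
        have hNC : Subgroup.normalizer (U : Set G) ≤ Subgroup.normalizer (Subgroup.centralizer (U : Set G) : Set G) := by
          intro x hx
          rw [mem_normalizer_iff_conjS] at hx ⊢
          rw [← conj_centralizer_subgroup, hx]
        have hC₀ := hfn.inf_of_normal hCN hNC
        have he : (S ⊓ Subgroup.normalizer (U : Set G)) ⊓ Subgroup.centralizer (U : Set G) =
            S ⊓ Subgroup.centralizer (U : Set G) := by
          rw [inf_assoc, inf_eq_right.2 hCN]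
        rw [he] at hC₀
        set C₀ : Subgroup G := S ⊓ Subgroup.centralizer (U : Set G) with hC₀def
        have hy' : conjS y U = U := mem_normalizer_iff_conjS.1 hy
        have h1 := hC₀.conj y
        rw [← conj_centralizer_subgroup, hy'] at h1
        obtain ⟨c, hc1, hc2⟩ := h1.exists_conj_eq hC₀
        set y' : G := c * y with hy'def
        have hcN : c ∈ Subgroup.normalizer (U : Set G) := hCN hc1
        have hy'U : conjS y' U = U := by
          rw [hy'def, conjS_mul, hy', mem_normalizer_iff_conjS.1 hcN]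
        have hy'C : conjS y' C₀ = C₀ := by
          rw [hy'def, conjS_mul, hc2]
        set H : Subgroup G := U ⊔ C₀ with hH
        have hHS : H ≤ S := sup_le hUS inf_le_left
        have hy'H : conjS y' H = H := by
          have e : conjS y' (U ⊔ C₀) = conjS y' U ⊔ conjS y' C₀ := Subgroup.map_sup _ _ _
          rw [hH, e, hy'U, hy'C]
        have hUH : U < H := by
          refine lt_of_le_of_ne le_sup_left ?_
          intro h
          apply hc
          rw [h]
          exact le_sup_right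
        have h2 : Good (H : Set G) y' := IHU H hHS (card_lt_of_lt' hUH) y' (by rw [hy'H]; exact hHS)
        have h3 : Good (U : Set G) y' := hG.mono (fun x hx => hUH.le hx) h2
        refine hcongr ?_ h3
        intro u hu
        have h4 : y * u * y⁻¹ ∈ U := (Subgroup.mem_normalizer_iff.1 hy u).1 hu
        have h5 : (y * u * y⁻¹) * c = c * (y * u * y⁻¹) := (Subgroup.mem_centralizer_iff.1 hc1) _ h4
        calc y' * u * y'⁻¹ = c * (y * u * y⁻¹) * c⁻¹ := by rw [hy'def]; group
          _ = (y * u * y⁻¹) * c * c⁻¹ := by rw [h5]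
          _ = y * u * y⁻¹ := by group
    have c1 : Good (T : Set G) a := good_step hS hG hT rfl hUS hfn hRU IH
    have hcard : Nat.card (conjS g T) = Nat.card T := card_conjS _ _
    have IH' : ∀ Q : Subgroup G, Q ≤ S → Nat.card (conjS g T) < Nat.card Q → ∀ g : G,
        conjS g Q ≤ S → Good (Q : Set G) g := by
      rw [hcard]; exact IH
    have hc2 : conjS (a * g⁻¹) (conjS g T) = U := by
      rw [← conjS_mul, hU]
      congr 1
      group
    have c2 : Good ((conjS g T : Subgroup G) : Set G) (a * g⁻¹) := good_step hS hG hg hc2 hUS hfn hRU IH'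
    have c3 := hG.inv c2
    have e1 : lconj (a * g⁻¹) ((conjS g T : Subgroup G) : Set G) = lconj a (T : Set G) := by
      rw [lconj_coe, lconj_coe, hc2]
    rw [e1] at c3
    have := hG.comp c1 c3
    have e2 : (a * g⁻¹)⁻¹ * a = g := by group
    rwa [e2] at this

end General

section Chains

variable {G : Type*} [Group G] [Finite G] {p : ℕ} [hp : Fact p.Prime]

/-- From the list form (as in the statements) to a chain. -/
theorem fchain_of_list {T : Subgroup G} {𝓝 : Set G} {X : Set G} {n : ℕ} (b : Fin n → G)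
    (hb : ∀ i, (b i)⁻¹ ∈ 𝓝)
    (hk : ∀ k : ℕ, k ≤ n → (fun x => (((List.ofFn b).take k).prod)⁻¹ * x * ((List.ofFn b).take k).prod) '' X ⊆ T) :
    FChain T 𝓝 X ((List.ofFn b).prod)⁻¹ := by
  let c : Fin (n + 1) → G := fun i => (((List.ofFn b).take i).prod)⁻¹
  have h := FChain.ofFin (T := T) (𝓝 := 𝓝) (A := X) n c (by simp [c]) ?_ ?_
  · have e : c (Fin.last n) = ((List.ofFn b).prod)⁻¹ := by
      simp only [c, Fin.val_last]
      rw [List.take_of_length_le (by simp)]
    rwa [e] at h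
  · intro i
    have h1 : ((List.ofFn b).take (i + 1)).prod = ((List.ofFn b).take i).prod * b i := by
      rw [List.prod_take_succ _ _ (by simp)]
      simp
    show (((List.ofFn b).take ((i.succ : Fin (n + 1)) : ℕ)).prod)⁻¹ * (((((List.ofFn b).take ((i.castSucc : Fin (n + 1)) : ℕ)).prod))⁻¹)⁻¹ ∈ 𝓝
    simp only [Fin.val_succ, Fin.val_castSucc]
    rw [h1, inv_inv]
    have e : (((List.ofFn b).take i).prod * b i)⁻¹ * ((List.ofFn b).take i).prod = (b i)⁻¹ := by group
    rw [e]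
    exact hb i
  · intro i
    have := hk i (by omega)
    rintro _ ⟨x, hx, rfl⟩
    have h2 := this ⟨x, hx, rfl⟩
    simp only [c]
    simpa using h2

/-- From a chain to the list form. -/
theorem list_of_fchain {T : Subgroup G} {𝓝 : Set G} {X : Set G} {g : G} (h𝓝 : ∀ x ∈ 𝓝, x⁻¹ ∈ 𝓝)
    (h : FChain T 𝓝 X g) :
    ∃ (n : ℕ) (b : Fin n → G), (∀ i, b i ∈ 𝓝) ∧ ((List.ofFn b).prod)⁻¹ = g ∧
      ∀ k : ℕ, k ≤ n → (fun x => (((List.ofFn b).take k).prod)⁻¹ * x * ((List.ofFn b).take k).prod) '' X ⊆ T := by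
  obtain ⟨n, c, h0, hstep, hsub, hlast⟩ := h.toFin
  let b : Fin n → G := fun i => (c i.succ * (c i.castSucc)⁻¹)⁻¹
  have hpart : ∀ k : ℕ, ∀ hk : k ≤ n, ((List.ofFn b).take k).prod = (c ⟨k, by omega⟩)⁻¹ := by
    intro k
    induction k with
    | zero =>
      intro _
      have : (⟨0, by omega⟩ : Fin (n + 1)) = 0 := rfl
      rw [this, h0]
      simp
    | succ k ih =>
      intro hk
      rw [List.prod_take_succ _ _ (by simpa using hk), ih (by omega)]
      simp only [List.getElem_ofFn, b]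
      have e1 : (⟨k, by omega⟩ : Fin n).succ = (⟨k + 1, by omega⟩ : Fin (n + 1)) := rfl
      have e2 : (⟨k, by omega⟩ : Fin n).castSucc = (⟨k, by omega⟩ : Fin (n + 1)) := rfl
      rw [e1, e2]
      group
  refine ⟨n, b, fun i => h𝓝 _ (hstep i), ?_, ?_⟩
  · have h1 := hpart n le_rfl
    rw [List.take_of_length_le (by simp)] at h1
    rw [h1, inv_inv, ← hlast]
    rfl
  · intro k hk
    rw [hpart k hk]
    rintro _ ⟨x, hx, rfl⟩
    have := hsub ⟨k, by omega⟩ ⟨x, hx, rfl⟩
    simpa using this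

end Chains

section Functors

variable {G : Type*} [Group G] [Finite G] {p : ℕ} [hp : Fact p.Prime] {W V : Subgroup G → Subgroup G} {S : Subgroup G}

/-- The allowed steps at `Q`: the normalizer of `W Q` together with the centralizer of `V Q`. -/
def stepSet (W V : Subgroup G → Subgroup G) (Q : Subgroup G) : Set G :=
  {x | x ∈ Subgroup.normalizer ((W Q : Subgroup G) : Set G) ∨ x ∈ Subgroup.centralizer ((V Q : Subgroup G) : Set G)}

omit [Finite G] in
theorem stepSet_inv {Q : Subgroup G} {x : G} (h : x ∈ stepSet W V Q) : x⁻¹ ∈ stepSet W V Q := by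
  rcases h with h | h
  · exact Or.inl (inv_mem h)
  · exact Or.inr (inv_mem h)

/-- `g` acts on `A` as a chain of allowed steps inside `S`. -/
def GoodF (W V : Subgroup G → Subgroup G) (S : Subgroup G) (A : Set G) (g : G) : Prop :=
  ∃ g' : G, FChain S (stepSet W V S) A g' ∧ ∀ a ∈ A, g' * a * g'⁻¹ = g * a * g⁻¹

omit [Finite G] in
theorem goodF_congr {A : Set G} {g h : G} (e : ∀ a ∈ A, g * a * g⁻¹ = h * a * h⁻¹) (hg : GoodF W V S A g) :
    GoodF W V S A h := by
  obtain ⟨g', h1, h2⟩ := hg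
  exact ⟨g', h1, fun a ha => (h2 a ha).trans (e a ha)⟩

omit [Finite G] in
theorem lconj_eq_of_act {A : Set G} {g h : G} (e : ∀ a ∈ A, g * a * g⁻¹ = h * a * h⁻¹) : lconj g A = lconj h A :=
  lconj_congr e

omit [Finite G] in
theorem goodF_groupoid : IsConjGroupoid (GoodF W V S) := by
  refine ⟨?_, ?_, ?_⟩
  · rintro A B g hAB ⟨g', h1, h2⟩
    exact ⟨g', h1.mono_set hAB, fun a ha => h2 a (hAB ha)⟩
  · rintro A g h ⟨g', h1, h2⟩ ⟨h', h3, h4⟩
    have e : lconj g A = lconj g' A := (lconj_eq_of_act h2).symm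
    rw [e] at h3
    refine ⟨h' * g', h1.trans h3, ?_⟩
    intro a ha
    have h5 : g * a * g⁻¹ ∈ lconj g A := lconj_mem ha
    calc h' * g' * a * (h' * g')⁻¹ = h' * (g' * a * g'⁻¹) * h'⁻¹ := by group
      _ = h' * (g * a * g⁻¹) * h'⁻¹ := by rw [h2 a ha]
      _ = h * (g * a * g⁻¹) * h⁻¹ := h4 _ h5
      _ = h * g * a * (h * g)⁻¹ := by group
  · rintro A g ⟨g', h1, h2⟩
    have e : lconj g A = lconj g' A := (lconj_eq_of_act h2).symm
    rw [e]
    refine ⟨g'⁻¹, h1.inv (fun x hx => stepSet_inv hx), ?_⟩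
    rintro _ ⟨a, ha, rfl⟩
    have h3 := h2 a ha
    show g'⁻¹ * (g' * a * g'⁻¹) * g'⁻¹⁻¹ = g⁻¹ * (g' * a * g'⁻¹) * g⁻¹⁻¹
    calc g'⁻¹ * (g' * a * g'⁻¹) * g'⁻¹⁻¹ = a := by group
      _ = g⁻¹ * (g * a * g⁻¹) * g⁻¹⁻¹ := by group
      _ = g⁻¹ * (g' * a * g'⁻¹) * g⁻¹⁻¹ := by rw [h3]

/-- Local control at a subgroup of the normalizer of `H`. -/
def LocCtl (W V : Subgroup G → Subgroup G) (H Q : Subgroup G) : Prop :=
  ∀ (A : Set G) (g : G), A ⊆ Q → g ∈ Subgroup.normalizer (H : Set G) → lconj g A ⊆ Q →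
    ∃ g' : G, FChain Q {s | s ∈ Subgroup.normalizer (H : Set G) ∧ s ∈ stepSet W V Q} A g' ∧
      ∀ a ∈ A, g' * a * g'⁻¹ = g * a * g⁻¹

theorem stepSet_conj (hW : IsConjugacyFunctor p W) (hV : IsConjugacyFunctor p V) {Q : Subgroup G} (hQ : IsPGroup p Q)
    (n : G) {s : G} (hs : s ∈ stepSet W V Q) : n * s * n⁻¹ ∈ stepSet W V (conjS n Q) := by
  rcases hs with h | h
  · left
    rw [show W (conjS n Q) = conjS n (W Q) from (hW Q hQ).2.2 n, conj_normalizer]
    exact conj_mem_conjS h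
  · right
    rw [show V (conjS n Q) = conjS n (V Q) from (hV Q hQ).2.2 n, conj_centralizer_subgroup]
    exact conj_mem_conjS h

theorem locCtl_conj (hW : IsConjugacyFunctor p W) (hV : IsConjugacyFunctor p V) {H Q : Subgroup G} (hQ : IsPGroup p Q)
    {n : G} (hn : n ∈ Subgroup.normalizer (H : Set G)) (h : LocCtl W V H Q) : LocCtl W V H (conjS n Q) := by
  intro A g hA hg hgA
  have hA₀ : lconj n⁻¹ A ⊆ Q := by
    rintro _ ⟨a, ha, rfl⟩
    have : a ∈ conjS n Q := hA ha
    rw [mem_conjS] at this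
    simpa using this
  have hg₀ : n⁻¹ * g * n ∈ Subgroup.normalizer (H : Set G) := mul_mem (mul_mem (inv_mem hn) hg) hn
  have hgA₀ : lconj (n⁻¹ * g * n) (lconj n⁻¹ A) ⊆ Q := by
    have e : lconj (n⁻¹ * g * n) (lconj n⁻¹ A) = lconj n⁻¹ (lconj g A) := by
      rw [← lconj_mul, ← lconj_mul]
      congr 1
      group
    rw [e]
    rintro _ ⟨a, ha, rfl⟩
    have : a ∈ conjS n Q := hgA ha
    rw [mem_conjS] at this
    simpa using this
  obtain ⟨g', h1, h2⟩ := h _ _ hA₀ hg₀ hgA₀
  refine ⟨n * g' * n⁻¹, ?_, ?_⟩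
  · have h3 := FChain.conj (𝓝' := {s | s ∈ Subgroup.normalizer (H : Set G) ∧ s ∈ stepSet W V (conjS n Q)}) n ?_ h1
    · rwa [lconj_lconj_inv] at h3
    · rintro x ⟨hx1, hx2⟩
      exact ⟨mul_mem (mul_mem hn hx1) (inv_mem hn), stepSet_conj hW hV hQ n hx2⟩
  · intro a ha
    have h4 := h2 (n⁻¹ * a * n⁻¹⁻¹) ⟨a, ha, rfl⟩
    calc n * g' * n⁻¹ * a * (n * g' * n⁻¹)⁻¹ = n * (g' * (n⁻¹ * a * n⁻¹⁻¹) * g'⁻¹) * n⁻¹ := by group
      _ = n * ((n⁻¹ * g * n) * (n⁻¹ * a * n⁻¹⁻¹) * (n⁻¹ * g * n)⁻¹) * n⁻¹ := by rw [h4]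
      _ = g * a * g⁻¹ := by group

variable (hW : IsConjugacyFunctor p W) (hV : IsConjugacyFunctor p V)
  (hWZ : ∀ H : Subgroup G, IsPGroup p ↥H → H ⊓ Subgroup.centralizer ((H : Subgroup G) : Set G) ≤ W H)
  (hVmono : ∀ H K : Subgroup G, IsPGroup p ↥H → IsPGroup p ↥K → H ≠ ⊥ → K ≠ ⊥ →
    H ⊓ Subgroup.centralizer ((H : Subgroup G) : Set G) ≤ K ⊓ Subgroup.centralizer ((K : Subgroup G) : Set G) → V H ≤ V K)
  (hS : SylowIn p S ⊤)

include hVmono in
theorem central_centralizer_le (hSp : IsPGroup p S) (hS1 : S ≠ ⊥) {Q : Subgroup G} (hQS : Q ≤ S)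
    (hZQ : S ⊓ Subgroup.centralizer (S : Set G) ≤ Q) :
    Subgroup.centralizer ((V Q : Subgroup G) : Set G) ≤ Subgroup.centralizer ((V S : Subgroup G) : Set G) := by
  have hQ1 : Q ≠ ⊥ := by
    intro h
    rw [h, le_bot_iff] at hZQ
    haveI : Nontrivial S := (Subgroup.nontrivial_iff_ne_bot S).2 hS1
    haveI := hSp.center_nontrivial
    obtain ⟨z, hz⟩ := exists_ne (1 : Subgroup.center S)
    have hz1 : ((z : S) : G) ∈ S ⊓ Subgroup.centralizer (S : Set G) := by
      refine Subgroup.mem_inf.2 ⟨(z : S).2, ?_⟩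
      rw [Subgroup.mem_centralizer_iff]
      intro g hg
      have := (Subgroup.mem_center_iff.1 z.2) ⟨g, hg⟩
      exact congrArg Subtype.val this
    rw [hZQ, Subgroup.mem_bot] at hz1
    apply hz
    apply Subtype.ext
    apply Subtype.ext
    exact hz1
  have hle : S ⊓ Subgroup.centralizer (S : Set G) ≤ Q ⊓ Subgroup.centralizer (Q : Set G) := by
    intro z hz
    refine Subgroup.mem_inf.2 ⟨hZQ hz, ?_⟩
    rw [Subgroup.mem_centralizer_iff]
    intro q hq
    exact (Subgroup.mem_centralizer_iff.1 hz.2) q (hQS hq)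
  exact Subgroup.centralizer_le (hVmono S Q hSp (hSp.to_le hQS) hS1 hQ1 hle)

include hW hV hWZ hVmono hS in
/-- The inner induction. -/
theorem goodF_inner (hS1 : S ≠ ⊥)
    (hloc : ∀ H : Subgroup G, S ⊓ Subgroup.centralizer (S : Set G) ≤ H → H ≤ S →
      ∃ Q₀ : Subgroup G, SylowIn p Q₀ (Subgroup.normalizer (H : Set G)) ∧ LocCtl W V H Q₀)
    {m : ℕ} (IH : ∀ T : Subgroup G, T ≤ S → m < Nat.card T → ∀ g : G, conjS g T ≤ S → GoodF W V S (T : Set G) g) :
    ∀ Q : Subgroup G, Q ≤ S → S ⊓ Subgroup.centralizer (S : Set G) ≤ Q → m ≤ Nat.card Q →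
      ∀ x ∈ stepSet W V Q, ∀ A : Set G, A ⊆ Q → lconj x A ⊆ Q → GoodF W V S A x := by
  have hSp : IsPGroup p S := hS.2.1
  suffices H : ∀ (n : ℕ) (Q : Subgroup G), Q ≤ S → S ⊓ Subgroup.centralizer (S : Set G) ≤ Q → m ≤ Nat.card Q →
      Nat.card S - Nat.card Q = n →
      ∀ x ∈ stepSet W V Q, ∀ A : Set G, A ⊆ Q → lconj x A ⊆ Q → GoodF W V S A x from
    fun Q h1 h2 h3 => H _ Q h1 h2 h3 rfl
  intro n
  induction n using Nat.strong_induction_on with
  | _ n ih =>
    intro Q hQS hZQ hmQ hn x hx A hA hxA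
    have hQp : IsPGroup p Q := hSp.to_le hQS
    have hsingle : ∀ {y : G}, y ∈ stepSet W V S → lconj y A ⊆ S → GoodF W V S A y := by
      intro y hy hyA
      exact ⟨y, FChain.single (hA.trans hQS) hyA hy, fun _ _ => rfl⟩
    have hxAS : lconj x A ⊆ S := hxA.trans hQS
    rcases hx with hx | hx
    · by_cases hQeq : Q = S
      · subst hQeq
        exact hsingle (Or.inl hx) hxAS
      · have hlt : Q < S := lt_of_le_of_ne hQS hQeq
        set H₂ : Subgroup G := W Q with hH₂
        have hH₂Q : H₂ ≤ Q := (hW Q hQp).1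
        have hZH₂ : S ⊓ Subgroup.centralizer (S : Set G) ≤ H₂ := by
          intro z hz
          refine hWZ Q hQp (Subgroup.mem_inf.2 ⟨hZQ hz, ?_⟩)
          rw [Subgroup.mem_centralizer_iff]
          intro q hq
          exact (Subgroup.mem_centralizer_iff.1 hz.2) q (hQS hq)
        obtain ⟨Q₀, hQ₀, hQ₀c⟩ := hloc H₂ hZH₂ (hH₂Q.trans hQS)
        set R : Subgroup G := S ⊓ Subgroup.normalizer (H₂ : Set G) with hR
        have hQR : Q < R := lt_inf_normalizer_functor hSp hW hlt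
        obtain ⟨Q₂, hRQ₂, hQ₂⟩ := exists_sylowIn_ge (inf_le_right : R ≤ Subgroup.normalizer (H₂ : Set G))
          (hSp.to_le inf_le_left)
        obtain ⟨c, hc, hcQ⟩ := hQ₀.exists_conj_eq hQ₂
        have hQ₂c : LocCtl W V H₂ Q₂ := by
          rw [← hcQ]
          exact locCtl_conj hW hV hQ₀.2.1 hc hQ₀c
        obtain ⟨g', hch, hact⟩ := hQ₂c A x (fun a ha => hRQ₂ (hQR.le (hA ha))) hx
          (fun a ha => hRQ₂ (hQR.le (hxA ha)))
        obtain ⟨g₄, -, hg₄⟩ := hS.exists_conj_le (le_top : Q₂ ≤ ⊤) hQ₂.2.1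
        set Q₃ : Subgroup G := conjS g₄ Q₂ with hQ₃
        have hQ₃S : SylowIn p Q₃ (Subgroup.normalizer ((conjS g₄ H₂ : Subgroup G) : Set G)) := by
          rw [conj_normalizer]
          exact hQ₂.conj g₄
        have hH₃ : conjS g₄ H₂ ≤ Q₃ := conjS_mono g₄ ((hH₂Q.trans hQR.le).trans hRQ₂)
        have hZQ₃ : S ⊓ Subgroup.centralizer (S : Set G) ≤ Q₃ := center_le_of_sylowIn hSp hH₃ hg₄ hQ₃S
        have hcR : Nat.card Q < Nat.card R := card_lt_of_lt' hQR
        have hcQ₂ : Nat.card R ≤ Nat.card Q₂ := Subgroup.card_le_of_le hRQ₂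
        have hcQ₃ : Nat.card Q₃ = Nat.card Q₂ := card_conjS _ _
        have hcS : Nat.card Q₃ ≤ Nat.card S := Subgroup.card_le_of_le hg₄
        have hRg : GoodF W V S (R : Set G) g₄ := by
          refine IH R inf_le_left (by omega) g₄ ?_
          exact (conjS_mono g₄ hRQ₂).trans hg₄
        have hch' : FChain Q₃ (stepSet W V Q₃) (lconj g₄ A) (g₄ * g' * g₄⁻¹) :=
          FChain.conj g₄ (fun s hs => stepSet_conj hW hV hQ₂.2.1 g₄ hs.2) hch
        have hmid : GoodF W V S (lconj g₄ A) (g₄ * g' * g₄⁻¹) := by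
          refine FChain.good goodF_groupoid ?_ ?_ hch'
          · intro A' hA'
            exact ⟨1, FChain.nil (hA'.trans hg₄), fun _ _ => rfl⟩
          · intro A' y hA' hyA' hy
            exact ih (Nat.card S - Nat.card Q₃) (by omega) Q₃ hg₄ hZQ₃ (by omega) rfl y hy A' hA' hyA'
        have c1 : GoodF W V S A g₄ := goodF_groupoid.mono (fun a ha => hQR.le (hA ha)) hRg
        have c2 := goodF_groupoid.comp c1 hmid
        have e1 : g₄ * g' * g₄⁻¹ * g₄ = g₄ * g' := by group
        rw [e1] at c2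
        have c3 : GoodF W V S (lconj x A) g₄ := goodF_groupoid.mono (fun a ha => hQR.le (hxA ha)) hRg
        have c4 := goodF_groupoid.inv c3
        have e2 : lconj g₄ (lconj x A) = lconj (g₄ * g') A := by
          rw [lconj_mul, lconj_eq_of_act hact]
        rw [e2] at c4
        have c5 := goodF_groupoid.comp c2 c4
        have e3 : g₄⁻¹ * (g₄ * g') = g' := by group
        rw [e3] at c5
        exact goodF_congr hact c5
    · exact hsingle (Or.inr (central_centralizer_le hVmono hSp hS1 hQS hZQ hx)) hxAS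

include hW hV hWZ hVmono hS in
/-- The global conclusion. -/
theorem goodF_main (hS1 : S ≠ ⊥)
    (hloc : ∀ H : Subgroup G, S ⊓ Subgroup.centralizer (S : Set G) ≤ H → H ≤ S →
      ∃ Q₀ : Subgroup G, SylowIn p Q₀ (Subgroup.normalizer (H : Set G)) ∧ LocCtl W V H Q₀) :
    ∀ T : Subgroup G, T ≤ S → ∀ g : G, conjS g T ≤ S → GoodF W V S (T : Set G) g := by
  refine centric_reduction (p := p) hS goodF_groupoid (fun e h => goodF_congr e h) ?_
  intro U hUS hfn hc IH y hy
  have hSp : IsPGroup p S := hS.2.1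
  have hZU : S ⊓ Subgroup.centralizer (S : Set G) ≤ U := by
    refine le_trans ?_ hc
    exact inf_le_inf_left _ (Subgroup.centralizer_le hUS)
  obtain ⟨Q₀, hQ₀, hQ₀c⟩ := hloc U hZU hUS
  set Q₁ : Subgroup G := S ⊓ Subgroup.normalizer (U : Set G) with hQ₁
  obtain ⟨c, hc', hcQ⟩ := hQ₀.exists_conj_eq hfn
  have hQ₁c : LocCtl W V U Q₁ := by
    have hcQ' : conjS c Q₀ = Q₁ := hcQ
    rw [← hcQ']
    exact locCtl_conj hW hV hQ₀.2.1 hc' hQ₀c
  have hUQ₁ : U ≤ Q₁ := le_inf hUS Subgroup.le_normalizer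
  have hyU : lconj y (U : Set G) ⊆ Q₁ := by
    rintro _ ⟨u, hu, rfl⟩
    exact hUQ₁ ((Subgroup.mem_normalizer_iff.1 hy u).1 hu)
  obtain ⟨g', hch, hact⟩ := hQ₁c U y (fun a ha => hUQ₁ ha) hy hyU
  refine goodF_congr hact ?_
  refine FChain.good goodF_groupoid ?_ ?_ hch
  · intro A' hA'
    exact ⟨1, FChain.nil (hA'.trans inf_le_left), fun _ _ => rfl⟩
  · intro A' z hA' hzA' hz
    exact goodF_inner hW hV hWZ hVmono hS hS1 hloc IH Q₁ inf_le_left (hZU.trans hUQ₁)
      (Subgroup.card_le_of_le hUQ₁) z hz.2 A' hA' hzA'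

end Functors

end Cfsg.Agent.Lib.Techniques
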