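import Mathlib
import Cfsg.Agent.Lib.Techniques.CentricFusion

/-! The transfer version for a functor containing the centre and a central functor. -/

set_option autoImplicit false
set_option linter.style.haveILetI false

namespace Cfsg.Agent.Lib.Techniques

open Cfsg
open scoped commutatorElement

section

variable {G : Type*} [Group G] [Finite G] {p : ℕ} [hp : Fact p.Prime] {W V : Subgroup G → Subgroup G} {S : Subgroup G}

/-- The two pieces of the focal subgroup at `Q`. -/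
abbrev focA (W : Subgroup G → Subgroup G) (Q : Subgroup G) : Subgroup G :=
  Q ⊓ ⁅Subgroup.normalizer ((W Q : Subgroup G) : Set G), Subgroup.normalizer ((W Q : Subgroup G) : Set G)⁆

abbrev focB (V : Subgroup G → Subgroup G) (Q : Subgroup G) : Subgroup G :=
  Q ⊓ ⁅Subgroup.centralizer ((V Q : Subgroup G) : Set G), Subgroup.centralizer ((V Q : Subgroup G) : Set G)⁆

/-- `g` moves the elements of `A` only modulo `F`. -/
def GoodT (F S : Subgroup G) (A : Set G) (g : G) : Prop :=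
  A ⊆ S ∧ lconj g A ⊆ S ∧ ∀ a ∈ A, g * a * g⁻¹ * a⁻¹ ∈ F

omit [Finite G] in
theorem goodT_congr {F : Subgroup G} {A : Set G} {g h : G} (e : ∀ a ∈ A, g * a * g⁻¹ = h * a * h⁻¹)
    (hg : GoodT F S A g) : GoodT F S A h := by
  obtain ⟨h1, h2, h3⟩ := hg
  refine ⟨h1, ?_, ?_⟩
  · rwa [← lconj_congr e]
  · intro a ha
    rw [← e a ha]
    exact h3 a ha

omit [Finite G] in
theorem goodT_groupoid (F : Subgroup G) : IsConjGroupoid (GoodT F S) := by
  refine ⟨?_, ?_, ?_⟩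
  · rintro A B g hAB ⟨h1, h2, h3⟩
    exact ⟨hAB.trans h1, (lconj_mono g hAB).trans h2, fun a ha => h3 a (hAB ha)⟩
  · rintro A g h ⟨h1, h2, h3⟩ ⟨_, h5, h6⟩
    refine ⟨h1, ?_, ?_⟩
    · rwa [lconj_mul]
    · intro a ha
      have e : h * g * a * (h * g)⁻¹ * a⁻¹ = (h * (g * a * g⁻¹) * h⁻¹ * (g * a * g⁻¹)⁻¹) * (g * a * g⁻¹ * a⁻¹) := by group
      rw [e]
      exact mul_mem (h6 _ ⟨a, ha, rfl⟩) (h3 a ha)
  · rintro A g ⟨h1, h2, h3⟩
    refine ⟨h2, ?_, ?_⟩
    · rw [lconj_inv_lconj]; exact h1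
    · rintro _ ⟨a, ha, rfl⟩
      have e : g⁻¹ * (g * a * g⁻¹) * g⁻¹⁻¹ * (g * a * g⁻¹)⁻¹ = (g * a * g⁻¹ * a⁻¹)⁻¹ := by group
      show g⁻¹ * (g * a * g⁻¹) * g⁻¹⁻¹ * (g * a * g⁻¹)⁻¹ ∈ F
      rw [e]
      exact inv_mem (h3 a ha)

/-- Local focal control. -/
def LocFoc (W V : Subgroup G → Subgroup G) (H Q : Subgroup G) : Prop :=
  ∀ x ∈ Q ⊓ ⁅Subgroup.normalizer (H : Set G), Subgroup.normalizer (H : Set G)⁆,
    ∃ a ∈ focA W Q, ∃ b ∈ focB V Q, x = a * b

theorem focA_conj (hW : IsConjugacyFunctor p W) {Q : Subgroup G} (hQ : IsPGroup p Q) (n : G) :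
    conjS n (focA W Q) = focA W (conjS n Q) := by
  have e : W (conjS n Q) = conjS n (W Q) := (hW Q hQ).2.2 n
  rw [focA, focA, e, conjS_inf, conjS_commutator, conj_normalizer]

theorem focB_conj (hV : IsConjugacyFunctor p V) {Q : Subgroup G} (hQ : IsPGroup p Q) (n : G) :
    conjS n (focB V Q) = focB V (conjS n Q) := by
  have e : V (conjS n Q) = conjS n (V Q) := (hV Q hQ).2.2 n
  rw [focB, focB, e, conjS_inf, conjS_commutator, conj_centralizer_subgroup]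

theorem locFoc_conj (hW : IsConjugacyFunctor p W) (hV : IsConjugacyFunctor p V) {H Q : Subgroup G} (hQ : IsPGroup p Q)
    {n : G} (hn : n ∈ Subgroup.normalizer (H : Set G)) (h : LocFoc W V H Q) : LocFoc W V H (conjS n Q) := by
  intro x hx
  have hN : conjS n⁻¹ ⁅Subgroup.normalizer (H : Set G), Subgroup.normalizer (H : Set G)⁆ =
      ⁅Subgroup.normalizer (H : Set G), Subgroup.normalizer (H : Set G)⁆ := by
    rw [conjS_commutator, conjS_eq_of_mem (inv_mem hn)]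
  obtain ⟨a, ha, b, hb, e⟩ := h (n⁻¹ * x * n) (by
    obtain ⟨h1, h2⟩ := hx
    refine Subgroup.mem_inf.2 ⟨?_, ?_⟩
    · exact mem_conjS.1 h1
    · have : n⁻¹ * x * n = n⁻¹ * x * n⁻¹⁻¹ := by group
      rw [this, ← hN]
      exact conj_mem_conjS h2)
  refine ⟨n * a * n⁻¹, ?_, n * b * n⁻¹, ?_, ?_⟩
  · rw [← focA_conj hW hQ]
    exact conj_mem_conjS ha
  · rw [← focB_conj hV hQ]
    exact conj_mem_conjS hb
  · have : x = n * (n⁻¹ * x * n) * n⁻¹ := by group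
    rw [this, e]
    group

variable (hW : IsConjugacyFunctor p W) (hV : IsConjugacyFunctor p V)
  (hWZ : ∀ H : Subgroup G, IsPGroup p ↥H → H ⊓ Subgroup.centralizer ((H : Subgroup G) : Set G) ≤ W H)
  (hVmono : ∀ H K : Subgroup G, IsPGroup p ↥H → IsPGroup p ↥K → H ≠ ⊥ → K ≠ ⊥ →
    H ⊓ Subgroup.centralizer ((H : Subgroup G) : Set G) ≤ K ⊓ Subgroup.centralizer ((K : Subgroup G) : Set G) → V H ≤ V K)
  (hS : SylowIn p S ⊤)

include hW hV hWZ hVmono hS in
/-- The inner induction. -/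
theorem focal_inner (hS1 : S ≠ ⊥)
    (hloc : ∀ H : Subgroup G, S ⊓ Subgroup.centralizer (S : Set G) ≤ H → H ≤ S →
      ∃ Q₀ : Subgroup G, SylowIn p Q₀ (Subgroup.normalizer (H : Set G)) ∧ LocFoc W V H Q₀)
    {m : ℕ} (IH : ∀ T : Subgroup G, T ≤ S → m < Nat.card T → ∀ g : G, conjS g T ≤ S →
      GoodT (focA W S ⊔ focB V S) S (T : Set G) g) :
    ∀ Q : Subgroup G, Q ≤ S → S ⊓ Subgroup.centralizer (S : Set G) ≤ Q → m ≤ Nat.card Q →
      focA W Q ≤ focA W S ⊔ focB V S ∧ focB V Q ≤ focA W S ⊔ focB V S := by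
  have hSp : IsPGroup p S := hS.2.1
  suffices H : ∀ (n : ℕ) (Q : Subgroup G), Q ≤ S → S ⊓ Subgroup.centralizer (S : Set G) ≤ Q → m ≤ Nat.card Q →
      Nat.card S - Nat.card Q = n → focA W Q ≤ focA W S ⊔ focB V S ∧ focB V Q ≤ focA W S ⊔ focB V S from
    fun Q h1 h2 h3 => H _ Q h1 h2 h3 rfl
  intro n
  induction n using Nat.strong_induction_on with
  | _ n ih =>
    intro Q hQS hZQ hmQ hn
    have hQp : IsPGroup p Q := hSp.to_le hQS
    refine ⟨?_, ?_⟩
    · by_cases hQeq : Q = S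
      · subst hQeq
        exact le_sup_left
      · have hlt : Q < S := lt_of_le_of_ne hQS hQeq
        set H₂ : Subgroup G := W Q with hH₂
        have hH₂Q : H₂ ≤ Q := (hW Q hQp).1
        have hZH₂ : S ⊓ Subgroup.centralizer (S : Set G) ≤ H₂ := by
          intro z hz
          refine hWZ Q hQp (Subgroup.mem_inf.2 ⟨hZQ hz, ?_⟩)
          rw [Subgroup.mem_centralizer_iff]
          intro q hq
          exact (Subgroup.mem_centralizer_iff.1 hz.2) q (hQS hq)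
        obtain ⟨Q₀, hQ₀, hQ₀c⟩ := hloc H₂ hZH₂ (hH₂Q.trans hQS)
        set R : Subgroup G := S ⊓ Subgroup.normalizer (H₂ : Set G) with hR
        have hQR : Q < R := lt_inf_normalizer_functor hSp hW hlt
        obtain ⟨Q₂, hRQ₂, hQ₂⟩ := exists_sylowIn_ge (inf_le_right : R ≤ Subgroup.normalizer (H₂ : Set G))
          (hSp.to_le inf_le_left)
        obtain ⟨c, hc, hcQ⟩ := hQ₀.exists_conj_eq hQ₂
        have hQ₂c : LocFoc W V H₂ Q₂ := by
          rw [← hcQ]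
          exact locFoc_conj hW hV hQ₀.2.1 hc hQ₀c
        obtain ⟨g₄, -, hg₄⟩ := hS.exists_conj_le (le_top : Q₂ ≤ ⊤) hQ₂.2.1
        set Q₃ : Subgroup G := conjS g₄ Q₂ with hQ₃
        have hQ₃S : SylowIn p Q₃ (Subgroup.normalizer ((conjS g₄ H₂ : Subgroup G) : Set G)) := by
          rw [conj_normalizer]
          exact hQ₂.conj g₄
        have hH₃ : conjS g₄ H₂ ≤ Q₃ := conjS_mono g₄ ((hH₂Q.trans hQR.le).trans hRQ₂)
        have hZQ₃ : S ⊓ Subgroup.centralizer (S : Set G) ≤ Q₃ := center_le_of_sylowIn hSp hH₃ hg₄ hQ₃S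
        have hcR : Nat.card Q < Nat.card R := card_lt_of_lt' hQR
        have hcQ₂ : Nat.card R ≤ Nat.card Q₂ := Subgroup.card_le_of_le hRQ₂
        have hcQ₃ : Nat.card Q₃ = Nat.card Q₂ := card_conjS _ _
        have hcS : Nat.card Q₃ ≤ Nat.card S := Subgroup.card_le_of_le hg₄
        have hRg : GoodT (focA W S ⊔ focB V S) S (R : Set G) g₄ := by
          refine IH R inf_le_left (by omega) g₄ ?_
          exact (conjS_mono g₄ hRQ₂).trans hg₄
        obtain ⟨hIH1, hIH2⟩ := ih (Nat.card S - Nat.card Q₃) (by omega) Q₃ hg₄ hZQ₃ (by omega) rfl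
        intro z hz
        obtain ⟨hz1, hz2⟩ := hz
        obtain ⟨a, ha, b, hb, rfl⟩ := hQ₂c z (Subgroup.mem_inf.2 ⟨hRQ₂ (hQR.le hz1), hz2⟩)
        have h1 : g₄ * (a * b) * g₄⁻¹ ∈ focA W S ⊔ focB V S := by
          have e : g₄ * (a * b) * g₄⁻¹ = (g₄ * a * g₄⁻¹) * (g₄ * b * g₄⁻¹) := by group
          rw [e]
          refine mul_mem (hIH1 ?_) (hIH2 ?_)
          · rw [hQ₃, ← focA_conj hW hQ₂.2.1]
            exact conj_mem_conjS ha
          · rw [hQ₃, ← focB_conj hV hQ₂.2.1]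
            exact conj_mem_conjS hb
        have h2 := hRg.2.2 (a * b) (hQR.le hz1)
        have e : a * b = (g₄ * (a * b) * g₄⁻¹ * (a * b)⁻¹)⁻¹ * (g₄ * (a * b) * g₄⁻¹) := by group
        rw [e]
        exact mul_mem (inv_mem h2) h1
    · -- the central functor
      have h1 := central_centralizer_le hVmono hSp hS1 hQS hZQ
      refine le_trans ?_ (le_sup_right : focB V S ≤ focA W S ⊔ focB V S)
      exact inf_le_inf hQS (Subgroup.commutator_mono h1 h1)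

include hW hV hWZ hVmono hS in
/-- The global conclusion. -/
theorem focal_main (hS1 : S ≠ ⊥)
    (hloc : ∀ H : Subgroup G, S ⊓ Subgroup.centralizer (S : Set G) ≤ H → H ≤ S →
      ∃ Q₀ : Subgroup G, SylowIn p Q₀ (Subgroup.normalizer (H : Set G)) ∧ LocFoc W V H Q₀) :
    ∀ T : Subgroup G, T ≤ S → ∀ g : G, conjS g T ≤ S → GoodT (focA W S ⊔ focB V S) S (T : Set G) g := by
  refine centric_reduction (p := p) hS (goodT_groupoid _) (fun e h => goodT_congr e h) ?_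
  intro U hUS hfn hc IH y hy
  have hSp : IsPGroup p S := hS.2.1
  have hZU : S ⊓ Subgroup.centralizer (S : Set G) ≤ U := by
    refine le_trans ?_ hc
    exact inf_le_inf_left _ (Subgroup.centralizer_le hUS)
  obtain ⟨Q₀, hQ₀, hQ₀c⟩ := hloc U hZU hUS
  set Q₁ : Subgroup G := S ⊓ Subgroup.normalizer (U : Set G) with hQ₁
  obtain ⟨c, hc', hcQ⟩ := hQ₀.exists_conj_eq hfn
  have hQ₁c : LocFoc W V U Q₁ := by
    have hcQ' : conjS c Q₀ = Q₁ := hcQ
    rw [← hcQ']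
    exact locFoc_conj hW hV hQ₀.2.1 hc' hQ₀c
  have hUQ₁ : U ≤ Q₁ := le_inf hUS Subgroup.le_normalizer
  obtain ⟨hJ1, hJ2⟩ := focal_inner hW hV hWZ hVmono hS hS1 hloc IH Q₁ inf_le_left (hZU.trans hUQ₁)
    (Subgroup.card_le_of_le hUQ₁)
  have hyU : ∀ u ∈ U, y * u * y⁻¹ ∈ U := fun u hu => (Subgroup.mem_normalizer_iff.1 hy u).1 hu
  refine ⟨fun a ha => hUS ha, ?_, ?_⟩
  · rintro _ ⟨u, hu, rfl⟩
    exact hUS (hyU u hu)
  · intro u hu
    have h1 : y * u * y⁻¹ * u⁻¹ ∈ U := mul_mem (hyU u hu) (inv_mem hu)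
    have h2 : y * u * y⁻¹ * u⁻¹ ∈ ⁅Subgroup.normalizer (U : Set G), Subgroup.normalizer (U : Set G)⁆ :=
      Subgroup.commutator_mem_commutator hy (Subgroup.le_normalizer hu)
    obtain ⟨a, ha, b, hb, e⟩ := hQ₁c _ (Subgroup.mem_inf.2 ⟨hUQ₁ h1, h2⟩)
    rw [e]
    exact mul_mem (hJ1 ha) (hJ2 hb)

end

end Cfsg.Agent.Lib.Techniques
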