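import Mathlib
import Cfsg.Prelude.Def_KGroupFacts
import Cfsg.Prelude.Def_Transfer
import Cfsg.Agent.Lib.Techniques.Complement
import Cfsg.Agent.Lib.Char.Product
import Cfsg.Agent.Lib.Core.MinNormal
import Cfsg.Agent.Lib.PGroup.OddPGroup

/-!
# A small-exponent subgroup detecting `p'`-automorphisms

The Thompson critical-subgroup construction relative to a group `G` of automorphisms
containing the inner ones.
-/

set_option autoImplicit false
set_option linter.style.haveILetI false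

namespace Cfsg.Agent.Lib.Techniques.CritG

open Subgroup
open scoped commutatorElement

variable {P : Type*} [Group P] {G : Subgroup (MulAut P)}

/-- `W` is carried into itself by `G`. -/
def Inv (G : Subgroup (MulAut P)) (W : Subgroup P) : Prop := ∀ β ∈ G, ∀ w ∈ W, β w ∈ W

theorem Inv.normal {W : Subgroup P} (hG : Cfsg.Inn P ≤ G) (h : Inv G W) : W.Normal := by
  refine ⟨fun w hw g => ?_⟩
  have := h (MulAut.conj g) (hG ⟨g, rfl⟩) w hw
  simpa [MulAut.conj_apply] using this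

theorem Inv.map_eq {W : Subgroup P} (h : Inv G W) {α : MulAut P} (hα : α ∈ G) :
    W.map α.toMonoidHom = W := by
  apply le_antisymm
  · rintro _ ⟨w, hw, rfl⟩
    exact h α hα w hw
  · intro w hw
    refine ⟨α⁻¹ w, h α⁻¹ (G.inv_mem hα) w hw, ?_⟩
    exact MulAut.apply_inv_self P α w

theorem Inv.inf {A B : Subgroup P} (h1 : Inv G A) (h2 : Inv G B) : Inv G (A ⊓ B) :=
  fun β hβ w hw => ⟨h1 β hβ w hw.1, h2 β hβ w hw.2⟩

theorem Inv.centralizer {A : Subgroup P} (h : Inv G A) : Inv G (centralizer (A : Set P)) := by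
  intro β hβ w hw
  rw [mem_centralizer_iff] at hw ⊢
  intro a ha
  have ha' := h β⁻¹ (G.inv_mem hβ) a ha
  have h1 := hw _ ha'
  have h2 := congrArg β h1
  simpa only [map_mul, MulAut.apply_inv_self] using h2

theorem fix_aux (α : MulAut P) (t u : P) (h1 : α t = t * u) (h2 : α u = u) (k : ℕ) :
    (α ^ k) t = t * u ^ k := by
  induction k with
  | zero => simp
  | succ k ih =>
    rw [pow_succ', MulAut.mul_apply, ih, map_mul, h1, map_pow, h2, pow_succ', mul_assoc]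

variable {p : ℕ} [hp : Fact p.Prime]

theorem fix_one (hP : IsPGroup p P) (α : MulAut P) (hc : (orderOf α).Coprime p) (t u : P)
    (h1 : α t = t * u) (h2 : α u = u) : u = 1 := by
  have h3 := fix_aux α t u h1 h2 (orderOf α)
  rw [pow_orderOf_eq_one] at h3
  have h4 : u ^ orderOf α = 1 := by
    have : t = t * u ^ orderOf α := h3
    exact (mul_eq_left.1 this.symm)
  obtain ⟨k, hk⟩ := hP u
  have h5 : u ^ (Nat.gcd (orderOf α) (p ^ k)) = 1 := pow_gcd_eq_one.2 ⟨h4, hk⟩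
  rwa [Nat.Coprime.pow_right k hc, pow_one] at h5

/-- The subgroup `D₀`. -/
def D0 (T A : Subgroup P) (hA : A.Normal) (p : ℕ) : Subgroup P where
  carrier := {x | x ∈ T ∧ x ∈ centralizer (A : Set P) ∧ (∀ g, ⁅x, g⁆ ∈ A) ∧ x ^ p ∈ A}
  one_mem' := by
    refine ⟨T.one_mem, one_mem _, fun g => ?_, ?_⟩
    · simp [commutatorElement_def]
    · simp [A.one_mem]
  inv_mem' := by
    rintro x ⟨h1, h2, h3, h4⟩
    refine ⟨T.inv_mem h1, inv_mem h2, fun g => ?_, ?_⟩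
    · have : ⁅x⁻¹, g⁆ = x⁻¹ * ⁅x, g⁆⁻¹ * x⁻¹⁻¹ := by
        simp only [commutatorElement_def]; group
      rw [this]
      exact hA.conj_mem _ (A.inv_mem (h3 g)) x⁻¹
    · rw [inv_pow]; exact A.inv_mem h4
  mul_mem' := by
    rintro x y ⟨h1, h2, h3, h4⟩ ⟨h1', h2', h3', h4'⟩
    refine ⟨T.mul_mem h1 h1', mul_mem h2 h2', fun g => ?_, ?_⟩
    · have : ⁅x * y, g⁆ = (x * ⁅y, g⁆ * x⁻¹) * ⁅x, g⁆ := by
        simp only [commutatorElement_def]; group
      rw [this]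
      exact A.mul_mem (hA.conj_mem _ (h3' g) x) (h3 g)
    · have hc : (⁅y, x⁆ : P) ∈ A := h3' x
      have hcc : (QuotientGroup.mk (x * y) : P ⧸ A) = QuotientGroup.mk x * QuotientGroup.mk y := rfl
      have hcm : Commute (QuotientGroup.mk x : P ⧸ A) (QuotientGroup.mk y) := by
        show (QuotientGroup.mk x * QuotientGroup.mk y : P ⧸ A) = QuotientGroup.mk y * QuotientGroup.mk x
        rw [← QuotientGroup.mk_mul, ← QuotientGroup.mk_mul, QuotientGroup.eq]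
        have h6 : (x * y)⁻¹ * (y * x) = (x * y)⁻¹ * ⁅y, x⁆ * (x * y)⁻¹⁻¹ := by
          simp only [commutatorElement_def]; group
        rw [h6]
        exact hA.conj_mem _ hc _
      rw [← QuotientGroup.eq_one_iff, QuotientGroup.mk_pow, hcc, hcm.mul_pow, ← QuotientGroup.mk_pow,
        ← QuotientGroup.mk_pow, (QuotientGroup.eq_one_iff _).2 h4, (QuotientGroup.eq_one_iff _).2 h4', one_mul]

theorem exists_central_mod (hP : IsPGroup p P) [Finite P] (Y D : Subgroup P) (hY : Y.Normal) (hD : D.Normal)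
    (hne : ¬ Y ≤ D) : ∃ y ∈ Y, y ∉ D ∧ (∀ g, ⁅y, g⁆ ∈ D) ∧ y ^ p ∈ D := by
  classical
  haveI := hD
  haveI := hY
  have hQ : IsPGroup p (P ⧸ D) := hP.to_quotient D
  have hYn : (Y.map (QuotientGroup.mk' D)).Normal :=
    Subgroup.Normal.map hY _ (QuotientGroup.mk'_surjective D)
  have hne' : Y.map (QuotientGroup.mk' D) ≠ ⊥ := by
    intro h
    apply hne
    intro y hy
    have : QuotientGroup.mk' D y ∈ Y.map (QuotientGroup.mk' D) := ⟨y, hy, rfl⟩
    rw [h, Subgroup.mem_bot] at this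
    exact (QuotientGroup.eq_one_iff _).1 this
  obtain ⟨z, ⟨y0, hy0, rfl⟩, hzc, hz1⟩ := Cfsg.Agent.Lib.Char.exists_mem_center_of_normal hQ _ hYn hne'
  obtain ⟨k, hk⟩ := hQ (QuotientGroup.mk' D y0)
  -- minimal power
  obtain ⟨j, hj1, hj2⟩ : ∃ j, (QuotientGroup.mk' D y0) ^ (p ^ j) ≠ 1 ∧ ((QuotientGroup.mk' D y0) ^ (p ^ j)) ^ p = 1 := by
    classical
    have hex : ∃ m, (QuotientGroup.mk' D y0) ^ (p ^ m) = 1 := ⟨k, hk⟩
    have hm := Nat.find_spec hex
    have hm0 : Nat.find hex ≠ 0 := by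
      intro h0
      rw [h0, pow_zero, pow_one] at hm
      exact hz1 hm
    obtain ⟨j, hj⟩ := Nat.exists_eq_succ_of_ne_zero hm0
    refine ⟨j, Nat.find_min hex (by omega), ?_⟩
    rw [← pow_mul, ← pow_succ, ← Nat.succ_eq_add_one, ← hj]
    exact hm
  refine ⟨y0 ^ (p ^ j), Y.pow_mem hy0 _, ?_, ?_, ?_⟩
  · intro h
    apply hj1
    rw [← map_pow]
    exact (QuotientGroup.eq_one_iff _).2 h
  · intro g
    have hzc' : (QuotientGroup.mk' D y0) ^ (p ^ j) ∈ Subgroup.center (P ⧸ D) := Subgroup.pow_mem _ hzc _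
    rw [← QuotientGroup.eq_one_iff]
    rw [commutatorElement_def]
    have e1 : ((y0 ^ p ^ j * g * (y0 ^ p ^ j)⁻¹ * g⁻¹ : P) : P ⧸ D) = (QuotientGroup.mk' D y0 ^ p ^ j) * (QuotientGroup.mk' D g) * (QuotientGroup.mk' D y0 ^ p ^ j)⁻¹ * (QuotientGroup.mk' D g)⁻¹ := by
      simp only [← map_pow, ← map_mul, ← map_inv]
      rfl
    rw [e1]
    have := (Subgroup.mem_center_iff.1 hzc') (QuotientGroup.mk' D g)
    rw [← this]
    group
  · rw [← QuotientGroup.eq_one_iff, QuotientGroup.mk_pow, QuotientGroup.mk_pow]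
    exact hj2

/-- The structure of `T`, `A`, `D₀`. -/
structure Str (G : Subgroup (MulAut P)) (p : ℕ) (T A D₀ : Subgroup P) : Prop where
  hT : Inv G T
  hA : Inv G A
  hD₀ : Inv G D₀
  A_le : A ≤ D₀
  le_T : D₀ ≤ T
  le_C : D₀ ≤ centralizer (A : Set P)
  cm : ∀ x ∈ D₀, ∀ g, ⁅x, g⁆ ∈ A
  pw : ∀ x ∈ D₀, x ^ p ∈ A
  Z_le : D₀ ⊓ centralizer (D₀ : Set P) ≤ A
  C_le : T ⊓ centralizer (D₀ : Set P) ≤ D₀

theorem exists_str [Finite P] (hP : IsPGroup p P) (hG : Cfsg.Inn P ≤ G) (T : Subgroup P) (hT : Inv G T) :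
    ∃ A D₀, Str G p T A D₀ := by
  classical
  haveI : Finite (Subgroup P) := inferInstance
  obtain ⟨A, -, hAm⟩ := Finite.exists_le_maximal (α := Subgroup P)
    (p := fun W => W ≤ T ∧ Inv G W ∧ IsMulCommutative W) (a := ⊥)
    ⟨bot_le, fun β _ w hw => by
      rw [Subgroup.mem_bot] at hw ⊢
      rw [hw, map_one], ⟨⟨fun a b => Subtype.ext (by
        have ha := a.2; have hb := b.2
        rw [Subgroup.mem_bot] at ha hb
        simp [ha, hb])⟩⟩⟩
  obtain ⟨⟨hAT, hAi, hAc⟩, hAmax⟩ := hAm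
  have hAn : A.Normal := hAi.normal hG
  have hAcomm : ∀ a ∈ A, ∀ b ∈ A, a * b = b * a := fun a ha b hb =>
    congrArg Subtype.val (hAc.is_comm.comm ⟨a, ha⟩ ⟨b, hb⟩)
  obtain ⟨D₀, hD₀⟩ : ∃ D₀, D₀ = D0 T A hAn p := ⟨_, rfl⟩
  have hmem : ∀ x, x ∈ D₀ ↔ (x ∈ T ∧ x ∈ centralizer (A : Set P) ∧ (∀ g, ⁅x, g⁆ ∈ A) ∧ x ^ p ∈ A) := by
    intro x; rw [hD₀]; rfl
  have hD₀i : Inv G D₀ := by
    intro β hβ x hx
    rw [hmem] at hx ⊢
    obtain ⟨h1, h2, h3, h4⟩ := hx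
    refine ⟨hT β hβ x h1, hAi.centralizer β hβ x h2, fun g => ?_, ?_⟩
    · have h5 := hAi β hβ _ (h3 (β⁻¹ g))
      rw [map_commutatorElement, MulAut.apply_inv_self] at h5
      exact h5
    · rw [← map_pow]; exact hAi β hβ _ h4
  have hA_le : A ≤ D₀ := by
    intro a ha
    rw [hmem]
    refine ⟨hAT ha, ?_, fun g => ?_, A.pow_mem ha _⟩
    · rw [mem_centralizer_iff]
      intro b hb
      exact hAcomm b hb a ha
    · have e : ⁅a, g⁆ = a * (g * a⁻¹ * g⁻¹) := by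
        simp only [commutatorElement_def]; group
      rw [e]
      exact A.mul_mem ha (hAn.conj_mem _ (A.inv_mem ha) g)
  have hle_T : D₀ ≤ T := fun x hx => ((hmem x).1 hx).1
  have hle_C : D₀ ≤ centralizer (A : Set P) := fun x hx => ((hmem x).1 hx).2.1
  have hcm : ∀ x ∈ D₀, ∀ g, ⁅x, g⁆ ∈ A := fun x hx => ((hmem x).1 hx).2.2.1
  have hpw : ∀ x ∈ D₀, x ^ p ∈ A := fun x hx => ((hmem x).1 hx).2.2.2
  have hZ_le : D₀ ⊓ centralizer (D₀ : Set P) ≤ A := by
    have hZi : Inv G (D₀ ⊓ centralizer (D₀ : Set P)) := hD₀i.inf hD₀i.centralizer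
    have hZc : IsMulCommutative (D₀ ⊓ centralizer (D₀ : Set P) : Subgroup P) := by
      refine ⟨⟨fun a b => Subtype.ext ?_⟩⟩
      exact (mem_centralizer_iff.1 b.2.2) a.1 a.2.1
    have hAZ : A ≤ D₀ ⊓ centralizer (D₀ : Set P) := by
      intro a ha
      refine ⟨hA_le ha, mem_centralizer_iff.2 ?_⟩
      intro d hd
      exact ((mem_centralizer_iff.1 (hle_C hd)) a ha).symm
    exact hAmax ⟨fun x hx => hle_T hx.1, hZi, hZc⟩ hAZ
  refine ⟨A, D₀, hT, hAi, hD₀i, hA_le, hle_T, hle_C, hcm, hpw, hZ_le, ?_⟩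
  by_contra hne
  have hYi : Inv G (T ⊓ centralizer (D₀ : Set P)) := hT.inf hD₀i.centralizer
  have hYn := hYi.normal hG
  have hD₀n := hD₀i.normal hG
  obtain ⟨y, hy, hyD, hy1, hy2⟩ := exists_central_mod hP _ _ hYn hD₀n hne
  apply hyD
  rw [hmem]
  refine ⟨hy.1, ?_, fun g => ?_, ?_⟩
  · rw [mem_centralizer_iff]
    intro a ha
    exact (mem_centralizer_iff.1 hy.2) a (hA_le ha)
  · apply hZ_le
    refine ⟨hy1 g, ?_⟩
    have : (⁅y, g⁆ : P) ∈ T ⊓ centralizer (D₀ : Set P) := by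
      have e : ⁅y, g⁆ = y * (g * y⁻¹ * g⁻¹) := by
        simp only [commutatorElement_def]; group
      rw [e]
      exact mul_mem hy (hYn.conj_mem _ (inv_mem hy) g)
    exact this.2
  · apply hZ_le
    exact ⟨hy2, (pow_mem hy p).2⟩

/-- The exponent. -/
def eE (p : ℕ) : ℕ := if p = 2 then 4 else p

theorem dvd_choose_eE : p ∣ (eE p).choose 2 := by
  unfold eE
  split_ifs with h
  · subst h; decide
  · have h2 : 2 < p := lt_of_le_of_ne hp.out.two_le (Ne.symm h)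
    exact hp.out.dvd_choose_self (by norm_num) h2

theorem Str.key {T A D₀ : Subgroup P} (h : Str G p T A D₀) {x y : P} (hx : x ∈ D₀) (hy : y ∈ D₀) :
    ∃ c ∈ A, y * x = x * y * c ∧ Commute c x ∧ Commute c y ∧ c ^ p = 1 := by
  have hyi : y⁻¹ ∈ D₀ := inv_mem hy
  have hxi : x⁻¹ ∈ D₀ := inv_mem hx
  have hc : (⁅y⁻¹, x⁻¹⁆ : P) ∈ A := h.cm _ hyi _
  have he : y * x = x * y * ⁅y⁻¹, x⁻¹⁆ := by
    simp only [commutatorElement_def]; group
  have hcx : Commute (⁅y⁻¹, x⁻¹⁆ : P) x := (mem_centralizer_iff.1 (h.le_C hx)) _ hc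
  have hcy : Commute (⁅y⁻¹, x⁻¹⁆ : P) y := (mem_centralizer_iff.1 (h.le_C hy)) _ hc
  refine ⟨_, hc, he, hcx, hcy, ?_⟩
  have h1 := Cfsg.Agent.Lib.PGroup.pow_mul_of_comm x y _ he hcx hcy p
  have h2 : y ^ p * x = x * y ^ p := (mem_centralizer_iff.1 (h.le_C hx)) _ (h.pw y hy)
  rw [h2] at h1
  exact (mul_eq_left.1 h1.symm)

theorem Str.pow_e {T A D₀ : Subgroup P} (h : Str G p T A D₀) {x y : P} (hx : x ∈ D₀) (hy : y ∈ D₀) :
    (x * y) ^ eE p = x ^ eE p * y ^ eE p := by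
  obtain ⟨c, -, he, hcx, hcy, hc⟩ := h.key hx hy
  rw [Cfsg.Agent.Lib.PGroup.mul_pow_of_comm_comm x y c he hcx hcy]
  obtain ⟨m, hm⟩ := dvd_choose_eE (p := p)
  rw [hm, pow_mul, hc, one_pow, mul_one]

/-- The subgroup `D`. -/
def D1 {T A D₀ : Subgroup P} (h : Str G p T A D₀) : Subgroup P where
  carrier := {x | x ∈ D₀ ∧ x ^ eE p = 1}
  one_mem' := ⟨D₀.one_mem, one_pow _⟩
  inv_mem' := by
    rintro x ⟨h1, h2⟩
    exact ⟨D₀.inv_mem h1, by rw [inv_pow, h2, inv_one]⟩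
  mul_mem' := by
    rintro x y ⟨h1, h2⟩ ⟨h1', h2'⟩
    exact ⟨D₀.mul_mem h1 h1', by rw [h.pow_e h1 h1', h2, h2', one_mul]⟩

theorem Str.mem_D1 {T A D₀ : Subgroup P} (h : Str G p T A D₀) {x : P} :
    x ∈ D1 h ↔ x ∈ D₀ ∧ x ^ eE p = 1 := Iff.rfl

theorem Str.D1_inv {T A D₀ : Subgroup P} (h : Str G p T A D₀) : Inv G (D1 h) := by
  rintro β hβ x ⟨h1, h2⟩
  exact ⟨h.hD₀ β hβ x h1, by rw [← map_pow, h2, map_one]⟩

theorem Str.mem_D1_of_pow {T A D₀ : Subgroup P} (h : Str G p T A D₀) {x : P} (hx : x ∈ D₀)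
    (h1 : x ^ p = 1) : x ∈ D1 h := by
  refine ⟨hx, ?_⟩
  unfold eE
  split_ifs with h2
  · subst h2
    have : (4 : ℕ) = 2 * 2 := rfl
    rw [this, pow_mul, h1, one_pow]
  · exact h1

/-- `p'`-automorphisms fixing `D₀` are trivial. -/
theorem Str.eq_one_of_fix_D0 [Finite P] {T A D₀ : Subgroup P} (h : Str G p T A D₀) (hP : IsPGroup p P)
    (hG : Cfsg.Inn P ≤ G)
    (hres : ∀ α ∈ G, (orderOf α).Coprime p → ∀ x, x⁻¹ * α x ∈ T)
    {α : MulAut P} (hα : α ∈ G) (hc : (orderOf α).Coprime p) (hfix : ∀ d ∈ D₀, α d = d) : α = 1 := by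
  have hn := h.hD₀.normal hG
  have hT : ∀ t ∈ T, α t = t := by
    intro t ht
    have hu : t⁻¹ * α t ∈ T := T.mul_mem (T.inv_mem ht) (h.hT α hα t ht)
    have hC : t⁻¹ * α t ∈ centralizer (D₀ : Set P) := by
      rw [mem_centralizer_iff]
      intro d hd
      have h1 := hfix _ (hn.conj_mem d hd t)
      rw [map_mul, map_mul, map_inv, hfix d hd] at h1
      have h2 : α t = t * d * t⁻¹ * (α t) * d⁻¹ := by
        rw [eq_mul_inv_iff_mul_eq]
        rw [mul_inv_eq_iff_eq_mul] at h1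
        exact h1
      have h3 : d * (t⁻¹ * α t) * d⁻¹ = t⁻¹ * (t * d * t⁻¹ * (α t) * d⁻¹) := by group
      rw [← h2] at h3
      exact mul_inv_eq_iff_eq_mul.1 h3
    have hD : t⁻¹ * α t ∈ D₀ := h.C_le ⟨hu, hC⟩
    have := fix_one hP α hc t _ (by group) (hfix _ hD)
    have h5 : α t = t := by
      have h6 := inv_mul_eq_one.1 this
      exact h6.symm
    exact h5
  refine MulEquiv.ext fun x => ?_
  have hu := hres α hα hc x
  have := fix_one hP α hc x _ (by group) (hT _ hu)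
  have h6 := inv_mul_eq_one.1 this
  simpa using h6.symm

/-- `p'`-automorphisms fixing `D` fix `A`. -/
theorem Str.fix_A {T A D₀ : Subgroup P} (h : Str G p T A D₀) (hP : IsPGroup p P)
    {α : MulAut P} (hα : α ∈ G) (hc : (orderOf α).Coprime p) (hfix : ∀ d ∈ D1 h, α d = d) :
    ∀ a ∈ A, α a = a := by
  have key : ∀ k : ℕ, ∀ a ∈ A, a ^ (p ^ k) = 1 → α a = a := by
    intro k
    induction k with
    | zero =>
      intro a _ h1
      rw [pow_zero, pow_one] at h1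
      rw [h1, map_one]
    | succ k ih =>
      intro a ha h1
      have h2 : α (a ^ p) = a ^ p := ih _ (A.pow_mem ha _) (by rw [← pow_mul, ← pow_succ']; exact h1)
      have hy : a⁻¹ * α a ∈ A := A.mul_mem (A.inv_mem ha) (h.hA α hα a ha)
      have hyp : (a⁻¹ * α a) ^ p = 1 := by
        have hcm : Commute a⁻¹ (α a) :=
          (mem_centralizer_iff.1 (h.le_C (h.A_le (h.hA α hα a ha)))) _ (A.inv_mem ha)
        rw [hcm.mul_pow, ← map_pow, h2, inv_pow]
        group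
      have hyD : a⁻¹ * α a ∈ D1 h := h.mem_D1_of_pow (h.A_le hy) hyp
      have := fix_one hP α hc a _ (by group) (hfix _ hyD)
      have h6 := inv_mul_eq_one.1 this
      exact h6.symm
  intro a ha
  obtain ⟨k, hk⟩ := hP a
  exact key k a ha hk

/-- `p'`-automorphisms fixing `D` fix `D₀`. -/
theorem Str.fix_D0 {T A D₀ : Subgroup P} (h : Str G p T A D₀) (hP : IsPGroup p P)
    {α : MulAut P} (hα : α ∈ G) (hc : (orderOf α).Coprime p) (hfix : ∀ d ∈ D1 h, α d = d) :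
    ∀ x ∈ D₀, α x = x := by
  have hfA := h.fix_A hP hα hc hfix
  intro x hx
  have hy : x⁻¹ * α x ∈ D₀ := D₀.mul_mem (D₀.inv_mem hx) (h.hD₀ α hα x hx)
  obtain ⟨y, hyd⟩ : ∃ y, y = x⁻¹ * α x := ⟨_, rfl⟩
  rw [← hyd] at hy
  have hαx : α x = x * y := by rw [hyd]; group
  obtain ⟨c, hcA, he, hcx, hcy, hcp⟩ := h.key hx hy
  have h1 : (x * y) ^ p = x ^ p * y ^ p * c ^ (p.choose 2) :=
    Cfsg.Agent.Lib.PGroup.mul_pow_of_comm_comm x y c he hcx hcy p
  have h2 : (x * y) ^ p = x ^ p := by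
    rw [← hαx, ← map_pow, hfA _ (h.pw x hx)]
  rw [h2, mul_assoc] at h1
  have h3 : y ^ p * c ^ (p.choose 2) = 1 := (mul_eq_left.1 h1.symm)
  have hyD : y ∈ D1 h := by
    refine ⟨hy, ?_⟩
    unfold eE
    split_ifs with h2'
    · -- `p = 2`
      subst h2'
      have h4 : y ^ 2 * c = 1 := by simpa using h3
      have h5 : y ^ 2 = c⁻¹ := eq_inv_of_mul_eq_one_left h4
      have : (4 : ℕ) = 2 * 2 := rfl
      rw [this, pow_mul, h5, inv_pow, hcp, inv_one]
    · have h4 : p ∣ p.choose 2 := by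
        have h2'' : 2 < p := lt_of_le_of_ne hp.out.two_le (Ne.symm h2')
        exact hp.out.dvd_choose_self (by norm_num) h2''
      obtain ⟨m, hm⟩ := h4
      rw [hm, pow_mul, hcp, one_pow, mul_one] at h3
      exact h3
  have := fix_one hP α hc x y hαx (hfix y hyD)
  rw [hαx, this, mul_one]

/-- The main construction, abstractly. -/
theorem main [Finite P] (hP : IsPGroup p P) (hG : Cfsg.Inn P ≤ G) (T : Subgroup P) (hT : Inv G T)
    (hres : ∀ α ∈ G, (orderOf α).Coprime p → ∀ x, x⁻¹ * α x ∈ T) :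
    ∃ D : Subgroup P,
      Inv G D ∧ D ≤ T ∧
      (∀ d ∈ D, d ^ p = 1 ∨ (p = 2 ∧ d ^ 4 = 1)) ∧
      ⁅D, (⊤ : Subgroup P)⁆ ≤ D ⊓ Subgroup.centralizer (D : Set P) ∧
      (∀ α ∈ G, (orderOf α).Coprime p → (∀ d ∈ D, α d = d) → α = 1) ∧
      ∀ A : Subgroup P, A ≤ D → IsMulCommutative ↥A →
        (∀ B : Subgroup P, A ≤ B → B ≤ D → IsMulCommutative ↥B → B = A) →
        A.Normal ∧ ∀ α ∈ G, (∀ a ∈ A, α a = a) → ∃ k : ℕ, orderOf α = p ^ k := by
  classical
  obtain ⟨A, D₀, h⟩ := exists_str hP hG T hT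
  have hDi := h.D1_inv
  have hDn := hDi.normal hG
  have hcm : ⁅D1 h, (⊤ : Subgroup P)⁆ ≤ D1 h ⊓ Subgroup.centralizer (D1 h : Set P) := by
    rw [Subgroup.commutator_le]
    intro d hd g _
    refine ⟨?_, ?_⟩
    · have e : ⁅d, g⁆ = d * (g * d⁻¹ * g⁻¹) := by
        simp only [commutatorElement_def]; group
      rw [e]
      exact mul_mem hd (hDn.conj_mem _ (inv_mem hd) g)
    · refine mem_centralizer_iff.2 ?_
      intro e he
      exact ((mem_centralizer_iff.1 (h.le_C he.1)) _ (h.cm d hd.1 g)).symm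
  have hF : ∀ α ∈ G, (orderOf α).Coprime p → (∀ d ∈ D1 h, α d = d) → α = 1 := by
    intro α hα hc hfix
    exact h.eq_one_of_fix_D0 hP hG hres hα hc (h.fix_D0 hP hα hc hfix)
  refine ⟨D1 h, hDi, fun x hx => h.le_T hx.1, ?_, hcm, hF, ?_⟩
  · rintro d ⟨-, hd⟩
    unfold eE at hd
    split_ifs at hd with h2
    · exact Or.inr ⟨h2, hd⟩
    · exact Or.inl hd
  intro B hBD hBc hBm
  have hBcomm : ∀ a ∈ B, ∀ b ∈ B, a * b = b * a := fun a ha b hb =>
    congrArg Subtype.val (hBc.is_comm.comm ⟨a, ha⟩ ⟨b, hb⟩)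
  -- `Z(D) ≤ B`
  have hZ : D1 h ⊓ Subgroup.centralizer (D1 h : Set P) ≤ B := by
    have hZc : IsMulCommutative (D1 h ⊓ centralizer (D1 h : Set P) : Subgroup P) := by
      refine ⟨⟨fun a b => Subtype.ext ?_⟩⟩
      exact (mem_centralizer_iff.1 b.2.2) a.1 a.2.1
    have hsup : IsMulCommutative (B ⊔ (D1 h ⊓ centralizer (D1 h : Set P)) : Subgroup P) := by
      apply Cfsg.Agent.Lib.Core.isMulCommutative_sup hBc hZc
      intro a ha b hb
      exact ((mem_centralizer_iff.1 hb.2) a (hBD ha))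
    have := hBm _ le_sup_left (sup_le hBD inf_le_left) hsup
    rw [← this]
    exact le_sup_right
  -- `C_D(B) = B`
  have hCB : ∀ x ∈ D1 h, x ∈ centralizer (B : Set P) → x ∈ B := by
    intro x hx hxc
    have hsup : IsMulCommutative (B ⊔ zpowers x : Subgroup P) := by
      apply Cfsg.Agent.Lib.Core.isMulCommutative_sup hBc inferInstance
      intro a ha b hb
      obtain ⟨n, rfl⟩ := mem_zpowers_iff.1 hb
      exact (Commute.zpow_right ((mem_centralizer_iff.1 hxc) a ha) n)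
    have := hBm _ le_sup_left (sup_le hBD ((zpowers_le).2 hx)) hsup
    rw [← this]
    exact (le_sup_right : zpowers x ≤ _) (mem_zpowers x)
  have hBn : B.Normal := by
    refine ⟨fun a ha g => ?_⟩
    have h1 : (⁅a, g⁆ : P) ∈ B := hZ (hcm (Subgroup.commutator_mem_commutator (hBD ha) (mem_top g)))
    have h3 : g * a * g⁻¹ = ⁅a, g⁆⁻¹ * a := by
      simp only [commutatorElement_def]; group
    rw [h3]
    exact B.mul_mem (B.inv_mem h1) ha
  refine ⟨hBn, ?_⟩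
  intro α hα hfix
  obtain ⟨k, hk⟩ := Cfsg.Agent.Lib.Techniques.exists_pow_coprime_order (p := p) α
  have hβ : α ^ (p ^ k) ∈ G := G.pow_mem hα _
  have hfixβ : ∀ a ∈ B, (α ^ (p ^ k)) a = a := by
    intro a ha
    have hgen : ∀ n : ℕ, (α ^ n) a = a := by
      intro n
      induction n with
      | zero => simp
      | succ n ih => rw [pow_succ', MulAut.mul_apply, ih, hfix a ha]
    exact hgen _
  have hone : α ^ (p ^ k) = 1 := by
    apply hF _ hβ hk
    intro d hd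
    obtain ⟨β, hβd⟩ : ∃ β, β = α ^ (p ^ k) := ⟨_, rfl⟩
    rw [← hβd] at hβ hk hfixβ ⊢
    have hy : d⁻¹ * β d ∈ D1 h := mul_mem (inv_mem hd) (hDi β hβ d hd)
    have hyc : d⁻¹ * β d ∈ centralizer (B : Set P) := by
      rw [mem_centralizer_iff]
      intro a ha
      have h1 := hfixβ _ (hBn.conj_mem a ha d)
      rw [map_mul, map_mul, map_inv, hfixβ a ha] at h1
      have h2 : β d = d * a * d⁻¹ * (β d) * a⁻¹ := by
        rw [eq_mul_inv_iff_mul_eq]
        rw [mul_inv_eq_iff_eq_mul] at h1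
        exact h1
      have h3 : a * (d⁻¹ * β d) * a⁻¹ = d⁻¹ * (d * a * d⁻¹ * (β d) * a⁻¹) := by group
      rw [← h2] at h3
      exact mul_inv_eq_iff_eq_mul.1 h3
    have hyB := hCB _ hy hyc
    have := fix_one hP β hk d _ (by group) (hfixβ _ hyB)
    exact (inv_mul_eq_one.1 this).symm
  have h1 : orderOf α ∣ p ^ k := orderOf_dvd_of_pow_eq_one hone
  obtain ⟨j, -, hj⟩ := (Nat.dvd_prime_pow hp.out).1 h1
  exact ⟨j, hj⟩

end Cfsg.Agent.Lib.Techniques.CritG
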