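import Mathlib

/-! An involution fixed-point-freely acting inverts; the four-group argument. -/

set_option autoImplicit false
set_option linter.style.haveILetI false

namespace Cfsg.Agent.Lib.Techniques

variable {H : Type*} [Group H] [Finite H]

/-- If the involution `z` has trivial fixed points on the normal subgroup `N`, then `z` inverts `N`. -/
theorem inverts_of_fpf {z : H} (hz : z * z = 1) (N : Subgroup H) [hN : N.Normal]
    (hf : N ⊓ Subgroup.centralizer ({z} : Set H) = ⊥) :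
    ∀ y ∈ N, z * y * z⁻¹ = y⁻¹ := by
  have hzi : z⁻¹ = z := inv_eq_of_mul_eq_one_left hz
  have hinj : Function.Injective (fun n : N => (⟨(n : H)⁻¹ * (z * (n : H) * z⁻¹), N.mul_mem (N.inv_mem n.2)
      (hN.conj_mem n n.2 z)⟩ : N)) := by
    rintro ⟨a, ha⟩ ⟨b, hb⟩ hab
    have h1 : a⁻¹ * (z * a * z⁻¹) = b⁻¹ * (z * b * z⁻¹) := congrArg Subtype.val hab
    have h3 : a⁻¹ * z * a = b⁻¹ * z * b := by
      have : a⁻¹ * (z * a * z⁻¹) * z = b⁻¹ * (z * b * z⁻¹) * z := by rw [h1]
      simpa [mul_assoc] using this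
    have hmem : b * a⁻¹ ∈ N := N.mul_mem hb (N.inv_mem ha)
    have hc : b * a⁻¹ ∈ Subgroup.centralizer ({z} : Set H) := by
      rw [Subgroup.mem_centralizer_singleton_iff]
      calc b * a⁻¹ * z = b * (a⁻¹ * z * a) * a⁻¹ := by group
        _ = b * (b⁻¹ * z * b) * a⁻¹ := by rw [h3]
        _ = z * (b * a⁻¹) := by group
    have : b * a⁻¹ ∈ N ⊓ Subgroup.centralizer ({z} : Set H) := ⟨hmem, hc⟩
    rw [hf, Subgroup.mem_bot, mul_inv_eq_one] at this
    exact Subtype.ext this.symm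
  have hsurj := Finite.surjective_of_injective hinj
  intro y hy
  obtain ⟨⟨n, hnN⟩, hn⟩ := hsurj ⟨y, hy⟩
  have e : y = n⁻¹ * (z * n * z⁻¹) := (congrArg Subtype.val hn).symm
  rw [e, hzi]
  calc z * (n⁻¹ * (z * n * z)) * z = z * n⁻¹ * z * n * (z * z) := by group
    _ = z * n⁻¹ * z * n := by rw [hz]; group
    _ = (n⁻¹ * (z * n * z))⁻¹ := by
      rw [mul_inv_rev, mul_inv_rev, mul_inv_rev, hzi]; group

/-- The four-group argument. -/
theorem normal_eq_bot_of_four {z : H} (hz : orderOf z = 2)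
    (hN : ∀ N : Subgroup H, N.Normal → N ≠ ⊤ → N ⊓ Subgroup.centralizer ({z} : Set H) = ⊥)
    {u : H} (huz : IsConj z u) (hv : IsConj z (z * u)) (N : Subgroup H) [hnN : N.Normal] (hNtop : N ≠ ⊤) :
    N = ⊥ := by
  have hzz : z * z = 1 := by
    have := pow_orderOf_eq_one z
    rw [hz, pow_two] at this; exact this
  have fp : ∀ w : H, IsConj z w → N ⊓ Subgroup.centralizer ({w} : Set H) = ⊥ := by
    intro w hw
    obtain ⟨c, rfl⟩ := isConj_iff.1 hw
    rw [eq_bot_iff]
    rintro x ⟨hxN, hxC⟩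
    have h1 : c⁻¹ * x * c ∈ N := by simpa using hnN.conj_mem x hxN c⁻¹
    have h2 : c⁻¹ * x * c ∈ Subgroup.centralizer ({z} : Set H) := by
      rw [Subgroup.mem_centralizer_singleton_iff]
      have := Subgroup.mem_centralizer_singleton_iff.1 hxC
      calc c⁻¹ * x * c * z = c⁻¹ * (x * (c * z * c⁻¹)) * c := by group
        _ = c⁻¹ * ((c * z * c⁻¹) * x) * c := by rw [this]
        _ = _ := by group
    have h3 : c⁻¹ * x * c ∈ N ⊓ Subgroup.centralizer ({z} : Set H) := ⟨h1, h2⟩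
    rw [hN N hnN hNtop, Subgroup.mem_bot] at h3
    have : x = c * (c⁻¹ * x * c) * c⁻¹ := by group
    rw [this, h3]; simp
  have inv_conj : ∀ w : H, IsConj z w → ∀ y ∈ N, w * y * w⁻¹ = y⁻¹ := by
    intro w hw
    have hww : w * w = 1 := by
      obtain ⟨c, rfl⟩ := isConj_iff.1 hw
      calc c * z * c⁻¹ * (c * z * c⁻¹) = c * (z * z) * c⁻¹ := by group
        _ = 1 := by rw [hzz]; group
    exact inverts_of_fpf hww N (fp w hw)
  rw [eq_bot_iff]
  intro y hy
  have h1 := inv_conj z (IsConj.refl z) y hy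
  have h2 := inv_conj u huz y hy
  have h3 := inv_conj (z * u) hv y hy
  have hyy : y = y⁻¹ := by
    have e : z * u * y * (z * u)⁻¹ = z * (u * y * u⁻¹) * z⁻¹ := by group
    rw [e, h2] at h3
    have e2 : z * y⁻¹ * z⁻¹ = (z * y * z⁻¹)⁻¹ := by group
    rw [e2, h1, inv_inv] at h3
    exact h3
  have hc : y ∈ Subgroup.centralizer ({z} : Set H) := by
    rw [Subgroup.mem_centralizer_singleton_iff]
    have : z * y * z⁻¹ = y := by rw [h1]; exact hyy.symm
    calc y * z = (z * y * z⁻¹) * z := by rw [this]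
      _ = z * y := by group
  have : y ∈ N ⊓ Subgroup.centralizer ({z} : Set H) := ⟨hy, hc⟩
  rwa [fp z (IsConj.refl z)] at this

end Cfsg.Agent.Lib.Techniques
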