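import Mathlib

/-! Jordan sets of small size: a counting proof of Marggraf's theorem.  A family of `m`-subsets that
is uniform up to level `T` has trace numbers given by binomial coefficients. -/

set_option autoImplicit false

namespace Cfsg.Agent.Lib.Techniques

open Finset

section Design

variable {Ω : Type*} [Fintype Ω] [DecidableEq Ω]

/-- Number of members of the family containing `I` and missing `A`. -/
def jsCount (𝓛 : Finset (Finset Ω)) (I A : Finset Ω) : ℕ :=
  (𝓛.filter (fun L => I ⊆ L ∧ Disjoint L A)).card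

theorem jsCount_split (𝓛 : Finset (Finset Ω)) (I A : Finset Ω) (u : Ω) :
    jsCount 𝓛 I A = jsCount 𝓛 (insert u I) A + jsCount 𝓛 I (insert u A) := by
  unfold jsCount
  rw [← Finset.card_filter_add_card_filter_not (s := 𝓛.filter (fun L => I ⊆ L ∧ Disjoint L A))
    (fun L => u ∈ L)]
  congr 2 <;> ext L <;> simp [Finset.insert_subset_iff, Finset.disjoint_insert_right] <;> tauto

theorem jsCount_sum (𝓛 : Finset (Finset Ω)) (m : ℕ) (hm : ∀ L ∈ 𝓛, L.card = m)
    (I A : Finset Ω) :
    ∑ u ∈ (I ∪ A)ᶜ, jsCount 𝓛 (insert u I) A = (m - I.card) * jsCount 𝓛 I A := by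
  classical
  have h1 : ∀ u, jsCount 𝓛 (insert u I) A =
      ((𝓛.filter (fun L => I ⊆ L ∧ Disjoint L A)).bipartiteAbove (fun u L => u ∈ L) u).card := by
    intro u
    unfold jsCount Finset.bipartiteAbove
    congr 1
    ext L
    simp [Finset.insert_subset_iff]
    tauto
  simp_rw [h1]
  rw [Finset.sum_card_bipartiteAbove_eq_sum_card_bipartiteBelow]
  have h2 : ∀ L ∈ 𝓛.filter (fun L => I ⊆ L ∧ Disjoint L A),
      (((I ∪ A)ᶜ).bipartiteBelow (fun u L => u ∈ L) L).card = m - I.card := by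
    intro L hL
    rw [Finset.mem_filter] at hL
    obtain ⟨hL, hIL, hLA⟩ := hL
    have : ((I ∪ A)ᶜ).bipartiteBelow (fun u L => u ∈ L) L = L \ I := by
      ext u
      simp only [Finset.bipartiteBelow, Finset.mem_filter, Finset.mem_compl, Finset.mem_union,
        Finset.mem_sdiff, not_or]
      constructor
      · rintro ⟨⟨h1, _⟩, h3⟩
        exact ⟨h3, h1⟩
      · rintro ⟨h1, h2⟩
        exact ⟨⟨h2, fun h => (Finset.disjoint_left.mp hLA h1) h⟩, h1⟩
    rw [this, Finset.card_sdiff_of_subset hIL, hm L hL]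
  rw [Finset.sum_congr rfl h2, Finset.sum_const, smul_eq_mul, mul_comm]
  rfl

/-- The counts only depend on the two sizes, up to level `T`. -/
def JsUniform (𝓛 : Finset (Finset Ω)) (T : ℕ) : Prop :=
  ∀ I A I' A' : Finset Ω, Disjoint I A → Disjoint I' A' → I.card = I'.card → A.card = A'.card →
    I.card + A.card ≤ T → jsCount 𝓛 I A = jsCount 𝓛 I' A'

theorem jsCount_formula (𝓛 : Finset (Finset Ω)) (m T : ℕ) (hm : ∀ L ∈ 𝓛, L.card = m)
    (hU : JsUniform 𝓛 T) (hTm : T ≤ m) (hTn : m < Fintype.card Ω) :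
    ∀ w ≤ T, ∀ I A : Finset Ω, Disjoint I A → I.card + A.card = w →
      jsCount 𝓛 I A * (Fintype.card Ω).choose m =
        𝓛.card * (Fintype.card Ω - w).choose (m - I.card) := by
  intro w
  induction w with
  | zero =>
    intro _ I A _ h
    have hI : I = ∅ := Finset.card_eq_zero.mp (by omega)
    have hA : A = ∅ := Finset.card_eq_zero.mp (by omega)
    subst hI hA
    have : jsCount 𝓛 ∅ ∅ = 𝓛.card := by
      unfold jsCount
      congr 1
      ext L
      simp
    simp [this]
  | succ w ih =>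
    intro hw
    have ih' := ih (by omega)
    have first : ∀ I A : Finset Ω, Disjoint I A → I.Nonempty → I.card + A.card = w + 1 →
        jsCount 𝓛 I A * (Fintype.card Ω).choose m =
          𝓛.card * (Fintype.card Ω - (w + 1)).choose (m - I.card) := by
      intro I A hd hne hcard
      obtain ⟨u, hu⟩ := hne
      have hI0 : (I.erase u).card + 1 = I.card := Finset.card_erase_add_one hu
      have hd0 : Disjoint (I.erase u) A :=
        Finset.disjoint_of_subset_left (Finset.erase_subset _ _) hd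
      have h1 := ih' (I.erase u) A hd0 (by omega)
      have h2 := jsCount_sum 𝓛 m hm (I.erase u) A
      have h3 : ∀ u' ∈ (I.erase u ∪ A)ᶜ, jsCount 𝓛 (insert u' (I.erase u)) A = jsCount 𝓛 I A := by
        intro u' hu'
        simp only [Finset.mem_compl, Finset.mem_union, not_or] at hu'
        refine hU _ _ _ _ ?_ hd ?_ rfl ?_
        · rw [Finset.disjoint_insert_left]
          exact ⟨hu'.2, hd0⟩
        · rw [Finset.card_insert_of_notMem hu'.1]
          omega
        · rw [Finset.card_insert_of_notMem hu'.1]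
          omega
      rw [Finset.sum_congr rfl h3, Finset.sum_const, smul_eq_mul] at h2
      have h4 : ((I.erase u ∪ A)ᶜ).card = Fintype.card Ω - w := by
        rw [Finset.card_compl, Finset.card_union_of_disjoint hd0]
        congr 1
        omega
      rw [h4] at h2
      have hpos : 0 < Fintype.card Ω - w := by omega
      obtain ⟨M, hM⟩ : ∃ M, Fintype.card Ω - w = M + 1 := ⟨Fintype.card Ω - w - 1, by omega⟩
      obtain ⟨r, hr⟩ : ∃ r, m - (I.erase u).card = r + 1 :=
        ⟨m - (I.erase u).card - 1, by omega⟩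
      have hM' : Fintype.card Ω - (w + 1) = M := by omega
      have hr' : m - I.card = r := by omega
      rw [hM, hr] at h1
      rw [hM, hr] at h2
      rw [hM', hr']
      have h5 := Nat.add_one_mul_choose_eq M r
      apply Nat.eq_of_mul_eq_mul_left (Nat.succ_pos M)
      calc (M + 1) * (jsCount 𝓛 I A * (Fintype.card Ω).choose m)
          = ((M + 1) * jsCount 𝓛 I A) * (Fintype.card Ω).choose m := by ring
        _ = ((r + 1) * jsCount 𝓛 (I.erase u) A) * (Fintype.card Ω).choose m := by rw [h2]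
        _ = (r + 1) * (jsCount 𝓛 (I.erase u) A * (Fintype.card Ω).choose m) := by ring
        _ = (r + 1) * (𝓛.card * (M + 1).choose (r + 1)) := by rw [h1]
        _ = 𝓛.card * ((M + 1).choose (r + 1) * (r + 1)) := by ring
        _ = 𝓛.card * ((M + 1) * M.choose r) := by
          rw [show (M + 1) * M.choose r = (M + 1).choose (r + 1) * (r + 1) from h5]
        _ = (M + 1) * (𝓛.card * M.choose r) := by ring
    intro I A hd hcard
    by_cases hne : I.Nonempty
    · exact first I A hd hne hcard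
    · have hI : I = ∅ := Finset.not_nonempty_iff_eq_empty.mp hne
      subst hI
      simp only [Finset.card_empty, zero_add] at hcard
      obtain ⟨u, hu⟩ : A.Nonempty := Finset.card_pos.mp (by omega)
      have hA0 : (A.erase u).card + 1 = A.card := Finset.card_erase_add_one hu
      have h1 := ih' ∅ (A.erase u) (Finset.disjoint_empty_left _) (by simp; omega)
      have h2 := first {u} (A.erase u) (by simp) (Finset.singleton_nonempty u) (by simp; omega)
      have h3 := jsCount_split 𝓛 ∅ (A.erase u) u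
      rw [Finset.insert_erase hu, show insert u (∅ : Finset Ω) = {u} by simp] at h3
      simp only [Finset.card_empty, Finset.card_singleton, Nat.sub_zero] at h1 h2 ⊢
      obtain ⟨M, hM⟩ : ∃ M, Fintype.card Ω - w = M + 1 := ⟨Fintype.card Ω - w - 1, by omega⟩
      obtain ⟨r, hr⟩ : ∃ r, m = r + 1 := ⟨m - 1, by omega⟩
      have hM' : Fintype.card Ω - (w + 1) = M := by omega
      rw [hM'] at h2 ⊢
      rw [hM] at h1
      rw [h3] at h1
      have h4 : (M + 1).choose m = M.choose (m - 1) + M.choose m := by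
        rw [hr, Nat.choose_succ_succ]
        simp
      rw [h4] at h1
      nlinarith [h1, h2]

theorem js_choose_lt_succ {M r : ℕ} (h : 2 * r + 1 < M) : M.choose r < M.choose (r + 1) := by
  have h1 := Nat.choose_succ_right_eq M r
  have hpos : 0 < M.choose r := Nat.choose_pos (by omega)
  have h2 : r + 1 < M - r := by omega
  by_contra hcon
  push Not at hcon
  have h3 : M.choose (r + 1) * (r + 1) ≤ M.choose r * (r + 1) := Nat.mul_le_mul_right _ hcon
  have h4 : M.choose r * (r + 1) < M.choose r * (M - r) := Nat.mul_lt_mul_of_pos_left h2 hpos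
  omega

theorem js_choose_lt_aux {M a : ℕ} : ∀ b, a < b → 2 * b ≤ M → M.choose a < M.choose b := by
  intro b
  induction b with
  | zero => intro h; omega
  | succ b ih =>
    intro h1 h2
    rcases Nat.lt_succ_iff_lt_or_eq.mp h1 with h | h
    · exact (ih h (by omega)).trans (js_choose_lt_succ (by omega))
    · subst h
      exact js_choose_lt_succ (by omega)

theorem js_choose_lt {M a b : ℕ} (hab : a < b) (h : a + b < M) : M.choose a < M.choose b := by
  by_cases h2 : 2 * b ≤ M
  · exact js_choose_lt_aux b hab h2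
  · rw [← Nat.choose_symm (show b ≤ M by omega)]
    exact js_choose_lt_aux _ (by omega) (by omega)

/-- The key count: a family uniform up to level `T`, with `m` large and the ground set more than
twice as big as `m`, has a member meeting a given `(T+1)`-set in one prescribed point. -/
theorem jsCount_trace_ne_zero (𝓛 : Finset (Finset Ω)) (m T : ℕ) (hm : ∀ L ∈ 𝓛, L.card = m)
    (hU : JsUniform 𝓛 T) (hT2 : 2 ≤ T) (hTm : T + 1 ≤ m) (hn : 2 * m < Fintype.card Ω)
    (hN : 𝓛.Nonempty) (S : Finset Ω) (hS : S.card = T + 1) (y : Ω) (hy : y ∈ S) :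
    jsCount 𝓛 {y} (S.erase y) ≠ 0 := by
  intro h0
  have hF := jsCount_formula 𝓛 m T hm hU (by omega) (by omega)
  obtain ⟨M, hM⟩ : ∃ M, M = Fintype.card Ω - T - 1 := ⟨_, rfl⟩
  have hM1 : Fintype.card Ω - T = M + 1 := by omega
  obtain ⟨Z, hZ⟩ : ∃ Z, Z = (Fintype.card Ω).choose m := ⟨_, rfl⟩
  obtain ⟨N, hNN⟩ : ∃ N, N = 𝓛.card := ⟨_, rfl⟩
  have hNpos : 0 < N := by rw [hNN]; exact Finset.card_pos.mpr hN
  have main : ∀ j, ∀ J : Finset Ω, J ⊆ S → y ∈ J → J.card = j + 1 →
      ((jsCount 𝓛 J (S \ J) : ℕ) : ℤ) * Z =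
        N * (M.choose (m - (j + 1)) : ℤ) + (-1) ^ (j + 1) * N * (M.choose (m - 1) : ℤ) := by
    intro j
    induction j with
    | zero =>
      intro J _ hyJ hc
      have hJ : J = {y} := by
        obtain ⟨a, ha⟩ := Finset.card_eq_one.mp (by simpa using hc)
        subst ha
        simp only [Finset.mem_singleton] at hyJ
        rw [hyJ]
      subst hJ
      rw [show S \ {y} = S.erase y by ext; simp; tauto, h0]
      simp
    | succ j ih =>
      intro J hJS hyJ hc
      obtain ⟨u, huJ, huy⟩ : ∃ u ∈ J, u ≠ y := by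
        by_contra hcon
        push Not at hcon
        have : J ⊆ {y} := fun a ha => Finset.mem_singleton.mpr (hcon a ha)
        have := Finset.card_le_card this
        simp at this
        omega
      have hJ0 : (J.erase u).card + 1 = J.card := Finset.card_erase_add_one huJ
      have ih0 := ih (J.erase u) ((Finset.erase_subset _ _).trans hJS)
        (Finset.mem_erase.mpr ⟨huy.symm, hyJ⟩) (by omega)
      have hsplit := jsCount_split 𝓛 (J.erase u) (S \ J) u
      rw [Finset.insert_erase huJ] at hsplit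
      have hins : insert u (S \ J) = S \ J.erase u := by
        ext a
        simp only [Finset.mem_insert, Finset.mem_sdiff, Finset.mem_erase]
        constructor
        · rintro (rfl | ⟨h1, h2⟩)
          · exact ⟨hJS huJ, fun h => h.1 rfl⟩
          · exact ⟨h1, fun h => h2 h.2⟩
        · rintro ⟨h1, h2⟩
          by_cases hau : a = u
          · exact Or.inl hau
          · exact Or.inr ⟨h1, fun h => h2 ⟨hau, h⟩⟩
      rw [hins] at hsplit
      have hcardA : (S \ J).card = T + 1 - (j + 2) := by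
        rw [Finset.card_sdiff_of_subset hJS, hS, hc]
      have hjle : j + 2 ≤ T + 1 := by
        have := Finset.card_le_card hJS
        omega
      have hF0 := hF T le_rfl (J.erase u) (S \ J)
        (Finset.disjoint_of_subset_left (Finset.erase_subset _ _) Finset.disjoint_sdiff)
        (by omega)
      rw [hM1, show (J.erase u).card = j + 1 by omega, ← hZ, ← hNN] at hF0
      obtain ⟨r, hr⟩ : ∃ r, m - (j + 1) = r + 1 := ⟨m - (j + 1) - 1, by omega⟩
      have hr2 : m - (j + 1 + 1) = r := by omega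
      rw [hr, Nat.choose_succ_succ] at hF0
      rw [hr] at ih0
      rw [hr2]
      rw [hsplit] at hF0
      have hF1 : ((jsCount 𝓛 J (S \ J) : ℕ) : ℤ) * Z + ((jsCount 𝓛 (J.erase u) (S \ J.erase u) : ℕ) : ℤ) * Z
          = N * ((M.choose r : ℤ) + (M.choose (r + 1) : ℤ)) := by
        have : ((jsCount 𝓛 J (S \ J) + jsCount 𝓛 (J.erase u) (S \ J.erase u)) * Z : ℤ) =
            ((N * (M.choose r + M.choose (r + 1)) : ℕ) : ℤ) := by
          exact_mod_cast hF0
        push_cast at this
        linarith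
      rw [ih0] at hF1
      have hpow : (-1 : ℤ) ^ (j + 1 + 1) = - (-1 : ℤ) ^ (j + 1) := by
        rw [pow_succ (-1 : ℤ) (j + 1)]
        ring
      rw [hpow]
      linarith
  -- an odd size between `T` and `T + 1`
  obtain ⟨j, hj1, hj2, hj3⟩ : ∃ j, T ≤ j + 1 ∧ j + 1 ≤ T + 1 ∧ Odd (j + 1) := by
    rcases Nat.even_or_odd T with h | h
    · exact ⟨T, by omega, by omega, h.add_one⟩
    · exact ⟨T - 1, by omega, by omega, by rwa [Nat.sub_add_cancel (by omega)]⟩
  obtain ⟨J, hyJ, hJS, hJc⟩ := Finset.exists_subsuperset_card_eq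
    (s := {y}) (t := S) (n := j + 1) (by simpa using hy) (by simp) (by omega)
  have h1 := main j J hJS (hyJ (Finset.mem_singleton_self y)) hJc
  rw [hj3.neg_one_pow] at h1
  have h2 : M.choose (m - (j + 1)) < M.choose (m - 1) := by
    apply js_choose_lt
    · have : 1 < j + 1 := by
        rcases hj3 with ⟨k, hk⟩
        omega
      omega
    · omega
  have h3 : (0 : ℤ) ≤ ((jsCount 𝓛 J (S \ J) : ℕ) : ℤ) * Z := by positivity
  rw [h1] at h3
  have h4 : (M.choose (m - (j + 1)) : ℤ) < (M.choose (m - 1) : ℤ) := by exact_mod_cast h2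
  have h5 : (0 : ℤ) < N := by exact_mod_cast hNpos
  nlinarith

end Design

section Action

open scoped Pointwise

variable (G : Type*) {Ω : Type*} [Group G] [MulAction G Ω] [Fintype Ω] [DecidableEq Ω]

/-- The pointwise stabilizer of the complement of `L` is transitive on `L`. -/
def JsJordan (L : Finset Ω) : Prop :=
  ∀ a ∈ L, ∀ b ∈ L, ∃ g : G, (∀ x, x ∉ L → g • x = x) ∧ g • a = b

/-- The pointwise stabilizer of `X` is transitive on the complement of `X`. -/
def JsTrans (X : Finset Ω) : Prop :=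
  ∀ a, a ∉ X → ∀ b, b ∉ X → ∃ g : G, (∀ x ∈ X, g • x = x) ∧ g • a = b

/-- The pointwise stabilizer of `X` has no nontrivial block on the complement of `X`. -/
def JsPrim (X : Finset Ω) : Prop :=
  ∀ B : Finset Ω, Disjoint B X → B.Nonempty →
    (∀ g : G, (∀ x ∈ X, g • x = x) → g • B = B ∨ Disjoint (g • B) B) → B.card = 1 ∨ B = Xᶜ

/-- `t`-fold transitivity, in stabilizer form. -/
def JsMT (Ω : Type*) [MulAction G Ω] [Fintype Ω] [DecidableEq Ω] (t : ℕ) : Prop := ∀ X : Finset Ω, X.card < t → JsTrans G X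

variable {G}

theorem JsJordan.smul {L : Finset Ω} (h : JsJordan G L) (g : G) : JsJordan G (g • L) := by
  intro a ha b hb
  rw [← Finset.inv_smul_mem_iff] at ha hb
  obtain ⟨k, hk1, hk2⟩ := h _ ha _ hb
  refine ⟨g * k * g⁻¹, fun x hx => ?_, ?_⟩
  · have : g⁻¹ • x ∉ L := fun h' => hx (Finset.inv_smul_mem_iff.mp h')
    rw [mul_smul, mul_smul, hk1 _ this, smul_inv_smul]
  · rw [mul_smul, mul_smul, hk2, smul_inv_smul]

theorem JsJordan.union {L M : Finset Ω} (hL : JsJordan G L) (hM : JsJordan G M)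
    (hne : (L ∩ M).Nonempty) : JsJordan G (L ∪ M) := by
  obtain ⟨c, hc⟩ := hne
  rw [Finset.mem_inter] at hc
  have key : ∀ a ∈ L ∪ M, ∃ g : G, (∀ x, x ∉ L ∪ M → g • x = x) ∧ g • a = c := by
    intro a ha
    rcases Finset.mem_union.mp ha with ha | ha
    · obtain ⟨g, h1, h2⟩ := hL a ha c hc.1
      exact ⟨g, fun x hx => h1 x (fun h => hx (Finset.mem_union_left _ h)), h2⟩
    · obtain ⟨g, h1, h2⟩ := hM a ha c hc.2
      exact ⟨g, fun x hx => h1 x (fun h => hx (Finset.mem_union_right _ h)), h2⟩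
  intro a ha b hb
  obtain ⟨g₁, h1, h2⟩ := key a ha
  obtain ⟨g₂, h3, h4⟩ := key b hb
  refine ⟨g₂⁻¹ * g₁, fun x hx => ?_, ?_⟩
  · rw [mul_smul, h1 x hx, inv_smul_eq_iff, h3 x hx]
  · rw [mul_smul, h2, inv_smul_eq_iff, h4]

theorem js_smul_mem_iff {X : Finset Ω} {g : G} (hg : ∀ x ∈ X, g • x = x) (p : Ω) :
    g • p ∈ X ↔ p ∈ X := by
  constructor
  · intro h
    have h1 : g • p = p := MulAction.injective g (hg _ h)
    rwa [h1] at h
  · intro h
    rwa [hg p h]

theorem js_inv_fix {X : Finset Ω} {g : G} (hg : ∀ x ∈ X, g • x = x) : ∀ x ∈ X, g⁻¹ • x = x := by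
  intro x hx
  rw [inv_smul_eq_iff, hg x hx]

theorem JsTrans.smul {X : Finset Ω} (h : JsTrans G X) (g : G) : JsTrans G (g • X) := by
  intro a ha b hb
  rw [← Finset.inv_smul_mem_iff] at ha hb
  obtain ⟨k, hk1, hk2⟩ := h _ ha _ hb
  refine ⟨g * k * g⁻¹, fun x hx => ?_, ?_⟩
  · rw [← Finset.inv_smul_mem_iff] at hx
    rw [mul_smul, mul_smul, hk1 _ hx, smul_inv_smul]
  · rw [mul_smul, mul_smul, hk2, smul_inv_smul]

/-- A maximal proper Jordan set inside the complement of `X` misses one point only; hence the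
pointwise stabilizer of `X` is doubly transitive on the complement. -/
theorem js_trans_insert {X Λ₀ : Finset Ω} (hT : JsTrans G X) (hP : JsPrim G X)
    (hJ : JsJordan G Λ₀) (hd : Disjoint Λ₀ X) (h2 : 2 ≤ Λ₀.card) (hne : Λ₀ ≠ Xᶜ) :
    ∀ x, x ∉ X → JsTrans G (insert x X) := by
  classical
  obtain ⟨Λ, hΛ, hmax⟩ := Finset.exists_max_image
    (Finset.univ.filter (fun Λ : Finset Ω => JsJordan G Λ ∧ Λ₀ ⊆ Λ ∧ Disjoint Λ X ∧ Λ ≠ Xᶜ))
    Finset.card ⟨Λ₀, by simp [hJ, hd, hne]⟩
  rw [Finset.mem_filter] at hΛ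
  obtain ⟨-, hJΛ, hsub, hdΛ, hneΛ⟩ := hΛ
  have hΛ2 : 2 ≤ Λ.card := h2.trans (Finset.card_le_card hsub)
  obtain ⟨Θ, hΘ⟩ : ∃ Θ, Θ = Xᶜ \ Λ := ⟨_, rfl⟩
  have memΘ : ∀ p, p ∈ Θ ↔ p ∉ X ∧ p ∉ Λ := by
    intro p
    simp [hΘ]
  have hΛX : ∀ p ∈ Λ, p ∉ X := fun p hp => Finset.disjoint_left.mp hdΛ hp
  have hΘne : Θ.Nonempty := by
    by_contra hcon
    rw [Finset.not_nonempty_iff_eq_empty] at hcon
    apply hneΛ
    ext p
    simp only [Finset.mem_compl]
    constructor
    · exact hΛX p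
    · intro hp
      by_contra hp'
      have := (memΘ p).mpr ⟨hp, hp'⟩
      simp [hcon] at this
  have hmvΛ : ∀ g : G, (∀ x ∈ X, g • x = x) → ∀ p ∈ g • Λ, p ∉ X := by
    intro g hg p hp hpX
    obtain ⟨q, hq, rfl⟩ := Finset.mem_smul_finset.mp hp
    exact hΛX q hq ((js_smul_mem_iff hg q).mp hpX)
  have hmvΘ : ∀ g : G, (∀ x ∈ X, g • x = x) → ∀ p ∈ g • Θ, p ∉ X := by
    intro g hg p hp hpX
    obtain ⟨q, hq, rfl⟩ := Finset.mem_smul_finset.mp hp
    exact ((memΘ q).mp hq).1 ((js_smul_mem_iff hg q).mp hpX)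
  have key : ∀ g : G, (∀ x ∈ X, g • x = x) →
      g • Λ = Λ ∨ Disjoint (g • Λ) Λ ∨ Disjoint (g • Θ) Θ := by
    intro g hg
    by_cases hdis : Disjoint (g • Λ) Λ
    · exact Or.inr (Or.inl hdis)
    · have hne' : ((g • Λ) ∩ Λ).Nonempty := Finset.not_disjoint_iff_nonempty_inter.mp hdis
      have hU : JsJordan G (g • Λ ∪ Λ) := (hJΛ.smul g).union hJΛ hne'
      have hUd : Disjoint (g • Λ ∪ Λ) X := by
        rw [Finset.disjoint_union_left]
        refine ⟨?_, hdΛ⟩
        rw [Finset.disjoint_left]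
        exact hmvΛ g hg
      by_cases hUe : g • Λ ∪ Λ = Xᶜ
      · right; right
        rw [Finset.disjoint_left]
        intro p hp hp'
        obtain ⟨q, hq, rfl⟩ := Finset.mem_smul_finset.mp hp
        have hq' := (memΘ q).mp hq
        have hp'' := (memΘ _).mp hp'
        have : g • q ∈ g • Λ ∪ Λ := by
          rw [hUe]
          simpa using hp''.1
        rcases Finset.mem_union.mp this with h | h
        · exact hq'.2 ((Finset.smul_mem_smul_finset_iff g).mp h)
        · exact hp''.2 h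
      · left
        have hmem : g • Λ ∪ Λ ∈ Finset.univ.filter
            (fun Λ : Finset Ω => JsJordan G Λ ∧ Λ₀ ⊆ Λ ∧ Disjoint Λ X ∧ Λ ≠ Xᶜ) := by
          rw [Finset.mem_filter]
          exact ⟨Finset.mem_univ _, hU, hsub.trans Finset.subset_union_right, hUd, hUe⟩
        have hle := hmax _ hmem
        have hEq : Λ = g • Λ ∪ Λ :=
          Finset.eq_of_subset_of_card_le Finset.subset_union_right hle
        refine Finset.eq_of_subset_of_card_le ?_ (by rw [Finset.card_smul_finset])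
        intro p hp
        rw [hEq]
        exact Finset.mem_union_left _ hp
  have hΘsingle : Θ.card = 1 := by
    by_cases hle : Λ.card ≤ Θ.card
    · exfalso
      have hblock := hP Λ hdΛ (Finset.card_pos.mp (by omega)) (by
        intro g hg
        rcases key g hg with h | h | h
        · exact Or.inl h
        · exact Or.inr h
        · right
          have hsub' : g • Θ ⊆ Λ := by
            intro p hp
            by_contra hp'
            have : p ∈ Θ := (memΘ p).mpr ⟨hmvΘ g hg p hp, hp'⟩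
            exact Finset.disjoint_left.mp h hp this
          have heq : g • Θ = Λ := Finset.eq_of_subset_of_card_le hsub'
            (by rw [Finset.card_smul_finset]; exact hle)
          rw [Finset.disjoint_left]
          intro p hp hp'
          rw [← heq] at hp'
          obtain ⟨q, hq, rfl⟩ := Finset.mem_smul_finset.mp hp
          have := (Finset.smul_mem_smul_finset_iff g).mp hp'
          exact ((memΘ q).mp this).2 hq)
      rcases hblock with h | h
      · omega
      · exact hneΛ h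
    · push Not at hle
      have hblock := hP Θ (by
        rw [Finset.disjoint_left]
        exact fun p hp => ((memΘ p).mp hp).1) hΘne (by
        intro g hg
        rcases key g hg with h | h | h
        · left
          refine Finset.eq_of_subset_of_card_le ?_ (by rw [Finset.card_smul_finset])
          intro p hp
          obtain ⟨q, hq, rfl⟩ := Finset.mem_smul_finset.mp hp
          have hq' := (memΘ q).mp hq
          refine (memΘ _).mpr ⟨fun h' => hq'.1 ((js_smul_mem_iff hg q).mp h'), fun h' => ?_⟩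
          rw [← h] at h'
          exact hq'.2 ((Finset.smul_mem_smul_finset_iff g).mp h')
        · exfalso
          have hsub' : g • Λ ⊆ Θ := by
            intro p hp
            exact (memΘ p).mpr ⟨hmvΛ g hg p hp, fun h' => Finset.disjoint_left.mp h hp h'⟩
          have := Finset.card_le_card hsub'
          rw [Finset.card_smul_finset] at this
          omega
        · exact Or.inr h)
      rcases hblock with h | h
      · exact h
      · exfalso
        obtain ⟨p, hp⟩ : Λ.Nonempty := Finset.card_pos.mp (by omega)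
        have : p ∈ Θ := by
          rw [h]
          simpa using hΛX p hp
        exact ((memΘ p).mp this).2 hp
  obtain ⟨y, hy⟩ := Finset.card_eq_one.mp hΘsingle
  have hyΘ : y ∈ Θ := by simp [hy]
  have hy' := (memΘ y).mp hyΘ
  have hcompl : ∀ a, a ∉ insert y X → a ∈ Λ := by
    intro a ha
    rw [Finset.mem_insert, not_or] at ha
    by_contra hcon
    have : a ∈ Θ := (memΘ a).mpr ⟨ha.2, hcon⟩
    rw [hy, Finset.mem_singleton] at this
    exact ha.1 this
  have hTy : JsTrans G (insert y X) := by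
    intro a ha b hb
    obtain ⟨k, hk1, hk2⟩ := hJΛ a (hcompl a ha) b (hcompl b hb)
    refine ⟨k, fun x hx => hk1 x ?_, hk2⟩
    rcases Finset.mem_insert.mp hx with rfl | hx
    · exact hy'.2
    · exact fun h => hΛX x h hx
  intro x hx
  obtain ⟨g, hg1, hg2⟩ := hT y hy'.1 x hx
  intro a ha b hb
  have hmv : ∀ c, c ∉ insert x X → g⁻¹ • c ∉ insert y X := by
    intro c hc hc'
    rw [Finset.mem_insert, not_or] at hc
    rcases Finset.mem_insert.mp hc' with h | h
    · apply hc.1
      rw [inv_smul_eq_iff] at h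
      rw [h, hg2]
    · exact hc.2 ((js_smul_mem_iff (js_inv_fix hg1) c).mp h)
  obtain ⟨k, hk1, hk2⟩ := hTy _ (hmv a ha) _ (hmv b hb)
  refine ⟨g * k * g⁻¹, fun z hz => ?_, ?_⟩
  · rcases Finset.mem_insert.mp hz with rfl | hz
    · have h1 : g⁻¹ • z = y := by
        rw [inv_smul_eq_iff, hg2]
      rw [mul_smul, mul_smul, h1, hk1 y (Finset.mem_insert_self _ _), hg2]
    · rw [mul_smul, mul_smul, js_inv_fix hg1 z hz, hk1 z (Finset.mem_insert_of_mem hz), hg1 z hz]
  · rw [mul_smul, mul_smul, hk2, smul_inv_smul]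

theorem js_move {t : ℕ} (h : JsMT G Ω t) : ∀ (Y : Finset Ω) (φ : Ω → Ω), Set.InjOn φ Y →
    Y.card ≤ t → ∃ g : G, ∀ y ∈ Y, g • y = φ y := by
  intro Y
  induction Y using Finset.induction_on with
  | empty => intro φ _ _; exact ⟨1, by simp⟩
  | insert y Y₀ hy ih =>
    intro φ hφ hc
    rw [Finset.card_insert_of_notMem hy] at hc
    obtain ⟨g₀, hg₀⟩ := ih φ (hφ.mono (by simp)) (by omega)
    have hX : (Y₀.image φ).card < t := lt_of_le_of_lt Finset.card_image_le (by omega)
    have h1 : g₀ • y ∉ Y₀.image φ := by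
      intro hmem
      obtain ⟨y', hy', he⟩ := Finset.mem_image.mp hmem
      rw [← hg₀ y' hy'] at he
      exact hy ((MulAction.injective g₀ he) ▸ hy')
    have h2 : φ y ∉ Y₀.image φ := by
      intro hmem
      obtain ⟨y', hy', he⟩ := Finset.mem_image.mp hmem
      have := hφ (by simp [hy']) (by simp) he
      exact hy (this ▸ hy')
    obtain ⟨g₁, hg₁, hg₁'⟩ := h _ hX _ h1 _ h2
    refine ⟨g₁ * g₀, fun z hz => ?_⟩
    rcases Finset.mem_coe.mp hz |> Finset.mem_insert.mp with rfl | hz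
    · rw [mul_smul, hg₁']
    · rw [mul_smul, hg₀ z hz, hg₁ _ (Finset.mem_image_of_mem _ hz)]

theorem js_move_pair {T : ℕ} (h : JsMT G Ω T) {I A I' A' : Finset Ω} (hd : Disjoint I A)
    (hd' : Disjoint I' A') (h1 : I.card = I'.card) (h2 : A.card = A'.card)
    (hT : I.card + A.card ≤ T) : ∃ g : G, g • I = I' ∧ g • A = A' := by
  classical
  let e₁ := Finset.equivOfCardEq h1
  let e₂ := Finset.equivOfCardEq h2
  let φ : Ω → Ω := fun p => if hp : p ∈ I then (e₁ ⟨p, hp⟩ : Ω) else
    if hp' : p ∈ A then (e₂ ⟨p, hp'⟩ : Ω) else p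
  have hφI : ∀ p (hp : p ∈ I), φ p = e₁ ⟨p, hp⟩ := by
    intro p hp
    simp [φ, hp]
  have hφA : ∀ p (hp : p ∈ A), φ p = e₂ ⟨p, hp⟩ := by
    intro p hp
    have : p ∉ I := fun h' => Finset.disjoint_left.mp hd h' hp
    simp [φ, hp, this]
  have hinj : Set.InjOn φ (↑(I ∪ A) : Set Ω) := by
    intro p hp q hq hpq
    rcases Finset.mem_union.mp (Finset.mem_coe.mp hp) with hp | hp <;>
    rcases Finset.mem_union.mp (Finset.mem_coe.mp hq) with hq | hq
    · rw [hφI p hp, hφI q hq] at hpq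
      simpa using e₁.injective (Subtype.ext hpq)
    · rw [hφI p hp, hφA q hq] at hpq
      exact absurd ((e₂ ⟨q, hq⟩).2) (hpq ▸ Finset.disjoint_left.mp hd' (e₁ ⟨p, hp⟩).2)
    · rw [hφA p hp, hφI q hq] at hpq
      exact absurd ((e₂ ⟨p, hp⟩).2) (hpq.symm ▸ Finset.disjoint_left.mp hd' (e₁ ⟨q, hq⟩).2)
    · rw [hφA p hp, hφA q hq] at hpq
      simpa using e₂.injective (Subtype.ext hpq)
  obtain ⟨g, hg⟩ := js_move h (I ∪ A) φ hinj
    (by rw [Finset.card_union_of_disjoint hd]; exact hT)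
  refine ⟨g, ?_, ?_⟩
  · refine Finset.eq_of_subset_of_card_le ?_ (by rw [Finset.card_smul_finset, h1])
    intro p hp
    obtain ⟨q, hq, rfl⟩ := Finset.mem_smul_finset.mp hp
    rw [hg q (Finset.mem_union_left _ hq), hφI q hq]
    exact (e₁ ⟨q, hq⟩).2
  · refine Finset.eq_of_subset_of_card_le ?_ (by rw [Finset.card_smul_finset, h2])
    intro p hp
    obtain ⟨q, hq, rfl⟩ := Finset.mem_smul_finset.mp hp
    rw [hg q (Finset.mem_union_right _ hq), hφA q hq]
    exact (e₂ ⟨q, hq⟩).2

theorem jsCount_smul {𝓛 : Finset (Finset Ω)} (hinv : ∀ (g : G), ∀ L ∈ 𝓛, g • L ∈ 𝓛) (g : G)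
    (I A : Finset Ω) : jsCount 𝓛 (g • I) (g • A) = jsCount 𝓛 I A := by
  have hiff : ∀ (k : G) (L I A : Finset Ω), (I ⊆ L ∧ Disjoint L A) →
      (k • I ⊆ k • L ∧ Disjoint (k • L) (k • A)) := by
    intro k L I A h
    refine ⟨Finset.smul_finset_subset_smul_finset h.1, ?_⟩
    rw [Finset.disjoint_left]
    intro p hp hp'
    obtain ⟨q, hq, rfl⟩ := Finset.mem_smul_finset.mp hp
    exact Finset.disjoint_left.mp h.2 hq ((Finset.smul_mem_smul_finset_iff k).mp hp')
  unfold jsCount
  refine Finset.card_bij' (fun L _ => g⁻¹ • L) (fun L _ => g • L) ?_ ?_ ?_ ?_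
  · intro L hL
    rw [Finset.mem_filter] at hL ⊢
    refine ⟨hinv _ _ hL.1, ?_⟩
    have := hiff g⁻¹ L (g • I) (g • A) hL.2
    simpa using this
  · intro L hL
    rw [Finset.mem_filter] at hL ⊢
    exact ⟨hinv _ _ hL.1, hiff g L I A hL.2⟩
  · intro L _
    simp
  · intro L _
    simp

theorem js_uniform {T : ℕ} (h : JsMT G Ω T) {𝓛 : Finset (Finset Ω)}
    (hinv : ∀ (g : G), ∀ L ∈ 𝓛, g • L ∈ 𝓛) : JsUniform 𝓛 T := by
  intro I A I' A' hd hd' h1 h2 hT
  obtain ⟨g, hg1, hg2⟩ := js_move_pair h hd hd' h1 h2 hT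
  rw [← hg1, ← hg2, jsCount_smul hinv]

/-- Once `G` is `(t+1)`-fold transitive, the pointwise stabilizer of a `t`-set outside `Γ` has no
nontrivial block.  The blocks are excluded by comparing numbers of translates of `Γ`. -/
theorem js_prim_of_mt {𝓛 : Finset (Finset Ω)} {m t : ℕ} (hm : ∀ L ∈ 𝓛, L.card = m)
    (hinv : ∀ (g : G), ∀ L ∈ 𝓛, g • L ∈ 𝓛) (hJ : ∀ L ∈ 𝓛, JsJordan G L) {Γ : Finset Ω}
    (hΓ : Γ ∈ 𝓛) (hn : 2 * m < Fintype.card Ω) (ht1 : 1 ≤ t) (htm : t + 2 ≤ m)
    (hMT : JsMT G Ω (t + 1)) {X : Finset Ω} (hX : X.card = t) (hXΓ : Disjoint X Γ) :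
    JsPrim G X := by
  classical
  intro B hBX hBne hB
  by_contra hcon
  push Not at hcon
  obtain ⟨hB1, hB2⟩ := hcon
  have hU : JsUniform 𝓛 (t + 1) := js_uniform hMT hinv
  have hTX : JsTrans G X := hMT X (by omega)
  have hBX' : ∀ p ∈ B, p ∉ X := fun p hp => Finset.disjoint_left.mp hBX hp
  -- translates of `B` are equal or disjoint
  have htr : ∀ g₁ g₂ : G, (∀ x ∈ X, g₁ • x = x) → (∀ x ∈ X, g₂ • x = x) → ∀ p,
      p ∈ g₁ • B → p ∈ g₂ • B → g₁ • B = g₂ • B := by
    intro g₁ g₂ h1 h2 p hp1 hp2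
    have hfix : ∀ x ∈ X, (g₁⁻¹ * g₂) • x = x := by
      intro x hx
      rw [mul_smul, h2 x hx, js_inv_fix h1 x hx]
    rcases hB _ hfix with h | h
    · rw [mul_smul, inv_smul_eq_iff] at h
      exact h.symm
    · exfalso
      rw [Finset.disjoint_left] at h
      refine h (a := g₁⁻¹ • p) ?_ ?_
      · rw [mul_smul]
        exact (Finset.smul_mem_smul_finset_iff g₁⁻¹).mpr hp2
      · exact Finset.inv_smul_mem_iff.mpr hp1
  -- a translate meeting a Jordan set outside `X`
  have dich : ∀ L ∈ 𝓛, Disjoint L X → ∀ k : G, (∀ x ∈ X, k • x = x) → ∀ p ∈ L, p ∈ k • B →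
      ¬ (k • B ⊆ L) → L ⊆ k • B := by
    intro L hL hLX k hk p hpL hpB hnot r hr
    obtain ⟨q, hqB, hqL⟩ := Finset.not_subset.mp hnot
    obtain ⟨h, hh1, hh2⟩ := hJ L hL p hpL r hr
    have hfix : ∀ x ∈ X, h • x = x :=
      fun x hx => hh1 x (fun h' => Finset.disjoint_left.mp hLX h' hx)
    have hfix' : ∀ x ∈ X, (h * k) • x = x := by
      intro x hx
      rw [mul_smul, hk x hx, hfix x hx]
    have heq : (h * k) • B = k • B := by
      refine htr _ _ hfix' hk q ?_ hqB
      rw [mul_smul, ← hh1 q hqL]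
      exact (Finset.smul_mem_smul_finset_iff h).mpr hqB
    rw [← hh2, ← heq, mul_smul]
    exact (Finset.smul_mem_smul_finset_iff h).mpr hpB
  have hone : ∀ x ∈ X, (1 : G) • x = x := fun x _ => one_smul _ x
  have hB1' : 1 < B.card := by
    have : 0 < B.card := Finset.card_pos.mpr hBne
    omega
  by_cases hbm : B.card < m
  · -- the blocks are smaller than the Jordan sets
    obtain ⟨y, hy, z, hz, hyz⟩ := Finset.one_lt_card.mp hB1'
    have hyX := hBX' y hy
    have hzX := hBX' z hz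
    have hSc : (insert z (insert y X)).card = t + 1 + 1 := by
      rw [Finset.card_insert_of_notMem, Finset.card_insert_of_notMem hyX, hX]
      rw [Finset.mem_insert, not_or]
      exact ⟨hyz.symm, hzX⟩
    have hne0 := jsCount_trace_ne_zero 𝓛 m (t + 1) hm hU (by omega) (by omega) hn
      ⟨Γ, hΓ⟩ (insert z (insert y X)) hSc y (by simp)
    unfold jsCount at hne0
    obtain ⟨L, hL⟩ := Finset.card_pos.mp (Nat.pos_of_ne_zero hne0)
    rw [Finset.mem_filter] at hL
    obtain ⟨hL𝓛, hyL, hLd⟩ := hL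
    have hyL' : y ∈ L := hyL (Finset.mem_singleton_self y)
    have hLX : Disjoint L X := by
      refine Finset.disjoint_of_subset_right ?_ hLd
      intro x hx
      refine Finset.mem_erase.mpr ⟨fun h => hyX (h ▸ hx), ?_⟩
      simp [hx]
    have hzL : z ∉ L := fun h => Finset.disjoint_left.mp hLd h
      (Finset.mem_erase.mpr ⟨hyz.symm, by simp⟩)
    have hy1 : y ∈ (1 : G) • B := by simpa using hy
    by_cases hsub : (1 : G) • B ⊆ L
    · exact hzL (hsub (by simpa using hz))
    · have := dich L hL𝓛 hLX 1 hone y hyL' hy1 hsub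
      have := Finset.card_le_card this
      rw [Finset.card_smul_finset, hm L hL𝓛] at this
      omega
  · -- the blocks contain the Jordan sets that they meet
    push Not at hbm
    have hinside : ∀ L ∈ 𝓛, Disjoint L X → ∀ k : G, (∀ x ∈ X, k • x = x) → ∀ p ∈ L, p ∈ k • B →
        L ⊆ k • B := by
      intro L hL hLX k hk p hpL hpB
      by_cases hsub : k • B ⊆ L
      · have : k • B = L := Finset.eq_of_subset_of_card_le hsub (by
          rw [hm L hL, Finset.card_smul_finset]
          exact hbm)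
        rw [this]
      · exact dich L hL hLX k hk p hpL hpB hsub
    obtain ⟨rel, hrel⟩ : ∃ rel : Ω → Ω → Prop, rel = fun a b =>
      ∃ k : G, (∀ x ∈ X, k • x = x) ∧ a ∈ k • B ∧ b ∈ k • B := ⟨_, rfl⟩
    have hcover : ∀ a, a ∉ X → rel a a := by
      intro a ha
      obtain ⟨p, hp⟩ := hBne
      obtain ⟨k, hk1, hk2⟩ := hTX p (hBX' p hp) a ha
      rw [hrel]
      have : a ∈ k • B := by
        rw [← hk2]
        exact (Finset.smul_mem_smul_finset_iff k).mpr hp
      exact ⟨k, hk1, this, this⟩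
    have hreltrans : ∀ a b c, rel a c → rel b c → rel a b := by
      intro a b c h1 h2
      rw [hrel] at h1 h2 ⊢
      obtain ⟨k₁, hk₁, ha, hc⟩ := h1
      obtain ⟨k₂, hk₂, hb, hc'⟩ := h2
      refine ⟨k₁, hk₁, ha, ?_⟩
      rw [htr k₁ k₂ hk₁ hk₂ c hc hc']
      exact hb
    obtain ⟨x, hx⟩ : X.Nonempty := Finset.card_pos.mp (by omega)
    have hX0c : (X.erase x).card + 1 = X.card := Finset.card_erase_add_one hx
    obtain ⟨X₀, hX₀⟩ : ∃ X₀, X₀ = X.erase x := ⟨_, rfl⟩
    have hX0 : X₀.card + 1 = t := by rw [hX₀]; omega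
    have hxX0 : x ∉ X₀ := by rw [hX₀]; simp
    have hX0X : ∀ a, a ∉ X → a ∉ X₀ := fun a ha h => ha (by
      rw [hX₀] at h
      exact Finset.mem_of_mem_erase h)
    have hXeq : ∀ a, a ∈ X ↔ a = x ∨ a ∈ X₀ := by
      intro a
      rw [hX₀, Finset.mem_erase]
      constructor
      · intro h
        by_cases hax : a = x
        · exact Or.inl hax
        · exact Or.inr ⟨hax, h⟩
      · rintro (rfl | h)
        · exact hx
        · exact h.2
    obtain ⟨p, q, hp, hq, hpq⟩ : ∃ p q, p ∈ Γ ∧ q ∈ Γ ∧ p ≠ q := by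
      have : 1 < Γ.card := by
        rw [hm Γ hΓ]
        omega
      obtain ⟨p, hp, q, hq, hpq⟩ := Finset.one_lt_card.mp this
      exact ⟨p, q, hp, hq, hpq⟩
    have hpairc : ({p, q} : Finset Ω).card = 2 := Finset.card_pair hpq
    have hΓX0 : Disjoint Γ X₀ := by
      rw [Finset.disjoint_left]
      intro a ha ha'
      exact Finset.disjoint_right.mp hXΓ ha ((hXeq a).mpr (Or.inr ha'))
    have hpair : ∀ a b, a ≠ b → a ∉ X₀ → b ∉ X₀ → jsCount 𝓛 {a, b} X₀ = jsCount 𝓛 {p, q} X₀ := by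
      intro a b hab ha hb
      refine hU _ _ _ _ ?_ ?_ ?_ rfl ?_
      · rw [Finset.disjoint_left]
        intro c hc
        rcases Finset.mem_insert.mp hc with rfl | hc
        · exact ha
        · rw [Finset.mem_singleton] at hc
          rwa [hc]
      · rw [Finset.disjoint_left]
        intro c hc
        exact Finset.disjoint_left.mp hΓX0 (by
          rcases Finset.mem_insert.mp hc with rfl | hc
          · exact hp
          · rw [Finset.mem_singleton] at hc
            rwa [hc])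
      · rw [Finset.card_pair hab, hpairc]
      · rw [Finset.card_pair hab]
        omega
    have hpos : 0 < jsCount 𝓛 {p, q} X₀ := by
      unfold jsCount
      refine Finset.card_pos.mpr ⟨Γ, Finset.mem_filter.mpr ⟨hΓ, ?_, hΓX0⟩⟩
      intro c hc
      rcases Finset.mem_insert.mp hc with rfl | hc
      · exact hp
      · rw [Finset.mem_singleton] at hc
        rwa [hc]
    -- the members through a pair in different blocks
    let F : Ω → Ω → Finset (Finset Ω) := fun a b =>
      𝓛.filter (fun L => ({a, b} : Finset Ω) ⊆ L ∧ Disjoint L X₀)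
    have hFc : ∀ a b, a ≠ b → a ∉ X₀ → b ∉ X₀ → (F a b).card = jsCount 𝓛 {p, q} X₀ :=
      fun a b hab ha hb => hpair a b hab ha hb
    have hFmem : ∀ a b L, L ∈ F a b ↔ L ∈ 𝓛 ∧ a ∈ L ∧ b ∈ L ∧ Disjoint L X₀ := by
      intro a b L
      simp [F, Finset.insert_subset_iff, and_assoc]
    have eqF : ∀ a b, a ∉ X → b ∉ X → ¬ rel a b → F a b = F a x ∧ F a b = F b x := by
      intro a b ha hb hab
      have hab' : a ≠ b := by
        rintro rfl
        exact hab (hcover a ha)
      have hax : a ≠ x := fun h => ha (h ▸ hx)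
      have hbx : b ≠ x := fun h => hb (h ▸ hx)
      have hsub : ∀ L ∈ F a b, x ∈ L := by
        intro L hL
        obtain ⟨h𝓛, haL, hbL, hd⟩ := (hFmem a b L).mp hL
        by_contra hxL
        have hLX : Disjoint L X := by
          rw [Finset.disjoint_left]
          intro c hc hcX
          rcases (hXeq c).mp hcX with rfl | hc'
          · exact hxL hc
          · exact Finset.disjoint_left.mp hd hc hc'
        obtain ⟨p', hp'⟩ := hBne
        obtain ⟨k, hk1, hk2⟩ := hTX p' (hBX' p' hp') a ha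
        have haB : a ∈ k • B := by
          rw [← hk2]
          exact (Finset.smul_mem_smul_finset_iff k).mpr hp'
        have := hinside L h𝓛 hLX k hk1 a haL haB
        apply hab
        rw [hrel]
        exact ⟨k, hk1, haB, this hbL⟩
      constructor
      · refine Finset.eq_of_subset_of_card_le ?_ ?_
        · intro L hL
          obtain ⟨h𝓛, haL, hbL, hd⟩ := (hFmem a b L).mp hL
          exact (hFmem a x L).mpr ⟨h𝓛, haL, hsub L hL, hd⟩
        · rw [hFc a x hax (hX0X a ha) hxX0, hFc a b hab' (hX0X a ha) (hX0X b hb)]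
      · refine Finset.eq_of_subset_of_card_le ?_ ?_
        · intro L hL
          obtain ⟨h𝓛, haL, hbL, hd⟩ := (hFmem a b L).mp hL
          exact (hFmem b x L).mpr ⟨h𝓛, hbL, hsub L hL, hd⟩
        · rw [hFc b x hbx (hX0X b hb) hxX0, hFc a b hab' (hX0X a ha) (hX0X b hb)]
    -- two points in different blocks
    obtain ⟨y, hy⟩ := hBne
    have hyX := hBX' y hy
    obtain ⟨z, hzX, hzB⟩ : ∃ z, z ∉ X ∧ z ∉ B := by
      by_contra hcon
      push Not at hcon
      apply hB2
      ext c
      simp only [Finset.mem_compl]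
      exact ⟨hBX' c, hcon c⟩
    have hyz : ¬ rel y z := by
      rw [hrel]
      rintro ⟨k, hk1, hyk, hzk⟩
      have : k • B = (1 : G) • B := htr k 1 hk1 hone y hyk (by simpa using hy)
      rw [this] at hzk
      exact hzB (by simpa using hzk)
    obtain ⟨hE1, hE2⟩ := eqF y z hyX hzX hyz
    have hyx : y ≠ x := fun h => hyX (h ▸ hx)
    obtain ⟨L₀, hL₀⟩ : (F y x).Nonempty := by
      apply Finset.card_pos.mp
      rw [hFc y x hyx (hX0X y hyX) hxX0]
      exact hpos
    have hL₀𝓛 := ((hFmem y x L₀).mp hL₀).1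
    have hall : ∀ w, w ∉ X → w ∈ L₀ := by
      intro w hw
      by_cases h1 : rel y w
      · have h2 : ¬ rel z w := fun h3 => hyz (hreltrans y z w h1 h3)
        obtain ⟨h3, h4⟩ := eqF z w hzX hw h2
        have : L₀ ∈ F z w := by
          rw [h3, ← hE2, hE1]
          exact hL₀
        exact ((hFmem z w L₀).mp this).2.2.1
      · obtain ⟨h3, h4⟩ := eqF y w hyX hw h1
        have : L₀ ∈ F y w := by
          rw [h3]
          exact hL₀
        exact ((hFmem y w L₀).mp this).2.2.1
    have hcomp : Xᶜ ⊆ L₀ := fun w hw => hall w (by simpa using hw)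
    have := Finset.card_le_card hcomp
    rw [Finset.card_compl, hX, hm L₀ hL₀𝓛] at this
    omega

theorem js_mt_step {t : ℕ} {Γ : Finset Ω} (hMT : JsMT G Ω (t + 1))
    (hP : ∀ X : Finset Ω, X.card = t → Disjoint X Γ → JsPrim G X) (hJ : JsJordan G Γ)
    (h2 : 2 ≤ Γ.card) (htm : t + Γ.card < Fintype.card Ω) : JsMT G Ω (t + 2) := by
  classical
  intro X' hX'
  by_cases hlt : X'.card < t + 1
  · exact hMT X' hlt
  have hX'c : X'.card = t + 1 := by omega
  obtain ⟨x, hx⟩ : X'.Nonempty := Finset.card_pos.mp (by omega)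
  have hc0 : (X'.erase x).card + 1 = X'.card := Finset.card_erase_add_one hx
  obtain ⟨E, hE1, hE2⟩ := Finset.exists_subset_card_eq (s := Γᶜ) (n := t) (by
    rw [Finset.card_compl]
    omega)
  obtain ⟨g, hg1, -⟩ := js_move_pair (T := t + 1) hMT (I := X'.erase x) (A := ∅) (I' := E) (A' := ∅)
    (by simp) (by simp) (by omega) rfl (by simp; omega)
  have hdE : Disjoint E Γ := by
    rw [Finset.disjoint_left]
    intro c hc hc'
    have := hE1 hc
    simp only [Finset.mem_compl] at this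
    exact this hc'
  have hPE := hP E hE2 hdE
  have hTE := hMT E (by omega)
  have hgx : g • x ∉ E := by
    rw [← hg1]
    intro h
    have := (Finset.smul_mem_smul_finset_iff g).mp h
    simp at this
  have hne : Γ ≠ Eᶜ := by
    intro h
    have := congrArg Finset.card h
    rw [Finset.card_compl, hE2] at this
    omega
  have := js_trans_insert hTE hPE hJ hdE.symm h2 hne (g • x) hgx
  have h3 := this.smul g⁻¹
  have h4 : g⁻¹ • insert (g • x) E = X' := by
    rw [Finset.smul_finset_insert, inv_smul_smul, ← hg1, inv_smul_smul, Finset.insert_erase hx]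
  rwa [h4] at h3

theorem js_perm_apply_inv (f : Equiv.Perm Ω) (x : Ω) : f (f⁻¹ x) = x := f.apply_symm_apply x

theorem js_perm_inv_apply (f : Equiv.Perm Ω) (x : Ω) : f⁻¹ (f x) = x := f.symm_apply_apply x

theorem js_three_cycle_perm {Γ Γ' : Finset Ω} {A B : Equiv.Perm Ω} {u : Ω}
    (hA : ∀ x, x ∉ Γ → A x = x) (hB : ∀ x, x ∉ Γ' → B x = x)
    (hI : ∀ x, x ∈ Γ → x ∈ Γ' → x = u) (hAu : A u ≠ u) (hBu : B u ≠ u) :
    (A * B * A⁻¹ * B⁻¹).IsThreeCycle := by
  have hAm : ∀ x, x ∈ Γ → A x ∈ Γ := by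
    intro x hx
    by_contra h
    have := hA _ h
    rw [A.injective this] at h
    exact h hx
  have hBm : ∀ x, x ∈ Γ' → B x ∈ Γ' := by
    intro x hx
    by_contra h
    have := hB _ h
    rw [B.injective this] at h
    exact h hx
  have hAi : ∀ x, x ∉ Γ → A⁻¹ x = x := by
    intro x hx
    rw [Equiv.Perm.inv_eq_iff_eq, hA x hx]
  have hBi : ∀ x, x ∉ Γ' → B⁻¹ x = x := by
    intro x hx
    rw [Equiv.Perm.inv_eq_iff_eq, hB x hx]
  have hAim : ∀ x, x ∈ Γ → A⁻¹ x ∈ Γ := by
    intro x hx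
    by_contra h
    have h1 := hA _ h
    rw [js_perm_apply_inv] at h1
    rw [← h1] at h
    exact h hx
  have hBim : ∀ x, x ∈ Γ' → B⁻¹ x ∈ Γ' := by
    intro x hx
    by_contra h
    have h1 := hB _ h
    rw [js_perm_apply_inv] at h1
    rw [← h1] at h
    exact h hx
  have huΓ : u ∈ Γ := by
    by_contra h
    exact hAu (hA u h)
  have huΓ' : u ∈ Γ' := by
    by_contra h
    exact hBu (hB u h)
  have hAuΓ := hAm u huΓ
  have hBuΓ' := hBm u huΓ'
  have hoff : ∀ x, x ∈ Γ → x ≠ u → x ∉ Γ' := fun x hx hxu hx' => hxu (hI x hx hx')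
  have hoff' : ∀ x, x ∈ Γ' → x ≠ u → x ∉ Γ := fun x hx hxu hx' => hxu (hI x hx' hx)
  have hne : A u ≠ B u := by
    intro h
    have := hI (A u) hAuΓ (h ▸ hBuΓ')
    exact hAu this
  have heq : A * B * A⁻¹ * B⁻¹ = Equiv.swap u (B u) * Equiv.swap u (A u) := by
    ext x
    simp only [Equiv.Perm.coe_mul, Function.comp_apply]
    by_cases hxu : x = u
    · subst hxu
      have h1 : B⁻¹ x ∈ Γ' := hBim x huΓ'
      have h2 : B⁻¹ x ≠ x := by
        intro h
        rw [Equiv.Perm.inv_eq_iff_eq] at h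
        exact hBu h.symm
      rw [hAi _ (hoff' _ h1 h2), js_perm_apply_inv, Equiv.swap_apply_left,
        Equiv.swap_apply_of_ne_of_ne hAu hne]
    by_cases hxA : x = A u
    · subst hxA
      rw [hBi _ (hoff _ hAuΓ hAu), js_perm_inv_apply, hA _ (hoff' _ hBuΓ' hBu),
        Equiv.swap_apply_right, Equiv.swap_apply_left]
    by_cases hxB : x = B u
    · subst hxB
      have h1 : A⁻¹ u ∈ Γ := hAim u huΓ
      have h2 : A⁻¹ u ≠ u := by
        intro h
        rw [Equiv.Perm.inv_eq_iff_eq] at h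
        exact hAu h.symm
      rw [js_perm_inv_apply, hB _ (hoff _ h1 h2), js_perm_apply_inv,
        Equiv.swap_apply_of_ne_of_ne hBu hne.symm, Equiv.swap_apply_right]
    · rw [Equiv.swap_apply_of_ne_of_ne hxu hxA, Equiv.swap_apply_of_ne_of_ne hxu hxB]
      by_cases hx' : x ∈ Γ'
      · have h1 : B⁻¹ x ∈ Γ' := hBim x hx'
        have h2 : B⁻¹ x ≠ u := by
          intro h
          rw [Equiv.Perm.inv_eq_iff_eq] at h
          exact hxB h
        rw [hAi _ (hoff' _ h1 h2), js_perm_apply_inv, hA _ (hoff' _ hx' hxu)]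
      · rw [hBi x hx']
        have h3 : A⁻¹ x ≠ u := by
          intro h
          rw [Equiv.Perm.inv_eq_iff_eq] at h
          exact hxA h
        have h4 : A⁻¹ x ∉ Γ' := by
          by_cases h5 : x ∈ Γ
          · exact hoff _ (hAim x h5) h3
          · rw [hAi x h5]
            exact hx'
        rw [hB _ h4, js_perm_apply_inv]
  rw [heq]
  exact Equiv.Perm.isThreeCycle_swap_mul_swap_same hBu.symm hAu.symm hne.symm

/-- **Marggraf.**  A primitive group with a Jordan set of size at least two and less than half of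
the degree contains a `3`-cycle. -/
theorem js_exists_three_cycle [Finite G] (hT : JsTrans G (∅ : Finset Ω))
    (hP : JsPrim G (∅ : Finset Ω)) {Γ : Finset Ω} (hJ : JsJordan G Γ) (h2 : 2 ≤ Γ.card)
    (hn : 2 * Γ.card < Fintype.card Ω) :
    ∃ c : G, (MulAction.toPermHom G Ω c).IsThreeCycle := by
  classical
  obtain ⟨m, hm⟩ : ∃ m, m = Γ.card := ⟨_, rfl⟩
  let 𝓛 : Finset (Finset Ω) := Finset.univ.filter (fun L => ∃ g : G, L = g • Γ)
  have hmem : ∀ L, L ∈ 𝓛 ↔ ∃ g : G, L = g • Γ := by
    intro L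
    simp [𝓛]
  have h𝓛m : ∀ L ∈ 𝓛, L.card = m := by
    intro L hL
    obtain ⟨g, rfl⟩ := (hmem L).mp hL
    rw [Finset.card_smul_finset, hm]
  have hinv : ∀ (g : G), ∀ L ∈ 𝓛, g • L ∈ 𝓛 := by
    intro g L hL
    obtain ⟨g', rfl⟩ := (hmem L).mp hL
    exact (hmem _).mpr ⟨g * g', (mul_smul _ _ _).symm⟩
  have h𝓛J : ∀ L ∈ 𝓛, JsJordan G L := by
    intro L hL
    obtain ⟨g, rfl⟩ := (hmem L).mp hL
    exact hJ.smul g
  have hΓ : Γ ∈ 𝓛 := (hmem Γ).mpr ⟨1, (one_smul _ _).symm⟩
  have hMT1 : JsMT G Ω 1 := by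
    intro X hX
    have : X = ∅ := Finset.card_eq_zero.mp (by omega)
    rw [this]
    exact hT
  have chain : ∀ t, t + 2 ≤ m → JsMT G Ω (t + 2) ∧
      ∀ X : Finset Ω, X.card = t → Disjoint X Γ → JsPrim G X := by
    intro t
    induction t with
    | zero =>
      intro _
      have hP0 : ∀ X : Finset Ω, X.card = 0 → Disjoint X Γ → JsPrim G X := by
        intro X hX _
        have : X = ∅ := Finset.card_eq_zero.mp hX
        rw [this]
        exact hP
      exact ⟨js_mt_step hMT1 hP0 hJ h2 (by omega), hP0⟩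
    | succ t ih =>
      intro ht
      obtain ⟨hM, -⟩ := ih (by omega)
      have hP1 : ∀ X : Finset Ω, X.card = t + 1 → Disjoint X Γ → JsPrim G X := by
        intro X hX hd
        exact js_prim_of_mt h𝓛m hinv h𝓛J hΓ (by omega) (by omega) (by omega) hM hX hd
      exact ⟨js_mt_step hM hP1 hJ h2 (by omega), hP1⟩
  have hMTm : JsMT G Ω m := by
    have := (chain (m - 2) (by omega)).1
    rwa [show m - 2 + 2 = m by omega] at this
  obtain ⟨u, hu⟩ : Γ.Nonempty := Finset.card_pos.mp (by omega)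
  have hc0 : (Γ.erase u).card + 1 = Γ.card := Finset.card_erase_add_one hu
  obtain ⟨E, hE1, hE2⟩ := Finset.exists_subset_card_eq (s := Γᶜ) (n := (Γ.erase u).card) (by
    rw [Finset.card_compl]
    omega)
  have huE : u ∉ E := by
    intro h
    have := hE1 h
    simp only [Finset.mem_compl] at this
    exact this hu
  obtain ⟨g, hg1, hg2⟩ := js_move_pair (T := m) hMTm (I := {u}) (A := Γ.erase u) (I' := {u}) (A' := E)
    (by simp) (by simpa using huE) rfl hE2.symm (by simp; omega)
  have hgu : g • u = u := by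
    have : g • u ∈ g • ({u} : Finset Ω) := (Finset.smul_mem_smul_finset_iff g).mpr (by simp)
    rw [hg1] at this
    simpa using this
  have huΓ' : u ∈ g • Γ := by
    rw [← hgu]
    exact (Finset.smul_mem_smul_finset_iff g).mpr hu
  have hI : ∀ x, x ∈ Γ → x ∈ g • Γ → x = u := by
    intro x hx hx'
    obtain ⟨q, hq, rfl⟩ := Finset.mem_smul_finset.mp hx'
    by_cases hqu : q = u
    · rw [hqu, hgu]
    · exfalso
      have : g • q ∈ g • Γ.erase u :=
        (Finset.smul_mem_smul_finset_iff g).mpr (Finset.mem_erase.mpr ⟨hqu, hq⟩)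
      rw [hg2] at this
      have := hE1 this
      simp only [Finset.mem_compl] at this
      exact this hx
  obtain ⟨u₁, hu₁, hu₁u⟩ : ∃ u₁ ∈ Γ, u₁ ≠ u := Finset.exists_mem_ne (by omega) u
  obtain ⟨a, ha1, ha2⟩ := hJ u hu u₁ hu₁
  obtain ⟨b, hb1, hb2⟩ := hJ.smul g u huΓ' (g • u₁) ((Finset.smul_mem_smul_finset_iff g).mpr hu₁)
  refine ⟨a * b * a⁻¹ * b⁻¹, ?_⟩
  simp only [map_mul, map_inv]
  refine js_three_cycle_perm (Γ := Γ) (Γ' := g • Γ) (u := u) ?_ ?_ hI ?_ ?_
  · intro x hx
    exact ha1 x hx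
  · intro x hx
    exact hb1 x hx
  · change a • u ≠ u
    rw [ha2]
    exact hu₁u
  · change b • u ≠ u
    rw [hb2]
    intro h
    apply hu₁u
    rw [← hgu] at h
    exact MulAction.injective g h

end Action

section Quasi

open scoped Pointwise

variable {G Ω : Type*} [Group G] [MulAction G Ω] [Fintype Ω] [DecidableEq Ω]

theorem js_alt_of_preprimitive [Finite G] [hp : MulAction.IsPreprimitive G Ω] {Γ : Finset Ω}
    (hJ : JsJordan G Γ) (h2 : 2 ≤ Γ.card) (hn : 2 * Γ.card < Fintype.card Ω) :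
    ∀ σ : Equiv.Perm Ω, Equiv.Perm.sign σ = 1 → ∃ x : G, MulAction.toPermHom G Ω x = σ := by
  classical
  have hT : JsTrans G (∅ : Finset Ω) := by
    intro a _ b _
    obtain ⟨g, hg⟩ := MulAction.exists_smul_eq G a b
    exact ⟨g, by simp, hg⟩
  have hP : JsPrim G (∅ : Finset Ω) := by
    intro B _ hne hB
    have hblock : MulAction.IsBlock G (B : Set Ω) := by
      rw [MulAction.isBlock_iff_smul_eq_or_disjoint]
      intro g
      rcases hB g (by simp) with h | h
      · left
        rw [← Finset.coe_smul_finset, h]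
      · right
        rw [← Finset.coe_smul_finset]
        exact Finset.disjoint_coe.mpr h
    rcases hp.isTrivialBlock_of_isBlock hblock with h | h
    · left
      exact Finset.card_eq_one.mpr (by
        obtain ⟨a, ha⟩ := hne
        refine ⟨a, ?_⟩
        ext c
        simp only [Finset.mem_singleton]
        exact ⟨fun hc => h (Finset.mem_coe.mpr hc) (Finset.mem_coe.mpr ha), fun hc => hc ▸ ha⟩)
    · right
      ext c
      simp only [Finset.compl_empty, Finset.mem_univ, iff_true]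
      have : c ∈ (B : Set Ω) := by
        rw [h]
        trivial
      exact Finset.mem_coe.mp this
  obtain ⟨c, hc⟩ := js_exists_three_cycle hT hP hJ h2 hn
  let f : Ω →ₑ[(MulAction.toPermHom G Ω).rangeRestrict] Ω :=
    { toFun := id
      map_smul' := fun g x => rfl }
  have hsurj : Function.Surjective f := Function.surjective_id
  have hprim : MulAction.IsPreprimitive (MulAction.toPermHom G Ω).range Ω :=
    MulAction.IsPreprimitive.of_surjective hsurj
  have hle := Equiv.Perm.alternatingGroup_le_of_isPreprimitive_of_isThreeCycle_mem hprim hc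
    (MonoidHom.mem_range.mpr ⟨c, rfl⟩)
  intro σ hσ
  exact MonoidHom.mem_range.mp (hle (Equiv.Perm.mem_alternatingGroup.mpr hσ))

/-- **Quasiprimitive groups with a small Jordan set.** -/
theorem js_quasiprimitive_alt [Finite G] [FaithfulSMul G Ω]
    (hqp : ∀ N : Subgroup G, N.Normal → N ≠ ⊥ → MulAction.IsPretransitive ↥N Ω) {Γ : Finset Ω}
    (hJ : JsJordan G Γ) (h2 : 2 ≤ Γ.card) (hn : 2 * Γ.card < Fintype.card Ω) :
    ∀ σ : Equiv.Perm Ω, Equiv.Perm.sign σ = 1 → ∃ x : G, MulAction.toPermHom G Ω x = σ := by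
  classical
  obtain ⟨u, hu, v, hv, huv⟩ := Finset.one_lt_card.mp (show 1 < Γ.card by omega)
  obtain ⟨a, ha1, ha2⟩ := hJ u hu v hv
  have ha_ne : a ≠ 1 := by
    rintro rfl
    rw [one_smul] at ha2
    exact huv ha2
  have htop : (⊤ : Subgroup G) ≠ ⊥ := by
    intro h
    have : a ∈ (⊥ : Subgroup G) := h ▸ Subgroup.mem_top a
    exact ha_ne (Subgroup.mem_bot.mp this)
  have hpre : MulAction.IsPretransitive G Ω := by
    have := hqp ⊤ Subgroup.normal_top htop
    refine ⟨fun x y => ?_⟩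
    obtain ⟨g, hg⟩ := MulAction.exists_smul_eq (⊤ : Subgroup G) x y
    exact ⟨g, hg⟩
  haveI : Nontrivial Ω := ⟨⟨u, v, huv⟩⟩
  by_cases hc : IsCoatom (MulAction.stabilizer G u)
  · haveI := (MulAction.isCoatom_stabilizer_iff_preprimitive G u).mp hc
    exact js_alt_of_preprimitive hJ h2 hn
  exfalso
  have hstab_ne : MulAction.stabilizer G u ≠ ⊤ := by
    intro h
    have : a ∈ MulAction.stabilizer G u := h ▸ Subgroup.mem_top a
    exact huv ((MulAction.mem_stabilizer_iff.mp this).symm.trans ha2)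
  obtain ⟨M, hM, hsM⟩ := (eq_top_or_exists_le_coatom (MulAction.stabilizer G u)).resolve_left hstab_ne
  obtain ⟨m, hmM, hm⟩ : ∃ m ∈ M, m ∉ MulAction.stabilizer G u := by
    by_contra hcon
    push Not at hcon
    have : MulAction.stabilizer G u = M := le_antisymm hsM hcon
    exact hc (this ▸ hM)
  obtain ⟨y₀, hy₀⟩ : ∃ y, y ∉ M := by
    by_contra hcon
    push Not at hcon
    exact hM.1 (eq_top_iff.mpr fun y _ => hcon y)
  haveI : Fintype (G ⧸ M) := Fintype.ofFinite _
  have hgexists : ∀ ω : Ω, ∃ g : G, g • u = ω := fun ω => MulAction.exists_smul_eq G u ω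
  choose g₀ hg₀ using hgexists
  let π : Ω → G ⧸ M := fun ω => (QuotientGroup.mk (g₀ ω) : G ⧸ M)
  have hπ_smul : ∀ (x : G) (ω : Ω), π (x • ω) = x • π ω := by
    intro x ω
    change (QuotientGroup.mk (g₀ (x • ω)) : G ⧸ M) = QuotientGroup.mk (x * g₀ ω)
    rw [QuotientGroup.eq]
    apply hsM
    rw [MulAction.mem_stabilizer_iff, mul_smul, mul_smul, hg₀ ω, inv_smul_eq_iff, hg₀]
  have hπ_u : π u = (QuotientGroup.mk 1 : G ⧸ M) := by
    change (QuotientGroup.mk (g₀ u) : G ⧸ M) = QuotientGroup.mk 1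
    rw [QuotientGroup.eq]
    simp only [mul_one]
    apply M.inv_mem
    apply hsM
    exact MulAction.mem_stabilizer_iff.mpr (hg₀ u)
  have hπ_surj : ∀ s : G ⧸ M, ∃ ω, π ω = s := by
    intro s
    obtain ⟨y, rfl⟩ := QuotientGroup.mk_surjective s
    refine ⟨y • u, ?_⟩
    rw [hπ_smul, hπ_u]
    change (QuotientGroup.mk (y * 1) : G ⧸ M) = _
    rw [mul_one]
  have hm_fix : m • π u = π u := by
    rw [hπ_u]
    change (QuotientGroup.mk (m * 1) : G ⧸ M) = _
    rw [mul_one, QuotientGroup.eq]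
    simpa using hmM
  -- the action on the quotient is faithful
  have hker : ∀ x : G, (∀ s : G ⧸ M, x • s = s) → x = 1 := by
    have hK : (MulAction.toPermHom G (G ⧸ M)).ker = ⊥ := by
      by_contra hK
      have := hqp _ inferInstance hK
      have hconst : ∀ ω₁ ω₂ : Ω, π ω₁ = π ω₂ := by
        intro ω₁ ω₂
        obtain ⟨k, hk⟩ := MulAction.exists_smul_eq (MulAction.toPermHom G (G ⧸ M)).ker ω₁ ω₂
        have hk' : ((k : G)) • ω₁ = ω₂ := hk
        rw [← hk', hπ_smul]
        have : MulAction.toPermHom G (G ⧸ M) (k : G) = 1 := k.2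
        have h2 := congrArg (fun f : Equiv.Perm (G ⧸ M) => f (π ω₁)) this
        exact h2.symm
      obtain ⟨ω, hω⟩ := hπ_surj (QuotientGroup.mk y₀)
      have h3 := hconst ω u
      rw [hω, hπ_u, QuotientGroup.eq] at h3
      apply hy₀
      simpa using h3
    intro x hx
    have : x ∈ (MulAction.toPermHom G (G ⧸ M)).ker := by
      rw [MonoidHom.mem_ker]
      ext s
      exact hx s
    rw [hK] at this
    exact Subgroup.mem_bot.mp this
  -- `π` is not constant on `Γ`
  have hperm : ∀ (h : G), (∀ x, x ∉ Γ → h • x = x) → ∀ x ∈ Γ, h • x ∈ Γ := by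
    intro h hh x hx
    by_contra hcon
    have h3 : h • x = x := MulAction.injective h (hh _ hcon)
    rw [h3] at hcon
    exact hcon hx
  have hconst : ∀ β : G ⧸ M, (∀ ω ∈ Γ, π ω = β) → False := by
    intro β hβ
    have : a = 1 := by
      apply hker
      intro s
      obtain ⟨ω, rfl⟩ := hπ_surj s
      rw [← hπ_smul]
      by_cases hω : ω ∈ Γ
      · rw [hβ _ (hperm a ha1 ω hω), hβ ω hω]
      · rw [ha1 ω hω]
    exact ha_ne this
  have hsat : ∀ ω₁ ∈ Γ, ∀ ω₂, π ω₁ = π ω₂ → ω₂ ∈ Γ := by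
    intro ω₁ hω₁ ω₂ he
    by_contra hω₂
    refine hconst (π ω₂) fun ω hω => ?_
    obtain ⟨h, hh1, hh2⟩ := hJ ω₁ hω₁ ω hω
    rw [← hh2, hπ_smul, he, ← hπ_smul, hh1 ω₂ hω₂]
  obtain ⟨Γ', hΓ'⟩ : ∃ Γ', Γ' = Γ.image π := ⟨_, rfl⟩
  have hmemΓ' : ∀ ω, π ω ∈ Γ' ↔ ω ∈ Γ := by
    intro ω
    rw [hΓ', Finset.mem_image]
    constructor
    · rintro ⟨ω', hω', he⟩
      exact hsat ω' hω' ω he
    · intro h
      exact ⟨ω, h, rfl⟩
  have hΓ'2 : 2 ≤ Γ'.card := by
    by_contra hcon
    have h1 : Γ'.card ≤ 1 := by omega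
    have huΓ' := (hmemΓ' u).mpr hu
    refine hconst (π u) fun ω hω => ?_
    exact Finset.card_le_one.mp h1 _ ((hmemΓ' ω).mpr hω) _ huΓ'
  have hJ' : JsJordan G Γ' := by
    intro s hs t ht
    obtain ⟨ω₁, rfl⟩ := hπ_surj s
    obtain ⟨ω₂, rfl⟩ := hπ_surj t
    obtain ⟨h, hh1, hh2⟩ := hJ ω₁ ((hmemΓ' _).mp hs) ω₂ ((hmemΓ' _).mp ht)
    refine ⟨h, fun r hr => ?_, ?_⟩
    · obtain ⟨ω, rfl⟩ := hπ_surj r
      rw [← hπ_smul, hh1 ω (fun h' => hr ((hmemΓ' ω).mpr h'))]
    · rw [← hπ_smul, hh2]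
  -- counting
  obtain ⟨b, hb⟩ : ∃ b, b = (Finset.univ.filter (fun ω => π ω = π u)).card := ⟨_, rfl⟩
  have hfib : ∀ s : G ⧸ M, (Finset.univ.filter (fun ω => π ω = s)).card = b := by
    intro s
    obtain ⟨y, rfl⟩ := QuotientGroup.mk_surjective s
    have h1 : (QuotientGroup.mk y : G ⧸ M) = y • π u := by
      rw [hπ_u]
      change _ = (QuotientGroup.mk (y * 1) : G ⧸ M)
      rw [mul_one]
    have h2 : Finset.univ.filter (fun ω => π ω = (QuotientGroup.mk y : G ⧸ M)) =
        y • Finset.univ.filter (fun ω => π ω = π u) := by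
      ext ω
      rw [← Finset.inv_smul_mem_iff]
      simp only [Finset.mem_filter, Finset.mem_univ, true_and]
      rw [hπ_smul, h1, inv_smul_eq_iff]
    rw [h2, Finset.card_smul_finset, hb]
  have hbpos : 0 < b := by
    rw [hb]
    exact Finset.card_pos.mpr ⟨u, by simp⟩
  have hcardΩ : Fintype.card Ω = Fintype.card (G ⧸ M) * b := by
    have := Finset.card_eq_sum_card_fiberwise (s := (Finset.univ : Finset Ω)) (t := (Finset.univ : Finset (G ⧸ M)))
      (f := π) (fun _ _ => Finset.mem_univ _)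
    rw [Finset.card_univ] at this
    rw [this, Finset.sum_congr rfl (fun s _ => hfib s), Finset.sum_const, smul_eq_mul,
      Finset.card_univ]
  have hcardΓ : Γ.card = Γ'.card * b := by
    have := Finset.card_eq_sum_card_fiberwise (s := Γ) (t := Γ') (f := π)
      (fun ω hω => (hmemΓ' ω).mpr hω)
    have h3 : ∀ s ∈ Γ', (Γ.filter (fun ω => π ω = s)).card = b := by
      intro s hs
      rw [← hfib s]
      congr 1
      ext ω
      simp only [Finset.mem_filter, Finset.mem_univ, true_and]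
      constructor
      · exact fun h => h.2
      · intro h
        refine ⟨?_, h⟩
        rw [← h] at hs
        exact (hmemΓ' ω).mp hs
    rw [this, Finset.sum_congr rfl h3, Finset.sum_const, smul_eq_mul]
  have hn' : 2 * Γ'.card < Fintype.card (G ⧸ M) := by
    rw [hcardΓ, hcardΩ] at hn
    have : (2 * Γ'.card) * b < Fintype.card (G ⧸ M) * b := by
      rw [mul_assoc]
      exact hn
    exact Nat.lt_of_mul_lt_mul_right this
  -- primitivity on the quotient
  haveI : Nontrivial (G ⧸ M) := ⟨⟨QuotientGroup.mk y₀, QuotientGroup.mk 1, by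
    rw [Ne, QuotientGroup.eq]
    intro h
    apply hy₀
    simpa using h⟩⟩
  haveI hprim : MulAction.IsPreprimitive G (G ⧸ M) := by
    rw [← MulAction.isCoatom_stabilizer_iff_preprimitive G (QuotientGroup.mk 1 : G ⧸ M)]
    rw [MulAction.stabilizer_quotient]
    exact hM
  have halt := js_alt_of_preprimitive hJ' hΓ'2 hn'
  -- three points outside `Γ'`
  have hcompl : 2 < Γ'ᶜ.card := by
    rw [Finset.card_compl]
    omega
  obtain ⟨β₁, β₂, β₃, h₁, h₂, h₃, h12, h13, h23⟩ := Finset.two_lt_card_iff.mp hcompl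
  simp only [Finset.mem_compl] at h₁ h₂ h₃
  obtain ⟨β, hβ⟩ : ∃ β, β = π u := ⟨_, rfl⟩
  have hβΓ' : β ∈ Γ' := by
    rw [hβ]
    exact (hmemΓ' u).mpr hu
  have hβ1 : β ≠ β₁ := fun h => h₁ (h ▸ hβΓ')
  have hβ2 : β ≠ β₂ := fun h => h₂ (h ▸ hβΓ')
  have hβ3 : β ≠ β₃ := fun h => h₃ (h ▸ hβΓ')
  obtain ⟨w, hw⟩ := halt (Equiv.swap β β₁ * Equiv.swap β₂ β₃) (by
    rw [map_mul, Equiv.Perm.sign_swap hβ1, Equiv.Perm.sign_swap h23]
    simp)
  have hmu : m • u ∈ Γ := by
    refine hsat u hu _ ?_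
    rw [hπ_smul, hm_fix]
  obtain ⟨h, hh1, hh2⟩ := hJ u hu (m • u) hmu
  have hτβ : h • β = β := by
    rw [hβ, ← hπ_smul, hh2, hπ_smul, hm_fix]
  have hτout : ∀ s, s ∉ Γ' → h • s = s := by
    intro s hs
    obtain ⟨ω, rfl⟩ := hπ_surj s
    rw [← hπ_smul, hh1 ω (fun h' => hs ((hmemΓ' ω).mpr h'))]
  have hcomm : h * w = w * h := by
    have hinj : Function.Injective (MulAction.toPermHom G (G ⧸ M)) := by
      rw [injective_iff_map_eq_one]
      intro x hx
      apply hker
      intro s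
      exact congrArg (fun f : Equiv.Perm (G ⧸ M) => f s) hx
    apply hinj
    rw [map_mul, map_mul, hw]
    obtain ⟨τ, hτ⟩ : ∃ τ, τ = MulAction.toPermHom G (G ⧸ M) h := ⟨_, rfl⟩
    rw [← hτ]
    have ht1 : τ β = β := by rw [hτ]; exact hτβ
    have ht2 : τ β₁ = β₁ := by rw [hτ]; exact hτout _ h₁
    have ht3 : τ β₂ = β₂ := by rw [hτ]; exact hτout _ h₂
    have ht4 : τ β₃ = β₃ := by rw [hτ]; exact hτout _ h₃
    have hs1 : τ * Equiv.swap β β₁ = Equiv.swap β β₁ * τ := by
      rw [Equiv.mul_swap_eq_swap_mul, ht1, ht2]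
    have hs2 : τ * Equiv.swap β₂ β₃ = Equiv.swap β₂ β₃ * τ := by
      rw [Equiv.mul_swap_eq_swap_mul, ht3, ht4]
    calc τ * (Equiv.swap β β₁ * Equiv.swap β₂ β₃)
        = (τ * Equiv.swap β β₁) * Equiv.swap β₂ β₃ := (mul_assoc _ _ _).symm
      _ = Equiv.swap β β₁ * (τ * Equiv.swap β₂ β₃) := by rw [hs1, mul_assoc]
      _ = Equiv.swap β β₁ * Equiv.swap β₂ β₃ * τ := by rw [hs2, mul_assoc]
  have hwu : w • u ∉ Γ := by
    intro hmem
    have h3 := (hmemΓ' _).mpr hmem
    rw [hπ_smul, ← hβ] at h3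
    have h4 : w • β = (Equiv.swap β β₁ * Equiv.swap β₂ β₃) β := by
      rw [← hw]
      rfl
    rw [h4] at h3
    simp only [Equiv.Perm.coe_mul, Function.comp_apply] at h3
    rw [Equiv.swap_apply_of_ne_of_ne hβ2 hβ3, Equiv.swap_apply_left] at h3
    exact h₁ h3
  have h5 := hh1 _ hwu
  rw [← mul_smul, hcomm, mul_smul, hh2] at h5
  have h6 : m • u = u := MulAction.injective w h5
  exact hm (MulAction.mem_stabilizer_iff.mpr h6)

end Quasi

end Cfsg.Agent.Lib.Techniques
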