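import Mathlib
import Cfsg.Agent.Lib.FStar.Signalizer
import Cfsg.Agent.Lib.PGroup.MaxNormal

/-!
# `2`-groups without noncyclic abelian subgroups of order `8`, under odd-order groups of conjugations

`NoA Y`: every abelian subgroup of order `8` of `Y` is cyclic.  `Basic H Y`: `Y = [Y,H]` is a Klein four
group or a quaternion group of order `8` (elementwise), the main structure theorem being `basic_of_noA`.
-/

set_option autoImplicit false
set_option linter.unusedSectionVars false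
set_option linter.unusedVariables false

namespace Cfsg.Agent.Lib.Techniques.NoA8

open Subgroup
open scoped commutatorElement

variable {G : Type*} [Group G] [Finite G]

/-- Every abelian subgroup of order `8` of `Y` is cyclic. -/
def NoA (Y : Subgroup G) : Prop :=
  ∀ A : Subgroup G, A ≤ Y → IsMulCommutative A → Nat.card A = 8 → IsCyclic A

theorem NoA.mono {Y₁ Y₂ : Subgroup G} (h : Y₁ ≤ Y₂) (hY : NoA Y₂) : NoA Y₁ :=
  fun A hA => hY A (hA.trans h)

theorem card_le_two_of_cyclic {W : Type*} [Group W] [Finite W] [IsCyclic W] (V : Subgroup W)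
    (h : ∀ v ∈ V, v * v = 1) : Nat.card V ≤ 2 := by
  obtain ⟨g, hg⟩ := IsCyclic.exists_generator (α := V)
  have h1 : orderOf g = Nat.card V := orderOf_eq_card_of_forall_mem_zpowers hg
  have h2 : (g : W) * g = 1 := h g g.2
  have h3 : g ^ 2 = 1 := by
    apply Subtype.ext
    simpa [pow_two] using h2
  have h4 := orderOf_dvd_of_pow_eq_one h3
  rw [h1] at h4
  exact Nat.le_of_dvd (by norm_num) h4

theorem exists_sub8 {T : Type*} [CommGroup T] [Finite T] (hT : IsPGroup 2 T) (hnc : ¬ IsCyclic T)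
    (h8 : 8 ≤ Nat.card T) : ∃ A : Subgroup T, Nat.card A = 8 ∧ ¬ IsCyclic A := by
  haveI : Fact (Nat.Prime 2) := ⟨Nat.prime_two⟩
  have h1 : ¬ ∀ p : ℕ, p.Prime → Nat.card ((powMonoidHom p : T →* T).ker) ≤ p :=
    fun h => hnc (Cfsg.Agent.Lib.PGroup.isCyclic_of_card_pow_prime_le h)
  push Not at h1
  obtain ⟨p, hp, hlt⟩ := h1
  have hp2 : p = 2 := by
    by_contra hne
    have : (powMonoidHom p : T →* T).ker = ⊥ := by
      rw [eq_bot_iff]
      intro x hx
      have hx' : x ^ p = 1 := hx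
      obtain ⟨k, hk⟩ := (IsPGroup.iff_orderOf.mp hT) x
      have h2 : orderOf x ∣ p := orderOf_dvd_of_pow_eq_one hx'
      rw [hk] at h2
      have h3 : 2 ^ k = 1 ∨ 2 ^ k = p := (Nat.dvd_prime hp).mp h2
      rcases h3 with h3 | h3
      · rw [h3, orderOf_eq_one_iff] at hk
        simpa using hk
      · exfalso
        have hk0 : k ≠ 0 := by
          rintro rfl
          simp at h3
          exact hp.one_lt.ne h3
        have h4 : 2 ∣ p := h3 ▸ dvd_pow_self 2 hk0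
        exact hne ((Nat.prime_dvd_prime_iff_eq Nat.prime_two hp).mp h4).symm
    rw [this, Subgroup.card_bot] at hlt
    have := hp.one_lt
    omega
  subst hp2
  obtain ⟨E, hE⟩ : ∃ E, E = (powMonoidHom 2 : T →* T).ker := ⟨_, rfl⟩
  rw [← hE] at hlt
  have hEp : IsPGroup 2 E := hT.to_subgroup E
  obtain ⟨k, hk⟩ := IsPGroup.iff_card.mp hEp
  have hk2 : 2 ≤ k := by
    by_contra hc
    have : k = 0 ∨ k = 1 := by omega
    rcases this with rfl | rfl <;> simp [hk] at hlt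
  obtain ⟨V, hV⟩ := Sylow.exists_subgroup_card_pow_prime (G := E) 2 (n := 2)
    (by rw [hk]; exact pow_dvd_pow 2 hk2)
  obtain ⟨t, ht⟩ := IsPGroup.iff_card.mp hT
  have ht3 : 3 ≤ t := by
    by_contra hc
    have : 2 ^ t ≤ 2 ^ 2 := Nat.pow_le_pow_right (by norm_num) (by omega)
    rw [ht] at h8
    omega
  have hV' : Nat.card (V.map E.subtype) = 2 ^ 2 := by
    rw [Subgroup.card_map_of_injective E.subtype_injective, hV]
  obtain ⟨A, hA, hVA⟩ := Sylow.exists_subgroup_card_pow_prime_le (G := T) 2 (n := 2) (m := 3)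
    (by rw [ht]; exact pow_dvd_pow 2 ht3) (V.map E.subtype) hV' (by norm_num)
  refine ⟨A, by rw [hA]; norm_num, ?_⟩
  intro hc
  have h5 := card_le_two_of_cyclic ((V.map E.subtype).subgroupOf A) (by
    intro v hv
    obtain ⟨e, he, hev⟩ := mem_subgroupOf.mp hv
    have h60 : ∀ x ∈ E, x ^ 2 = 1 := by
      rw [hE]
      intro x hx
      exact hx
    have h6 : (e : T) ^ 2 = 1 := h60 e e.2
    apply Subtype.ext
    have hev' : (e : T) = v := hev
    simp only [Subgroup.coe_mul, Subgroup.coe_one]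
    rw [← hev', ← pow_two, h6])
  have h7 : Nat.card ((V.map E.subtype).subgroupOf A) = Nat.card (V.map E.subtype) :=
    Nat.card_congr (Subgroup.subgroupOfEquivOfLe hVA).toEquiv
  rw [h7, hV'] at h5
  norm_num at h5

theorem isCyclic_of_big {Y T : Subgroup G} (hY : NoA Y) (hTY : T ≤ Y) (hT : IsPGroup 2 T)
    (hc : IsMulCommutative T) (h8 : 8 ≤ Nat.card T) : IsCyclic T := by
  by_contra hnc
  letI : CommGroup T := { (inferInstance : Group T) with mul_comm := fun a b => mul_comm' a b }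
  obtain ⟨A, hA8, hAnc⟩ := exists_sub8 hT hnc h8
  have h1 : A.map T.subtype ≤ Y := by
    rintro _ ⟨a, -, rfl⟩
    exact hTY a.2
  have h2 : IsMulCommutative (A.map T.subtype) := by
    apply Cfsg.Agent.Lib.PGroup.isMulCommutative_of_comm
    rintro _ ⟨a, -, rfl⟩ _ ⟨b, -, rfl⟩
    simpa using congrArg Subtype.val (mul_comm a b)
  have h3 : Nat.card (A.map T.subtype) = 8 := by
    rw [Subgroup.card_map_of_injective T.subtype_injective]
    exact hA8
  have h4 := hY _ h1 h2 h3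
  exact hAnc ((A.equivMapOfInjective _ T.subtype_injective).isCyclic.mpr h4)

theorem comm_sup {X W : Subgroup G} (hX : ∀ a ∈ X, ∀ b ∈ X, a * b = b * a)
    (hW : ∀ a ∈ W, ∀ b ∈ W, a * b = b * a) (hXW : ∀ a ∈ X, ∀ b ∈ W, a * b = b * a) :
    ∀ a ∈ X ⊔ W, ∀ b ∈ X ⊔ W, a * b = b * a := by
  have h1 : X ⊔ W ≤ centralizer (X : Set G) :=
    sup_le (fun a ha => mem_centralizer_iff.2 (fun b hb => hX b hb a ha))
      (fun a ha => mem_centralizer_iff.2 (fun b hb => hXW b hb a ha))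
  have h2 : X ⊔ W ≤ centralizer (W : Set G) :=
    sup_le (fun a ha => mem_centralizer_iff.2 (fun b hb => (hXW a ha b hb).symm))
      (fun a ha => mem_centralizer_iff.2 (fun b hb => hW b hb a ha))
  have h4 : X ≤ centralizer ((X ⊔ W : Subgroup G) : Set G) := le_centralizer_iff.mp h1
  have h5 : W ≤ centralizer ((X ⊔ W : Subgroup G) : Set G) := le_centralizer_iff.mp h2
  have h6 : X ⊔ W ≤ centralizer ((X ⊔ W : Subgroup G) : Set G) := sup_le h4 h5
  intro a ha b hb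
  exact mem_centralizer_iff.mp (h6 hb) a ha

theorem fix_of_cyclic {T : Subgroup G} (hT : IsCyclic T) (hp : IsPGroup 2 T) {h : G}
    (hh : Odd (orderOf h)) (hn : ∀ t ∈ T, h * t * h⁻¹ ∈ T) : ∀ t ∈ T, h * t * h⁻¹ = t := by
  haveI : Fact (Nat.Prime 2) := ⟨Nat.prime_two⟩
  let f : T →* T :=
    { toFun := fun t => ⟨h * t * h⁻¹, hn t t.2⟩
      map_one' := by
        apply Subtype.ext
        simp
      map_mul' := fun a b => by
        apply Subtype.ext
        simp only [Subgroup.coe_mul]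
        group }
  have hinj : Function.Injective f := by
    intro a b hab
    have h1 : h * (a : G) * h⁻¹ = h * b * h⁻¹ := congrArg Subtype.val hab
    exact Subtype.ext (by simpa using h1)
  let α : T ≃* T := MulEquiv.ofBijective f (Finite.injective_iff_bijective.mp hinj)
  have hαv : ∀ t : T, ((α t : T) : G) = h * t * h⁻¹ := fun t => rfl
  have hα : ∀ (n : ℕ) (t : T), (((α ^ n) t : T) : G) = h ^ n * t * (h ^ n)⁻¹ := by
    intro n
    induction n with
    | zero =>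
      intro t
      simp
    | succ n ih =>
      intro t
      rw [pow_succ', MulAut.mul_apply, hαv, ih, pow_succ']
      group
  have h1 : α ^ orderOf h = 1 := by
    ext t
    rw [hα, pow_orderOf_eq_one]
    simp
  obtain ⟨k, hk⟩ := IsPGroup.iff_card.mp hp
  have hcard : ∃ j, Nat.card (MulAut T) = 2 ^ j := by
    rw [IsCyclic.card_mulAut, hk]
    rcases Nat.eq_zero_or_pos k with rfl | hk0
    · exact ⟨0, by simp⟩
    · refine ⟨k - 1, ?_⟩
      rw [Nat.totient_prime_pow Nat.prime_two hk0]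
      simp
  obtain ⟨j, hj⟩ := hcard
  have h2 : α ^ (2 ^ j) = 1 := by
    rw [← hj]
    exact pow_card_eq_one'
  have hcop : (orderOf h).Coprime (2 ^ j) :=
    Nat.Coprime.pow_right j (Nat.coprime_two_right.mpr hh)
  have h3 : α = 1 := by
    have := pow_gcd_eq_one.mpr ⟨h1, h2⟩
    rw [hcop.gcd_eq_one, pow_one] at this
    exact this
  intro t ht
  have h4 := hαv ⟨t, ht⟩
  rw [h3] at h4
  exact h4.symm

theorem mem_cmt {Y H : Subgroup G} {y h : G} (hy : y ∈ Y) (hh : h ∈ H) :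
    y⁻¹ * (h * y * h⁻¹) ∈ ⁅Y, H⁆ := by
  have := commutator_mem_commutator (inv_mem hy) hh
  simpa [commutatorElement_def, mul_assoc] using this

theorem conj_mem_cmt {A B : Subgroup G} {g : G} (hA : ∀ a ∈ A, g * a * g⁻¹ ∈ A)
    (hB : ∀ b ∈ B, g * b * g⁻¹ ∈ B) : ∀ w ∈ ⁅A, B⁆, g * w * g⁻¹ ∈ ⁅A, B⁆ := by
  intro w hw
  have hle : ⁅A, B⁆ ≤ (⁅A, B⁆).comap (MulAut.conj g).toMonoidHom := by
    rw [commutator_le]
    intro a ha b hb
    rw [mem_comap]
    have e : (MulAut.conj g).toMonoidHom ⁅a, b⁆ = ⁅g * a * g⁻¹, g * b * g⁻¹⁆ := by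
      simp [commutatorElement_def]
      group
    rw [e]
    exact commutator_mem_commutator (hA a ha) (hB b hb)
  exact hle hw

theorem left_conj_mem_cmt {A B : Subgroup G} {x : G} (hx : x ∈ A) :
    ∀ w ∈ ⁅A, B⁆, x * w * x⁻¹ ∈ ⁅A, B⁆ := by
  intro w hw
  have hle : ⁅A, B⁆ ≤ (⁅A, B⁆).comap (MulAut.conj x).toMonoidHom := by
    rw [commutator_le]
    intro a ha b hb
    rw [mem_comap]
    have e : (MulAut.conj x).toMonoidHom ⁅a, b⁆ = ⁅x * a, b⁆ * ⁅x, b⁆⁻¹ := by
      simp [commutatorElement_def]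
      group
    rw [e]
    exact mul_mem (commutator_mem_commutator (mul_mem hx ha) hb)
      (inv_mem (commutator_mem_commutator hx hb))
  exact hle hw

theorem coprime_of_odd {H N : Subgroup G} (hodd : Odd (Nat.card H)) (hp : IsPGroup 2 N) :
    (Nat.card H).Coprime (Nat.card N) := by
  obtain ⟨k, hk⟩ := IsPGroup.iff_card.mp hp
  rw [hk]
  exact Nat.Coprime.pow_right k (Nat.coprime_two_right.mpr hodd)

theorem lift {H N : Subgroup G} (hodd : Odd (Nat.card H)) (hp : IsPGroup 2 N)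
    (hn : ∀ h ∈ H, ∀ x ∈ N, h * x * h⁻¹ ∈ N) (x : G) (hx : ∀ h ∈ H, x⁻¹ * (h * x * h⁻¹) ∈ N) :
    ∃ n ∈ N, ∀ h ∈ H, h * (x * n) * h⁻¹ = x * n := by
  haveI : Fact (Nat.Prime 2) := ⟨Nat.prime_two⟩
  haveI : Group.IsNilpotent N := hp.isNilpotent
  exact Cfsg.Agent.Lib.FStar.exists_coset_centralizing hn (coprime_of_odd hodd hp)
    (Or.inr inferInstance) x hx

theorem odd_order {H : Subgroup G} (hodd : Odd (Nat.card H)) {h : G} (hh : h ∈ H) :
    Odd (orderOf h) := by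
  have h1 : orderOf (⟨h, hh⟩ : H) ∣ Nat.card H := orderOf_dvd_natCard _
  rw [Subgroup.orderOf_mk] at h1
  exact Odd.of_dvd_nat hodd h1

/-- If `c` commutes with `H`, `[Y,H] = Y`, and `[y,c]` always commutes with `H`, then `c` centralizes `Y`. -/
theorem comm_fix {H Y : Subgroup G} {c : G} (hc : ⁅Y, H⁆ = Y) (hcH : ∀ h ∈ H, h * c = c * h)
    (hz : ∀ y ∈ Y, ∀ h ∈ H, h * (y⁻¹ * (c * y * c⁻¹)) = (y⁻¹ * (c * y * c⁻¹)) * h) :
    ∀ y ∈ Y, c * y = y * c := by
  have h1 : ⁅Y, H⁆ ≤ centralizer ({c} : Set G) := by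
    rw [commutator_le]
    intro x hx h hh
    rw [mem_centralizer_singleton_iff]
    obtain ⟨ζ, hζ⟩ : ∃ ζ, ζ = x⁻¹ * (c * x * c⁻¹) := ⟨_, rfl⟩
    have e1 : c * x * c⁻¹ = x * ζ := by rw [hζ]; group
    have e2 : c * h * c⁻¹ = h := by rw [← hcH h hh]; group
    have e3 : h * ζ = ζ * h := by rw [hζ]; exact hz x hx h hh
    have e4 : c * ⁅x, h⁆ * c⁻¹ = ⁅x, h⁆ := by
      have e5 : c * ⁅x, h⁆ * c⁻¹ = ⁅c * x * c⁻¹, c * h * c⁻¹⁆ := by
        simp only [commutatorElement_def]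
        group
      rw [e5, e1, e2]
      simp only [commutatorElement_def]
      calc x * ζ * h * (x * ζ)⁻¹ * h⁻¹ = x * (ζ * h) * ζ⁻¹ * x⁻¹ * h⁻¹ := by group
        _ = x * (h * ζ) * ζ⁻¹ * x⁻¹ * h⁻¹ := by rw [e3]
        _ = x * h * x⁻¹ * h⁻¹ := by group
    calc ⁅x, h⁆ * c = c * ⁅x, h⁆ * c⁻¹ * c := by rw [e4]
      _ = c * ⁅x, h⁆ := by group
  intro y hy
  have h2 : y ∈ ⁅Y, H⁆ := by rw [hc]; exact hy
  have := mem_centralizer_singleton_iff.mp (h1 h2)
  exact this.symm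

/-- An `H`-invariant subgroup of index two of `Y` contains `[Y,H]`. -/
theorem cmt_le_of_index_two {H Y M : Subgroup G} (hMY : M ≤ Y) (hidx : (M.subgroupOf Y).index = 2)
    (hn : ∀ h ∈ H, ∀ y ∈ Y, h * y * h⁻¹ ∈ Y) (hM : ∀ h ∈ H, ∀ m ∈ M, h * m * h⁻¹ ∈ M) :
    ⁅Y, H⁆ ≤ M := by
  rw [commutator_le]
  intro y hy h hh
  have h1 : h * y⁻¹ * h⁻¹ ∈ Y := hn h hh _ (inv_mem hy)
  have h2 := mul_mem_iff_of_index_two hidx (a := ⟨y, hy⟩) (b := ⟨h * y⁻¹ * h⁻¹, h1⟩)
  have h3 : ((⟨y, hy⟩ : Y) ∈ M.subgroupOf Y) ↔ ((⟨h * y⁻¹ * h⁻¹, h1⟩ : Y) ∈ M.subgroupOf Y) := by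
    simp only [mem_subgroupOf]
    constructor
    · intro hm
      exact hM h hh _ (inv_mem hm)
    · intro hm
      have h4 := hM h⁻¹ (inv_mem hh) _ hm
      have h5 : h⁻¹ * (h * y⁻¹ * h⁻¹) * h⁻¹⁻¹ = y⁻¹ := by group
      rw [h5] at h4
      simpa using h4
  have h6 := h2.mpr h3
  rw [mem_subgroupOf] at h6
  have e : ⁅y, h⁆ = y * (h * y⁻¹ * h⁻¹) := by
    simp only [commutatorElement_def]
    group
  rw [e]
  exact h6

end Cfsg.Agent.Lib.Techniques.NoA8
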