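import Mathlib
import Cfsg.Agent.Lib.Techniques.NoA8

/-!
# The structure theorem `basic_of_noA`
-/

set_option autoImplicit false
set_option linter.unusedSectionVars false
set_option linter.unusedVariables false

namespace Cfsg.Agent.Lib.Techniques.NoA8

open Subgroup
open scoped commutatorElement

variable {G : Type*} [Group G] [Finite G]

/-- The elements of `Y` fixed by `H`. -/
def Zf (H Y : Subgroup G) : Subgroup G := Y ⊓ centralizer (H : Set G)

theorem mem_Zf {H Y : Subgroup G} {z : G} : z ∈ Zf H Y ↔ z ∈ Y ∧ ∀ h ∈ H, h * z = z * h := by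
  simp [Zf, mem_inf, mem_centralizer_iff]

/-- The centre of `Y`, inside the ambient group. -/
def Zc (Y : Subgroup G) : Subgroup G := Y ⊓ centralizer (Y : Set G)

theorem mem_Zc {Y : Subgroup G} {z : G} : z ∈ Zc Y ↔ z ∈ Y ∧ ∀ y ∈ Y, y * z = z * y := by
  simp [Zc, mem_inf, mem_centralizer_iff]

theorem card_Zc (Y : Subgroup G) : Nat.card (Zc Y) = Nat.card (center Y) := by
  have : Zc Y = (center Y).map Y.subtype := by
    ext z
    rw [mem_Zc, mem_map]
    constructor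
    · rintro ⟨h1, h2⟩
      refine ⟨⟨z, h1⟩, ?_, rfl⟩
      rw [mem_center_iff]
      rintro ⟨y, hy⟩
      exact Subtype.ext (h2 y hy)
    · rintro ⟨c, hc, rfl⟩
      refine ⟨c.2, fun y hy => ?_⟩
      have := (mem_center_iff.mp hc) ⟨y, hy⟩
      exact congrArg Subtype.val this
  rw [this, Subgroup.card_map_of_injective Y.subtype_injective]

/-- `Y = [Y,H]` is a Klein four group (`Zf H Y` trivial) or a quaternion group of order `8`. -/
structure Basic (H Y : Subgroup G) : Prop where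
  nrm : ∀ h ∈ H, ∀ y ∈ Y, h * y * h⁻¹ ∈ Y
  comm : ⁅Y, H⁆ = Y
  p2 : IsPGroup 2 Y
  odd : Odd (Nat.card H)
  card4 : Nat.card Y = 4 * Nat.card (Zf H Y)
  small : Nat.card (Zf H Y) ≤ 2
  central : ∀ z ∈ Zf H Y, ∀ y ∈ Y, y * z = z * y
  sq_mem : ∀ y ∈ Y, y * y ∈ Zf H Y
  sq_ne : ∀ y ∈ Y, y ∉ Zf H Y → ∀ z ∈ Zf H Y, z ≠ 1 → y * y = z

theorem exp2_of_card4 {Q : Type*} [Group Q] [Finite Q] (hcard : Nat.card Q = 4) (hnc : ¬ IsCyclic Q)
    (q : Q) : q * q = 1 := by
  have h1 : orderOf q ∣ 4 := hcard ▸ orderOf_dvd_natCard q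
  have h2 : orderOf q ≠ 4 := fun h => hnc (isCyclic_of_orderOf_eq_card q (by rw [h, hcard]))
  have h3 : orderOf q ∣ 2 := by
    have h4 : orderOf q ≤ 4 := Nat.le_of_dvd (by norm_num) h1
    interval_cases hq : orderOf q <;> first | omega
  have h5 : q ^ 2 = 1 := orderOf_dvd_iff_pow_eq_one.mp h3
  rwa [pow_two] at h5

theorem eq_of_two_inv {W : Type*} [Group W] [Finite W] [IsCyclic W] {a b : W} (ha : a * a = 1)
    (hb : b * b = 1) (ha1 : a ≠ 1) (hb1 : b ≠ 1) : a = b := by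
  classical
  haveI := Fintype.ofFinite W
  have h1 := IsCyclic.card_pow_eq_one_le (α := W) (n := 2) (by norm_num)
  by_contra hne
  have h2 : ({1, a, b} : Finset W) ⊆ Finset.univ.filter (fun x : W => x ^ 2 = 1) := by
    intro x hx
    simp only [Finset.mem_insert, Finset.mem_singleton] at hx
    simp only [Finset.mem_filter, Finset.mem_univ, true_and, pow_two]
    rcases hx with rfl | rfl | rfl
    · simp
    · exact ha
    · exact hb
  have h3 := Finset.card_le_card h2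
  have h4 : ({1, a, b} : Finset W).card = 3 := Finset.card_eq_three.mpr ⟨1, a, b, ha1.symm, hb1.symm, hne, rfl⟩
  omega

theorem exists_sq_root {W : Type*} [Group W] [Finite W] [IsCyclic W] (h4 : 4 ∣ Nat.card W) (κ : W)
    (hκ : κ * κ = 1) : ∃ ζ, ζ * ζ = κ := by
  obtain ⟨g, hg⟩ := IsCyclic.exists_generator (α := W)
  obtain ⟨k, hk⟩ := hg κ
  have hk' : g ^ k = κ := hk
  have h1 : orderOf g = Nat.card W := orderOf_eq_card_of_forall_mem_zpowers hg
  have h2 : g ^ (2 * k) = 1 := by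
    rw [two_mul, zpow_add, hk', hκ]
  have h3 : ((orderOf g : ℕ) : ℤ) ∣ 2 * k := orderOf_dvd_iff_zpow_eq_one.mpr h2
  rw [h1] at h3
  have h5 : (4 : ℤ) ∣ ((Nat.card W : ℕ) : ℤ) := by exact_mod_cast h4
  have h6 : (4 : ℤ) ∣ 2 * k := h5.trans h3
  obtain ⟨j, hj⟩ : ∃ j, k = 2 * j := by
    obtain ⟨m, hm⟩ := h6
    exact ⟨m, by omega⟩
  refine ⟨g ^ j, ?_⟩
  rw [← hk', hj, two_mul, zpow_add]

theorem exists_sq_step (N : Subgroup G) (x : G) (hx : x ∉ N) (n : ℕ) (h : x ^ (2 ^ n) ∈ N) :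
    ∃ k : ℕ, x ^ (2 ^ k) ∉ N ∧ x ^ (2 ^ k) * x ^ (2 ^ k) ∈ N := by
  induction n with
  | zero => simp at h; exact absurd h hx
  | succ n ih =>
    by_cases h1 : x ^ (2 ^ n) ∈ N
    · exact ih h1
    · refine ⟨n, h1, ?_⟩
      rw [← pow_add, ← two_mul, ← pow_succ']
      exact h

theorem comm_sq {a b : G} (h : a * ⁅a, b⁆ = ⁅a, b⁆ * a) : ⁅a * a, b⁆ = ⁅a, b⁆ * ⁅a, b⁆ := by
  have e1 : ⁅a * a, b⁆ = a * ⁅a, b⁆ * a⁻¹ * ⁅a, b⁆ := by
    simp only [commutatorElement_def]
    group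
  rw [e1, h]
  group

theorem comm_of_card_le_four {P : Type*} [Group P] [Finite P] (hP : IsPGroup 2 P) (h4 : Nat.card P ≤ 4) :
    ∀ a b : P, a * b = b * a := by
  haveI : Fact (Nat.Prime 2) := ⟨Nat.prime_two⟩
  obtain ⟨k, hk⟩ := IsPGroup.iff_card.mp hP
  have hk2 : k ≤ 2 := by
    by_contra hc
    have : 2 ^ 3 ≤ 2 ^ k := Nat.pow_le_pow_right (by norm_num) (by omega)
    omega
  have hc : ∀ m : ℕ, Nat.card P = 2 ^ m → m = 2 → ∀ a b : P, a * b = b * a := by
    rintro m hm rfl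
    haveI : IsMulCommutative P := IsPGroup.isMulCommutative_of_card_eq_prime_sq hm
    exact mul_comm'
  interval_cases k
  · intro a b
    have : Subsingleton P := (Nat.card_eq_one_iff_unique.mp (by simpa using hk)).1
    exact Subsingleton.elim _ _
  · haveI : Fact (Nat.Prime (Nat.card P)) := ⟨by rw [hk]; norm_num⟩
    haveI := isCyclic_of_prime_card (α := P) rfl
    intro a b
    haveI : IsMulCommutative P := IsCyclic.isMulCommutative
    exact mul_comm' a b
  · exact hc 2 hk rfl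

theorem two_eq {Z : Subgroup G} (h2 : Nat.card Z = 2) {a b : G} (ha : a ∈ Z) (hb : b ∈ Z) (ha1 : a ≠ 1)
    (hb1 : b ≠ 1) : a = b := by
  obtain ⟨c, -, hc⟩ := (Nat.card_eq_two_iff' (1 : Z)).mp h2
  have e1 := hc ⟨a, ha⟩ (by simpa [Subtype.ext_iff] using ha1)
  have e2 := hc ⟨b, hb⟩ (by simpa [Subtype.ext_iff] using hb1)
  have : (⟨a, ha⟩ : Z) = ⟨b, hb⟩ := e1.trans e2.symm
  exact congrArg Subtype.val this

theorem sq_of_card2 {Z : Subgroup G} (h2 : Nat.card Z = 2) {a : G} (ha : a ∈ Z) : a * a = 1 := by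
  have h1 := pow_card_eq_one' (x := (⟨a, ha⟩ : Z))
  rw [h2] at h1
  have h3 := congrArg Subtype.val h1
  simpa [pow_two] using h3

theorem zc_comm {Y : Subgroup G} : ∀ a ∈ Zc Y, ∀ b ∈ Zc Y, a * b = b * a := fun a ha b hb =>
  (mem_Zc.mp hb).2 a (mem_Zc.mp ha).1

theorem zpowers_comm (g : G) : ∀ a ∈ zpowers g, ∀ b ∈ zpowers g, a * b = b * a := by
  rintro _ ⟨i, rfl⟩ _ ⟨j, rfl⟩
  exact ((Commute.refl g).zpow_zpow i j)

theorem not_d8 {H Y : Subgroup G} (hp : IsPGroup 2 Y) (hn : ∀ h ∈ H, ∀ y ∈ Y, h * y * h⁻¹ ∈ Y)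
    (hc : ⁅Y, H⁆ = Y) (hcard : Nat.card Y = 8) (hna : ¬ ∀ a ∈ Y, ∀ b ∈ Y, a * b = b * a)
    (hZ2 : Nat.card (Zc Y) = 2) (hsq : ∀ x ∈ Y, x * x ∈ Zc Y) (hcl : ∀ x ∈ Y, ∀ y ∈ Y, ⁅x, y⁆ ∈ Zc Y)
    (hfix : ∀ z ∈ Zc Y, ∀ h ∈ H, h * z = z * h) {y : G} (hy : y ∈ Y) (hyZ : y ∉ Zc Y) (hy1 : y * y = 1) :
    False := by
  obtain ⟨g, hgY, hg1⟩ : ∃ g ∈ Y, g * g ≠ 1 := by
    by_contra hall
    push Not at hall
    apply hna
    intro a ha b hb
    have h1 := hall (a * b) (mul_mem ha hb)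
    have h2 := eq_inv_of_mul_eq_one_left h1
    rw [h2, mul_inv_rev, inv_eq_of_mul_eq_one_left (hall b hb), inv_eq_of_mul_eq_one_left (hall a ha)]
  have hzZ : g * g ∈ Zc Y := hsq g hgY
  have hzz : (g * g) * (g * g) = 1 := sq_of_card2 hZ2 hzZ
  have hord : orderOf g = 2 ^ (1 + 1) := by
    apply orderOf_eq_prime_pow (p := 2) (n := 1)
    · simpa [pow_two] using hg1
    · rw [show 2 ^ (1 + 1) = 2 + 2 by norm_num, pow_add, pow_two]
      exact hzz
  have hM4 : Nat.card (zpowers g) = 4 := by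
    rw [Nat.card_zpowers, hord]
    norm_num
  have hMY : zpowers g ≤ Y := (zpowers_le).mpr hgY
  have hidx : ((zpowers g).subgroupOf Y).index = 2 := by
    have h1 := Subgroup.card_mul_index ((zpowers g).subgroupOf Y)
    have h2 : Nat.card ((zpowers g).subgroupOf Y) = Nat.card (zpowers g) :=
      Nat.card_congr (Subgroup.subgroupOfEquivOfLe hMY).toEquiv
    rw [h2, hM4, hcard] at h1
    omega
  have L1 : ∀ m ∈ zpowers g, m * m = 1 → m ∈ Zc Y := by
    rintro _ ⟨k, rfl⟩ hm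
    have hm' : g ^ k * g ^ k = 1 := hm
    rw [← zpow_add, ← two_mul] at hm'
    have h3 : ((orderOf g : ℕ) : ℤ) ∣ 2 * k := orderOf_dvd_iff_zpow_eq_one.mpr hm'
    rw [hord] at h3
    obtain ⟨j, hj⟩ : ∃ j, k = 2 * j := by
      obtain ⟨m, hm⟩ := h3
      exact ⟨m, by push_cast at hm; omega⟩
    have e : g ^ k = (g * g) ^ j := by
      rw [hj, zpow_mul, zpow_two]
    show g ^ k ∈ Zc Y
    rw [e]
    exact zpow_mem hzZ j
  have hyM : y ∉ zpowers g := fun h => hyZ (L1 y h hy1)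
  have hne : ⁅y, g⁆ ≠ 1 := by
    intro h1
    have hcomm : y * g = g * y := commutatorElement_eq_one_iff_mul_comm.mp h1
    have hT := comm_sup (zpowers_comm g) (zpowers_comm y) (by
      rintro _ ⟨i, rfl⟩ _ ⟨j, rfl⟩
      exact (Commute.zpow_zpow (show Commute g y from hcomm.symm) i j))
    have hTY : zpowers g ⊔ zpowers y ≤ Y := sup_le hMY ((zpowers_le).mpr hy)
    have hgt : zpowers g ≠ zpowers g ⊔ zpowers y := by
      intro he
      apply hyM
      rw [he]
      exact mem_sup_right (mem_zpowers y)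
    have hd : Nat.card (zpowers g ⊔ zpowers y : Subgroup G) ∣ 8 := hcard ▸ Subgroup.card_dvd_of_le hTY
    have hd2 : Nat.card (zpowers g) ∣ Nat.card (zpowers g ⊔ zpowers y : Subgroup G) :=
      Subgroup.card_dvd_of_le le_sup_left
    rw [hM4] at hd2
    have hlt : Nat.card (zpowers g ⊔ zpowers y : Subgroup G) ≠ 4 := by
      intro h4
      exact hgt (Subgroup.eq_of_le_of_card_ge le_sup_left (by rw [hM4, h4]))
    have h8 : Nat.card (zpowers g ⊔ zpowers y : Subgroup G) = 8 := by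
      obtain ⟨c, hc'⟩ := hd2
      have h1 := Nat.le_of_dvd (by norm_num) hd
      have h2 : 0 < Nat.card (zpowers g ⊔ zpowers y : Subgroup G) := Nat.card_pos
      omega
    have hTe : zpowers g ⊔ zpowers y = Y := Subgroup.eq_of_le_of_card_ge hTY (by rw [h8, hcard])
    apply hna
    intro a ha b hb
    exact hT a (by rw [hTe]; exact ha) b (by rw [hTe]; exact hb)
  have hinv : y * g * y⁻¹ = g⁻¹ := by
    have h1 : ⁅y, g⁆ = g * g := two_eq hZ2 (hcl y hy g hgY) hzZ hne hg1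
    have h2 : y * g * y⁻¹ * g⁻¹ = g * g := by
      rw [← h1]
      simp only [commutatorElement_def]
    have h3 : y * g * y⁻¹ = g * g * g := by
      rw [← h2]
      group
    rw [h3]
    apply eq_inv_of_mul_eq_one_left
    rw [← hzz]
    group
  have hout : ∀ x ∈ Y, x ∉ zpowers g → x * x = 1 := by
    intro x hx hxM
    have h1 := mul_mem_iff_of_index_two hidx (a := ⟨y⁻¹, inv_mem hy⟩) (b := ⟨x, hx⟩)
    have h2 : (⟨y⁻¹, inv_mem hy⟩ : Y) * ⟨x, hx⟩ ∈ (zpowers g).subgroupOf Y := by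
      rw [h1]
      simp only [mem_subgroupOf]
      constructor
      · intro h
        exact absurd (by simpa using inv_mem h) hyM
      · intro h
        exact absurd h hxM
    rw [mem_subgroupOf] at h2
    obtain ⟨k, hk⟩ := h2
    have hk' : g ^ k = y⁻¹ * x := hk
    have e1 : x = y * g ^ k := by rw [hk']; group
    have e2 : y * g ^ k * y⁻¹ = g⁻¹ ^ k := by
      rw [← conj_zpow, hinv]
    have e3 : y⁻¹ = y := inv_eq_of_mul_eq_one_left hy1
    calc x * x = (y * g ^ k * y⁻¹) * (y * y) * g ^ k := by rw [e1]; group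
      _ = 1 := by rw [e2, hy1]; simp
  have hM : ∀ h ∈ H, ∀ m ∈ zpowers g, h * m * h⁻¹ ∈ zpowers g := by
    intro h hh m hm
    by_cases hmZ : m ∈ Zc Y
    · have : h * m * h⁻¹ = m := by rw [hfix m hmZ h hh]; group
      rw [this]
      exact hm
    · by_contra hx
      have h1 := hout _ (hn h hh m (hMY hm)) hx
      have h2 : m * m = 1 := by
        have e : h * m * h⁻¹ * (h * m * h⁻¹) = h * (m * m) * h⁻¹ := by group
        rw [e] at h1
        have e2 : m * m = h⁻¹ * (h * (m * m) * h⁻¹) * h := by group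
        rw [e2, h1]
        group
      exact hmZ (L1 m hm h2)
  have h9 := cmt_le_of_index_two hMY hidx hn hM
  rw [hc] at h9
  have := Subgroup.card_le_of_le h9
  rw [hcard, hM4] at this
  omega

theorem basic_of_card8 {H Y : Subgroup G} (hodd : Odd (Nat.card H)) (hp : IsPGroup 2 Y)
    (hn : ∀ h ∈ H, ∀ y ∈ Y, h * y * h⁻¹ ∈ Y) (hc : ⁅Y, H⁆ = Y) (hcard : Nat.card Y = 8)
    (hna : ¬ ∀ a ∈ Y, ∀ b ∈ Y, a * b = b * a) (hfix : ∀ z ∈ Zc Y, ∀ h ∈ H, h * z = z * h) : Basic H Y := by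
  haveI : Fact (Nat.Prime 2) := ⟨Nat.prime_two⟩
  obtain ⟨a, ha, hna2⟩ : ∃ a ∈ Y, ∃ b ∈ Y, a * b ≠ b * a := by
    by_contra hall
    push Not at hall
    exact hna hall
  obtain ⟨b, hb, hab⟩ := hna2
  have haZ : a ∉ Zc Y := fun h => hab ((mem_Zc.mp h).2 b hb).symm
  have hZY : Zc Y ≤ Y := inf_le_left
  have hT := comm_sup (zc_comm (Y := Y)) (zpowers_comm a) (by
    intro z hz t ht
    exact ((mem_Zc.mp hz).2 t (((zpowers_le).mpr ha) ht)).symm)
  have hTY : Zc Y ⊔ zpowers a ≤ Y := sup_le hZY ((zpowers_le).mpr ha)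
  have hT8 : Nat.card (Zc Y ⊔ zpowers a : Subgroup G) ≠ 8 := by
    intro h8
    have hTe : Zc Y ⊔ zpowers a = Y := Subgroup.eq_of_le_of_card_ge hTY (by rw [h8, hcard])
    exact hna (fun x hx y hy => hT x (by rw [hTe]; exact hx) y (by rw [hTe]; exact hy))
  have hd : Nat.card (Zc Y ⊔ zpowers a : Subgroup G) ∣ 8 := hcard ▸ Subgroup.card_dvd_of_le hTY
  have hT4 : Nat.card (Zc Y ⊔ zpowers a : Subgroup G) ≤ 4 := by
    have hle := Nat.le_of_dvd (by norm_num) hd
    by_contra hc'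
    have h5 : Nat.card (Zc Y ⊔ zpowers a : Subgroup G) ∈ ({5, 6, 7, 8} : Finset ℕ) := by
      simp only [Finset.mem_insert, Finset.mem_singleton]
      omega
    simp only [Finset.mem_insert, Finset.mem_singleton] at h5
    rcases h5 with h | h | h | h <;> rw [h] at hd
    · omega
    · omega
    · omega
    · exact hT8 h
  have hZT : Nat.card (Zc Y) ∣ Nat.card (Zc Y ⊔ zpowers a : Subgroup G) :=
    Subgroup.card_dvd_of_le le_sup_left
  have hZne : Nat.card (Zc Y) ≠ Nat.card (Zc Y ⊔ zpowers a : Subgroup G) := by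
    intro he
    have := Subgroup.eq_of_le_of_card_ge (le_sup_left : Zc Y ≤ Zc Y ⊔ zpowers a) (by rw [he])
    apply haZ
    rw [this]
    exact mem_sup_right (mem_zpowers a)
  have hZ2' : Nat.card (Zc Y) ≤ 2 := by
    obtain ⟨c, hc'⟩ := hZT
    have hpos : 0 < Nat.card (Zc Y) := Nat.card_pos
    have hc1 : c ≠ 0 := by
      rintro rfl
      simp at hc'
      have : 0 < Nat.card (Zc Y ⊔ zpowers a : Subgroup G) := Nat.card_pos
      omega
    have hc2 : c ≠ 1 := by
      rintro rfl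
      apply hZne
      rw [hc', mul_one]
    have : 2 * Nat.card (Zc Y) ≤ Nat.card (Zc Y) * c := by nlinarith [show 2 ≤ c by omega]
    omega
  have hZ2 : Nat.card (Zc Y) = 2 := by
    haveI : Nontrivial Y := by
      apply (Finite.one_lt_card_iff_nontrivial).mp
      rw [hcard]
      norm_num
    haveI := hp.center_nontrivial
    have h1 : 1 < Nat.card (center Y) := Finite.one_lt_card
    rw [← card_Zc] at h1
    omega
  have hQ4 : Nat.card (Y ⧸ center Y) = 4 := by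
    have h1 := Subgroup.card_eq_card_quotient_mul_card_subgroup (center Y)
    rw [← card_Zc, hZ2, hcard] at h1
    omega
  have hQnc : ¬ IsCyclic (Y ⧸ center Y) := by
    intro hcyc
    apply hna
    intro x hx y hy
    haveI := MonoidHom.isMulCommutative_of_isCyclic_of_ker_le_center (QuotientGroup.mk' (center Y))
      (by rw [QuotientGroup.ker_mk'])
    have := mul_comm' (⟨x, hx⟩ : Y) ⟨y, hy⟩
    exact congrArg Subtype.val this
  have hQc : ∀ a b : Y ⧸ center Y, a * b = b * a :=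
    comm_of_card_le_four (hp.to_quotient _) (by omega)
  have toZc : ∀ x : Y, x ∈ center Y → (x : G) ∈ Zc Y := by
    intro x hx
    refine mem_Zc.mpr ⟨x.2, fun y hy => ?_⟩
    have := (mem_center_iff.mp hx) ⟨y, hy⟩
    exact congrArg Subtype.val this
  have hQe := exp2_of_card4 hQ4 hQnc
  have hsq : ∀ x ∈ Y, x * x ∈ Zc Y := by
    intro x hx
    have h1 : ((⟨x, hx⟩ : Y) * ⟨x, hx⟩ : Y) ∈ center Y :=
      (QuotientGroup.eq_one_iff _).mp (by rw [QuotientGroup.mk_mul]; exact hQe _)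
    exact toZc _ h1
  have hcl : ∀ x ∈ Y, ∀ y ∈ Y, ⁅x, y⁆ ∈ Zc Y := by
    intro x hx y hy
    have h1 : ⁅(⟨x, hx⟩ : Y), (⟨y, hy⟩ : Y)⁆ ∈ center Y := by
      apply (QuotientGroup.eq_one_iff _).mp
      have e := map_commutatorElement (QuotientGroup.mk' (center Y)) (⟨x, hx⟩ : Y) (⟨y, hy⟩ : Y)
      have e2 : ((⁅(⟨x, hx⟩ : Y), (⟨y, hy⟩ : Y)⁆ : Y) : Y ⧸ center Y) =
          QuotientGroup.mk' (center Y) ⁅(⟨x, hx⟩ : Y), (⟨y, hy⟩ : Y)⁆ := rfl
      rw [e2, e]
      exact commutatorElement_eq_one_iff_mul_comm.mpr (hQc _ _)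
    exact toZc _ h1
  have hZf : Zf H Y = Zc Y := by
    ext c
    constructor
    · intro hc'
      obtain ⟨hcY, hcH⟩ := mem_Zf.mp hc'
      refine mem_Zc.mpr ⟨hcY, fun y hy => ?_⟩
      have := comm_fix hc hcH (fun y hy h hh => by
        have e : y⁻¹ * (c * y * c⁻¹) = ⁅y⁻¹, c⁆ := by simp [commutatorElement_def, mul_assoc]
        rw [e]
        exact hfix _ (hcl _ (inv_mem hy) _ hcY) h hh) y hy
      exact this.symm
    · intro hz
      exact mem_Zf.mpr ⟨(mem_Zc.mp hz).1, fun h hh => hfix c hz h hh⟩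
  refine ⟨hn, hc, hp, hodd, ?_, ?_, ?_, ?_, ?_⟩
  · rw [hZf, hcard, hZ2]
  · rw [hZf, hZ2]
  · rw [hZf]
    intro z hz y hy
    exact (mem_Zc.mp hz).2 y hy
  · rw [hZf]
    exact hsq
  · rw [hZf]
    intro y hy hyZ z hz hz1
    by_cases h1 : y * y = 1
    · exact (not_d8 hp hn hc hcard hna hZ2 hsq hcl hfix hy hyZ h1).elim
    · exact two_eq hZ2 (hsq y hy) hz h1 hz1

theorem zc_inv {H Y : Subgroup G} (hn : ∀ h ∈ H, ∀ y ∈ Y, h * y * h⁻¹ ∈ Y) :
    ∀ h ∈ H, ∀ z ∈ Zc Y, h * z * h⁻¹ ∈ Zc Y := by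
  intro h hh z hz
  obtain ⟨hzY, hzc⟩ := mem_Zc.mp hz
  refine mem_Zc.mpr ⟨hn h hh z hzY, fun y hy => ?_⟩
  have h1 := hzc (h⁻¹ * y * h) (by simpa using hn h⁻¹ (inv_mem hh) y hy)
  calc y * (h * z * h⁻¹) = h * ((h⁻¹ * y * h) * z) * h⁻¹ := by group
    _ = h * (z * (h⁻¹ * y * h)) * h⁻¹ := by rw [h1]
    _ = h * z * h⁻¹ * y := by group

theorem two_mul_card_le {A B : Subgroup G} (hAB : A ≤ B) (hne : A ≠ B) : 2 * Nat.card A ≤ Nat.card B := by
  obtain ⟨c, hc⟩ := Subgroup.card_dvd_of_le hAB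
  have hpos : 0 < Nat.card A := Nat.card_pos
  have hpos2 : 0 < Nat.card B := Nat.card_pos
  have hc0 : c ≠ 0 := by
    rintro rfl
    omega
  have hc1 : c ≠ 1 := by
    rintro rfl
    exact hne (Subgroup.eq_of_le_of_card_ge hAB (by omega))
  rw [hc]
  nlinarith [show 2 ≤ c by omega]

theorem isCyclic_of_le {A B : Subgroup G} (h : A ≤ B) (hB : IsCyclic B) : IsCyclic A :=
  (Subgroup.subgroupOfEquivOfLe h).isCyclic.mp inferInstance

theorem exists_not_mem_zc {Y : Subgroup G} (hna : ¬ ∀ a ∈ Y, ∀ b ∈ Y, a * b = b * a) :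
    ∃ a ∈ Y, a ∉ Zc Y := by
  by_contra hall
  push Not at hall
  exact hna (fun a ha b hb => (mem_Zc.mp (hall b hb)).2 a ha)

theorem zc_cyclic {Y : Subgroup G} (hA : NoA Y) (hp : IsPGroup 2 Y)
    (hna : ¬ ∀ a ∈ Y, ∀ b ∈ Y, a * b = b * a) : IsCyclic (Zc Y) := by
  haveI : Fact (Nat.Prime 2) := ⟨Nat.prime_two⟩
  by_contra hnc
  obtain ⟨a, ha, haZ⟩ := exists_not_mem_zc hna
  have hZY : Zc Y ≤ Y := inf_le_left
  have hT := comm_sup (zc_comm (Y := Y)) (zpowers_comm a) (by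
    intro z hz t ht
    exact ((mem_Zc.mp hz).2 t (((zpowers_le).mpr ha) ht)).symm)
  have hTY : Zc Y ⊔ zpowers a ≤ Y := sup_le hZY ((zpowers_le).mpr ha)
  have hne : Zc Y ≠ Zc Y ⊔ zpowers a := by
    intro he
    apply haZ
    rw [he]
    exact mem_sup_right (mem_zpowers a)
  have h2 := two_mul_card_le le_sup_left hne
  obtain ⟨k, hk⟩ := IsPGroup.iff_card.mp (hp.to_le hZY)
  have hk2 : 2 ≤ k := by
    by_contra hc
    have : k = 0 ∨ k = 1 := by omega
    rcases this with rfl | rfl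
    · have : Subsingleton (Zc Y) := (Nat.card_eq_one_iff_unique.mp (by simpa using hk)).1
      exact hnc inferInstance
    · haveI : Fact (Nat.Prime (Nat.card (Zc Y))) := ⟨by rw [hk]; norm_num⟩
      exact hnc (isCyclic_of_prime_card rfl)
  have h4 : 4 ≤ Nat.card (Zc Y) := by
    rw [hk]
    calc 4 = 2 ^ 2 := by norm_num
      _ ≤ 2 ^ k := Nat.pow_le_pow_right (by norm_num) hk2
  have hcyc := isCyclic_of_big hA hTY (hp.to_le hTY)
    (Cfsg.Agent.Lib.PGroup.isMulCommutative_of_comm hT) (by omega)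
  exact hnc (isCyclic_of_le le_sup_left hcyc)

theorem zf_le_zc {H Y : Subgroup G} (hc : ⁅Y, H⁆ = Y) (hcl : ∀ x ∈ Y, ∀ y ∈ Y, ⁅x, y⁆ ∈ Zc Y)
    (hfix : ∀ z ∈ Zc Y, ∀ h ∈ H, h * z = z * h) {c : G} (hcY : c ∈ Y) (hcH : ∀ h ∈ H, h * c = c * h) :
    c ∈ Zc Y := by
  refine mem_Zc.mpr ⟨hcY, fun y hy => ?_⟩
  have := comm_fix hc hcH (fun y hy h hh => by
    have e : y⁻¹ * (c * y * c⁻¹) = ⁅y⁻¹, c⁆ := by simp [commutatorElement_def, mul_assoc]
    rw [e]
    exact hfix _ (hcl _ (inv_mem hy) _ hcY) h hh) y hy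
  exact this.symm

theorem zc_small {H Y : Subgroup G} (hodd : Odd (Nat.card H)) (hp : IsPGroup 2 Y)
    (hn : ∀ h ∈ H, ∀ y ∈ Y, h * y * h⁻¹ ∈ Y) (hc : ⁅Y, H⁆ = Y) (hA : NoA Y)
    (hna : ¬ ∀ a ∈ Y, ∀ b ∈ Y, a * b = b * a) (hcl : ∀ x ∈ Y, ∀ y ∈ Y, ⁅x, y⁆ ∈ Zc Y)
    (hfix : ∀ z ∈ Zc Y, ∀ h ∈ H, h * z = z * h) : Nat.card (Zc Y) < 4 := by
  haveI : Fact (Nat.Prime 2) := ⟨Nat.prime_two⟩
  haveI hcyc : IsCyclic (Zc Y) := zc_cyclic hA hp hna
  by_contra h4'
  have hZY : Zc Y ≤ Y := inf_le_left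
  obtain ⟨K, hK⟩ := IsPGroup.iff_card.mp (hp.to_le hZY)
  have hK2 : 2 ≤ K := by
    by_contra hc'
    have : K = 0 ∨ K = 1 := by omega
    rcases this with rfl | rfl <;> simp [hK] at h4'
  have h44 : 4 ∣ Nat.card (Zc Y) := by
    rw [hK]
    exact pow_dvd_pow 2 hK2
  obtain ⟨a, ha, haZ⟩ := exists_not_mem_zc hna
  obtain ⟨n, hn'⟩ := (IsPGroup.iff_orderOf.mp hp) ⟨a, ha⟩
  rw [Subgroup.orderOf_mk] at hn'
  obtain ⟨k, hk1, hk2⟩ := exists_sq_step (Zc Y) a haZ n (by rw [← hn', pow_orderOf_eq_one]; exact one_mem _)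
  obtain ⟨x₁, hx₁⟩ : ∃ x₁, x₁ = a ^ (2 ^ k) := ⟨_, rfl⟩
  rw [← hx₁] at hk1 hk2
  have hx₁Y : x₁ ∈ Y := hx₁ ▸ pow_mem ha _
  obtain ⟨h, hh, hxh⟩ : ∃ h ∈ H, x₁⁻¹ * (h * x₁ * h⁻¹) ∉ Zc Y := by
    by_contra hall
    push Not at hall
    obtain ⟨m, hm, hmf⟩ := lift hodd (hp.to_le hZY) (zc_inv hn) x₁ hall
    have h1 : x₁ * m ∈ Zc Y := zf_le_zc hc hcl hfix (mul_mem hx₁Y (hZY hm)) (fun h hh => by
      have := hmf h hh
      calc h * (x₁ * m) = h * (x₁ * m) * h⁻¹ * h := by group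
        _ = x₁ * m * h := by rw [this])
    have h2 : x₁ = (x₁ * m) * m⁻¹ := by group
    apply hk1
    rw [h2]
    exact mul_mem h1 (inv_mem hm)
  obtain ⟨x₂, hx₂⟩ : ∃ x₂, x₂ = h * x₁ * h⁻¹ := ⟨_, rfl⟩
  rw [← hx₂] at hxh
  have hx₂Y : x₂ ∈ Y := hx₂ ▸ hn h hh x₁ hx₁Y
  have hx₂2 : x₂ * x₂ = x₁ * x₁ := by
    have e : x₂ * x₂ = h * (x₁ * x₁) * h⁻¹ := by rw [hx₂]; group
    rw [e, hfix _ hk2 h hh]
    group
  obtain ⟨κ, hκ⟩ : ∃ κ, κ = ⁅x₂, x₁⁻¹⁆ := ⟨_, rfl⟩
  have hκZ : κ ∈ Zc Y := hκ ▸ hcl _ hx₂Y _ (inv_mem hx₁Y)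
  have hκc : ∀ y ∈ Y, y * κ = κ * y := (mem_Zc.mp hκZ).2
  have hyy : (x₁⁻¹ * x₂) * (x₁⁻¹ * x₂) = κ := by
    have e1 : x₂ * x₁⁻¹ = κ * (x₁⁻¹ * x₂) := by
      rw [hκ]
      simp only [commutatorElement_def]
      group
    calc (x₁⁻¹ * x₂) * (x₁⁻¹ * x₂) = x₁⁻¹ * (x₂ * x₁⁻¹) * x₂ := by group
      _ = x₁⁻¹ * (κ * (x₁⁻¹ * x₂)) * x₂ := by rw [e1]
      _ = (x₁⁻¹ * κ) * x₁⁻¹ * (x₂ * x₂) := by group
      _ = (κ * x₁⁻¹) * x₁⁻¹ * (x₁ * x₁) := by rw [hκc _ (inv_mem hx₁Y), hx₂2]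
      _ = κ := by group
  have hκκ : κ * κ = 1 := by
    have h1 := comm_sq (a := x₂) (b := x₁⁻¹) (by rw [← hκ]; exact hκc _ hx₂Y)
    rw [← hκ, hx₂2] at h1
    rw [← h1]
    apply commutatorElement_eq_one_iff_mul_comm.mpr
    exact ((mem_Zc.mp hk2).2 _ (inv_mem hx₁Y)).symm
  obtain ⟨ζ, hζ⟩ := exists_sq_root h44 (⟨κ, hκZ⟩ : Zc Y) (Subtype.ext hκκ)
  have hζ' : (ζ : G) * ζ = κ := congrArg Subtype.val hζ
  obtain ⟨y, hy⟩ : ∃ y, y = x₁⁻¹ * x₂ := ⟨_, rfl⟩
  rw [← hy] at hxh hyy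
  have hyY : y ∈ Y := hy ▸ mul_mem (inv_mem hx₁Y) hx₂Y
  have hζc := (mem_Zc.mp ζ.2).2
  obtain ⟨u, hu⟩ : ∃ u, u = y * (ζ : G)⁻¹ := ⟨_, rfl⟩
  have huY : u ∈ Y := hu ▸ mul_mem hyY (inv_mem (hZY ζ.2))
  have huu : u * u = 1 := by
    have e1 : (ζ : G)⁻¹ * y = y * (ζ : G)⁻¹ := by
      have := hζc y hyY
      calc (ζ : G)⁻¹ * y = (ζ : G)⁻¹ * (y * ζ) * (ζ : G)⁻¹ := by group
        _ = (ζ : G)⁻¹ * (ζ * y) * (ζ : G)⁻¹ := by rw [this]
        _ = y * (ζ : G)⁻¹ := by group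
    calc u * u = y * ((ζ : G)⁻¹ * y) * (ζ : G)⁻¹ := by rw [hu]; group
      _ = (y * y) * ((ζ : G) * ζ)⁻¹ := by rw [e1]; group
      _ = 1 := by rw [hyy, hζ']; group
  have huZ : u ∉ Zc Y := by
    intro h1
    apply hxh
    have : y = u * ζ := by rw [hu]; group
    rw [this]
    exact mul_mem h1 ζ.2
  have hT := comm_sup (zc_comm (Y := Y)) (zpowers_comm u) (by
    intro z hz t ht
    exact ((mem_Zc.mp hz).2 t (((zpowers_le).mpr huY) ht)).symm)
  have hTY : Zc Y ⊔ zpowers u ≤ Y := sup_le hZY ((zpowers_le).mpr huY)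
  have hne : Zc Y ≠ Zc Y ⊔ zpowers u := by
    intro he
    apply huZ
    rw [he]
    exact mem_sup_right (mem_zpowers u)
  have h2 := two_mul_card_le le_sup_left hne
  haveI hcT := isCyclic_of_big hA hTY (hp.to_le hTY)
    (Cfsg.Agent.Lib.PGroup.isMulCommutative_of_comm hT) (by omega)
  have h2dvd : 2 ∣ Nat.card (Zc Y) := (by norm_num : 2 ∣ 4).trans h44
  obtain ⟨t, ht⟩ := exists_prime_orderOf_dvd_card' 2 h2dvd
  have htt : (t : G) * t = 1 := by
    have h1 := pow_orderOf_eq_one t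
    rw [ht, pow_two] at h1
    exact congrArg Subtype.val h1
  have ht1 : (t : G) ≠ 1 := by
    intro h1
    have h3 : t = 1 := Subtype.ext h1
    rw [h3, orderOf_one] at ht
    omega
  have hu1 : u ≠ 1 := by
    rintro rfl
    exact huZ (one_mem _)
  have huT : u ∈ Zc Y ⊔ zpowers u := mem_sup_right (mem_zpowers u)
  have htT : (t : G) ∈ Zc Y ⊔ zpowers u := mem_sup_left t.2
  have h5 := eq_of_two_inv (W := (Zc Y ⊔ zpowers u : Subgroup G)) (a := ⟨u, huT⟩) (b := ⟨t, htT⟩)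
    (Subtype.ext huu) (Subtype.ext htt) (fun h => hu1 (congrArg Subtype.val h))
    (fun h => ht1 (congrArg Subtype.val h))
  have h6 : u = t := congrArg Subtype.val h5
  exact huZ (h6 ▸ t.2)

theorem card8_of_noA {H Y : Subgroup G} (hodd : Odd (Nat.card H)) (hp : IsPGroup 2 Y)
    (hn : ∀ h ∈ H, ∀ y ∈ Y, h * y * h⁻¹ ∈ Y) (hc : ⁅Y, H⁆ = Y) (hA : NoA Y)
    (hna : ¬ ∀ a ∈ Y, ∀ b ∈ Y, a * b = b * a) : Nat.card Y = 8 := by
  haveI : Fact (Nat.Prime 2) := ⟨Nat.prime_two⟩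
  haveI : Group.IsNilpotent Y := hp.isNilpotent
  haveI hZcyc : IsCyclic (Zc Y) := zc_cyclic hA hp hna
  have hfix : ∀ z ∈ Zc Y, ∀ h ∈ H, h * z = z * h := by
    intro z hz h hh
    have h1 := fix_of_cyclic hZcyc (hp.to_le inf_le_left) (odd_order hodd hh) (zc_inv hn h hh) z hz
    calc h * z = h * z * h⁻¹ * h := by group
      _ = z * h := by rw [h1]
  obtain ⟨B₁, hBn, hBc, hBC⟩ := Cfsg.Agent.Lib.PGroup.exists_normal_abelian_self_centralizing (G := Y)
  have hB4 : Nat.card B₁ = 2 ^ 2 := by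
    by_cases hBcyc : IsCyclic B₁
    · have hcomm : commutator Y ≤ B₁ := by
        rw [commutator_def, commutator_le]
        intro x _ y _
        apply hBC
        rw [mem_centralizer_iff]
        intro b hb
        have hφ : (MulAut.conjNormal x : MulAut B₁) * MulAut.conjNormal y =
            MulAut.conjNormal y * MulAut.conjNormal x := by
          apply (IsCyclic.mulAutMulEquiv B₁).injective
          rw [map_mul, map_mul, mul_comm]
        have h1 : (MulAut.conjNormal ⁅x, y⁆ : MulAut B₁) = 1 := by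
          rw [map_commutatorElement]
          exact commutatorElement_eq_one_iff_mul_comm.mpr hφ
        have h2 := MulAut.conjNormal_apply (H := B₁) ⁅x, y⁆ ⟨b, hb⟩
        rw [h1] at h2
        have h3 : b = ⁅x, y⁆ * b * ⁅x, y⁆⁻¹ := h2
        calc b * ⁅x, y⁆ = (⁅x, y⁆ * b * ⁅x, y⁆⁻¹) * ⁅x, y⁆ := by rw [← h3]
          _ = ⁅x, y⁆ * b := by group
      have hW : IsCyclic (⁅Y, Y⁆ : Subgroup G) := by
        rw [← Subgroup.map_subtype_commutator]
        have h1 : IsCyclic (commutator Y) := isCyclic_of_le hcomm hBcyc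
        exact ((commutator Y).equivMapOfInjective _ Y.subtype_injective).isCyclic.mp h1
      have hWY : ⁅Y, Y⁆ ≤ Y := by
        rw [commutator_le]
        intro a ha b hb
        exact mul_mem (mul_mem (mul_mem ha hb) (inv_mem ha)) (inv_mem hb)
      have hWfix : ∀ h ∈ H, ∀ w ∈ ⁅Y, Y⁆, h * w * h⁻¹ = w := fun h hh =>
        fix_of_cyclic hW (hp.to_le hWY) (odd_order hodd hh) (conj_mem_cmt (hn h hh) (hn h hh))
      have hWH : ∀ w ∈ ⁅Y, Y⁆, ∀ h ∈ H, h * w = w * h := by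
        intro w hw h hh
        have h1 := hWfix h hh w hw
        calc h * w = h * w * h⁻¹ * h := by group
          _ = w * h := by rw [h1]
      have hWc : ∀ w ∈ ⁅Y, Y⁆, ∀ y ∈ Y, w * y = y * w := by
        intro w hw
        refine comm_fix hc (hWH w hw |> fun f h hh => f h hh) (fun y hy h hh => ?_)
        have e : y⁻¹ * (w * y * w⁻¹) = ⁅y⁻¹, w⁆ := by simp [commutatorElement_def, mul_assoc]
        rw [e]
        exact hWH _ (commutator_mem_commutator (inv_mem hy) (hWY hw)) h hh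
      have hcl : ∀ x ∈ Y, ∀ y ∈ Y, ⁅x, y⁆ ∈ Zc Y := by
        intro x hx y hy
        have hw := commutator_mem_commutator hx hy
        exact mem_Zc.mpr ⟨hWY hw, fun t ht => (hWc _ hw t ht).symm⟩
      have hZlt := zc_small hodd hp hn hc hA hna hcl hfix
      haveI : Nontrivial Y := by
        by_contra hnt
        rw [not_nontrivial_iff_subsingleton] at hnt
        exact hna (fun a ha b hb => congrArg Subtype.val (Subsingleton.elim (⟨a * b, mul_mem ha hb⟩ : Y) ⟨b * a, mul_mem hb ha⟩))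
      haveI := hp.center_nontrivial
      have hZ1 : 1 < Nat.card (center Y) := Finite.one_lt_card
      rw [← card_Zc] at hZ1
      have hZY : Zc Y ≤ Y := inf_le_left
      obtain ⟨K, hK⟩ := IsPGroup.iff_card.mp (hp.to_le hZY)
      have hZ2 : Nat.card (Zc Y) = 2 := by
        have hK1 : K = 1 := by
          have h1 : K < 2 := by
            by_contra hc'
            have : 2 ^ 2 ≤ 2 ^ K := Nat.pow_le_pow_right (by norm_num) (by omega)
            omega
          have h2 : K ≠ 0 := by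
            rintro rfl
            simp [hK] at hZ1
          omega
        rw [hK, hK1]
        norm_num
      have hsq : ∀ x ∈ Y, x * x ∈ Zc Y := by
        intro x hx
        refine mem_Zc.mpr ⟨mul_mem hx hx, fun t ht => ?_⟩
        have hκ := hcl x hx t ht
        have h1 := comm_sq (a := x) (b := t) ((mem_Zc.mp hκ).2 x hx)
        rw [sq_of_card2 hZ2 hκ] at h1
        exact (commutatorElement_eq_one_iff_mul_comm.mp h1).symm
      obtain ⟨g, hg⟩ := IsCyclic.exists_generator (α := B₁)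
      have hgo : orderOf g = Nat.card B₁ := orderOf_eq_card_of_forall_mem_zpowers hg
      have hg4 : g ^ 4 = 1 := by
        apply Subtype.ext
        apply Subtype.ext
        have h1 := sq_of_card2 hZ2 (hsq _ (g : Y).2)
        simp only [SubgroupClass.coe_pow, OneMemClass.coe_one]
        rw [show 4 = 2 + 2 by norm_num, pow_add, pow_two]
        exact h1
      have hd4 : Nat.card B₁ ∣ 4 := hgo ▸ orderOf_dvd_of_pow_eq_one hg4
      have hcB : center Y ≤ B₁ := by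
        intro c hc'
        apply hBC
        rw [mem_centralizer_iff]
        intro b _
        exact (mem_center_iff.mp hc' b)
      have hcc : Nat.card (center Y) = 2 := by rw [← card_Zc, hZ2]
      have hBne2 : Nat.card B₁ ≠ 2 := by
        intro h2
        have hBe : center Y = B₁ := Subgroup.eq_of_le_of_card_ge hcB (by rw [h2, hcc])
        apply hna
        intro a ha b hb
        have h3 : (⟨a, ha⟩ : Y) ∈ B₁ := by
          apply hBC
          rw [mem_centralizer_iff]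
          intro b' hb'
          rw [← hBe] at hb'
          exact (mem_center_iff.mp hb' _).symm
        rw [← hBe] at h3
        have := mem_center_iff.mp h3 ⟨b, hb⟩
        exact (congrArg Subtype.val this).symm
      have hB2 : 2 ≤ Nat.card B₁ := by
        have := Subgroup.card_le_of_le hcB
        omega
      have hle := Nat.le_of_dvd (by norm_num) hd4
      have : Nat.card B₁ ≠ 3 := by
        intro h3
        rw [h3] at hd4
        omega
      omega
    · obtain ⟨k, hk⟩ := IsPGroup.iff_card.mp (hp.to_subgroup B₁)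
      have hk2 : 2 ≤ k := by
        by_contra hc'
        have : k = 0 ∨ k = 1 := by omega
        rcases this with rfl | rfl
        · have : Subsingleton B₁ := (Nat.card_eq_one_iff_unique.mp (by simpa using hk)).1
          exact hBcyc inferInstance
        · haveI : Fact (Nat.Prime (Nat.card B₁)) := ⟨by rw [hk]; norm_num⟩
          exact hBcyc (isCyclic_of_prime_card rfl)
      have hk3 : k < 3 := by
        by_contra hc'
        have h8 : 8 ≤ Nat.card B₁ := by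
          rw [hk]
          calc 8 = 2 ^ 3 := by norm_num
            _ ≤ 2 ^ k := Nat.pow_le_pow_right (by norm_num) (by omega)
        have hBY : B₁.map Y.subtype ≤ Y := by
          rintro _ ⟨a, -, rfl⟩
          exact a.2
        have hcm : IsMulCommutative (B₁.map Y.subtype) := by
          apply Cfsg.Agent.Lib.PGroup.isMulCommutative_of_comm
          rintro _ ⟨a, ha, rfl⟩ _ ⟨b, hb, rfl⟩
          have := Cfsg.Agent.Lib.PGroup.comm_of_isMulCommutative hBc ha hb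
          exact congrArg Subtype.val this
        have hcyc := isCyclic_of_big hA hBY (hp.to_le hBY) hcm
          (by rw [Subgroup.card_map_of_injective Y.subtype_injective]; exact h8)
        exact hBcyc ((B₁.equivMapOfInjective _ Y.subtype_injective).isCyclic.mpr hcyc)
      have : k = 2 := by omega
      rw [hk, this]
  have hle := Cfsg.Agent.Lib.PGroup.card_le_of_self_centralizing_card_sq hp hB4 hBC
  obtain ⟨k, hk⟩ := IsPGroup.iff_card.mp hp
  have hk3 : 3 ≤ k := by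
    by_contra hc'
    have h4 : Nat.card Y ≤ 4 := by
      rw [hk]
      calc 2 ^ k ≤ 2 ^ 2 := Nat.pow_le_pow_right (by norm_num) (by omega)
        _ = 4 := by norm_num
    have h5 := comm_of_card_le_four hp h4
    exact hna (fun a ha b hb => congrArg Subtype.val (h5 ⟨a, ha⟩ ⟨b, hb⟩))
  have h8 : 8 ≤ Nat.card Y := by
    rw [hk]
    calc 8 = 2 ^ 3 := by norm_num
      _ ≤ 2 ^ k := Nat.pow_le_pow_right (by norm_num) hk3
  have : (2 : ℕ) ^ 3 = 8 := by norm_num
  omega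

/-- The structure theorem. -/
theorem basic_of_noA {H Y : Subgroup G} (hodd : Odd (Nat.card H)) (hp : IsPGroup 2 Y)
    (hn : ∀ h ∈ H, ∀ y ∈ Y, h * y * h⁻¹ ∈ Y) (hc : ⁅Y, H⁆ = Y) (hne : Y ≠ ⊥) (hA : NoA Y) : Basic H Y := by
  haveI : Fact (Nat.Prime 2) := ⟨Nat.prime_two⟩
  by_cases hab : ∀ a ∈ Y, ∀ b ∈ Y, a * b = b * a
  · have hcomm : IsMulCommutative Y := Cfsg.Agent.Lib.PGroup.isMulCommutative_of_comm hab
    have hbot : ∀ (h1 : ∀ h ∈ H, ∀ y ∈ Y, h * y * h⁻¹ = y), False := by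
      intro h1
      apply hne
      rw [← hc, eq_bot_iff, commutator_le]
      intro y hy h hh
      rw [mem_bot]
      have h2 := h1 h hh y⁻¹ (inv_mem hy)
      rw [commutatorElement_def, mul_assoc y, mul_assoc y, h2]
      group
    have hncy : ¬ IsCyclic Y := fun hcyc =>
      hbot (fun h hh => fix_of_cyclic hcyc hp (odd_order hodd hh) (hn h hh))
    obtain ⟨k, hk⟩ := IsPGroup.iff_card.mp hp
    have hk2 : 2 ≤ k := by
      by_contra hc'
      have : k = 0 ∨ k = 1 := by omega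
      rcases this with rfl | rfl
      · have : Subsingleton Y := (Nat.card_eq_one_iff_unique.mp (by simpa using hk)).1
        exact hncy inferInstance
      · haveI : Fact (Nat.Prime (Nat.card Y)) := ⟨by rw [hk]; norm_num⟩
        exact hncy (isCyclic_of_prime_card rfl)
    have hk3 : k < 3 := by
      by_contra hc'
      have h8 : 8 ≤ Nat.card Y := by
        rw [hk]
        calc 8 = 2 ^ 3 := by norm_num
          _ ≤ 2 ^ k := Nat.pow_le_pow_right (by norm_num) (by omega)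
      exact hncy (isCyclic_of_big hA le_rfl hp hcomm h8)
    have hY4 : Nat.card Y = 4 := by
      have : k = 2 := by omega
      rw [hk, this]
      norm_num
    have hexp : ∀ y ∈ Y, y * y = 1 := by
      intro y hy
      have := exp2_of_card4 hY4 hncy ⟨y, hy⟩
      exact congrArg Subtype.val this
    have hZfY : Zf H Y ≤ Y := inf_le_left
    have hZbot : Zf H Y = ⊥ := by
      by_contra hnb
      have hd : Nat.card (Zf H Y) ∣ 4 := hY4 ▸ Subgroup.card_dvd_of_le hZfY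
      have h1 : Nat.card (Zf H Y) ≠ 1 := fun h => hnb ((Subgroup.card_eq_one).mp h)
      by_cases h4 : Nat.card (Zf H Y) = 4
      · have hZe : Zf H Y = Y := Subgroup.eq_of_le_of_card_ge hZfY (by rw [h4, hY4])
        apply hbot
        intro h hh y hy
        have h2 : y ∈ Zf H Y := by rw [hZe]; exact hy
        rw [(mem_Zf.mp h2).2 h hh]
        group
      · have h2 : Nat.card (Zf H Y) = 2 := by
          have hle := Nat.le_of_dvd (by norm_num) hd
          have hpos : 0 < Nat.card (Zf H Y) := Nat.card_pos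
          have : Nat.card (Zf H Y) ≠ 3 := by
            intro h3
            rw [h3] at hd
            omega
          omega
        have hidx : ((Zf H Y).subgroupOf Y).index = 2 := by
          have h3 := Subgroup.card_mul_index ((Zf H Y).subgroupOf Y)
          have h5 : Nat.card ((Zf H Y).subgroupOf Y) = Nat.card (Zf H Y) :=
            Nat.card_congr (Subgroup.subgroupOfEquivOfLe hZfY).toEquiv
          rw [h5, h2, hY4] at h3
          omega
        have h6 := cmt_le_of_index_two hZfY hidx hn (fun h hh m hm => by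
          rw [(mem_Zf.mp hm).2 h hh]
          simpa using hm)
        rw [hc] at h6
        have := Subgroup.card_le_of_le h6
        omega
    refine ⟨hn, hc, hp, hodd, ?_, ?_, ?_, ?_, ?_⟩
    · rw [hZbot, Subgroup.card_bot, hY4]
    · rw [hZbot, Subgroup.card_bot]
      norm_num
    · intro z hz y hy
      exact hab y hy z (hZfY hz)
    · intro y hy
      rw [hexp y hy]
      exact one_mem _
    · intro y hy hyZ z hz hz1
      rw [hZbot, mem_bot] at hz
      exact absurd hz hz1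
  · have hcard := card8_of_noA hodd hp hn hc hA hab
    have hZcyc := zc_cyclic hA hp hab
    refine basic_of_card8 hodd hp hn hc hcard hab ?_
    intro z hz h hh
    have h1 := fix_of_cyclic hZcyc (hp.to_le inf_le_left) (odd_order hodd hh) (zc_inv hn h hh) z hz
    calc h * z = h * z * h⁻¹ * h := by group
      _ = z * h := by rw [h1]

end Cfsg.Agent.Lib.Techniques.NoA8
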