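import Mathlib
import Cfsg.Agent.Lib.Techniques.NoA8b

/-!
# Consequences of the structure `Basic H Y`
-/

set_option autoImplicit false
set_option linter.unusedSectionVars false
set_option linter.unusedVariables false

namespace Cfsg.Agent.Lib.Techniques.NoA8

open Subgroup
open scoped commutatorElement

variable {G : Type*} [Group G] [Finite G] {H Y : Subgroup G}

theorem cmt_le {H Y : Subgroup G} (hn : ∀ h ∈ H, ∀ y ∈ Y, h * y * h⁻¹ ∈ Y) : ⁅Y, H⁆ ≤ Y := by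
  rw [commutator_le]
  intro y hy h hh
  have e : ⁅y, h⁆ = y * (h * y⁻¹ * h⁻¹) := by
    simp only [commutatorElement_def]
    group
  rw [e]
  exact mul_mem hy (hn h hh _ (inv_mem hy))

theorem cmt_nrm {H Y : Subgroup G} (hn : ∀ h ∈ H, ∀ y ∈ Y, h * y * h⁻¹ ∈ Y) :
    ∀ h ∈ H, ∀ w ∈ ⁅Y, H⁆, h * w * h⁻¹ ∈ ⁅Y, H⁆ := by
  intro h hh
  refine conj_mem_cmt (hn h hh) (fun b hb => mul_mem (mul_mem hh hb) (inv_mem hh))

theorem cmt_cmt {H Y : Subgroup G} (hodd : Odd (Nat.card H)) (hp : IsPGroup 2 Y)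
    (hn : ∀ h ∈ H, ∀ y ∈ Y, h * y * h⁻¹ ∈ Y) : ⁅⁅Y, H⁆, H⁆ = ⁅Y, H⁆ := by
  apply le_antisymm (cmt_le (cmt_nrm hn))
  rw [commutator_le]
  intro y hy h hh
  have hle := cmt_le hn
  obtain ⟨n, hn', hf⟩ := lift hodd (hp.to_le hle) (cmt_nrm hn) y⁻¹ (fun a ha => mem_cmt (inv_mem hy) ha)
  have hc : h * (y⁻¹ * n) * h⁻¹ = y⁻¹ * n := hf h hh
  have e : ⁅y, h⁆ = ⁅n, h⁆ := by
    have e1 : h * y⁻¹ * h⁻¹ = (y⁻¹ * n) * (h * n⁻¹ * h⁻¹) := by
      calc h * y⁻¹ * h⁻¹ = (h * (y⁻¹ * n) * h⁻¹) * (h * n⁻¹ * h⁻¹) := by group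
        _ = _ := by rw [hc]
    simp only [commutatorElement_def]
    calc y * h * y⁻¹ * h⁻¹ = y * (h * y⁻¹ * h⁻¹) := by group
      _ = y * ((y⁻¹ * n) * (h * n⁻¹ * h⁻¹)) := by rw [e1]
      _ = n * h * n⁻¹ * h⁻¹ := by group
  rw [e]
  exact commutator_mem_commutator hn' hh

namespace Basic

variable (hB : Basic H Y)
include hB

theorem zf_le : Zf H Y ≤ Y := inf_le_left

theorem exists_out : ∃ a ∈ Y, a ∉ Zf H Y := by
  by_contra hall
  push Not at hall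
  have h1 := Subgroup.card_le_of_le (show Y ≤ Zf H Y from hall)
  rw [hB.card4] at h1
  have : 0 < Nat.card (Zf H Y) := Nat.card_pos
  omega

theorem one_or_sq {a z : G} (ha : a ∈ Y) (haZ : a ∉ Zf H Y) (hz : z ∈ Zf H Y) : z = 1 ∨ z = a * a := by
  by_cases h : z = 1
  · exact Or.inl h
  · exact Or.inr (hB.sq_ne a ha haZ z hz h).symm

theorem card2 {z : G} (hz : z ∈ Zf H Y) (hz1 : z ≠ 1) : Nat.card (Zf H Y) = 2 := by
  have h1 := hB.small
  have h2 : Nat.card (Zf H Y) ≠ 1 := by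
    intro h
    have := (Subgroup.card_eq_one).mp h
    rw [this, mem_bot] at hz
    exact hz1 hz
  have h3 : 0 < Nat.card (Zf H Y) := Nat.card_pos
  omega

theorem zz {z : G} (hz : z ∈ Zf H Y) : z * z = 1 := by
  by_cases h : z = 1
  · rw [h, mul_one]
  · exact sq_of_card2 (hB.card2 hz h) hz

theorem zf_eq {z w : G} (hz : z ∈ Zf H Y) (hw : w ∈ Zf H Y) (hz1 : z ≠ 1) : w = 1 ∨ w = z := by
  by_cases h : w = 1
  · exact Or.inl h
  · exact Or.inr (two_eq (hB.card2 hz hz1) hw hz h hz1)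

theorem eq_of_gen {D : Subgroup G} (hDY : D ≤ Y) {a b : G} (ha : a ∈ D) (hb : b ∈ D) (haZ : a ∉ Zf H Y)
    (hbZ : b ∉ Zf H Y) (hab : a⁻¹ * b ∉ Zf H Y) : D = Y := by
  have hZD : Zf H Y ≤ D := by
    intro z hz
    rcases hB.one_or_sq (hDY ha) haZ hz with rfl | rfl
    · exact one_mem _
    · exact mul_mem ha ha
  obtain ⟨k, hk⟩ := Subgroup.card_dvd_of_le hZD
  obtain ⟨l, hl⟩ := Subgroup.card_dvd_of_le hDY
  have hpos : 0 < Nat.card (Zf H Y) := Nat.card_pos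
  have hkl : k * l = 4 := by
    have h1 := hB.card4
    rw [hl, hk, mul_assoc, mul_comm 4] at h1
    exact Nat.eq_of_mul_eq_mul_left hpos h1
  have hk4 : k ∣ 4 := ⟨l, hkl.symm⟩
  have hk1 : k ≠ 1 := by
    rintro rfl
    rw [mul_one] at hk
    have := Subgroup.eq_of_le_of_card_ge hZD (by rw [hk])
    exact haZ (this ▸ ha)
  have hk2 : k ≠ 2 := by
    rintro rfl
    have hidx : ((Zf H Y).subgroupOf D).index = 2 := by
      have h3 := Subgroup.card_mul_index ((Zf H Y).subgroupOf D)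
      have h5 : Nat.card ((Zf H Y).subgroupOf D) = Nat.card (Zf H Y) :=
        Nat.card_congr (Subgroup.subgroupOfEquivOfLe hZD).toEquiv
      rw [h5, hk] at h3
      exact Nat.eq_of_mul_eq_mul_left hpos h3
    have h6 := mul_mem_iff_of_index_two hidx (a := ⟨a⁻¹, inv_mem ha⟩) (b := ⟨b, hb⟩)
    have h7 : (⟨a⁻¹, inv_mem ha⟩ : D) * ⟨b, hb⟩ ∈ (Zf H Y).subgroupOf D := by
      rw [h6]
      simp only [mem_subgroupOf]
      constructor
      · intro h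
        exact absurd (by simpa using inv_mem h) haZ
      · intro h
        exact absurd h hbZ
    rw [mem_subgroupOf] at h7
    exact hab h7
  have hk3 : k = 4 := by
    have hle := Nat.le_of_dvd (by norm_num) hk4
    have hk0 : k ≠ 0 := by
      rintro rfl
      simp at hkl
    have : k ≠ 3 := by
      rintro rfl
      omega
    omega
  subst hk3
  have hl1 : l = 1 := by omega
  subst hl1
  exact Subgroup.eq_of_le_of_card_ge hDY (by rw [hl, mul_one])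

theorem exists_b {a : G} (ha : a ∈ Y) (haZ : a ∉ Zf H Y) : ∃ h ∈ H, a⁻¹ * (h * a * h⁻¹) ∉ Zf H Y := by
  by_contra hall
  push Not at hall
  obtain ⟨n, hn, hf⟩ := lift hB.odd (hB.p2.to_le hB.zf_le) (fun h hh x hx => by
    rw [(mem_Zf.mp hx).2 h hh]
    simpa using hx) a hall
  have h1 : a * n ∈ Zf H Y := mem_Zf.mpr ⟨mul_mem ha (hB.zf_le hn), fun h hh => by
    have := hf h hh
    calc h * (a * n) = h * (a * n) * h⁻¹ * h := by group
      _ = a * n * h := by rw [this]⟩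
  apply haZ
  have h2 : a = (a * n) * n⁻¹ := by group
  rw [h2]
  exact mul_mem h1 (inv_mem hn)

theorem conj_not_mem {g a : G} (hg : ∀ z ∈ Zf H Y, g⁻¹ * z * g ∈ Zf H Y) (haZ : a ∉ Zf H Y) :
    g * a * g⁻¹ ∉ Zf H Y := by
  intro h1
  apply haZ
  have := hg _ h1
  have e : g⁻¹ * (g * a * g⁻¹) * g = a := by group
  rwa [e] at this

theorem h_conj {h z : G} (hh : h ∈ H) (hz : z ∈ Zf H Y) : h * z * h⁻¹ = z := by
  rw [(mem_Zf.mp hz).2 h hh]
  group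

theorem h_not_mem {h a : G} (hh : h ∈ H) (haZ : a ∉ Zf H Y) : h * a * h⁻¹ ∉ Zf H Y := by
  apply hB.conj_not_mem _ haZ
  intro z hz
  have e : h⁻¹ * z * h = z := by
    rw [(mem_Zf.mp hz).2 h⁻¹ (inv_mem hh)]
    group
  rw [e]
  exact hz

/-- An `H`-invariant subgroup of `Y` not contained in `Zf H Y` is `Y`. -/
theorem irr {D : Subgroup G} (hDY : D ≤ Y) (hDH : ∀ h ∈ H, ∀ d ∈ D, h * d * h⁻¹ ∈ D) {a : G} (ha : a ∈ D)
    (haZ : a ∉ Zf H Y) : D = Y := by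
  obtain ⟨h, hh, hb⟩ := hB.exists_b (hDY ha) haZ
  exact hB.eq_of_gen hDY ha (hDH h hh a ha) haZ (hB.h_not_mem hh haZ) hb

/-- Every element normalizing `Y` normalizes `Zf H Y`. -/
theorem zf_conj {g : G} (hg : ∀ y ∈ Y, g * y * g⁻¹ ∈ Y) : ∀ z ∈ Zf H Y, g * z * g⁻¹ ∈ Zf H Y := by
  intro z hz
  obtain ⟨a, ha, haZ⟩ := hB.exists_out
  rcases hB.one_or_sq ha haZ hz with rfl | rfl
  · simpa using one_mem _
  · have e : g * (a * a) * g⁻¹ = (g * a * g⁻¹) * (g * a * g⁻¹) := by group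
    rw [e]
    exact hB.sq_mem _ (hg a ha)

theorem cmt_mem {x y : G} (hx : x ∈ Y) (hy : y ∈ Y) : ⁅x, y⁆ ∈ Zf H Y := by
  have h1 := hB.sq_mem _ (mul_mem hx hy)
  have h2 := hB.sq_mem _ hx
  have h3 := hB.sq_mem _ hy
  have e1 : x⁻¹ = x * (x * x)⁻¹ := by group
  have e2 : y⁻¹ = y * (y * y)⁻¹ := by group
  have e3 : (x * x)⁻¹ * y = y * (x * x)⁻¹ := (hB.central _ (inv_mem h2) y hy).symm
  have e : ⁅x, y⁆ = (x * y * (x * y)) * ((x * x)⁻¹ * (y * y)⁻¹) := by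
    simp only [commutatorElement_def]
    calc x * y * x⁻¹ * y⁻¹ = x * y * (x * (x * x)⁻¹) * (y * (y * y)⁻¹) := by
          rw [← e1, ← e2]
      _ = x * y * x * ((x * x)⁻¹ * y) * (y * y)⁻¹ := by group
      _ = x * y * x * (y * (x * x)⁻¹) * (y * y)⁻¹ := by rw [e3]
      _ = _ := by group
  rw [e]
  exact mul_mem h1 (mul_mem (inv_mem h2) (inv_mem h3))

/-- The four cosets of `Zf H Y` in `Y`. -/
theorem cover {a b : G} (ha : a ∈ Y) (hb : b ∈ Y) (haZ : a ∉ Zf H Y) (hbZ : b ∉ Zf H Y)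
    (hab : a⁻¹ * b ∉ Zf H Y) {y : G} (hy : y ∈ Y) :
    y ∈ Zf H Y ∨ a⁻¹ * y ∈ Zf H Y ∨ b⁻¹ * y ∈ Zf H Y ∨ (a * b)⁻¹ * y ∈ Zf H Y := by
  classical
  let N : Subgroup Y := (Zf H Y).subgroupOf Y
  haveI : Fintype (Y ⧸ N) := Fintype.ofFinite _
  have hcard : Fintype.card (Y ⧸ N) = 4 := by
    rw [← Nat.card_eq_fintype_card]
    have h3 := Subgroup.card_eq_card_quotient_mul_card_subgroup N
    have h5 : Nat.card N = Nat.card (Zf H Y) :=
      Nat.card_congr (Subgroup.subgroupOfEquivOfLe hB.zf_le).toEquiv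
    rw [h5, hB.card4] at h3
    have hpos : 0 < Nat.card (Zf H Y) := Nat.card_pos
    exact (Nat.eq_of_mul_eq_mul_right hpos h3).symm
  let a' : Y := ⟨a, ha⟩
  let b' : Y := ⟨b, hb⟩
  let y' : Y := ⟨y, hy⟩
  have hqe : ∀ u v : Y, ((u : Y ⧸ N) = v) ↔ (u : G)⁻¹ * v ∈ Zf H Y := by
    intro u v
    rw [QuotientGroup.eq, mem_subgroupOf]
    rfl
  have h1 : ((1 : Y) : Y ⧸ N) ≠ (a' : Y ⧸ N) := by
    intro h
    have := (hqe _ _).mp h
    apply haZ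
    simpa [a'] using this
  have h2 : ((1 : Y) : Y ⧸ N) ≠ (b' : Y ⧸ N) := by
    intro h
    have := (hqe _ _).mp h
    apply hbZ
    simpa [b'] using this
  have h3 : ((1 : Y) : Y ⧸ N) ≠ ((a' * b' : Y) : Y ⧸ N) := by
    intro h
    have := (hqe _ _).mp h
    have h7 : a * b ∈ Zf H Y := by simpa [a', b'] using this
    apply hab
    have e : a⁻¹ * b = (a * a)⁻¹ * (a * b) := by group
    rw [e]
    exact mul_mem (inv_mem (hB.sq_mem a ha)) h7
  have h4 : (a' : Y ⧸ N) ≠ (b' : Y ⧸ N) := by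
    intro h
    exact hab ((hqe _ _).mp h)
  have h5 : (a' : Y ⧸ N) ≠ ((a' * b' : Y) : Y ⧸ N) := by
    intro h
    have := (hqe _ _).mp h
    apply hbZ
    simpa [a', b'] using this
  have h6 : (b' : Y ⧸ N) ≠ ((a' * b' : Y) : Y ⧸ N) := by
    intro h
    have := (hqe _ _).mp h
    have h7 : b⁻¹ * (a * b) ∈ Zf H Y := by simpa [a', b'] using this
    apply haZ
    have e : a = b⁻¹ * (a * b) * ⁅a⁻¹, b⁻¹⁆⁻¹ := by
      simp only [commutatorElement_def]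
      group
    rw [e]
    exact mul_mem h7 (inv_mem (hB.cmt_mem (inv_mem ha) (inv_mem hb)))
  have hS : (({((1 : Y) : Y ⧸ N), (a' : Y ⧸ N), (b' : Y ⧸ N), ((a' * b' : Y) : Y ⧸ N)} : Finset (Y ⧸ N))).card = 4 := by
    rw [Finset.card_insert_of_notMem, Finset.card_insert_of_notMem, Finset.card_insert_of_notMem,
      Finset.card_singleton]
    · simp only [Finset.mem_singleton]
      exact h6
    · simp only [Finset.mem_insert, Finset.mem_singleton, not_or]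
      exact ⟨h4, h5⟩
    · simp only [Finset.mem_insert, Finset.mem_singleton, not_or]
      exact ⟨h1, h2, h3⟩
  have hU : ({((1 : Y) : Y ⧸ N), (a' : Y ⧸ N), (b' : Y ⧸ N), ((a' * b' : Y) : Y ⧸ N)} : Finset (Y ⧸ N)) = Finset.univ :=
    Finset.eq_univ_of_card _ (by rw [hS, hcard])
  have hmem : (y' : Y ⧸ N) ∈ ({((1 : Y) : Y ⧸ N), (a' : Y ⧸ N), (b' : Y ⧸ N), ((a' * b' : Y) : Y ⧸ N)} : Finset (Y ⧸ N)) := by
    rw [hU]
    exact Finset.mem_univ _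
  simp only [Finset.mem_insert, Finset.mem_singleton] at hmem
  rcases hmem with h | h | h | h
  · left
    have := (hqe _ _).mp h.symm
    simpa using this
  · right; left
    exact (hqe _ _).mp h.symm
  · right; right; left
    exact (hqe _ _).mp h.symm
  · right; right; right
    exact (hqe _ _).mp h.symm

/-- Elements of `Y` moved within their `Zf`-coset by all elements of `S`. -/
def Dsub (hB : Basic H Y) (S : Set G) : Subgroup G where
  carrier := {y | y ∈ Y ∧ ∀ p ∈ S, y⁻¹ * (p * y * p⁻¹) ∈ Zf H Y}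
  mul_mem' := by
    rintro y₁ y₂ ⟨h1, h1'⟩ ⟨h2, h2'⟩
    refine ⟨mul_mem h1 h2, fun p hp => ?_⟩
    have ζ₁ := h1' p hp
    have ζ₂ := h2' p hp
    have e : (y₁ * y₂)⁻¹ * (p * (y₁ * y₂) * p⁻¹) =
        y₂⁻¹ * (y₁⁻¹ * (p * y₁ * p⁻¹)) * (p * y₂ * p⁻¹) := by group
    rw [e, hB.central _ ζ₁ _ (inv_mem h2), mul_assoc]
    exact mul_mem ζ₁ ζ₂
  one_mem' := by
    refine ⟨one_mem _, fun p hp => ?_⟩
    simpa using one_mem _
  inv_mem' := by
    rintro y ⟨h, h'⟩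
    refine ⟨inv_mem h, fun p hp => ?_⟩
    have ζ := h' p hp
    have e : y⁻¹⁻¹ * (p * y⁻¹ * p⁻¹) = y * (y⁻¹ * (p * y * p⁻¹))⁻¹ * y⁻¹ := by group
    rw [e, hB.central _ (inv_mem ζ) y h]
    simpa using inv_mem ζ

theorem mem_Dsub {S : Set G} {y : G} :
    y ∈ hB.Dsub S ↔ y ∈ Y ∧ ∀ p ∈ S, y⁻¹ * (p * y * p⁻¹) ∈ Zf H Y := Iff.rfl

theorem Dsub_le (S : Set G) : hB.Dsub S ≤ Y := fun y hy => (hB.mem_Dsub.mp hy).1

theorem exists_fixed_coset {P : Subgroup G} (hP : IsPGroup 2 P) (hYP : Y ≤ P)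
    (hPY : ∀ p ∈ P, ∀ y ∈ Y, p * y * p⁻¹ ∈ Y) :
    ∃ a ∈ Y, a ∉ Zf H Y ∧ ∀ p ∈ P, a⁻¹ * (p * a * p⁻¹) ∈ Zf H Y := by
  haveI : Fact (Nat.Prime 2) := ⟨Nat.prime_two⟩
  obtain ⟨N, hNdef⟩ : ∃ N : Subgroup P, N = (Zf H Y).subgroupOf P := ⟨_, rfl⟩
  have hNmem : ∀ x : P, x ∈ N ↔ (x : G) ∈ Zf H Y := by
    intro x
    rw [hNdef, mem_subgroupOf]
  haveI hN : N.Normal := ⟨fun n hn g => by
    rw [hNmem] at hn ⊢
    simpa using hB.zf_conj (hPY g g.2) n hn⟩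
  have hQ : IsPGroup 2 (P ⧸ N) := hP.to_quotient N
  obtain ⟨W, hWdef⟩ : ∃ W : Subgroup P, W = Y.subgroupOf P := ⟨_, rfl⟩
  have hWmem : ∀ x : P, x ∈ W ↔ (x : G) ∈ Y := by
    intro x
    rw [hWdef, mem_subgroupOf]
  haveI hW : W.Normal := ⟨fun n hn g => by
    rw [hWmem] at hn ⊢
    simpa using hPY g g.2 n hn⟩
  haveI hWb : (W.map (QuotientGroup.mk' N)).Normal :=
    Subgroup.Normal.map hW _ (QuotientGroup.mk'_surjective N)
  have hne : W.map (QuotientGroup.mk' N) ≠ ⊥ := by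
    obtain ⟨a₀, ha₀, ha₀Z⟩ := hB.exists_out
    intro hbot
    have h1 : QuotientGroup.mk' N ⟨a₀, hYP ha₀⟩ ∈ W.map (QuotientGroup.mk' N) :=
      mem_map_of_mem _ ((hWmem _).mpr ha₀)
    rw [hbot, mem_bot] at h1
    have h2 : (⟨a₀, hYP ha₀⟩ : P) ∈ N := (QuotientGroup.eq_one_iff _).mp h1
    exact ha₀Z ((hNmem _).mp h2)
  obtain ⟨z, hzY, hzc, hzo⟩ := Cfsg.Agent.Lib.PGroup.exists_central_of_order_prime hQ hne
  obtain ⟨a, haY, rfl⟩ := hzY
  refine ⟨a, (hWmem a).mp haY, ?_, ?_⟩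
  · intro h1
    have h2 : (QuotientGroup.mk' N) a = 1 := (QuotientGroup.eq_one_iff _).mpr ((hNmem a).mpr h1)
    rw [h2, orderOf_one] at hzo
    omega
  · intro p hp
    have h1 := mem_center_iff.mp hzc (QuotientGroup.mk' N ⟨p, hp⟩)
    have h2 : (QuotientGroup.mk' N) (a⁻¹ * (⟨p, hp⟩ * a * (⟨p, hp⟩ : P)⁻¹)) = 1 := by
      simp only [map_mul, map_inv]
      rw [h1]
      group
    have h3 := (QuotientGroup.eq_one_iff _).mp h2
    exact (hNmem _).mp h3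

/-- A `2`-group `P ≥ Y` normalized by `H` and normalizing `Y` acts trivially on `Y / Zf H Y`. -/
theorem act_triv {P : Subgroup G} (hP : IsPGroup 2 P) (hYP : Y ≤ P) (hPY : ∀ p ∈ P, ∀ y ∈ Y, p * y * p⁻¹ ∈ Y)
    (hHP : ∀ h ∈ H, ∀ p ∈ P, h * p * h⁻¹ ∈ P) : ∀ p ∈ P, ∀ y ∈ Y, y⁻¹ * (p * y * p⁻¹) ∈ Zf H Y := by
  obtain ⟨a, ha, haZ, haP⟩ := hB.exists_fixed_coset hP hYP hPY
  have hD : hB.Dsub (P : Set G) = Y := by
    apply hB.irr (a := a) (hB.Dsub_le _)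
    · intro h hh d hdD
      obtain ⟨hd, hd'⟩ := hB.mem_Dsub.mp hdD
      refine hB.mem_Dsub.mpr ⟨hB.nrm h hh d hd, fun p hp => ?_⟩
      have hp' : h⁻¹ * p * h ∈ P := by simpa using hHP h⁻¹ (inv_mem hh) p hp
      have h1 := hd' _ hp'
      have h2 := hB.h_conj hh h1
      have e : (h * d * h⁻¹)⁻¹ * (p * (h * d * h⁻¹) * p⁻¹) =
          h * (d⁻¹ * (h⁻¹ * p * h * d * (h⁻¹ * p * h)⁻¹)) * h⁻¹ := by group
      rw [e, h2]
      exact h1
    · exact hB.mem_Dsub.mpr ⟨ha, haP⟩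
    · exact haZ
  intro p hp y hy
  have h1 : y ∈ hB.Dsub (P : Set G) := by rw [hD]; exact hy
  exact (hB.mem_Dsub.mp h1).2 p hp

/-- An element acting trivially on `Y / Zf H Y` is in `Y C(Y)`. -/
theorem inner {g : G} (hgY : ∀ y ∈ Y, g * y * g⁻¹ ∈ Y) (htriv : ∀ y ∈ Y, y⁻¹ * (g * y * g⁻¹) ∈ Zf H Y) :
    ∃ r ∈ Y, ∀ y ∈ Y, (r⁻¹ * g) * y = y * (r⁻¹ * g) := by
  by_cases hV : ∀ z ∈ Zf H Y, z = 1
  · refine ⟨1, one_mem _, fun y hy => ?_⟩
    have h1 := hV _ (htriv y hy)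
    have h2 : y = g * y * g⁻¹ := inv_mul_eq_one.mp h1
    simp only [inv_one, one_mul]
    calc g * y = g * y * g⁻¹ * g := by group
      _ = y * g := by rw [← h2]
  · push Not at hV
    obtain ⟨z, hz, hz1⟩ := hV
    obtain ⟨a, ha, haZ⟩ := hB.exists_out
    obtain ⟨h, hh, hab⟩ := hB.exists_b ha haZ
    obtain ⟨b, hbdef⟩ : ∃ b, b = h * a * h⁻¹ := ⟨_, rfl⟩
    rw [← hbdef] at hab
    have hb : b ∈ Y := hbdef ▸ hB.nrm h hh a ha
    have hbZ : b ∉ Zf H Y := hbdef ▸ hB.h_not_mem hh haZ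
    have haa : a * a = z := hB.sq_ne a ha haZ z hz hz1
    have hbb : b * b = z := hB.sq_ne b hb hbZ z hz hz1
    have hzz : z * z = 1 := hB.zz hz
    have hzc : ∀ y ∈ Y, y * z = z * y := hB.central z hz
    have hab2 : a * b ∉ Zf H Y := by
      intro h1
      apply hab
      have e : a⁻¹ * b = (a * a)⁻¹ * (a * b) := by group
      rw [e]
      exact mul_mem (inv_mem (hB.sq_mem a ha)) h1
    have habab : (a * b) * (a * b) = z := hB.sq_ne _ (mul_mem ha hb) hab2 z hz hz1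
    have hbi : b⁻¹ = b * z := by
      apply inv_eq_of_mul_eq_one_right
      rw [← mul_assoc, hbb, hzz]
    have hai : a⁻¹ = a * z := by
      apply inv_eq_of_mul_eq_one_right
      rw [← mul_assoc, haa, hzz]
    have haba : a * b * a = b := by
      calc a * b * a = ((a * b) * (a * b)) * b⁻¹ := by group
        _ = z * (b * z) := by rw [habab, hbi]
        _ = b * z * z := by rw [← mul_assoc, ← hzc b hb]
        _ = b := by rw [mul_assoc, hzz, mul_one]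
    have cab : a⁻¹ * b * a = b * z := by
      calc a⁻¹ * b * a = (a * z) * b * a := by rw [hai]
        _ = a * (z * b) * a := by rw [mul_assoc a z b]
        _ = a * (b * z) * a := by rw [hzc b hb]
        _ = (a * b) * (z * a) := by group
        _ = (a * b) * (a * z) := by rw [hzc a ha]
        _ = (a * b * a) * z := by group
        _ = b * z := by rw [haba]
    have cba : b⁻¹ * a * b = a * z := by
      have e1 : a * b = b * a⁻¹ := by
        calc a * b = a * b * a * a⁻¹ := by group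
          _ = b * a⁻¹ := by rw [haba]
      calc b⁻¹ * a * b = b⁻¹ * (a * b) := by group
        _ = b⁻¹ * (b * a⁻¹) := by rw [e1]
        _ = a⁻¹ := by group
        _ = a * z := hai
    obtain ⟨ζ₁, hζ₁def⟩ : ∃ ζ₁, ζ₁ = a⁻¹ * (g * a * g⁻¹) := ⟨_, rfl⟩
    obtain ⟨ζ₂, hζ₂def⟩ : ∃ ζ₂, ζ₂ = b⁻¹ * (g * b * g⁻¹) := ⟨_, rfl⟩
    have hζ₁ : ζ₁ ∈ Zf H Y := hζ₁def ▸ htriv a ha
    have hζ₂ : ζ₂ ∈ Zf H Y := hζ₂def ▸ htriv b hb
    have hga : g * a * g⁻¹ = a * ζ₁ := by rw [hζ₁def]; group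
    have hgb : g * b * g⁻¹ = b * ζ₂ := by rw [hζ₂def]; group
    have key : ∀ r ∈ Y, ∀ x ∈ Y, ∀ ζ ∈ Zf H Y, g * x * g⁻¹ = x * ζ → (r⁻¹ * x * r) * ζ = x →
        (r⁻¹ * g) * x = x * (r⁻¹ * g) := by
      intro r hr x hx ζ hζ h1 h2
      have h3 : (r⁻¹ * g) * x * (r⁻¹ * g)⁻¹ = x := by
        calc (r⁻¹ * g) * x * (r⁻¹ * g)⁻¹ = r⁻¹ * (g * x * g⁻¹) * r := by group
          _ = r⁻¹ * x * (ζ * r) := by rw [h1]; group
          _ = r⁻¹ * x * (r * ζ) := by rw [← hB.central ζ hζ r hr]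
          _ = (r⁻¹ * x * r) * ζ := by group
          _ = x := h2
      calc (r⁻¹ * g) * x = (r⁻¹ * g) * x * (r⁻¹ * g)⁻¹ * (r⁻¹ * g) := by group
        _ = x * (r⁻¹ * g) := by rw [h3]
    have fin : ∀ r ∈ Y, (r⁻¹ * a * r) * ζ₁ = a → (r⁻¹ * b * r) * ζ₂ = b →
        ∀ y ∈ Y, (r⁻¹ * g) * y = y * (r⁻¹ * g) := by
      intro r hr h1 h2
      have hD : Y ⊓ centralizer ({r⁻¹ * g} : Set G) = Y := by
        apply hB.eq_of_gen inf_le_left (a := a) (b := b) _ _ haZ hbZ hab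
        · exact mem_inf.mpr ⟨ha, mem_centralizer_singleton_iff.mpr (key r hr a ha ζ₁ hζ₁ hga h1).symm⟩
        · exact mem_inf.mpr ⟨hb, mem_centralizer_singleton_iff.mpr (key r hr b hb ζ₂ hζ₂ hgb h2).symm⟩
      intro y hy
      have h3 : y ∈ Y ⊓ centralizer ({r⁻¹ * g} : Set G) := by rw [hD]; exact hy
      exact (mem_centralizer_singleton_iff.mp (mem_inf.mp h3).2).symm
    rcases hB.zf_eq hz hζ₁ hz1 with e1 | e1 <;> rcases hB.zf_eq hz hζ₂ hz1 with e2 | e2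
    · exact ⟨1, one_mem _, fin 1 (one_mem _) (by rw [e1]; group) (by rw [e2]; group)⟩
    · refine ⟨a, ha, fin a ha (by rw [e1]; group) ?_⟩
      rw [e2, cab, mul_assoc, hzz, mul_one]
    · refine ⟨b, hb, fin b hb ?_ (by rw [e2]; group)⟩
      rw [e1, cba, mul_assoc, hzz, mul_one]
    · refine ⟨a * b, mul_mem ha hb, fin _ (mul_mem ha hb) ?_ ?_⟩
      · have e : (a * b)⁻¹ * a * (a * b) = b⁻¹ * a * b := by group
        rw [e1, e, cba, mul_assoc, hzz, mul_one]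
      · have e : (a * b)⁻¹ * b * (a * b) = b⁻¹ * (a⁻¹ * b * a) * b := by group
        rw [e2, e, cab]
        have e3 : b⁻¹ * (b * z) * b * z = (z * b) * z := by group
        rw [e3, ← hzc b hb, mul_assoc, hzz, mul_one]

end Basic

end Cfsg.Agent.Lib.Techniques.NoA8
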