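import Mathlib
import Cfsg.Agent.Lib.Techniques.NoA8c

/-!
# The structure `Basic H Y` inside larger `2`-groups
-/

set_option autoImplicit false
set_option linter.unusedSectionVars false
set_option linter.unusedVariables false

namespace Cfsg.Agent.Lib.Techniques.NoA8

open Subgroup
open scoped commutatorElement

variable {G : Type*} [Group G] [Finite G] {H Y : Subgroup G}

namespace Basic

variable (hB : Basic H Y)
include hB

theorem comm_of_triv (hV : ∀ z ∈ Zf H Y, z = 1) : ∀ a ∈ Y, ∀ b ∈ Y, a * b = b * a := by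
  intro a ha b hb
  exact commutatorElement_eq_one_iff_mul_comm.mp (hV _ (hB.cmt_mem ha hb))

theorem card_ge_four : 4 ≤ Nat.card Y := by
  have hpos : 0 < Nat.card (Zf H Y) := Nat.card_pos
  rw [hB.card4]
  omega

theorem exists_central_elt {P : Subgroup G} (hP : IsPGroup 2 P) (hYP : Y ≤ P)
    (hPY : ∀ p ∈ P, ∀ y ∈ Y, p * y * p⁻¹ ∈ Y) (hHP : ∀ h ∈ H, ∀ p ∈ P, h * p * h⁻¹ ∈ P)
    (hcmt : ⁅P, H⁆ ≤ Y) (hne : Y ≠ P) :
    ∃ c ∈ P, c ∉ Y ∧ (∀ h ∈ H, h * c = c * h) ∧ c * c ∈ Y ∧ (∀ y ∈ Y, c * y = y * c) ∧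
      ¬ NoA (Y ⊔ zpowers c) := by
  haveI : Fact (Nat.Prime 2) := ⟨Nat.prime_two⟩
  obtain ⟨x, hxP, hxY⟩ : ∃ x ∈ P, x ∉ Y := by
    by_contra hall
    push Not at hall
    exact hne (le_antisymm hYP hall)
  obtain ⟨n, hn, hf⟩ := lift hB.odd hB.p2 hB.nrm x (fun h hh => hcmt (mem_cmt hxP hh))
  obtain ⟨c₀, hc₀⟩ : ∃ c₀, c₀ = x * n := ⟨_, rfl⟩
  rw [← hc₀] at hf
  have hc₀P : c₀ ∈ P := hc₀ ▸ mul_mem hxP (hYP hn)
  have hc₀Y : c₀ ∉ Y := by
    intro h
    apply hxY
    have e : x = c₀ * n⁻¹ := by rw [hc₀]; group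
    rw [e]
    exact mul_mem h (inv_mem hn)
  obtain ⟨m, hm⟩ := (IsPGroup.iff_orderOf.mp hP) ⟨c₀, hc₀P⟩
  rw [Subgroup.orderOf_mk] at hm
  obtain ⟨k, hk1, hk2⟩ := exists_sq_step Y c₀ hc₀Y m (by rw [← hm, pow_orderOf_eq_one]; exact one_mem _)
  obtain ⟨c, hc⟩ : ∃ c, c = c₀ ^ (2 ^ k) := ⟨_, rfl⟩
  rw [← hc] at hk1 hk2
  have hcP : c ∈ P := hc ▸ pow_mem hc₀P _
  have hcH : ∀ h ∈ H, h * c = c * h := by
    intro h hh
    have h1 : h * c₀ = c₀ * h := by
      have := hf h hh
      calc h * c₀ = h * c₀ * h⁻¹ * h := by group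
        _ = c₀ * h := by rw [this]
    rw [hc]
    exact (Commute.pow_right h1 _)
  have hcY : ∀ y ∈ Y, c * y = y * c := comm_fix hB.comm hcH
    (fun y hy h hh => (mem_Zf.mp (hB.act_triv hP hYP hPY hHP c hcP y hy)).2 h hh)
  have hccZ : c * c ∈ Zf H Y := mem_Zf.mpr ⟨hk2, fun h hh => by
    rw [← mul_assoc, hcH h hh, mul_assoc, hcH h hh, mul_assoc]⟩
  refine ⟨c, hcP, hk1, hcH, hk2, hcY, ?_⟩
  intro hNA
  obtain ⟨a, ha, haZ⟩ := hB.exists_out
  have hcross : ∀ y ∈ Y, ∀ t ∈ zpowers c, y * t = t * y := by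
    rintro y hy _ ⟨i, rfl⟩
    exact Commute.zpow_right (show Commute y c from (hcY y hy).symm) i
  by_cases hV : ∀ z ∈ Zf H Y, z = 1
  · obtain ⟨h, hh, hab⟩ := hB.exists_b ha haZ
    obtain ⟨b, hbdef⟩ : ∃ b, b = h * a * h⁻¹ := ⟨_, rfl⟩
    rw [← hbdef] at hab
    have hb : b ∈ Y := hbdef ▸ hB.nrm h hh a ha
    have hbZ : b ∉ Zf H Y := hbdef ▸ hB.h_not_mem hh haZ
    have hT := comm_sup (hB.comm_of_triv hV) (zpowers_comm c) hcross
    have hne2 : Y ≠ Y ⊔ zpowers c := by
      intro he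
      apply hk1
      rw [he]
      exact mem_sup_right (mem_zpowers c)
    have h2 := two_mul_card_le le_sup_left hne2
    have h4 := hB.card_ge_four
    have hTP : Y ⊔ zpowers c ≤ P := sup_le hYP ((zpowers_le).mpr hcP)
    haveI hcT := isCyclic_of_big hNA le_rfl (hP.to_le hTP)
      (Cfsg.Agent.Lib.PGroup.isMulCommutative_of_comm hT) (by omega)
    have haT : a ∈ Y ⊔ zpowers c := mem_sup_left ha
    have hbT : b ∈ Y ⊔ zpowers c := mem_sup_left hb
    have h5 := eq_of_two_inv (W := (Y ⊔ zpowers c : Subgroup G)) (a := ⟨a, haT⟩) (b := ⟨b, hbT⟩)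
      (Subtype.ext (hV _ (hB.sq_mem a ha))) (Subtype.ext (hV _ (hB.sq_mem b hb)))
      (fun h => haZ (by
        have : a = 1 := congrArg Subtype.val h
        rw [this]
        exact one_mem _))
      (fun h => hbZ (by
        have : b = 1 := congrArg Subtype.val h
        rw [this]
        exact one_mem _))
    have h6 : a = b := congrArg Subtype.val h5
    apply hab
    rw [← h6]
    simpa using one_mem _
  · push Not at hV
    obtain ⟨z, hz, hz1⟩ := hV
    have haa : a * a = z := hB.sq_ne a ha haZ z hz hz1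
    have hzz : z * z = 1 := hB.zz hz
    have hord : orderOf a = 2 ^ (1 + 1) := by
      apply orderOf_eq_prime_pow (p := 2) (n := 1)
      · simpa [pow_two, haa] using hz1
      · rw [show 2 ^ (1 + 1) = 2 + 2 by norm_num, pow_add, pow_two, haa, hzz]
    have hMcard : Nat.card (zpowers a) = 4 := by
      rw [Nat.card_zpowers, hord]
      norm_num
    have hMY : zpowers a ≤ Y := (zpowers_le).mpr ha
    have hT := comm_sup (zpowers_comm a) (zpowers_comm c) (fun u hu t ht => hcross u (hMY hu) t ht)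
    have hne2 : zpowers a ≠ zpowers a ⊔ zpowers c := by
      intro he
      apply hk1
      apply hMY
      rw [he]
      exact mem_sup_right (mem_zpowers c)
    have h2 := two_mul_card_le le_sup_left hne2
    have hTY : zpowers a ⊔ zpowers c ≤ Y ⊔ zpowers c := sup_le_sup_right hMY _
    have hTP : zpowers a ⊔ zpowers c ≤ P := sup_le (hMY.trans hYP) ((zpowers_le).mpr hcP)
    haveI hcT := isCyclic_of_big hNA hTY (hP.to_le hTP)
      (Cfsg.Agent.Lib.PGroup.isMulCommutative_of_comm hT) (by omega)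
    have hzT : z ∈ zpowers a ⊔ zpowers c := by
      apply mem_sup_left
      rw [← haa]
      exact mul_mem (mem_zpowers a) (mem_zpowers a)
    have hcT' : c ∈ zpowers a ⊔ zpowers c := mem_sup_right (mem_zpowers c)
    have haT' : a ∈ zpowers a ⊔ zpowers c := mem_sup_left (mem_zpowers a)
    have hzY : z ∈ Y := hB.zf_le hz
    rcases hB.one_or_sq ha haZ hccZ with e | e
    · have h5 := eq_of_two_inv (W := (zpowers a ⊔ zpowers c : Subgroup G)) (a := ⟨c, hcT'⟩) (b := ⟨z, hzT⟩)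
        (Subtype.ext e) (Subtype.ext hzz)
        (fun h => hk1 (by
          have : c = 1 := congrArg Subtype.val h
          rw [this]
          exact one_mem _))
        (fun h => hz1 (congrArg Subtype.val h))
      have h6 : c = z := congrArg Subtype.val h5
      exact hk1 (h6 ▸ hzY)
    · have hac : a * c = c * a := (hcY a ha).symm
      have hacT : a * c ∈ zpowers a ⊔ zpowers c := mul_mem haT' hcT'
      have hacac : (a * c) * (a * c) = 1 := by
        calc (a * c) * (a * c) = a * (c * a) * c := by group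
          _ = a * (a * c) * c := by rw [hac]
          _ = (a * a) * (c * c) := by group
          _ = z * z := by rw [e, haa]
          _ = 1 := hzz
      have hnotY : a * c ∉ Y := by
        intro h1
        apply hk1
        have e2 : c = a⁻¹ * (a * c) := by group
        rw [e2]
        exact mul_mem (inv_mem ha) h1
      have h5 := eq_of_two_inv (W := (zpowers a ⊔ zpowers c : Subgroup G)) (a := ⟨a * c, hacT⟩) (b := ⟨z, hzT⟩)
        (Subtype.ext hacac) (Subtype.ext hzz)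
        (fun h => hnotY (by
          have : a * c = 1 := congrArg Subtype.val h
          rw [this]
          exact one_mem _))
        (fun h => hz1 (congrArg Subtype.val h))
      have h6 : a * c = z := congrArg Subtype.val h5
      exact hnotY (h6 ▸ hzY)

end Basic

theorem basic_or_fixed {H P : Subgroup G} (hodd : Odd (Nat.card H)) (hp : IsPGroup 2 P)
    (hn : ∀ h ∈ H, ∀ y ∈ P, h * y * h⁻¹ ∈ P) (hA : NoA P) :
    (∀ h ∈ H, ∀ x ∈ P, h * x = x * h) ∨ Basic H P := by
  have hle := cmt_le hn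
  by_cases hbot : ⁅P, H⁆ = ⊥
  · left
    intro h hh x hx
    have := commutator_mem_commutator hx hh
    rw [hbot, mem_bot] at this
    exact (commutatorElement_eq_one_iff_mul_comm.mp this).symm
  · right
    have hB : Basic H ⁅P, H⁆ := basic_of_noA hodd (hp.to_le hle) (cmt_nrm hn) (cmt_cmt hodd hp hn) hbot
      (hA.mono hle)
    by_cases he : ⁅P, H⁆ = P
    · rwa [he] at hB
    · exfalso
      obtain ⟨c, hcP, -, -, -, -, hnot⟩ := hB.exists_central_elt hp hle
        (fun p hp' => left_conj_mem_cmt hp') hn le_rfl he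
      exact hnot (hA.mono (sup_le hle ((zpowers_le).mpr hcP)))

/-- The Frattini-like subgroup `Φ` of `X = [X,H]`, without noncyclic abelian subgroups of order `8`,
is central in `X`. -/
theorem central_of_nongen {H X Φ : Subgroup G} (hodd : Odd (Nat.card H)) (hp : IsPGroup 2 X)
    (hn : ∀ h ∈ H, ∀ y ∈ X, h * y * h⁻¹ ∈ X) (hc : ⁅X, H⁆ = X) (hΦX : Φ ≤ X)
    (hΦn : ∀ x ∈ X, ∀ f ∈ Φ, x * f * x⁻¹ ∈ Φ) (hΦH : ∀ h ∈ H, ∀ f ∈ Φ, h * f * h⁻¹ ∈ Φ) (hA : NoA Φ)
    (hgen : ∀ K : Subgroup G, K ≤ X → Φ ⊔ K = X → K = X) : ∀ f ∈ Φ, ∀ x ∈ X, f * x = x * f := by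
  rcases basic_or_fixed hodd (hp.to_le hΦX) hΦH hA with hfix | hB
  · intro f hf
    refine comm_fix hc (fun h hh => hfix h hh f hf) (fun y hy h hh => ?_)
    have e : y⁻¹ * (f * y * f⁻¹) = (y⁻¹ * f * y⁻¹⁻¹) * f⁻¹ := by group
    rw [e]
    exact hfix h hh _ (mul_mem (hΦn _ (inv_mem hy) f hf) (inv_mem hf))
  · have htriv := hB.act_triv hp hΦX hΦn hn
    have hK : X ⊓ centralizer (Φ : Set G) = X := by
      apply hgen _ inf_le_left
      apply le_antisymm (sup_le hΦX inf_le_left)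
      intro x hx
      obtain ⟨r, hr, hcr⟩ := hB.inner (hΦn x hx) (htriv x hx)
      have e : x = r * (r⁻¹ * x) := by group
      rw [e]
      refine mul_mem_sup hr (mem_inf.mpr ⟨mul_mem (inv_mem (hΦX hr)) hx, ?_⟩)
      rw [mem_centralizer_iff]
      intro f hf
      exact (hcr f hf).symm
    intro f hf x hx
    have h1 : x ∈ X ⊓ centralizer (Φ : Set G) := by rw [hK]; exact hx
    exact mem_centralizer_iff.mp (mem_inf.mp h1).2 f hf

end Cfsg.Agent.Lib.Techniques.NoA8
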