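import Mathlib
import Cfsg.Agent.Lib.Techniques.NoA8d

/-!
# A self-centralizing normal `Basic` subgroup excludes noncyclic abelian subgroups of order `8`
-/

set_option autoImplicit false
set_option linter.unusedSectionVars false
set_option linter.unusedVariables false

namespace Cfsg.Agent.Lib.Techniques.NoA8

open Subgroup
open scoped commutatorElement

variable {G : Type*} [Group G] [Finite G] {H Y : Subgroup G}

namespace Basic

variable (hB : Basic H Y)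
include hB

theorem no_A (hnY : Y.Normal) (hCen : ∀ g, (∀ y ∈ Y, g * y = y * g) → g ∈ Y) {A : Subgroup G}
    (hA2 : IsPGroup 2 A) (hAc : IsMulCommutative A) (hA8 : Nat.card A = 8) (hAnc : ¬ IsCyclic A) : False := by
  haveI : Fact (Nat.Prime 2) := ⟨Nat.prime_two⟩
  have hYn : ∀ g y, y ∈ Y → g * y * g⁻¹ ∈ Y := fun g y hy => hnY.conj_mem y hy g
  have hZn : ∀ g, ∀ z ∈ Zf H Y, g * z * g⁻¹ ∈ Zf H Y := fun g => hB.zf_conj (hYn g)
  have hKer : ∀ g, (∀ y ∈ Y, y⁻¹ * (g * y * g⁻¹) ∈ Zf H Y) → g ∈ Y := by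
    intro g hg
    obtain ⟨r, hr, hc⟩ := hB.inner (hYn g) hg
    have h1 := hCen _ hc
    have e : g = r * (r⁻¹ * g) := by group
    rw [e]
    exact mul_mem hr h1
  have hAcomm : ∀ a ∈ A, ∀ b ∈ A, a * b = b * a := fun a ha b hb =>
    Cfsg.Agent.Lib.PGroup.comm_of_isMulCommutative hAc ha hb
  have hT : IsPGroup 2 (A ⊔ Y : Subgroup G) := hA2.to_sup_of_normal_right hB.p2
  obtain ⟨a, ha, haZ, haT⟩ := hB.exists_fixed_coset hT le_sup_right (fun p _ => hYn p)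
  have haA : ∀ t ∈ A, a⁻¹ * (t * a * t⁻¹) ∈ Zf H Y := fun t ht => haT t (mem_sup_left ht)
  obtain ⟨h, hh, hab⟩ := hB.exists_b ha haZ
  obtain ⟨b, hbdef⟩ : ∃ b, b = h * a * h⁻¹ := ⟨_, rfl⟩
  rw [← hbdef] at hab
  have hb : b ∈ Y := hbdef ▸ hB.nrm h hh a ha
  have hbZ : b ∉ Zf H Y := hbdef ▸ hB.h_not_mem hh haZ
  have htrivg : ∀ (t u v : G), u ∈ Y → v ∈ Y → u ∉ Zf H Y → v ∉ Zf H Y → u⁻¹ * v ∉ Zf H Y →
      u⁻¹ * (t * u * t⁻¹) ∈ Zf H Y → v⁻¹ * (t * v * t⁻¹) ∈ Zf H Y → t ∈ Y := by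
    intro t u v hu hv huZ hvZ huv h1 h2
    have hD : hB.Dsub ({t} : Set G) = Y := by
      apply hB.eq_of_gen (hB.Dsub_le _) (a := u) (b := v) _ _ huZ hvZ huv
      · refine hB.mem_Dsub.mpr ⟨hu, fun p hp => ?_⟩
        rw [Set.mem_singleton_iff.mp hp]
        exact h1
      · refine hB.mem_Dsub.mpr ⟨hv, fun p hp => ?_⟩
        rw [Set.mem_singleton_iff.mp hp]
        exact h2
    apply hKer
    intro y hy
    have h3 : y ∈ hB.Dsub ({t} : Set G) := by rw [hD]; exact hy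
    exact (hB.mem_Dsub.mp h3).2 t rfl
  have htriv : ∀ t ∈ A, b⁻¹ * (t * b * t⁻¹) ∈ Zf H Y → t ∈ Y := fun t ht h1 =>
    htrivg t a b ha hb haZ hbZ hab (haA t ht) h1
  have hnotZ : ∀ (t y : G), y ∉ Zf H Y → t * y * t⁻¹ ∉ Zf H Y := by
    intro t y hy h1
    apply hy
    have h2 := hZn t⁻¹ _ h1
    have e : t⁻¹ * (t * y * t⁻¹) * t⁻¹⁻¹ = y := by group
    rwa [e] at h2
  have hmove : ∀ (t u v : G), t * u = u * t → u ∈ Y → v ∈ Y → u⁻¹ * v ∉ Zf H Y → u⁻¹ * (t * v * t⁻¹) ∉ Zf H Y := by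
    intro t u v htu hu hv huv h1
    apply huv
    have h2 := hZn t⁻¹ _ h1
    have e : t⁻¹ * (u⁻¹ * (t * v * t⁻¹)) * t⁻¹⁻¹ = (t⁻¹ * u⁻¹ * t) * v := by group
    rw [e] at h2
    have e2 : t⁻¹ * u⁻¹ * t = u⁻¹ := by
      have : u⁻¹ * t = t * u⁻¹ := by
        calc u⁻¹ * t = u⁻¹ * (t * u) * u⁻¹ := by group
          _ = u⁻¹ * (u * t) * u⁻¹ := by rw [htu]
          _ = t * u⁻¹ := by group
      rw [mul_assoc, this]
      group
    rwa [e2] at h2
  have htype : ∀ t ∈ A, t ∉ Y → (a * b)⁻¹ * (t * b * t⁻¹) ∈ Zf H Y := by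
    intro t ht htY
    have hb' := hYn t b hb
    rcases hB.cover ha hb haZ hbZ hab hb' with h1 | h1 | h1 | h1
    · exact absurd h1 (hnotZ t b hbZ)
    · exfalso
      apply hab
      obtain ⟨ζ₀, hζ₀⟩ : ∃ ζ₀, ζ₀ = a⁻¹ * (t⁻¹ * a * t⁻¹⁻¹) := ⟨_, rfl⟩
      have hζ₀Z : ζ₀ ∈ Zf H Y := hζ₀ ▸ haA t⁻¹ (inv_mem ht)
      have h2 := hZn t⁻¹ _ h1
      have e : t⁻¹ * (a⁻¹ * (t * b * t⁻¹)) * t⁻¹⁻¹ = (t⁻¹ * a * t⁻¹⁻¹)⁻¹ * b := by group
      rw [e] at h2
      have e2 : t⁻¹ * a * t⁻¹⁻¹ = a * ζ₀ := by rw [hζ₀]; group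
      rw [e2] at h2
      have e3 : a⁻¹ * b = ζ₀ * ((a * ζ₀)⁻¹ * b) := by group
      have e4 : (a * ζ₀)⁻¹ = ζ₀⁻¹ * a⁻¹ := by group
      rw [e4] at h2
      have e5 : a⁻¹ * b = ζ₀ * (ζ₀⁻¹ * a⁻¹ * b) := by group
      rw [e5]
      exact mul_mem hζ₀Z h2
    · exact absurd (htriv t ht h1) htY
    · exact h1
  have hprod : ∀ t ∈ A, ∀ t' ∈ A, t ∉ Y → t' ∉ Y → t * t' ∈ Y := by
    intro t ht t' ht' h1 h2
    apply htriv _ (mul_mem ht ht')
    obtain ⟨ζ, hζ⟩ : ∃ ζ, ζ = (a * b)⁻¹ * (t * b * t⁻¹) := ⟨_, rfl⟩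
    obtain ⟨ζ', hζ'⟩ : ∃ ζ', ζ' = (a * b)⁻¹ * (t' * b * t'⁻¹) := ⟨_, rfl⟩
    obtain ⟨ζ₀, hζ₀⟩ : ∃ ζ₀, ζ₀ = a⁻¹ * (t * a * t⁻¹) := ⟨_, rfl⟩
    have hζZ : ζ ∈ Zf H Y := hζ ▸ htype t ht h1
    have hζ'Z : ζ' ∈ Zf H Y := hζ' ▸ htype t' ht' h2
    have hζ₀Z : ζ₀ ∈ Zf H Y := hζ₀ ▸ haA t ht
    have hζ''Z := hZn t _ hζ'Z
    have e1 : t * b * t⁻¹ = (a * b) * ζ := by rw [hζ]; group
    have e2 : t' * b * t'⁻¹ = (a * b) * ζ' := by rw [hζ']; group
    have e3 : t * a * t⁻¹ = a * ζ₀ := by rw [hζ₀]; group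
    have e4 : (t * t') * b * (t * t')⁻¹ = (t * a * t⁻¹) * (t * b * t⁻¹) * (t * ζ' * t⁻¹) := by
      calc (t * t') * b * (t * t')⁻¹ = t * (t' * b * t'⁻¹) * t⁻¹ := by group
        _ = t * ((a * b) * ζ') * t⁻¹ := by rw [e2]
        _ = _ := by group
    rw [e4, e1, e3]
    have e6 : ζ₀ * (a * b) = (a * b) * ζ₀ := (hB.central ζ₀ hζ₀Z _ (mul_mem ha hb)).symm
    have e5 : b⁻¹ * ((a * a) * b) = a * a := by
      rw [← hB.central _ (hB.sq_mem a ha) b hb]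
      group
    have e7 : b⁻¹ * (a * ζ₀ * ((a * b) * ζ) * (t * ζ' * t⁻¹)) = (a * a) * ζ₀ * ζ * (t * ζ' * t⁻¹) := by
      calc b⁻¹ * (a * ζ₀ * ((a * b) * ζ) * (t * ζ' * t⁻¹))
          = b⁻¹ * (a * (ζ₀ * (a * b)) * ζ * (t * ζ' * t⁻¹)) := by group
        _ = b⁻¹ * (a * ((a * b) * ζ₀) * ζ * (t * ζ' * t⁻¹)) := by rw [e6]
        _ = (b⁻¹ * ((a * a) * b)) * ζ₀ * ζ * (t * ζ' * t⁻¹) := by group
        _ = _ := by rw [e5]
    rw [e7]
    exact mul_mem (mul_mem (mul_mem (hB.sq_mem a ha) hζ₀Z) hζZ) hζ''Z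
  by_cases hAY : A ≤ Y
  · -- `A` inside `Y` forces `A = Y`, which is not abelian
    have hle := Subgroup.card_le_of_le hAY
    have hsm := hB.small
    rw [hB.card4, hA8] at hle
    have hZ2 : 2 ≤ Nat.card (Zf H Y) := by omega
    have hZ2' : Nat.card (Zf H Y) = 2 := by omega
    have hAe : A = Y := Subgroup.eq_of_le_of_card_ge hAY (by rw [hB.card4, hA8, hZ2'])
    have hab2 : a * b ∉ Zf H Y := by
      intro h1
      apply hab
      have e : a⁻¹ * b = (a * a)⁻¹ * (a * b) := by group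
      rw [e]
      exact mul_mem (inv_mem (hB.sq_mem a ha)) h1
    have hz1 : a * a ≠ 1 := by
      intro h1
      obtain ⟨z, hz, hz1⟩ : ∃ z ∈ Zf H Y, z ≠ 1 := by
        by_contra hall
        push Not at hall
        have : Zf H Y = ⊥ := (eq_bot_iff_forall _).mpr hall
        rw [this, Subgroup.card_bot] at hZ2'
        omega
      exact hz1 ((hB.sq_ne a ha haZ z hz hz1).symm.trans h1)
    have h1 := hB.sq_ne _ (mul_mem ha hb) hab2 (a * a) (hB.sq_mem a ha) hz1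
    have hcm : a * b = b * a := hAcomm a (hAe ▸ ha) b (hAe ▸ hb)
    have h2 : (a * b) * (a * b) = (a * a) * (b * b) := by
      calc (a * b) * (a * b) = a * (b * a) * b := by group
        _ = a * (a * b) * b := by rw [hcm]
        _ = _ := by group
    have hbb : b * b = a * a := hB.sq_ne b hb hbZ (a * a) (hB.sq_mem a ha) hz1
    rw [h2, hbb] at h1
    have h3 : a * a = 1 := by
      have := hB.zz (hB.sq_mem a ha)
      rw [this] at h1
      exact h1.symm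
    exact hz1 h3
  · obtain ⟨t₀, ht₀, ht₀Y⟩ : ∃ t₀ ∈ A, t₀ ∉ Y := by
      by_contra hall
      push Not at hall
      exact hAY hall
    have hidx : (Y.subgroupOf A).index = 2 := by
      rw [Subgroup.index_eq_two_iff]
      refine ⟨⟨t₀, ht₀⟩, ?_⟩
      rintro ⟨t, ht⟩
      simp only [mem_subgroupOf, Subgroup.coe_mul]
      by_cases htY : t ∈ Y
      · refine Or.inr ⟨htY, fun h1 => ht₀Y ?_⟩
        have e : t₀ = t⁻¹ * (t * t₀) := by group
        rw [e]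
        exact mul_mem (inv_mem htY) h1
      · exact Or.inl ⟨hprod t ht t₀ ht₀ htY ht₀Y, htY⟩
    have hK4 : Nat.card (Y.subgroupOf A) = 4 := by
      have h1 := Subgroup.card_mul_index (Y.subgroupOf A)
      rw [hidx, hA8] at h1
      omega
    have hMc : Nat.card ((Y.subgroupOf A).map A.subtype) = 4 := by
      rw [Subgroup.card_map_of_injective A.subtype_injective, hK4]
    have hMY : (Y.subgroupOf A).map A.subtype ≤ Y := by
      rintro _ ⟨x, hx, rfl⟩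
      exact mem_subgroupOf.mp hx
    have hMA : (Y.subgroupOf A).map A.subtype ≤ A := by
      rintro _ ⟨x, hx, rfl⟩
      exact x.2
    by_cases hV : ∀ z ∈ Zf H Y, z = 1
    · have hZb : Zf H Y = ⊥ := (eq_bot_iff_forall _).mpr hV
      have hY4 : Nat.card Y = 4 := by rw [hB.card4, hZb, Subgroup.card_bot]
      have hMe : (Y.subgroupOf A).map A.subtype = Y :=
        Subgroup.eq_of_le_of_card_ge hMY (by rw [hMc, hY4])
      apply ht₀Y
      apply hCen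
      intro y hy
      have h1 : y ∈ A := hMA (by rw [hMe]; exact hy)
      exact hAcomm t₀ ht₀ y h1
    · push Not at hV
      obtain ⟨z, hz, hz1⟩ := hV
      have hzz : z * z = 1 := hB.zz hz
      have hZ2 := hB.card2 hz hz1
      obtain ⟨u, huM, huZ⟩ : ∃ u ∈ (Y.subgroupOf A).map A.subtype, u ∉ Zf H Y := by
        by_contra hall
        push Not at hall
        have := Subgroup.card_le_of_le (show (Y.subgroupOf A).map A.subtype ≤ Zf H Y from hall)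
        omega
      have huY := hMY huM
      have huA := hMA huM
      have htu : t₀ * u = u * t₀ := hAcomm t₀ ht₀ u huA
      obtain ⟨h₁, hh₁, hub⟩ := hB.exists_b huY huZ
      obtain ⟨v, hvdef⟩ : ∃ v, v = h₁ * u * h₁⁻¹ := ⟨_, rfl⟩
      rw [← hvdef] at hub
      have hv : v ∈ Y := hvdef ▸ hB.nrm h₁ hh₁ u huY
      have hvZ : v ∉ Zf H Y := hvdef ▸ hB.h_not_mem hh₁ huZ
      have huu : u * u = z := hB.sq_ne u huY huZ z hz hz1
      have hconju : t₀ * u * t₀⁻¹ = u := by rw [htu]; group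
      have hconjz : t₀ * z * t₀⁻¹ = z := by
        rw [← huu]
        calc t₀ * (u * u) * t₀⁻¹ = (t₀ * u * t₀⁻¹) * (t₀ * u * t₀⁻¹) := by group
          _ = u * u := by rw [hconju]
      have hv' := hYn t₀ v hv
      have hkey : (u * v)⁻¹ * (t₀ * v * t₀⁻¹) ∈ Zf H Y := by
        rcases hB.cover huY hv huZ hvZ hub hv' with h1 | h1 | h1 | h1
        · exact absurd h1 (hnotZ t₀ v hvZ)
        · exact absurd h1 (hmove t₀ u v htu huY hv hub)
        · exfalso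
          apply ht₀Y
          apply htrivg t₀ u v huY hv huZ hvZ hub _ h1
          rw [hconju]
          simpa using one_mem _
        · exact h1
      obtain ⟨ζ, hζdef⟩ : ∃ ζ, ζ = (u * v)⁻¹ * (t₀ * v * t₀⁻¹) := ⟨_, rfl⟩
      have hζ : ζ ∈ Zf H Y := hζdef ▸ hkey
      have hv1 : t₀ * v * t₀⁻¹ = (u * v) * ζ := by rw [hζdef]; group
      have hconjζ : t₀ * ζ * t₀⁻¹ = ζ := by
        rcases hB.zf_eq hz hζ hz1 with e | e
        · rw [e]
          group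
        · rw [e]
          exact hconjz
      have hs1 : (t₀ * t₀) * v * (t₀ * t₀)⁻¹ = z * v := by
        calc (t₀ * t₀) * v * (t₀ * t₀)⁻¹ = t₀ * (t₀ * v * t₀⁻¹) * t₀⁻¹ := by group
          _ = t₀ * ((u * v) * ζ) * t₀⁻¹ := by rw [hv1]
          _ = (t₀ * u * t₀⁻¹) * (t₀ * v * t₀⁻¹) * (t₀ * ζ * t₀⁻¹) := by group
          _ = u * ((u * v) * ζ) * ζ := by rw [hconju, hv1, hconjζ]
          _ = (u * u) * v * (ζ * ζ) := by group
          _ = z * v := by rw [huu, hB.zz hζ, mul_one]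
      have hsY : t₀ * t₀ ∈ Y := hprod t₀ ht₀ t₀ ht₀ ht₀Y ht₀Y
      have hsZ : t₀ * t₀ ∉ Zf H Y := by
        intro h1
        have h2 := hB.central _ h1 v hv
        have h3 : (t₀ * t₀) * v * (t₀ * t₀)⁻¹ = v := by rw [← h2]; group
        rw [hs1] at h3
        exact hz1 (by simpa using h3)
      have hss : (t₀ * t₀) * (t₀ * t₀) = z := hB.sq_ne _ hsY hsZ z hz hz1
      have hord : orderOf t₀ = 2 ^ (2 + 1) := by
        apply orderOf_eq_prime_pow (p := 2) (n := 2)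
        · rw [show 2 ^ 2 = 1 + 1 + 1 + 1 by norm_num, pow_succ, pow_succ, pow_succ, pow_one]
          intro h1
          apply hz1
          rw [← hss, ← h1]
          group
        · rw [show 2 ^ (2 + 1) = 2 + 2 + (2 + 2) by norm_num, pow_add, pow_add, pow_two]
          rw [hss, hzz]
      apply hAnc
      apply isCyclic_of_orderOf_eq_card (⟨t₀, ht₀⟩ : A)
      rw [Subgroup.orderOf_mk, hord, hA8]
      norm_num

end Basic

end Cfsg.Agent.Lib.Techniques.NoA8
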