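import Mathlib
import Cfsg.Agent.Lib.Techniques.NoA8e
import Cfsg.Agent.Lib.Cl.CycNormal
import Cfsg.Agent.Lib.Core.PFrattini
import Cfsg.Agent.Lib.Core.MinNormal2
import Cfsg.Agent.Lib.Transfer.Decomp

/-!
# The quaternion group of order `8`; elements fixed by `H` lie in the Frattini subgroup of `[X,H]`
-/

set_option autoImplicit false
set_option linter.unusedSectionVars false
set_option linter.unusedVariables false

namespace Cfsg.Agent.Lib.Techniques.NoA8

open Subgroup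
open scoped commutatorElement

variable {G : Type*} [Group G] [Finite G] {H Y : Subgroup G}

namespace Basic

variable (hB : Basic H Y)
include hB

theorem iso_q8 {z : G} (hz : z ∈ Zf H Y) (hz1 : z ≠ 1) : Nonempty (Y ≃* QuaternionGroup 2) := by
  obtain ⟨a, ha, haZ⟩ := hB.exists_out
  obtain ⟨h, hh, hab⟩ := hB.exists_b ha haZ
  obtain ⟨b, hbdef⟩ : ∃ b, b = h * a * h⁻¹ := ⟨_, rfl⟩
  rw [← hbdef] at hab
  have hb : b ∈ Y := hbdef ▸ hB.nrm h hh a ha
  have hbZ : b ∉ Zf H Y := hbdef ▸ hB.h_not_mem hh haZ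
  have haa : a * a = z := hB.sq_ne a ha haZ z hz hz1
  have hbb : b * b = z := hB.sq_ne b hb hbZ z hz hz1
  have hzz : z * z = 1 := hB.zz hz
  have hzc : ∀ y ∈ Y, y * z = z * y := hB.central z hz
  have hab2 : a * b ∉ Zf H Y := by
    intro h1
    apply hab
    have e : a⁻¹ * b = (a * a)⁻¹ * (a * b) := by group
    rw [e]
    exact mul_mem (inv_mem (hB.sq_mem a ha)) h1
  have habab : (a * b) * (a * b) = z := hB.sq_ne _ (mul_mem ha hb) hab2 z hz hz1
  have hbi : b⁻¹ = b * z := by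
    apply inv_eq_of_mul_eq_one_right
    rw [← mul_assoc, hbb, hzz]
  have haba : a * b * a = b := by
    calc a * b * a = ((a * b) * (a * b)) * b⁻¹ := by group
      _ = z * (b * z) := by rw [habab, hbi]
      _ = b * z * z := by rw [← mul_assoc, ← hzc b hb]
      _ = b := by rw [mul_assoc, hzz, mul_one]
  have hcard : Nat.card Y = 2 ^ (2 + 1) := by
    rw [hB.card4, hB.card2 hz hz1]
    norm_num
  have ho : orderOf (⟨a, ha⟩ : Y) = 2 ^ 2 := by
    rw [Subgroup.orderOf_mk]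
    apply orderOf_eq_prime_pow (p := 2) (n := 1)
    · simpa [pow_two, haa] using hz1
    · rw [show 2 ^ (1 + 1) = 2 + 2 by norm_num, pow_add, pow_two, haa, hzz]
  have hg : (⟨b, hb⟩ : Y) ∉ zpowers (⟨a, ha⟩ : Y) := by
    rintro ⟨k, hk⟩
    have hk' : a ^ k = b := congrArg Subtype.val hk
    rcases Int.even_or_odd' k with ⟨j, rfl | rfl⟩
    · apply hbZ
      rw [← hk', zpow_mul, zpow_two]
      exact zpow_mem (hB.sq_mem a ha) j
    · apply hab
      rw [← hk', zpow_add, zpow_mul, zpow_two, zpow_one]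
      have e : a⁻¹ * ((a * a) ^ j * a) = a⁻¹ * (a * (a * a) ^ j) := by
        congr 1
        exact (Commute.zpow_left (Commute.refl a |>.mul_left (Commute.refl a)) j)
      rw [e, inv_mul_cancel_left]
      exact zpow_mem (hB.sq_mem a ha) j
  have hg2 : (⟨b, hb⟩ : Y) ^ 2 = (⟨a, ha⟩ : Y) ^ 2 ^ (2 - 1) := by
    apply Subtype.ext
    show b ^ 2 = a ^ 2 ^ (2 - 1)
    rw [show (2 : ℕ) - 1 = 1 from rfl, pow_one, pow_two, pow_two, hbb, haa]
  have hga : (⟨b, hb⟩ : Y) * ⟨a, ha⟩ * (⟨b, hb⟩ : Y)⁻¹ = (⟨a, ha⟩ : Y)⁻¹ := by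
    apply Subtype.ext
    show b * a * b⁻¹ = a⁻¹
    have e1 : a * b = b * a⁻¹ := by
      calc a * b = a * b * a * a⁻¹ := by group
        _ = b * a⁻¹ := by rw [haba]
    have e2 : b * a⁻¹ * b⁻¹ = a := by
      rw [← e1]
      group
    calc b * a * b⁻¹ = (b * a⁻¹ * b⁻¹)⁻¹ := by group
      _ = a⁻¹ := by rw [e2]
  obtain ⟨m, ⟨e⟩⟩ := Cfsg.Agent.Lib.Cl.quaternion_of_inverts ho (by norm_num) hcard hg hg2 hga
  have hm : m ≠ 0 := by
    rintro rfl
    have h1 := Nat.card_congr e.toEquiv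
    rw [hcard] at h1
    have h2 : Nat.card (QuaternionGroup 0) = 0 := by
      haveI : Infinite (ZMod (2 * 0)) := (inferInstance : Infinite ℤ)
      haveI : Infinite (QuaternionGroup 0) :=
        Infinite.of_injective (QuaternionGroup.a (n := 0)) (fun _ _ he => QuaternionGroup.a.inj he)
      exact Nat.card_eq_zero_of_infinite
    omega
  haveI : NeZero m := ⟨hm⟩
  have hm2 : m = 2 := by
    have h1 := Nat.card_congr e.toEquiv
    rw [hcard, Nat.card_eq_fintype_card, QuaternionGroup.card] at h1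
    omega
  subst hm2
  exact ⟨e⟩

end Basic

/-- The Frattini subgroup of `X`, in the ambient group. -/
def Phi (X : Subgroup G) : Subgroup G := (frattini X).map X.subtype

theorem Phi_le (X : Subgroup G) : Phi X ≤ X := by
  rintro _ ⟨x, -, rfl⟩
  exact x.2

theorem sq_mem_Phi {X : Subgroup G} (hp : IsPGroup 2 X) {x : G} (hx : x ∈ X) : x * x ∈ Phi X := by
  haveI : Fact (Nat.Prime 2) := ⟨Nat.prime_two⟩
  have h1 := (Cfsg.Agent.Lib.Core.frattini_pgroup 2 hp).2 ⟨x, hx⟩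
  refine ⟨_, h1, ?_⟩
  simp [pow_two]

theorem cmt_mem_Phi {X : Subgroup G} (hp : IsPGroup 2 X) {x y : G} (hx : x ∈ X) (hy : y ∈ X) : ⁅x, y⁆ ∈ Phi X := by
  haveI : Fact (Nat.Prime 2) := ⟨Nat.prime_two⟩
  have h1 := (Cfsg.Agent.Lib.Core.frattini_pgroup 2 hp).1
  have h2 : ⁅(⟨x, hx⟩ : X), (⟨y, hy⟩ : X)⁆ ∈ commutator X := by
    rw [commutator_def]
    exact commutator_mem_commutator (mem_top _) (mem_top _)
  exact ⟨_, h1 h2, rfl⟩

theorem Phi_normal (X : Subgroup G) [X.Normal] : (Phi X).Normal :=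
  Cfsg.Agent.Lib.Core.normal_map_of_characteristic X (frattini X)

/-- Elements of `X = [X,H]` fixed by `H` are in the Frattini subgroup. -/
theorem fixed_le_Phi {X H : Subgroup G} [hXn : X.Normal] (hp : IsPGroup 2 X) (hsup : X ⊔ H = ⊤)
    (hc : ⁅X, H⁆ = X) (hhall : (Nat.card X).Coprime X.index) {c : G} (hcX : c ∈ X)
    (hcH : ∀ h ∈ H, h * c = c * h) : c ∈ Phi X := by
  haveI hNn : (Phi X).Normal := Phi_normal X
  obtain ⟨A, hAdef⟩ : ∃ A : Subgroup (G ⧸ Phi X), A = X.map (QuotientGroup.mk' (Phi X)) := ⟨_, rfl⟩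
  haveI hAn : A.Normal := hAdef ▸ Subgroup.Normal.map hXn _ (QuotientGroup.mk'_surjective _)
  have hmkc : ∀ x ∈ X, ∀ y ∈ X, (QuotientGroup.mk' (Phi X)) x * (QuotientGroup.mk' (Phi X)) y =
      (QuotientGroup.mk' (Phi X)) y * (QuotientGroup.mk' (Phi X)) x := by
    intro x hx y hy
    have h1 : (QuotientGroup.mk' (Phi X)) ⁅x, y⁆ = 1 := (QuotientGroup.eq_one_iff _).mpr (cmt_mem_Phi hp hx hy)
    rw [map_commutatorElement] at h1
    exact commutatorElement_eq_one_iff_mul_comm.mp h1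
  haveI hAc : IsMulCommutative A := by
    apply Cfsg.Agent.Lib.PGroup.isMulCommutative_of_comm
    rw [hAdef]
    rintro _ ⟨x, hx, rfl⟩ _ ⟨y, hy, rfl⟩
    exact hmkc x hx y hy
  have hHall : (Nat.card A).Coprime A.index := by
    have h1 : A.index = X.index := by
      rw [hAdef]
      exact Subgroup.index_map_eq _ (QuotientGroup.mk'_surjective _) (by rw [QuotientGroup.ker_mk']; exact Phi_le X)
    have h2 : Nat.card A ∣ Nat.card X := by
      rw [hAdef]
      exact Subgroup.card_map_dvd _ _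
    rw [h1]
    exact hhall.coprime_dvd_left h2
  have h3 := Cfsg.Agent.Lib.Transfer.commutator_inf_center_eq_bot A hHall
  have hcA : (QuotientGroup.mk' (Phi X)) c ∈ A := by
    rw [hAdef]
    exact mem_map_of_mem _ hcX
  have hcC : (QuotientGroup.mk' (Phi X)) c ∈ ⁅A, (⊤ : Subgroup (G ⧸ Phi X))⁆ := by
    have h4 : c ∈ ⁅X, H⁆ := by rw [hc]; exact hcX
    have h5 := mem_map_of_mem (QuotientGroup.mk' (Phi X)) h4
    rw [Subgroup.map_commutator, ← hAdef] at h5
    exact Subgroup.commutator_mono le_rfl le_top h5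
  have hcZ : (QuotientGroup.mk' (Phi X)) c ∈ center (G ⧸ Phi X) := by
    rw [mem_center_iff]
    intro g
    obtain ⟨g', rfl⟩ := QuotientGroup.mk'_surjective (Phi X) g
    have hg : g' ∈ X ⊔ H := by rw [hsup]; exact mem_top _
    obtain ⟨x, hx, h, hh, rfl⟩ := Subgroup.mem_sup_of_normal_left.mp hg |> fun h => h
    rw [map_mul, mul_assoc, ← map_mul _ h c, hcH h hh, map_mul _ c h, ← mul_assoc, hmkc x hx c hcX, mul_assoc]
  have h6 : (QuotientGroup.mk' (Phi X)) c ∈ ⁅A, (⊤ : Subgroup (G ⧸ Phi X))⁆ ⊓ (center (G ⧸ Phi X) ⊓ A) :=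
    ⟨hcC, hcZ, hcA⟩
  rw [h3, mem_bot] at h6
  exact (QuotientGroup.eq_one_iff _).mp h6

end Cfsg.Agent.Lib.Techniques.NoA8
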