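import Mathlib
import Cfsg.Prelude.Def_Transfer
import Cfsg.Prelude.Def_Solvable
import Cfsg.Agent.Lib.Techniques.NoA8f
import Cfsg.Agent.Lib.Hall.Basic
import Cfsg.Agent.Lib.FStar.Constrained
import Cfsg.Agent.Lib.Geo.PrimSolvable
import Cfsg.Agent.Lib.Core.Basic

/-!
# The structure of `O_2(S)` when no proper subgroup of `2`-power index contains a noncyclic abelian
subgroup of order `8`
-/

set_option autoImplicit false
set_option linter.unusedSectionVars false
set_option linter.unusedVariables false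

namespace Cfsg.Agent.Lib.Techniques.NoA8

open Subgroup
open scoped commutatorElement

variable {G : Type*} [Group G] [Finite G]

theorem map_center_eq (X : Subgroup G) : (center X).map X.subtype = Zc X := by
  ext z
  rw [mem_Zc, mem_map]
  constructor
  · rintro ⟨c, hc, rfl⟩
    refine ⟨c.2, fun y hy => ?_⟩
    have := (mem_center_iff.mp hc) ⟨y, hy⟩
    exact congrArg Subtype.val this
  · rintro ⟨h1, h2⟩
    refine ⟨⟨z, h1⟩, ?_, rfl⟩
    rw [mem_center_iff]
    rintro ⟨y, hy⟩
    exact Subtype.ext (h2 y hy)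

/-- The extraspecial case: the order is at least `32`. -/
theorem ext32 {X A : Subgroup G} (hp : IsPGroup 2 X) (hna : ¬ ∀ a ∈ X, ∀ b ∈ X, a * b = b * a)
    (hZ2 : Nat.card (Zc X) = 2) (hcm : ∀ x ∈ X, ∀ y ∈ X, ⁅x, y⁆ ∈ Zc X) (hAX : A ≤ X)
    (hAc : ∀ a ∈ A, ∀ b ∈ A, a * b = b * a) (hA8 : Nat.card A = 8) : 32 ≤ Nat.card X := by
  have hne : A ≠ X := by
    rintro rfl
    exact hna hAc
  have h16 := two_mul_card_le hAX hne
  rw [hA8] at h16
  obtain ⟨k, hk⟩ := IsPGroup.iff_card.mp hp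
  by_contra hlt
  have hk4 : k = 4 := by
    have h1 : 4 ≤ k := by
      by_contra hc
      have : 2 ^ k ≤ 2 ^ 3 := Nat.pow_le_pow_right (by norm_num) (by omega)
      omega
    have h2 : k < 5 := by
      by_contra hc
      have : 2 ^ 5 ≤ 2 ^ k := Nat.pow_le_pow_right (by norm_num) (by omega)
      omega
    omega
  have hX16 : Nat.card X = 16 := by rw [hk, hk4]; norm_num
  obtain ⟨x, hxX, hxA⟩ : ∃ x ∈ X, x ∉ A := by
    by_contra hall
    push Not at hall
    exact hne (le_antisymm hAX hall)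
  have hcent : ∀ y ∈ X, ∀ z ∈ Zc X, y * z = z * y := fun y hy z hz => (mem_Zc.mp hz).2 y hy
  let f : A →* Zc X :=
    { toFun := fun a => ⟨⁅x, (a : G)⁆, hcm x hxX a (hAX a.2)⟩
      map_one' := by
        apply Subtype.ext
        simp
      map_mul' := fun a b => by
        apply Subtype.ext
        simp only [Subgroup.coe_mul]
        have h1 := hcent a (hAX a.2) _ (hcm x hxX b (hAX b.2))
        have e : ⁅x, (a : G) * b⁆ = ⁅x, (a : G)⁆ * ((a : G) * ⁅x, (b : G)⁆) * (a : G)⁻¹ := by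
          simp only [commutatorElement_def]
          group
        rw [e, h1]
        group }
  have hker : 4 ≤ Nat.card f.ker := by
    have h1 := Subgroup.card_mul_index f.ker
    rw [Subgroup.index_ker, hA8] at h1
    have h2 : Nat.card f.range ≤ 2 := by
      rw [← hZ2]
      exact Subgroup.card_le_card_group _
    have h3 : 0 < Nat.card f.ker := Nat.card_pos
    nlinarith
  obtain ⟨a, hak, haZ⟩ : ∃ a ∈ f.ker, (a : G) ∉ Zc X := by
    by_contra hall
    push Not at hall
    have h1 : f.ker.map A.subtype ≤ Zc X := by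
      rintro _ ⟨a, ha, rfl⟩
      exact hall a ha
    have h2 := Subgroup.card_le_of_le h1
    rw [Subgroup.card_map_of_injective A.subtype_injective, hZ2] at h2
    omega
  have hxa : ⁅x, (a : G)⁆ = 1 := congrArg Subtype.val hak
  have hcm2 : x * a = a * x := commutatorElement_eq_one_iff_mul_comm.mp hxa
  have hD : X ⊓ centralizer ({(a : G)} : Set G) = X := by
    apply Subgroup.eq_of_le_of_card_ge inf_le_left
    have hAD : A ≤ X ⊓ centralizer ({(a : G)} : Set G) := fun b hb =>
      mem_inf.mpr ⟨hAX hb, mem_centralizer_singleton_iff.mpr (hAc b hb a a.2)⟩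
    have hne2 : A ≠ X ⊓ centralizer ({(a : G)} : Set G) := by
      intro he
      apply hxA
      rw [he]
      exact mem_inf.mpr ⟨hxX, mem_centralizer_singleton_iff.mpr hcm2⟩
    have := two_mul_card_le hAD hne2
    omega
  apply haZ
  refine mem_Zc.mpr ⟨hAX a.2, fun y hy => ?_⟩
  have h1 : y ∈ X ⊓ centralizer ({(a : G)} : Set G) := by rw [hD]; exact hy
  exact mem_centralizer_singleton_iff.mp (mem_inf.mp h1).2

/-- The case `X = [X,H]`. -/
theorem c3 {X H A : Subgroup G} [hXn : X.Normal] (hp : IsPGroup 2 X) (hodd : Odd (Nat.card H))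
    (hn : ∀ h ∈ H, ∀ y ∈ X, h * y * h⁻¹ ∈ X) (hsup : X ⊔ H = ⊤) (hc : ⁅X, H⁆ = X)
    (hhall : (Nat.card X).Coprime X.index)
    (hstar : ∀ Y : Subgroup G, Y ≤ X → Y ≠ X → (∀ h ∈ H, ∀ y ∈ Y, h * y * h⁻¹ ∈ Y) → NoA Y)
    (hAX : A ≤ X) (hAc : IsMulCommutative A) (hA8 : Nat.card A = 8) :
    IsMulCommutative X ∨ (Cfsg.IsExtraspecial 2 X ∧ 32 ≤ Nat.card X) ∨
      (Cfsg.IsSpecial 2 X ∧ Nat.card (center X) = 4) := by
  haveI : Fact (Nat.Prime 2) := ⟨Nat.prime_two⟩
  by_cases hab : ∀ a ∈ X, ∀ b ∈ X, a * b = b * a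
  · exact Or.inl (Cfsg.Agent.Lib.PGroup.isMulCommutative_of_comm hab)
  right
  haveI hnt : Nontrivial X := by
    by_contra hnt
    rw [not_nontrivial_iff_subsingleton] at hnt
    exact hab (fun a ha b hb => congrArg Subtype.val
      (Subsingleton.elim (⟨a * b, mul_mem ha hb⟩ : X) ⟨b * a, mul_mem hb ha⟩))
  have hΦX := Phi_le X
  have hΦne : Phi X ≠ X := by
    intro he
    have h1 : frattini X = ⊤ := by
      apply Subgroup.map_injective X.subtype_injective
      rw [← MonoidHom.range_eq_map, Subgroup.range_subtype]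
      exact he
    have h2 : (⊥ : Subgroup X) = ⊤ := frattini_nongenerating (by rw [h1, sup_top_eq])
    have h3 := (subsingleton_iff_bot_eq_top.mp h2)
    exact not_subsingleton X (Subgroup.subsingleton_iff.mp h3)
  haveI hΦnorm := Phi_normal X
  have hΦn : ∀ x ∈ X, ∀ f ∈ Phi X, x * f * x⁻¹ ∈ Phi X := fun x _ f hf => hΦnorm.conj_mem f hf x
  have hΦH : ∀ h ∈ H, ∀ f ∈ Phi X, h * f * h⁻¹ ∈ Phi X := fun h _ f hf => hΦnorm.conj_mem f hf h
  have hAΦ := hstar _ hΦX hΦne hΦH
  have hgen : ∀ K : Subgroup G, K ≤ X → Phi X ⊔ K = X → K = X := by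
    intro K hK h1
    have h2 : K.subgroupOf X ⊔ frattini X = ⊤ := by
      apply Subgroup.map_injective X.subtype_injective
      rw [Subgroup.map_sup, Subgroup.map_subgroupOf_eq_of_le hK, ← MonoidHom.range_eq_map, Subgroup.range_subtype,
        sup_comm]
      exact h1
    have h3 : K.subgroupOf X = ⊤ := frattini_nongenerating h2
    apply le_antisymm hK
    intro x hx
    have h4 : (⟨x, hx⟩ : X) ∈ K.subgroupOf X := by rw [h3]; exact mem_top _
    exact mem_subgroupOf.mp h4
  have hcen := central_of_nongen hodd hp hn hc hΦX hΦn hΦH hAΦ hgen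
  have hΦZ : Phi X ≤ Zc X := fun f hf => mem_Zc.mpr ⟨hΦX hf, fun y hy => (hcen f hf y hy).symm⟩
  have hsq : ∀ x ∈ X, x * x ∈ Zc X := fun x hx => hΦZ (sq_mem_Phi hp hx)
  have hcm : ∀ x ∈ X, ∀ y ∈ X, ⁅x, y⁆ ∈ Zc X := fun x hx y hy => hΦZ (cmt_mem_Phi hp hx hy)
  have hZX : Zc X ≤ X := inf_le_left
  have hZne : Zc X ≠ X := by
    intro he
    apply hab
    intro a ha b hb
    rw [← he] at hb
    exact (mem_Zc.mp hb).2 a ha
  have hAZ := hstar _ hZX hZne (zc_inv hn)
  have hWX : ⁅X, X⁆ ≤ X := by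
    rw [commutator_le]
    intro a ha b hb
    exact mul_mem (mul_mem (mul_mem ha hb) (inv_mem ha)) (inv_mem hb)
  have hWΦ : ⁅X, X⁆ ≤ Phi X := commutator_le.mpr (fun x hx y hy => cmt_mem_Phi hp hx hy)
  have hWZ : ⁅X, X⁆ ≤ Zc X := hWΦ.trans hΦZ
  have hWne : (⁅X, X⁆ : Subgroup G) ≠ ⊥ := by
    intro h1
    apply hab
    intro a ha b hb
    have h2 := commutator_mem_commutator ha hb
    rw [h1, mem_bot] at h2
    exact commutatorElement_eq_one_iff_mul_comm.mp h2
  have hWexp : ∀ w ∈ (⁅X, X⁆ : Subgroup G), w * w = 1 := by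
    let E : Subgroup G :=
      { carrier := {z | z ∈ Zc X ∧ z * z = 1}
        mul_mem' := by
          rintro x y ⟨hx, hx2⟩ ⟨hy, hy2⟩
          refine ⟨mul_mem hx hy, ?_⟩
          have h1 := zc_comm (Y := X) y hy x hx
          calc (x * y) * (x * y) = x * (y * x) * y := by group
            _ = x * (x * y) * y := by rw [h1]
            _ = (x * x) * (y * y) := by group
            _ = 1 := by rw [hx2, hy2, one_mul]
        one_mem' := ⟨one_mem _, by simp⟩
        inv_mem' := by
          rintro x ⟨hx, hx2⟩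
          refine ⟨inv_mem hx, ?_⟩
          have e : x⁻¹ * x⁻¹ = (x * x)⁻¹ := by group
          rw [e, hx2, inv_one] }
    have h1 : ⁅X, X⁆ ≤ E := commutator_le.mpr (fun x hx y hy => by
      refine ⟨hcm x hx y hy, ?_⟩
      have h2 := comm_sq (a := x) (b := y) ((mem_Zc.mp (hcm x hx y hy)).2 x hx)
      rw [← h2]
      exact commutatorElement_eq_one_iff_mul_comm.mpr (((mem_Zc.mp (hsq x hx)).2 y hy).symm))
    exact fun w hw => (h1 hw).2
  -- the special structure
  have hspec : ⁅X, X⁆ = Zc X → Cfsg.IsSpecial 2 X := by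
    intro hWe
    have hΦe : Phi X = Zc X := le_antisymm hΦZ (by rw [← hWe]; exact hWΦ)
    refine ⟨hp, ?_, ?_⟩
    · apply Subgroup.map_injective X.subtype_injective
      rw [map_center_eq]
      exact hΦe
    · apply Subgroup.map_injective X.subtype_injective
      rw [map_center_eq, Subgroup.map_subtype_commutator]
      exact hWe
  have hcc : Nat.card (center X) = Nat.card (Zc X) := (card_Zc X).symm
  obtain ⟨K, hK⟩ := IsPGroup.iff_card.mp (hp.to_le hZX)
  have hncy4 : ¬ IsCyclic (Zc X) → Nat.card (Zc X) = 4 := by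
    intro hncy
    have hk2 : 2 ≤ K := by
      by_contra hc'
      have : K = 0 ∨ K = 1 := by omega
      rcases this with rfl | rfl
      · have : Subsingleton (Zc X) := (Nat.card_eq_one_iff_unique.mp (by simpa using hK)).1
        exact hncy inferInstance
      · haveI : Fact (Nat.Prime (Nat.card (Zc X))) := ⟨by rw [hK]; norm_num⟩
        exact hncy (isCyclic_of_prime_card rfl)
    have hk3 : K < 3 := by
      by_contra hc'
      have h8 : 8 ≤ Nat.card (Zc X) := by
        rw [hK]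
        calc 8 = 2 ^ 3 := by norm_num
          _ ≤ 2 ^ K := Nat.pow_le_pow_right (by norm_num) (by omega)
      exact hncy (isCyclic_of_big hAZ le_rfl (hp.to_le hZX)
        (Cfsg.Agent.Lib.PGroup.isMulCommutative_of_comm zc_comm) h8)
    have : K = 2 := by omega
    rw [hK, this]
    norm_num
  by_cases hZfix : ∀ z ∈ Zc X, ∀ h ∈ H, h * z = z * h
  · have hZΦ : Zc X ≤ Phi X := fun z hz =>
      fixed_le_Phi hp hsup hc hhall (hZX hz) (hZfix z hz)
    -- all squares are commutators
    have hZc' : ∀ z ∈ Zc X, ∀ y ∈ X, z * y = y * z := fun z hz y hy => ((mem_Zc.mp hz).2 y hy).symm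
    let L : Subgroup G :=
      { carrier := {x | x ∈ X ∧ x * x ∈ ⁅X, X⁆}
        mul_mem' := by
          rintro x y ⟨hx, hx2⟩ ⟨hy, hy2⟩
          refine ⟨mul_mem hx hy, ?_⟩
          have e : (x * y) * (x * y) = ⁅y, x⁆⁻¹⁻¹ * (x * x) * (y * y) := by
            have h1 := hZc' _ (hcm y hy x hx) x hx
            have e1 : y * x = ⁅y, x⁆ * (x * y) := by
              simp only [commutatorElement_def]
              group
            calc (x * y) * (x * y) = x * (y * x) * y := by group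
              _ = x * (⁅y, x⁆ * (x * y)) * y := by rw [← e1]
              _ = (x * ⁅y, x⁆) * (x * y) * y := by group
              _ = (⁅y, x⁆ * x) * (x * y) * y := by rw [h1]
              _ = _ := by group
          rw [e, inv_inv]
          exact mul_mem (mul_mem (commutator_mem_commutator hy hx) hx2) hy2
        one_mem' := ⟨one_mem _, by simp⟩
        inv_mem' := by
          rintro x ⟨hx, hx2⟩
          refine ⟨inv_mem hx, ?_⟩
          have e : x⁻¹ * x⁻¹ = (x * x)⁻¹ := by group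
          rw [e]
          exact inv_mem hx2 }
    have hXL : X ≤ L := by
      have h0 : ⁅X, H⁆ ≤ L := by
        rw [commutator_le]
        intro x hx h hh
        have hv : h * x⁻¹ * h⁻¹ ∈ X := hn h hh _ (inv_mem hx)
        refine ⟨?_, ?_⟩
        · have e : ⁅x, h⁆ = x * (h * x⁻¹ * h⁻¹) := by
            simp only [commutatorElement_def]
            group
          rw [e]
          exact mul_mem hx hv
        · obtain ⟨v, hvd⟩ : ∃ v, v = h * x⁻¹ * h⁻¹ := ⟨_, rfl⟩
          rw [← hvd] at hv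
          have e : ⁅x, h⁆ = x * v := by
            rw [hvd]
            simp only [commutatorElement_def]
            group
          have h2 := hsq x hx
          have hvv : v * v = (x * x)⁻¹ := by
            have e2 : v * v = h * (x * x)⁻¹ * h⁻¹ := by rw [hvd]; group
            rw [e2, hZfix _ (inv_mem h2) h hh]
            group
          have h1 := hZc' _ (hcm v hv x hx) x hx
          have e1 : v * x = ⁅v, x⁆ * (x * v) := by
            simp only [commutatorElement_def]
            group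
          have e3 : (x * v) * (x * v) = ⁅v, x⁆ := by
            calc (x * v) * (x * v) = x * (v * x) * v := by group
              _ = x * (⁅v, x⁆ * (x * v)) * v := by rw [← e1]
              _ = (x * ⁅v, x⁆) * (x * v) * v := by group
              _ = (⁅v, x⁆ * x) * (x * v) * v := by rw [h1]
              _ = ⁅v, x⁆ * (x * x) * (v * v) := by group
              _ = ⁅v, x⁆ := by rw [hvv]; group
          rw [e, e3]
          exact commutator_mem_commutator hv hx
      rw [hc] at h0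
      exact h0
    have hΦW : Phi X ≤ ⁅X, X⁆ := by
      have h1 : frattini X ≤ (⁅X, X⁆ : Subgroup G).subgroupOf X := by
        apply Cfsg.Agent.Lib.Core.frattini_le_of_elementary 2
        · rw [_root_.commutator_def, commutator_le]
          intro x _ y _
          rw [mem_subgroupOf]
          exact commutator_mem_commutator x.2 y.2
        · intro x
          rw [mem_subgroupOf]
          have := (hXL x.2).2
          simpa [pow_two] using this
      rintro _ ⟨x, hx, rfl⟩
      exact mem_subgroupOf.mp (h1 hx)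
    have hWe : ⁅X, X⁆ = Zc X := le_antisymm hWZ (hZΦ.trans hΦW)
    have hS := hspec hWe
    by_cases hcyc : IsCyclic (Zc X)
    · left
      have hexp : ∀ z ∈ Zc X, z * z = 1 := by
        intro z hz
        rw [← hWe] at hz
        exact hWexp z hz
      have h1 := card_le_two_of_cyclic (W := Zc X) (⊤ : Subgroup (Zc X)) (fun v _ => Subtype.ext (hexp v v.2))
      rw [Subgroup.card_top] at h1
      have h2 : Nat.card (Zc X) ≠ 1 := by
        intro h3
        have h4 := (Subgroup.card_eq_one).mp h3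
        apply hWne
        rw [hWe, h4]
      have hpos : 0 < Nat.card (Zc X) := Nat.card_pos
      have hZ2 : Nat.card (Zc X) = 2 := by omega
      exact ⟨⟨hS, by rw [hcc]; exact hZ2⟩, ext32 hp hab hZ2 hcm hAX
        (fun a ha b hb => Cfsg.Agent.Lib.PGroup.comm_of_isMulCommutative hAc ha hb) hA8⟩
    · right
      exact ⟨hS, by rw [hcc]; exact hncy4 hcyc⟩
  · right
    have hncy : ¬ IsCyclic (Zc X) := by
      intro hcyc
      apply hZfix
      intro z hz h hh
      have h1 := fix_of_cyclic hcyc (hp.to_le hZX) (odd_order hodd hh) (zc_inv hn h hh) z hz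
      calc h * z = h * z * h⁻¹ * h := by group
        _ = z * h := by rw [h1]
    have hZ4 := hncy4 hncy
    have hWH : ∀ h ∈ H, ∀ w ∈ (⁅X, X⁆ : Subgroup G), h * w * h⁻¹ ∈ (⁅X, X⁆ : Subgroup G) :=
      fun h hh => conj_mem_cmt (hn h hh) (hn h hh)
    have hWe : ⁅X, X⁆ = Zc X := by
      by_contra hne
      have hd : Nat.card (⁅X, X⁆ : Subgroup G) ∣ 4 := hZ4 ▸ Subgroup.card_dvd_of_le hWZ
      have h1 : Nat.card (⁅X, X⁆ : Subgroup G) ≠ 1 := fun h => hWne ((Subgroup.card_eq_one).mp h)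
      have h4 : Nat.card (⁅X, X⁆ : Subgroup G) ≠ 4 := fun h =>
        hne (Subgroup.eq_of_le_of_card_ge hWZ (by rw [h, hZ4]))
      have hW2 : Nat.card (⁅X, X⁆ : Subgroup G) = 2 := by
        have hle := Nat.le_of_dvd (by norm_num) hd
        have hpos : 0 < Nat.card (⁅X, X⁆ : Subgroup G) := Nat.card_pos
        have h3 : Nat.card (⁅X, X⁆ : Subgroup G) ≠ 3 := by
          intro h3
          rw [h3] at hd
          omega
        omega
      haveI : Fact (Nat.Prime (Nat.card (⁅X, X⁆ : Subgroup G))) := ⟨by rw [hW2]; norm_num⟩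
      have hWc : IsCyclic (⁅X, X⁆ : Subgroup G) := isCyclic_of_prime_card rfl
      have hWfix : ∀ h ∈ H, ∀ w ∈ (⁅X, X⁆ : Subgroup G), h * w * h⁻¹ = w := fun h hh =>
        fix_of_cyclic hWc (hp.to_le hWX) (odd_order hodd hh) (hWH h hh)
      have hidx : ((⁅X, X⁆ : Subgroup G).subgroupOf (Zc X)).index = 2 := by
        have h3 := Subgroup.card_mul_index ((⁅X, X⁆ : Subgroup G).subgroupOf (Zc X))
        have h5 : Nat.card ((⁅X, X⁆ : Subgroup G).subgroupOf (Zc X)) = Nat.card (⁅X, X⁆ : Subgroup G) :=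
          Nat.card_congr (Subgroup.subgroupOfEquivOfLe hWZ).toEquiv
        rw [h5, hW2, hZ4] at h3
        omega
      have h6 := cmt_le_of_index_two hWZ hidx (zc_inv hn) hWH
      apply hZfix
      intro z hz h hh
      obtain ⟨m, hmW, hf⟩ := lift hodd (hp.to_le hWX) hWH z (fun a ha => h6 (mem_cmt hz ha))
      have h7 := hf h hh
      have h8 := hWfix h hh m hmW
      have h9 : h * z * h⁻¹ = z := by
        calc h * z * h⁻¹ = (h * (z * m) * h⁻¹) * (h * m * h⁻¹)⁻¹ := by group
          _ = z := by rw [h7, h8]; group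
      calc h * z = h * z * h⁻¹ * h := by group
        _ = z * h := by rw [h9]
    exact ⟨hspec hWe, by rw [hcc]; exact hZ4⟩

/-- The case `1 < [X,H] < X`. -/
theorem c2 {X H : Subgroup G} (hp : IsPGroup 2 X) (hodd : Odd (Nat.card H))
    (hn : ∀ h ∈ H, ∀ y ∈ X, h * y * h⁻¹ ∈ X)
    (hstar : ∀ Y : Subgroup G, Y ≤ X → Y ≠ X → (∀ h ∈ H, ∀ y ∈ Y, h * y * h⁻¹ ∈ Y) → NoA Y)
    (hbot : ⁅X, H⁆ ≠ ⊥) (heq : ⁅X, H⁆ ≠ X) :
    IsMulCommutative X ∨ ∃ (X₀ : Subgroup G) (k : ℕ), X₀ ≤ X ∧ X₀.relIndex X = 2 ∧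
      Nonempty (X₀ ≃* QuaternionGroup (2 ^ (k + 1))) ∧ X₀ ⊔ (X ⊓ centralizer (X₀ : Set G)) = X := by
  haveI : Fact (Nat.Prime 2) := ⟨Nat.prime_two⟩
  have hle := cmt_le hn
  have hB : Basic H ⁅X, H⁆ := basic_of_noA hodd (hp.to_le hle) (cmt_nrm hn) (cmt_cmt hodd hp hn) hbot
    (hstar _ hle heq (cmt_nrm hn))
  obtain ⟨c, hcX, hcY, hcH, hcc, hcC, hnot⟩ := hB.exists_central_elt hp hle
    (fun p hp' => left_conj_mem_cmt hp') hn le_rfl heq
  obtain ⟨Y, hYdef⟩ : ∃ Y, Y = ⁅X, H⁆ := ⟨_, rfl⟩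
  rw [← hYdef] at hle heq hB hcY hcc hcC hnot
  have hT : Y ⊔ zpowers c ≤ X := sup_le hle ((zpowers_le).mpr hcX)
  have hTH : ∀ h ∈ H, ∀ p ∈ Y ⊔ zpowers c, h * p * h⁻¹ ∈ Y ⊔ zpowers c := by
    intro h hh p hp'
    have h1 : Y ⊔ zpowers c ≤ (Y ⊔ zpowers c).comap (MulAut.conj h).toMonoidHom := by
      apply sup_le
      · intro y hy
        exact mem_comap.mpr (mem_sup_left (hB.nrm h hh y hy))
      · rw [zpowers_le]
        apply mem_comap.mpr
        have e : (MulAut.conj h).toMonoidHom c = c := by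
          show h * c * h⁻¹ = c
          rw [hcH h hh]
          group
        rw [e]
        exact mem_sup_right (mem_zpowers c)
    exact h1 hp'
  have hTe : Y ⊔ zpowers c = X := by
    by_contra hne
    exact hnot (hstar _ hT hne hTH)
  have hcross : ∀ y ∈ Y, ∀ t ∈ zpowers c, y * t = t * y := by
    rintro y hy _ ⟨i, rfl⟩
    exact Commute.zpow_right (show Commute y c from (hcC y hy).symm) i
  by_cases hV : ∀ z ∈ Zf H Y, z = 1
  · left
    have h1 := comm_sup (hB.comm_of_triv hV) (zpowers_comm c) hcross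
    rw [hTe] at h1
    exact Cfsg.Agent.Lib.PGroup.isMulCommutative_of_comm h1
  · right
    push Not at hV
    obtain ⟨z, hz, hz1⟩ := hV
    refine ⟨Y, 0, hle, ?_, hB.iso_q8 hz hz1, ?_⟩
    · show (Y.subgroupOf X).index = 2
      rw [Subgroup.index_eq_two_iff]
      refine ⟨⟨c, hcX⟩, ?_⟩
      rintro ⟨b, hb⟩
      simp only [mem_subgroupOf, Subgroup.coe_mul]
      by_cases hbY : b ∈ Y
      · refine Or.inr ⟨hbY, fun h1 => hcY ?_⟩
        have e : c = b⁻¹ * (b * c) := by group
        rw [e]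
        exact mul_mem (inv_mem hbY) h1
      · refine Or.inl ⟨?_, hbY⟩
        have hb' : b ∈ Y ⊔ zpowers c := by rw [hTe]; exact hb
        obtain ⟨y, hy, x, hx, rfl⟩ := Cfsg.Agent.Lib.FStar.mem_sup_of_normalized (fun y hy x hx => by
          rw [← hcross x hx y hy]
          simpa using hx) hb'
        obtain ⟨i, rfl⟩ := hy
        have hci : ∀ j : ℤ, (c * c) ^ j ∈ Y := fun j => zpow_mem hcc j
        show c ^ i * x * c ∈ Y
        rcases Int.even_or_odd' i with ⟨j, rfl | rfl⟩
        · exfalso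
          apply hbY
          show c ^ (2 * j) * x ∈ Y
          rw [zpow_mul, zpow_two]
          exact mul_mem (hci j) hx
        · rw [zpow_add, zpow_mul, zpow_two, zpow_one]
          have e : (c * c) ^ j * c * x * c = (c * c) ^ j * (c * c) * x := by
            have := hcC x hx
            calc (c * c) ^ j * c * x * c = (c * c) ^ j * (c * x) * c := by group
              _ = (c * c) ^ j * (x * c) * c := by rw [this]
              _ = (c * c) ^ j * x * (c * c) := by group
              _ = (c * c) ^ j * (x * (c * c)) := by group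
              _ = (c * c) ^ j * ((c * c) * x) := by
                rw [show x * (c * c) = (c * c) * x from by
                  calc x * (c * c) = (x * c) * c := by group
                    _ = (c * x) * c := by rw [this]
                    _ = c * (x * c) := by group
                    _ = c * (c * x) := by rw [this]
                    _ = (c * c) * x := by group]
              _ = _ := by group
          rw [e]
          exact mul_mem (mul_mem (hci j) hcc) hx
    · apply le_antisymm (sup_le hle inf_le_left)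
      conv_lhs => rw [← hTe]
      apply sup_le le_sup_left
      rw [zpowers_le]
      apply mem_sup_right
      refine mem_inf.mpr ⟨hcX, ?_⟩
      rw [mem_centralizer_iff]
      intro y hy
      exact (hcC y hy).symm

/-- The main theorem. -/
theorem main {G : Type*} [Group G] [Finite G] [Group.IsSolvable G] (hO : Cfsg.pPrimeCore 2 G = ⊥)
    (h8 : ∃ A : Subgroup G, IsMulCommutative ↥A ∧ ¬ IsCyclic ↥A ∧ Nat.card ↥A = 8)
    (hmin : ∀ R : Subgroup G, R ≠ ⊤ → (∃ k : ℕ, R.index = 2 ^ k) →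
      ¬ ∃ A : Subgroup G, A ≤ R ∧ IsMulCommutative ↥A ∧ ¬ IsCyclic ↥A ∧ Nat.card ↥A = 8)
    (X : Sylow 2 G) :
    (X : Subgroup G).Normal ∧
      (IsMulCommutative ↥X ∨
        (Cfsg.IsExtraspecial 2 ↥X ∧ 32 ≤ Nat.card ↥X) ∨
        (∃ (X₀ : Subgroup G) (k : ℕ), X₀ ≤ (X : Subgroup G) ∧ X₀.relIndex (X : Subgroup G) = 2 ∧
          Nonempty (↥X₀ ≃* QuaternionGroup (2 ^ (k + 1))) ∧ X₀ ⊔ ((X : Subgroup G) ⊓ Subgroup.centralizer (X₀ : Set G)) = (X : Subgroup G)) ∨
        (Cfsg.IsSpecial 2 ↥X ∧ Nat.card ↥(Subgroup.center ↥X) = 4)) := by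
  haveI : Fact (Nat.Prime 2) := ⟨Nat.prime_two⟩
  obtain ⟨A, hAc, hAnc, hA8⟩ := h8
  have hA2 : IsPGroup 2 A := IsPGroup.of_card (n := 3) (by rw [hA8]; norm_num)
  obtain ⟨a, m, hmodd, hcard⟩ := Nat.exists_eq_two_pow_mul_odd (n := Nat.card G) Nat.card_pos.ne'
  obtain ⟨H, hHc⟩ := Cfsg.Agent.Lib.Hall.exists_card_eq_of_solvable (G := G) m (2 ^ a)
    (by rw [hcard, mul_comm]) (Nat.Coprime.pow_right a (Nat.coprime_two_right.mpr hmodd))
  have hodd : Odd (Nat.card H) := hHc ▸ hmodd
  have hHidx : H.index = 2 ^ a := by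
    have h1 := Subgroup.card_mul_index H
    rw [hHc, hcard, mul_comm] at h1
    exact Nat.eq_of_mul_eq_mul_right hmodd.pos h1
  have hidx2 : ∀ K : Subgroup G, H ≤ K → ∃ k, K.index = 2 ^ k := by
    intro K hK
    have h1 : K.index ∣ 2 ^ a := hHidx ▸ Subgroup.index_dvd_of_le hK
    obtain ⟨k, -, hk⟩ := (Nat.dvd_prime_pow Nat.prime_two).mp h1
    exact ⟨k, hk⟩
  obtain ⟨R, hRdef⟩ : ∃ R, R = Cfsg.pCore 2 G := ⟨_, rfl⟩
  haveI hRn : R.Normal := hRdef ▸ Cfsg.Agent.Lib.Core.pCore_normal 2 G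
  have hR2 : IsPGroup 2 R := hRdef ▸ Cfsg.Agent.Lib.Core.pCore_isPGroup 2 G
  have hCen : ∀ g, (∀ y ∈ R, g * y = y * g) → g ∈ R := by
    intro g hg
    have h1 : centralizer (R : Set G) ≤ R := by
      rw [hRdef, ← Cfsg.Agent.Lib.FStar.fitting_eq_pCore_of_pPrimeCore_bot hO]
      exact Cfsg.Agent.Lib.Geo.centralizer_fitting_le_of_solvable
    exact h1 (mem_centralizer_iff.mpr (fun y hy => (hg y hy).symm))
  have hnR : ∀ h ∈ H, ∀ y ∈ R, h * y * h⁻¹ ∈ R := fun h _ y hy => hRn.conj_mem y hy h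
  have hRH : R ⊓ H = ⊥ := (Subgroup.disjoint_of_coprime_natCard (coprime_of_odd hodd hR2).symm).eq_bot
  have hRsup : R ⊔ H = ⊤ := by
    by_contra hne
    have hNA : NoA R := by
      intro A₁ hA₁R hA₁c hA₁8
      by_contra hnc
      exact hmin (R ⊔ H) hne (hidx2 _ le_sup_right) ⟨A₁, hA₁R.trans le_sup_left, hA₁c, hnc, hA₁8⟩
    rcases basic_or_fixed hodd hR2 hnR hNA with hfix | hB
    · have hHR : H ≤ R := fun h hh => hCen h (fun y hy => hfix h hh y hy)
      have hHbot : H = ⊥ := by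
        rw [← inf_eq_right.mpr hHR]
        exact hRH
      have hm1 : m = 1 := by rw [← hHc, hHbot, Subgroup.card_bot]
      have hG2 : IsPGroup 2 G := IsPGroup.of_card (n := a) (by rw [hcard, hm1, mul_one])
      have hRt : R = ⊤ := top_le_iff.mp (hRdef ▸ Cfsg.Agent.Lib.Core.le_pCore Subgroup.normal_top (hG2.to_subgroup ⊤))
      exact hne (by rw [hRt, top_sup_eq])
    · exact hB.no_A hRn hCen hA2 hAc hA8 hAnc
  have hcompl : Nat.card R * Nat.card H = Nat.card G :=
    (Cfsg.Agent.Lib.Core.isComplement'_of_inf_sup hRH hRsup).card_mul_card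
  have hRcard : Nat.card R = 2 ^ a := by
    rw [hHc, hcard] at hcompl
    exact Nat.eq_of_mul_eq_mul_right hmodd.pos hcompl
  have hcopm : ∀ b : ℕ, (2 ^ b).Coprime m := fun b => Nat.Coprime.pow_left b (Nat.coprime_two_left.mpr hmodd)
  have hXR : (X : Subgroup G) = R := by
    have h2 : R ≤ X := hR2.le_sylow_of_normal X
    obtain ⟨b, hb⟩ := IsPGroup.iff_card.mp X.isPGroup'
    have h3 : Nat.card (X : Subgroup G) ∣ 2 ^ a * m := hcard ▸ Subgroup.card_subgroup_dvd_card _
    rw [hb] at h3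
    have h4 : 2 ^ b ∣ 2 ^ a := (hcopm b).dvd_of_dvd_mul_right h3
    have h5 : Nat.card (X : Subgroup G) ≤ 2 ^ a := by
      rw [hb]
      exact Nat.le_of_dvd (by positivity) h4
    exact (Subgroup.eq_of_le_of_card_ge h2 (by rw [hRcard]; exact h5)).symm
  suffices hgoal : R.Normal ∧ (IsMulCommutative ↥R ∨ (Cfsg.IsExtraspecial 2 ↥R ∧ 32 ≤ Nat.card ↥R) ∨
      (∃ (X₀ : Subgroup G) (k : ℕ), X₀ ≤ R ∧ X₀.relIndex R = 2 ∧
        Nonempty (↥X₀ ≃* QuaternionGroup (2 ^ (k + 1))) ∧ X₀ ⊔ (R ⊓ Subgroup.centralizer (X₀ : Set G)) = R) ∨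
      (Cfsg.IsSpecial 2 ↥R ∧ Nat.card ↥(Subgroup.center ↥R) = 4)) by
    obtain ⟨Xs, h1, h2⟩ := X
    have hXs : Xs = R := hXR
    subst hXs
    exact hgoal
  refine ⟨hRn, ?_⟩
  have hhall : (Nat.card R).Coprime R.index := by
    have h1 := Subgroup.card_mul_index R
    rw [hRcard, hcard] at h1
    have h2 : R.index = m := Nat.eq_of_mul_eq_mul_left (by positivity) h1
    rw [hRcard, h2]
    exact hcopm a
  have hstar : ∀ Y : Subgroup G, Y ≤ R → Y ≠ R → (∀ h ∈ H, ∀ y ∈ Y, h * y * h⁻¹ ∈ Y) → NoA Y := by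
    intro Y hYR hne hYH A₁ hA₁Y hA₁c hA₁8
    by_contra hnc
    have hKne : Y ⊔ H ≠ ⊤ := by
      intro htop
      apply hne
      apply le_antisymm hYR
      intro x hx
      have hx' : x ∈ Y ⊔ H := by rw [htop]; exact mem_top _
      obtain ⟨h, hh, y, hy, rfl⟩ := Cfsg.Agent.Lib.FStar.mem_sup_of_normalized hYH hx'
      have h1 : h ∈ R := by
        have e : h = (h * y) * y⁻¹ := by group
        rw [e]
        exact mul_mem hx (inv_mem (hYR hy))
      have h2 : h ∈ R ⊓ H := ⟨h1, hh⟩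
      rw [hRH, mem_bot] at h2
      rw [h2, one_mul]
      exact hy
    exact hmin _ hKne (hidx2 _ le_sup_right) ⟨A₁, hA₁Y.trans le_sup_left, hA₁c, hnc, hA₁8⟩
  have hAR : A ≤ R := by
    have h4 : IsPGroup 2 (A ⊔ R : Subgroup G) := hA2.to_sup_of_normal_right hR2
    obtain ⟨b, hb⟩ := IsPGroup.iff_card.mp h4
    have h5 : Nat.card (A ⊔ R : Subgroup G) ∣ 2 ^ a * m := hcard ▸ Subgroup.card_subgroup_dvd_card _
    rw [hb] at h5
    have h6 : 2 ^ b ∣ 2 ^ a := (hcopm b).dvd_of_dvd_mul_right h5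
    have h7 : Nat.card (A ⊔ R : Subgroup G) ≤ 2 ^ a := by
      rw [hb]
      exact Nat.le_of_dvd (by positivity) h6
    have h8 : R = A ⊔ R := Subgroup.eq_of_le_of_card_ge le_sup_right (by rw [hRcard]; exact h7)
    rw [h8]
    exact le_sup_left
  by_cases hbot : ⁅R, H⁆ = ⊥
  · left
    have hHc' : ∀ h ∈ H, ∀ x ∈ R, x * h = h * x := by
      intro h hh x hx
      have := commutator_mem_commutator hx hh
      rw [hbot, mem_bot] at this
      exact commutatorElement_eq_one_iff_mul_comm.mp this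
    have hHn : H.Normal := ⟨fun n hn g => by
      have hg : g ∈ R ⊔ H := by rw [hRsup]; exact mem_top _
      obtain ⟨h', hh', x, hx, rfl⟩ := Cfsg.Agent.Lib.FStar.mem_sup_of_normalized hnR hg
      have e : h' * x * n * (h' * x)⁻¹ = h' * n * h'⁻¹ := by
        have h1 := hHc' n hn x hx
        calc h' * x * n * (h' * x)⁻¹ = h' * (x * n) * x⁻¹ * h'⁻¹ := by group
          _ = h' * (n * x) * x⁻¹ * h'⁻¹ := by rw [h1]
          _ = _ := by group
      rw [e]
      exact mul_mem (mul_mem hh' hn) (inv_mem hh')⟩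
    have hHle : H ≤ Cfsg.pPrimeCore 2 G :=
      Cfsg.Agent.Lib.Core.le_pPrimeCore hHn (Nat.coprime_two_right.mpr hodd)
    have hHbot : H = ⊥ := by
      rw [hO] at hHle
      exact le_bot_iff.mp hHle
    by_contra hnc
    have hAne : A ≠ R := by
      rintro rfl
      exact hnc hAc
    have h1 := hstar A hAR hAne (fun h hh y hy => by
      rw [hHbot, mem_bot] at hh
      rw [hh]
      simpa using hy) A le_rfl hAc hA8
    exact hAnc h1
  by_cases heq : ⁅R, H⁆ = R
  · rcases c3 hR2 hodd hnR hRsup heq hhall hstar hAR hAc hA8 with h | h | h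
    · exact Or.inl h
    · exact Or.inr (Or.inl h)
    · exact Or.inr (Or.inr (Or.inr h))
  · rcases c2 hR2 hodd hnR hstar hbot heq with h | h
    · exact Or.inl h
    · exact Or.inr (Or.inr (Or.inl h))

end Cfsg.Agent.Lib.Techniques.NoA8
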