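import Cfsg.Agent.Lib.Transfer.Frat
import Cfsg.Agent.Lib.PGroup.MaxNormal
import Cfsg.Agent.Lib.Core.PFrattini
import Cfsg.Agent.Lib.Core.MinNormal2
import Cfsg.Agent.Lib.Geo.PrimSolvable
import Mathlib

/-! `p`-groups of `p`-rank at most two for odd `p`: a section that is irreducible under the
automorphisms coming from an overgroup has order at most `p²`. -/

set_option autoImplicit false
set_option linter.style.haveILetI false

namespace Cfsg.Agent.Lib.Techniques.RankTwo

open Subgroup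
open scoped commutatorElement

universe u

/-- Elements of order dividing `p` are central. -/
def PCentral (p : ℕ) (T : Type*) [Group T] : Prop :=
  ∀ x : T, x ^ p = 1 → ∀ y : T, x * y = y * x

section tower

variable {p : ℕ} [hp : Fact p.Prime]

theorem dvd_choose (hp2 : p ≠ 2) : p ∣ p.choose 2 :=
  hp.out.dvd_choose_self (by norm_num) (lt_of_le_of_ne hp.out.two_le (Ne.symm hp2))

theorem mul_pow_of_central {T : Type*} [Group T] (hp2 : p ≠ 2) {x y : T}
    (hc : ∀ w : T, ⁅y, x⁆ * w = w * ⁅y, x⁆) (hpc : ⁅y, x⁆ ^ p = 1) :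
    (x * y) ^ p = x ^ p * y ^ p := by
  rw [Cfsg.Agent.Lib.Transfer.mul_pow_class2 (hc x) (hc y) p]
  obtain ⟨k, hk⟩ := dvd_choose (p := p) hp2
  rw [hk, pow_mul, hpc, one_pow, mul_one]

theorem pCentral_subgroup {T : Type*} [Group T] (hc : PCentral p T) (M : Subgroup T) :
    PCentral p M := by
  intro x hx y
  exact Subtype.ext (hc x (by simpa using congrArg Subtype.val hx) y)

theorem comm_pow_eq_one (hp2 : p ≠ 2) : ∀ (n : ℕ) (T : Type u) [Group T] [Finite T],
    Nat.card T = n → IsPGroup p T → PCentral p T → ∀ t u : T, t ^ (p ^ 2) = 1 → ⁅t, u⁆ ^ p = 1 := by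
  intro n
  induction n using Nat.strong_induction_on with
  | _ n ih =>
  intro T _ _ hn hT hc t u ht
  obtain ⟨b, hb⟩ : ∃ b, b = u * t * u⁻¹ := ⟨_, rfl⟩
  have htp : (t ^ p) ^ p = 1 := by rw [← pow_mul, ← sq]; exact ht
  have hcpow : b ^ p = t ^ p := by
    rw [hb, conj_pow]
    have := hc _ htp u
    rw [← this, mul_inv_cancel_right]
  have hcomm : ⁅t, u⁆ = t * b⁻¹ := by
    rw [hb, commutatorElement_def]; group
  obtain ⟨c, hcdef⟩ : ∃ c, c = ⁅t, u⁆ := ⟨_, rfl⟩
  by_cases hM : closure ({t, c} : Set T) = ⊤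
  · have hcf : c ∈ frattini T := by
      have h0 : ⁅t, u⁆ ∈ commutator T := by
        rw [_root_.commutator_def]
        exact Subgroup.commutator_mem_commutator (mem_top _) (mem_top _)
      rw [hcdef]
      exact (Cfsg.Agent.Lib.Core.frattini_pgroup p hT).1 h0
    have hz : zpowers t ⊔ frattini T = ⊤ := by
      rw [eq_top_iff, ← hM, closure_le]
      rintro x (hx | hx)
      · rw [hx]
        exact (le_sup_left : zpowers t ≤ _) (mem_zpowers _)
      · rw [hx]
        exact (le_sup_right : frattini T ≤ _) hcf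
    have htop := frattini_nongenerating hz
    have hu : u ∈ zpowers t := htop ▸ mem_top u
    obtain ⟨k, rfl⟩ := hu
    have : ⁅t, t ^ k⁆ = 1 := by
      rw [commutatorElement_eq_one_iff_mul_comm]
      exact (Commute.refl t).zpow_right k
    rw [this, one_pow]
  · have hlt : Nat.card (closure ({t, c} : Set T)) < n := by
      rw [← hn]
      exact lt_of_le_of_ne (Subgroup.card_le_card_group _)
        (fun h => hM (Subgroup.eq_top_of_card_eq _ h))
    have htM : t ∈ closure ({t, c} : Set T) := subset_closure (by simp)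
    have hcM : c ∈ closure ({t, c} : Set T) := subset_closure (by simp)
    have hbM : b ∈ closure ({t, c} : Set T) := by
      have : b = c⁻¹ * t := by rw [hcdef, hcomm]; group
      rw [this]
      exact mul_mem (inv_mem hcM) htM
    have hM2 := ih _ hlt (closure ({t, c} : Set T)) rfl (hT.to_subgroup _) (pCentral_subgroup hc _)
      ⟨t, htM⟩ ⟨b, hbM⟩ (Subtype.ext (by simpa using ht))
    have h3 : ⁅t, b⁆ ^ p = 1 := by
      have h := congrArg Subtype.val hM2
      simpa [commutatorElement_def] using h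
    have hd := hc _ h3
    have e : ⁅b⁻¹, t⁆ = ⁅t, b⁆ := by
      have h4 := hd b
      have : ⁅b⁻¹, t⁆ = b⁻¹ * ⁅t, b⁆ * b := by
        simp only [commutatorElement_def]; group
      rw [this, mul_assoc, h4]; group
    have h5 : (t * b⁻¹) ^ p = t ^ p * (b⁻¹) ^ p := by
      apply mul_pow_of_central hp2
      · rw [e]; exact hd
      · rw [e]; exact h3
    rw [hcomm, h5, inv_pow, hcpow, mul_inv_cancel]

theorem mul_pow_of_sq (hp2 : p ≠ 2) {T : Type u} [Group T] [Finite T] (hT : IsPGroup p T)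
    (hc : PCentral p T) {t u : T} (ht : t ^ (p ^ 2) = 1) : (t * u) ^ p = t ^ p * u ^ p := by
  have h1 := comm_pow_eq_one hp2 _ T rfl hT hc t u ht
  have e : ⁅u, t⁆ = ⁅t, u⁆⁻¹ := (commutatorElement_inv t u).symm
  have h2 : ⁅t, u⁆⁻¹ ^ p = 1 := by rw [inv_pow, h1, inv_one]
  apply mul_pow_of_central hp2
  · rw [e]
    intro w
    have := hc _ h2 w
    exact this
  · rw [e]; exact h2

/-- The subgroup of elements of order dividing `p`. -/
def omegaOne {T : Type*} [Group T] (hc : PCentral p T) : Subgroup T where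
  carrier := {x | x ^ p = 1}
  mul_mem' := by
    intro a b ha hb
    have : Commute a b := hc a ha b
    simp only [Set.mem_ofPred_eq] at ha hb ⊢
    rw [this.mul_pow, ha, hb, mul_one]
  one_mem' := one_pow _
  inv_mem' := by
    intro a ha
    simp only [Set.mem_ofPred_eq] at ha ⊢
    rw [inv_pow, ha, inv_one]

theorem mem_omegaOne {T : Type*} [Group T] (hc : PCentral p T) (x : T) :
    x ∈ omegaOne hc ↔ x ^ p = 1 := Iff.rfl

instance omegaOne_normal {T : Type*} [Group T] (hc : PCentral p T) : (omegaOne hc).Normal :=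
  ⟨fun x hx g => by
    rw [mem_omegaOne] at hx ⊢
    rw [conj_pow, hx]; group⟩

theorem pCentral_quot (hp2 : p ≠ 2) {T : Type u} [Group T] [Finite T] (hT : IsPGroup p T)
    (hc : PCentral p T) : PCentral p (T ⧸ omegaOne hc) := by
  intro x hx y
  obtain ⟨x, rfl⟩ := QuotientGroup.mk_surjective x
  obtain ⟨y, rfl⟩ := QuotientGroup.mk_surjective y
  have h1 : x ^ p ∈ omegaOne hc := by
    rw [← QuotientGroup.eq_one_iff, QuotientGroup.mk_pow]; exact hx
  have h2 : x ^ (p ^ 2) = 1 := by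
    rw [sq, pow_mul]; exact h1
  have h3 := comm_pow_eq_one hp2 _ T rfl hT hc x y h2
  have h4 : (⁅x, y⁆ : T) ∈ omegaOne hc := h3
  have h5 : ((⁅x, y⁆ : T) : T ⧸ omegaOne hc) = 1 := (QuotientGroup.eq_one_iff _).2 h4
  have h6 : ⁅(x : T ⧸ omegaOne hc), (y : T ⧸ omegaOne hc)⁆ = 1 := by
    have := map_commutatorElement (QuotientGroup.mk' (omegaOne hc)) x y
    simpa using this.symm.trans h5
  exact commutatorElement_eq_one_iff_mul_comm.1 h6

/-- `p`-th powers of representatives. -/
noncomputable def powQ (hp2 : p ≠ 2) {T : Type u} [Group T] [Finite T] (hT : IsPGroup p T)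
    (hc : PCentral p T) (q : omegaOne (pCentral_quot hp2 hT hc)) : omegaOne hc :=
  ⟨(Quotient.out (q : T ⧸ omegaOne hc)) ^ p, by
    have h := q.2
    rw [mem_omegaOne] at h
    rw [← QuotientGroup.eq_one_iff, QuotientGroup.mk_pow]
    have : ((Quotient.out (q : T ⧸ omegaOne hc) : T) : T ⧸ omegaOne hc) = q :=
      QuotientGroup.out_eq' _
    rw [this]; exact h⟩

theorem powQ_injective (hp2 : p ≠ 2) {T : Type u} [Group T] [Finite T] (hT : IsPGroup p T)
    (hc : PCentral p T) : Function.Injective (powQ hp2 hT hc) := by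
  intro q q' h
  have h1 : (Quotient.out (q : T ⧸ omegaOne hc)) ^ p = (Quotient.out (q' : T ⧸ omegaOne hc)) ^ p :=
    congrArg Subtype.val h
  obtain ⟨a, ha⟩ : ∃ a, a = Quotient.out (q : T ⧸ omegaOne hc) := ⟨_, rfl⟩
  obtain ⟨b, hb⟩ : ∃ b, b = Quotient.out (q' : T ⧸ omegaOne hc) := ⟨_, rfl⟩
  rw [← ha, ← hb] at h1
  have ha' : ((a : T) : T ⧸ omegaOne hc) = q := by rw [ha]; exact QuotientGroup.out_eq' _
  have hb' : ((b : T) : T ⧸ omegaOne hc) = q' := by rw [hb]; exact QuotientGroup.out_eq' _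
  have hap : a ^ p ∈ omegaOne hc := by
    have := (powQ hp2 hT hc q).2
    have e : ((powQ hp2 hT hc q : omegaOne hc) : T) = a ^ p := by rw [ha]; rfl
    rwa [e] at this
  have ha2 : a ^ (p ^ 2) = 1 := by rw [sq, pow_mul]; exact hap
  have hia : (a⁻¹) ^ (p ^ 2) = 1 := by rw [inv_pow, ha2, inv_one]
  have h2 : (a⁻¹ * b) ^ p = 1 := by
    rw [mul_pow_of_sq hp2 hT hc hia, inv_pow, ← h1, inv_mul_cancel]
  have h3 : ((a : T) : T ⧸ omegaOne hc) = b := by
    rw [QuotientGroup.eq]; exact h2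
  apply Subtype.ext
  rw [← ha', ← hb', h3]

theorem card_omega_quot_le (hp2 : p ≠ 2) {T : Type u} [Group T] [Finite T] (hT : IsPGroup p T)
    (hc : PCentral p T) : Nat.card (omegaOne (pCentral_quot hp2 hT hc)) ≤ Nat.card (omegaOne hc) :=
  Nat.card_le_card_of_injective _ (powQ_injective hp2 hT hc)

theorem card_quot_lt {T : Type u} [Group T] [Finite T] (B : Subgroup T) [B.Normal] (hB : B ≠ ⊥) :
    Nat.card (T ⧸ B) < Nat.card T := by
  have h1 : Nat.card T = Nat.card (T ⧸ B) * Nat.card B := Subgroup.card_eq_card_quotient_mul_card_subgroup B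
  have h2 : 1 < Nat.card B := by
    have : Nontrivial B := (Subgroup.nontrivial_iff_ne_bot B).2 hB
    exact Finite.one_lt_card
  have h3 : 0 < Nat.card (T ⧸ B) := Nat.card_pos
  rw [h1]
  nlinarith

theorem subsingleton_of_omega_bot {T : Type u} [Group T] [Finite T] (hT : IsPGroup p T)
    (hc : PCentral p T) (hB : omegaOne hc = ⊥) : Subsingleton T := by
  by_contra h
  rw [not_subsingleton_iff_nontrivial] at h
  obtain ⟨k, hk⟩ := IsPGroup.iff_card.mp hT
  have hd : p ∣ Nat.card T := by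
    have hk0 : k ≠ 0 := by
      rintro rfl
      rw [pow_zero] at hk
      have := Finite.one_lt_card (α := T)
      omega
    rw [hk]; exact dvd_pow_self p hk0
  obtain ⟨x, hx⟩ := exists_prime_orderOf_dvd_card' p hd
  have h1 : x ∈ omegaOne hc := by
    rw [mem_omegaOne, ← hx]; exact pow_orderOf_eq_one x
  rw [hB, mem_bot] at h1
  rw [h1, orderOf_one] at hx
  exact hp.out.one_lt.ne hx

theorem comm_of_cyclic_quot {T : Type u} [Group T] (hc : PCentral p T)
    (hcyc : IsCyclic (T ⧸ omegaOne hc)) (a b : T) : a * b = b * a := by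
  refine commutative_of_cyclic_center_quotient (QuotientGroup.mk' (omegaOne hc)) ?_ a b
  intro x hx
  rw [QuotientGroup.ker_mk'] at hx
  rw [mem_center_iff]
  intro g
  exact (hc x hx g).symm

theorem isCyclic_of_count (hp2 : p ≠ 2) : ∀ (n : ℕ) (T : Type u) [Group T] [Finite T],
    Nat.card T = n → IsPGroup p T → ∀ hc : PCentral p T, Nat.card (omegaOne hc) ≤ p → IsCyclic T := by
  intro n
  induction n using Nat.strong_induction_on with
  | _ n ih =>
  intro T _ _ hn hT hc hcard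
  by_cases hB : omegaOne hc = ⊥
  · haveI := subsingleton_of_omega_bot hT hc hB
    infer_instance
  · have hlt : Nat.card (T ⧸ omegaOne hc) < n := hn ▸ card_quot_lt _ hB
    have hcq := pCentral_quot hp2 hT hc
    have hcyc : IsCyclic (T ⧸ omegaOne hc) :=
      ih _ hlt _ rfl (hT.to_quotient _) hcq ((card_omega_quot_le hp2 hT hc).trans hcard)
    have hcomm := comm_of_cyclic_quot hc hcyc
    letI : CommGroup T := { (inferInstance : Group T) with mul_comm := hcomm }
    apply Cfsg.Agent.Lib.PGroup.isCyclic_of_card_pow_prime_le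
    intro q hq
    by_cases hqp : q = p
    · subst hqp
      refine le_trans (Nat.card_le_card_of_injective
        (fun x : ((powMonoidHom q : T →* T).ker) => (⟨x.1, x.2⟩ : omegaOne hc)) ?_) hcard
      intro x y h
      exact Subtype.ext (congrArg Subtype.val h)
    · have hs : Subsingleton ((powMonoidHom q : T →* T).ker) := by
        constructor
        have key : ∀ x : ((powMonoidHom q : T →* T).ker), (x : T) = 1 := by
          intro x
          have h1 : (x : T) ^ q = 1 := x.2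
          obtain ⟨k, hk⟩ := hT (x : T)
          have h2 : orderOf (x : T) ∣ q := orderOf_dvd_of_pow_eq_one h1
          have h3 : orderOf (x : T) ∣ p ^ k := orderOf_dvd_of_pow_eq_one hk
          have hcop : Nat.Coprime q (p ^ k) :=
            Nat.Coprime.pow_right k ((Nat.coprime_primes hq hp.out).2 hqp)
          have h4 := Nat.Coprime.eq_one_of_dvd (hcop.coprime_dvd_left h2) h3
          exact orderOf_eq_one_iff.1 h4
        intro x y
        exact Subtype.ext ((key x).trans (key y).symm)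
      rw [Nat.card_of_subsingleton (⟨1, one_mem _⟩ : (powMonoidHom q : T →* T).ker)]
      exact hq.one_lt.le

theorem index_le_sq (hp2 : p ≠ 2) : ∀ (n : ℕ) (T : Type u) [Group T] [Finite T],
    Nat.card T = n → IsPGroup p T → ∀ hc : PCentral p T, Nat.card (omegaOne hc) ≤ p ^ 2 →
    ∀ N : Subgroup T, N.Normal → (∀ x : T, x ^ p ∈ N) → (∀ x y : T, ⁅x, y⁆ ∈ N) → N.index ≤ p ^ 2 := by
  intro n
  induction n using Nat.strong_induction_on with
  | _ n ih =>
  intro T _ _ hn hT hc hcard N hNn hpow hcm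
  by_cases hB : omegaOne hc = ⊥
  · haveI := subsingleton_of_omega_bot hT hc hB
    have : N = ⊤ := Subsingleton.elim _ _
    rw [this, index_top]
    exact Nat.one_le_pow _ _ hp.out.pos
  · have hlt : Nat.card (T ⧸ omegaOne hc) < n := hn ▸ card_quot_lt _ hB
    have hcq := pCentral_quot hp2 hT hc
    have hle := card_omega_quot_le hp2 hT hc
    by_cases heq : Nat.card (omegaOne (pCentral_quot hp2 hT hc)) = Nat.card (omegaOne hc)
    · have hbij := (powQ_injective hp2 hT hc).bijective_of_nat_card_le heq.ge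
      have hBN : omegaOne hc ≤ N := by
        intro b hb
        obtain ⟨q, hq⟩ := hbij.2 ⟨b, hb⟩
        have : b = (Quotient.out (q : T ⧸ omegaOne hc)) ^ p := (congrArg Subtype.val hq).symm
        rw [this]
        exact hpow _
      have hmapn : (N.map (QuotientGroup.mk' (omegaOne hc))).Normal :=
        hNn.map _ (QuotientGroup.mk'_surjective _)
      have hidx : (N.map (QuotientGroup.mk' (omegaOne hc))).index = N.index := by
        rw [Subgroup.index_map, QuotientGroup.ker_mk', sup_eq_left.2 hBN,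
          MonoidHom.range_eq_top.2 (QuotientGroup.mk'_surjective _), index_top, mul_one]
      rw [← hidx]
      refine ih _ hlt _ rfl (hT.to_quotient _) hcq (hle.trans hcard) _ hmapn ?_ ?_
      · intro x
        obtain ⟨x, rfl⟩ := QuotientGroup.mk_surjective x
        exact ⟨x ^ p, hpow x, by simp⟩
      · intro x y
        obtain ⟨x, rfl⟩ := QuotientGroup.mk_surjective x
        obtain ⟨y, rfl⟩ := QuotientGroup.mk_surjective y
        exact ⟨⁅x, y⁆, hcm x y, by simp⟩
    · have hlt2 : Nat.card (omegaOne (pCentral_quot hp2 hT hc)) < p ^ 2 :=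
        lt_of_lt_of_le (lt_of_le_of_ne hle heq) hcard
      have hpg : IsPGroup p (omegaOne (pCentral_quot hp2 hT hc)) :=
        IsPGroup.to_subgroup (hT.to_quotient _) _
      obtain ⟨k, hk⟩ := IsPGroup.iff_card.mp hpg
      have hk1 : k ≤ 1 := by
        rw [hk] at hlt2
        by_contra hk2
        push Not at hk2
        have : p ^ 2 ≤ p ^ k := Nat.pow_le_pow_right hp.out.pos hk2
        omega
      have hcnt : Nat.card (omegaOne (pCentral_quot hp2 hT hc)) ≤ p := by
        rw [hk]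
        calc p ^ k ≤ p ^ 1 := Nat.pow_le_pow_right hp.out.pos hk1
          _ = p := pow_one p
      have hcyc : IsCyclic (T ⧸ omegaOne hc) :=
        isCyclic_of_count hp2 _ _ rfl (hT.to_quotient _) hcq hcnt
      have hcomm := comm_of_cyclic_quot hc hcyc
      let φ : T →* T :=
        { toFun := fun x => x ^ p
          map_one' := one_pow _
          map_mul' := fun x y => (show Commute x y from hcomm x y).mul_pow p }
      have hker : φ.ker = omegaOne hc := by
        ext x; exact MonoidHom.mem_ker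
      have hrN : φ.range ≤ N := by
        rintro _ ⟨x, rfl⟩
        exact hpow x
      have h1 : N.index ≤ φ.range.index :=
        Nat.le_of_dvd (Nat.pos_of_ne_zero (Subgroup.index_ne_zero_of_finite))
          (Subgroup.index_dvd_of_le hrN)
      have h2 : φ.range.index = Nat.card φ.ker := by
        have e1 : Nat.card φ.range * φ.range.index = Nat.card T := Subgroup.card_mul_index _
        have e2 : Nat.card φ.ker * φ.ker.index = Nat.card T := Subgroup.card_mul_index _
        have e3 : φ.ker.index = Nat.card φ.range := Subgroup.index_ker φ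
        rw [e3] at e2
        have hpos : 0 < Nat.card φ.range := Nat.card_pos
        have : Nat.card φ.range * φ.range.index = Nat.card φ.range * Nat.card φ.ker := by
          rw [e1, ← e2, mul_comm]
        exact Nat.eq_of_mul_eq_mul_left hpos this
      rw [h2, hker] at h1
      exact h1.trans hcard

end tower

section gamma

variable {p : ℕ} [hp : Fact p.Prime] {Γ : Type u} [Group Γ] [Finite Γ]

theorem p_mul_card_le {H K : Subgroup Γ} (hlt : H < K) (hK : IsPGroup p K) :
    p * Nat.card H ≤ Nat.card K := by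
  have hle := hlt.le
  have e : Nat.card (H.subgroupOf K) = Nat.card H :=
    Nat.card_congr (Subgroup.subgroupOfEquivOfLe hle).toEquiv
  have h1 : Nat.card (H.subgroupOf K) * (H.subgroupOf K).index = Nat.card K :=
    Subgroup.card_mul_index _
  have hne : (H.subgroupOf K).index ≠ 1 := by
    intro h
    rw [Subgroup.index_eq_one, Subgroup.subgroupOf_eq_top] at h
    exact absurd (le_antisymm hle h) hlt.ne
  have hd : p ∣ (H.subgroupOf K).index := by
    obtain ⟨k, hk⟩ := IsPGroup.iff_card.mp hK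
    have h2 : (H.subgroupOf K).index ∣ p ^ k := by rw [← hk]; exact Dvd.intro_left _ h1
    obtain ⟨j, -, hj⟩ := (Nat.dvd_prime_pow hp.out).1 h2
    rcases j with _ | j
    · rw [pow_zero] at hj; exact absurd hj hne
    · rw [hj]; exact dvd_pow_self p (Nat.succ_ne_zero j)
  obtain ⟨m, hm⟩ := hd
  have hmpos : 0 < m := by
    rcases Nat.eq_zero_or_pos m with h0 | h0
    · rw [h0, mul_zero] at hm; exact absurd hm Subgroup.index_ne_zero_of_finite
    · exact h0
  rw [← h1, hm, e]
  have : Nat.card H * (p * m) = p * Nat.card H * m := by ring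
  rw [this]
  exact Nat.le_mul_of_pos_right _ hmpos

omit [Finite Γ] in
theorem comm_closure {k : Set Γ} (hk : ∀ x ∈ k, ∀ y ∈ k, x * y = y * x) :
    ∀ x ∈ closure k, ∀ y ∈ closure k, x * y = y * x := by
  intro x hx y hy
  letI := closureCommGroupOfComm hk
  exact congrArg Subtype.val (mul_comm (⟨x, hx⟩ : closure k) ⟨y, hy⟩)

omit [Finite Γ] hp in
theorem exp_closure {k : Set Γ} (hk : ∀ x ∈ k, ∀ y ∈ k, x * y = y * x) (he : ∀ x ∈ k, x ^ p = 1) :
    ∀ x ∈ closure k, x ^ p = 1 := by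
  have hc := comm_closure hk
  intro x hx
  induction hx using closure_induction with
  | mem x h => exact he x h
  | one => exact one_pow _
  | mul a b ha hb iha ihb =>
    rw [(show Commute a b from hc a ha b hb).mul_pow, iha, ihb, mul_one]
  | inv a _ ih => rw [inv_pow, ih, inv_one]

theorem card_le_of_two_gen {Q : Type*} [Group Q] [Finite Q] (hcomm : ∀ a b : Q, a * b = b * a)
    (a b : Q) (h : ∀ q, q ∈ closure ({a, b} : Set Q)) (hexp : ∀ c : Q, c ^ p = 1) :
    Nat.card Q ≤ p ^ 2 := by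
  letI : CommGroup Q := { (inferInstance : Group Q) with mul_comm := hcomm }
  have hsurj : Function.Surjective (fun u : zpowers a × zpowers b => (u.1 : Q) * u.2) := by
    intro q
    obtain ⟨m, n, hmn⟩ := Subgroup.mem_closure_pair.1 (h q)
    exact ⟨(⟨a ^ m, zpow_mem (mem_zpowers a) m⟩, ⟨b ^ n, zpow_mem (mem_zpowers b) n⟩), hmn⟩
  have hc1 := Nat.card_le_card_of_surjective _ hsurj
  rw [Nat.card_prod, Nat.card_zpowers, Nat.card_zpowers] at hc1
  have ho : ∀ c : Q, orderOf c ≤ p := fun c =>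
    Nat.le_of_dvd hp.out.pos (orderOf_dvd_of_pow_eq_one (hexp c))
  calc Nat.card Q ≤ orderOf a * orderOf b := hc1
    _ ≤ p * p := Nat.mul_le_mul (ho a) (ho b)
    _ = p ^ 2 := (sq p).symm

omit [Finite Γ] in
theorem relIndex_le_of_two_gen [Finite Γ] (R R₀ : Subgroup Γ) (hle : R₀ ≤ R) (hn : R₀.Normal)
    (hpow : ∀ x ∈ R, x ^ p ∈ R₀) (hcm : ∀ x ∈ R, ∀ y ∈ R, ⁅x, y⁆ ∈ R₀) (g₁ g₂ : Γ)
    (h₁ : g₁ ∈ R) (h₂ : g₂ ∈ R) (hgen : closure ({g₁, g₂} : Set Γ) ⊔ R₀ = R) :
    R₀.relIndex R ≤ p ^ 2 := by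
  classical
  obtain ⟨N, hN⟩ : ∃ N : Subgroup R, N = R₀.subgroupOf R := ⟨_, rfl⟩
  haveI hNn : N.Normal := by rw [hN]; exact Subgroup.Normal.subgroupOf hn R
  have hidx : R₀.relIndex R = Nat.card (↥R ⧸ N) := by
    rw [hN]; rfl
  rw [hidx]
  have hcomm : ∀ a b : ↥R ⧸ N, a * b = b * a := by
    intro a b
    obtain ⟨a, rfl⟩ := QuotientGroup.mk_surjective a
    obtain ⟨b, rfl⟩ := QuotientGroup.mk_surjective b
    have h1 : ⁅a, b⁆ ∈ N := by
      rw [hN, mem_subgroupOf]; exact hcm _ a.2 _ b.2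
    have h2 : ((⁅a, b⁆ : ↥R) : ↥R ⧸ N) = 1 := (QuotientGroup.eq_one_iff _).2 h1
    have h3 : ⁅(a : ↥R ⧸ N), (b : ↥R ⧸ N)⁆ = 1 := by
      have := map_commutatorElement (QuotientGroup.mk' N) a b
      simpa using this.symm.trans h2
    exact commutatorElement_eq_one_iff_mul_comm.1 h3
  have hexp : ∀ a : ↥R ⧸ N, a ^ p = 1 := by
    intro a
    obtain ⟨a, rfl⟩ := QuotientGroup.mk_surjective a
    rw [← QuotientGroup.mk_pow, QuotientGroup.eq_one_iff, hN, mem_subgroupOf]
    exact hpow _ a.2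
  refine card_le_of_two_gen hcomm ((⟨g₁, h₁⟩ : R) : ↥R ⧸ N) ((⟨g₂, h₂⟩ : R) : ↥R ⧸ N) ?_ hexp
  intro q
  obtain ⟨r, rfl⟩ := QuotientGroup.mk_surjective q
  obtain ⟨C, hC⟩ : ∃ C : Subgroup (↥R ⧸ N),
    C = closure ({((⟨g₁, h₁⟩ : R) : ↥R ⧸ N), ((⟨g₂, h₂⟩ : R) : ↥R ⧸ N)} : Set (↥R ⧸ N)) := ⟨_, rfl⟩
  rw [← hC]
  obtain ⟨D, hD⟩ : ∃ D : Subgroup Γ, D = (C.comap (QuotientGroup.mk' N)).map R.subtype := ⟨_, rfl⟩
  have h1 : closure ({g₁, g₂} : Set Γ) ≤ D := by
    rw [closure_le]
    rintro x (hx | hx)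
    · rw [hD, hx]
      exact ⟨⟨g₁, h₁⟩, by
        show ((⟨g₁, h₁⟩ : R) : ↥R ⧸ N) ∈ C
        rw [hC]; exact subset_closure (by simp), rfl⟩
    · rw [hD, Set.mem_singleton_iff.1 hx]
      exact ⟨⟨g₂, h₂⟩, by
        show ((⟨g₂, h₂⟩ : R) : ↥R ⧸ N) ∈ C
        rw [hC]; exact subset_closure (by simp), rfl⟩
  have h2 : R₀ ≤ D := by
    intro x hx
    rw [hD]
    refine ⟨⟨x, hle hx⟩, ?_, rfl⟩
    have e : ((⟨x, hle hx⟩ : R) : ↥R ⧸ N) = 1 :=
      (QuotientGroup.eq_one_iff _).2 (by rw [hN, mem_subgroupOf]; exact hx)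
    show ((⟨x, hle hx⟩ : R) : ↥R ⧸ N) ∈ C
    rw [e]; exact one_mem _
  have h3 : R ≤ D := by rw [← hgen]; exact sup_le h1 h2
  have h4 := h3 r.2
  rw [hD] at h4
  obtain ⟨r', hr', hrr⟩ := h4
  have e : r' = r := Subtype.ext hrr
  rw [← e]
  exact hr'

omit [Finite Γ] hp in
theorem comm_of_comm_eq {s t c : Γ} (h : ⁅s, c⁆ = ⁅t, c⁆) : (t⁻¹ * s) * c = c * (t⁻¹ * s) := by
  simp only [commutatorElement_def] at h
  have h1 : s * c * s⁻¹ = t * c * t⁻¹ := mul_right_cancel h
  have h2 : s * c = t * c * t⁻¹ * s := by rw [← h1]; group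
  calc t⁻¹ * s * c = t⁻¹ * (s * c) := by group
    _ = t⁻¹ * (t * c * t⁻¹ * s) := by rw [h2]
    _ = c * (t⁻¹ * s) := by group

omit hp in
theorem exists_pow_of_mem_zpowers {x y : Γ} (h : x ∈ zpowers y) : ∃ n : ℕ, y ^ n = x := by
  obtain ⟨n, hn⟩ := (mem_powers_iff_mem_zpowers.2 h)
  exact ⟨n, hn⟩

theorem frat_part (R R₀ : Subgroup Γ) (hRn : R.Normal) (hRp : IsPGroup p R) (hR₀n : R₀.Normal)
    (hle : R₀ ≤ R) (hne : R₀ ≠ R) (hirr : ∀ L : Subgroup Γ, L.Normal → L ≤ R → L ≤ R₀ ∨ L ⊔ R₀ = R) :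
    (∀ x ∈ R, x ^ p ∈ R₀) ∧ (∀ x ∈ R, ∀ y ∈ R, ⁅x, y⁆ ∈ R₀) := by
  haveI := hRn
  haveI := hR₀n
  have hL : ((frattini R).map R.subtype).Normal :=
    Cfsg.Agent.Lib.Core.normal_map_of_characteristic R (frattini R)
  have hf := Cfsg.Agent.Lib.Core.frattini_pgroup p hRp
  rcases hirr _ hL (map_subtype_le _) with h | h
  · constructor
    · intro x hx
      exact h ⟨(⟨x, hx⟩ : R) ^ p, hf.2 ⟨x, hx⟩, by simp⟩
    · intro x hx y hy
      refine h ⟨⁅(⟨x, hx⟩ : R), (⟨y, hy⟩ : R)⁆, hf.1 ?_, by simp [commutatorElement_def]⟩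
      rw [_root_.commutator_def]
      exact Subgroup.commutator_mem_commutator (mem_top _) (mem_top _)
  · exfalso
    have hs : (R₀.subgroupOf R) ⊔ frattini R = ⊤ := by
      rw [eq_top_iff]
      intro r _
      have h2 : (r : Γ) ∈ (frattini R).map R.subtype ⊔ R₀ := by rw [h]; exact r.2
      obtain ⟨_, ⟨f, hf', rfl⟩, k, hk, hfk⟩ := Subgroup.mem_sup_of_normal_right.1 h2
      have e : r = f * ⟨k, hle hk⟩ := Subtype.ext (by simpa using hfk.symm)
      rw [e]
      exact mul_mem (mem_sup_right hf') (mem_sup_left (by rw [mem_subgroupOf]; exact hk))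
    have htop := frattini_nongenerating hs
    have hRR : R ≤ R₀ := by
      intro r hr
      have h3 : (⟨r, hr⟩ : R) ∈ R₀.subgroupOf R := htop ▸ mem_top _
      rw [mem_subgroupOf] at h3
      exact h3
    exact hne (le_antisymm hle hRR)

theorem case_nonab (hp2 : p ≠ 2) (R R₀ X : Subgroup Γ) (hRp : IsPGroup p R) (hR₀n : R₀.Normal)
    (hRn : R.Normal) (hle : R₀ ≤ R) (hpow : ∀ x ∈ R, x ^ p ∈ R₀) (hcm : ∀ x ∈ R, ∀ y ∈ R, ⁅x, y⁆ ∈ R₀)
    (hrank : ∀ A : Subgroup Γ, A ≤ R → (∀ a ∈ A, ∀ b ∈ A, a * b = b * a) → (∀ a ∈ A, a ^ p = 1) →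
      Nat.card A ≤ p ^ 2)
    (hirr : ∀ L : Subgroup Γ, L.Normal → L ≤ R → L ≤ R₀ ∨ L ⊔ R₀ = R)
    (hXn : X.Normal) (hXR : X ≤ R) (hXe : ∀ x ∈ X, x ^ p = 1)
    (hXc : ∀ s ∈ R, ∀ x ∈ X, ∀ x' ∈ X, ⁅s, x⁆ * x' = x' * ⁅s, x⁆)
    (a b : Γ) (ha : a ∈ X) (hb : b ∈ X) (hab : a * b ≠ b * a) : R₀.relIndex R ≤ p ^ 2 := by
  haveI := hXn
  haveI := hRn
  have hcX : ∀ s ∈ R, ∀ x ∈ X, ⁅s, x⁆ ∈ X := by
    intro s _ x hx
    have h1 : ⁅s, x⁆ = (s * x * s⁻¹) * x⁻¹ := by rw [commutatorElement_def]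
    rw [h1]
    exact mul_mem (hXn.conj_mem x hx s) (inv_mem hx)
  obtain ⟨z, hz⟩ : ∃ z, z = ⁅a, b⁆ := ⟨_, rfl⟩
  have hz1 : z ≠ 1 := by
    rw [hz]; intro h; exact hab (commutatorElement_eq_one_iff_mul_comm.1 h)
  have hzX : z ∈ X := hz ▸ hcX a (hXR ha) b hb
  have hzc : ∀ x ∈ X, z * x = x * z := by
    intro x hx; rw [hz]; exact hXc a (hXR ha) b hb x hx
  have hzp : z ^ p = 1 := hXe z hzX
  have hzo : orderOf z = p := orderOf_eq_prime hzp hz1
  have hW : ∀ w ∈ R, w ^ p = 1 → w * a = a * w → w * b = b * w → w * z = z * w → w ∈ zpowers z := by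
    intro w hwR hwp hwa hwb hwz
    by_contra hw
    have h12 : zpowers z < closure ({z, w} : Set Γ) := by
      refine lt_of_le_of_ne (zpowers_le.2 (subset_closure (by simp))) ?_
      intro h
      have : w ∈ closure ({z, w} : Set Γ) := subset_closure (by simp)
      rw [← h] at this
      exact hw this
    have h23 : closure ({z, w} : Set Γ) < closure ({z, w, a} : Set Γ) := by
      refine lt_of_le_of_ne (closure_mono (by
        intro x hx
        rcases hx with hx | hx
        · exact Or.inl hx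
        · exact Or.inr (Or.inl hx))) ?_
      intro h
      have h1 : a ∈ closure ({z, w} : Set Γ) := by
        rw [h]; exact subset_closure (by simp)
      have h2 : closure ({z, w} : Set Γ) ≤ centralizer ({b} : Set Γ) := by
        rw [closure_le]
        rintro x (hx | hx)
        · rw [hx, SetLike.mem_coe, mem_centralizer_iff]
          intro y hy
          rw [Set.mem_singleton_iff.1 hy]
          exact (hzc b hb).symm
        · rw [Set.mem_singleton_iff.1 hx, SetLike.mem_coe, mem_centralizer_iff]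
          intro y hy
          rw [Set.mem_singleton_iff.1 hy]
          exact hwb.symm
      have h3 := mem_centralizer_iff.1 (h2 h1) b (by simp)
      exact hab h3.symm
    have hA : closure ({z, w, a} : Set Γ) ≤ R := by
      rw [closure_le]
      rintro x (hx | hx | hx)
      · rw [hx]; exact hXR hzX
      · rw [hx]; exact hwR
      · rw [Set.mem_singleton_iff.1 hx]; exact hXR ha
    have hkc : ∀ x ∈ ({z, w, a} : Set Γ), ∀ y ∈ ({z, w, a} : Set Γ), x * y = y * x := by
      intro x hx y hy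
      simp only [Set.mem_insert_iff, Set.mem_singleton_iff] at hx hy
      rcases hx with hx | hx | hx <;> rcases hy with hy | hy | hy <;> rw [hx, hy]
      · exact hwz.symm
      · exact hzc a ha
      · exact hwz
      · exact hwa
      · exact (hzc a ha).symm
      · exact hwa.symm
    have hke : ∀ x ∈ ({z, w, a} : Set Γ), x ^ p = 1 := by
      rintro x (hx | hx | hx)
      · rw [hx]; exact hzp
      · rw [hx]; exact hwp
      · rw [Set.mem_singleton_iff.1 hx]; exact hXe a ha
    have hc3 := hrank _ hA (comm_closure hkc) (exp_closure hkc hke)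
    have h1 := p_mul_card_le h12 (hRp.to_le (h23.le.trans hA))
    have h2 := p_mul_card_le h23 (hRp.to_le hA)
    rw [Nat.card_zpowers, hzo] at h1
    have hp2' : 2 ≤ p := hp.out.two_le
    have : p * (p * p) ≤ p ^ 2 := by
      calc p * (p * p) ≤ p * Nat.card (closure ({z, w} : Set Γ)) := Nat.mul_le_mul_left _ h1
        _ ≤ _ := h2
        _ ≤ _ := hc3
    nlinarith
  have hcomm_z : ∀ s ∈ R, ∀ c ∈ X, ⁅s, c⁆ ∈ zpowers z := by
    intro s hs c hc
    have hX' := hcX s hs c hc
    exact hW _ (hXR hX') (hXe _ hX') (hXc s hs c hc a ha) (hXc s hs c hc b hb) (hXc s hs c hc z hzX)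
  have hba : ⁅b, a⁆ = z⁻¹ := by rw [hz, commutatorElement_inv]
  have hzb : zpowers ⁅b, a⁆ = zpowers z := by rw [hba, zpowers_inv]
  have hdec : ∀ s ∈ R, ∃ d ∈ closure ({a, b} : Set Γ), ∃ y ∈ R,
      y * a = a * y ∧ y * b = b * y ∧ s = d * y := by
    intro s hs
    have h1 := hcomm_z s hs a ha
    rw [← hzb] at h1
    obtain ⟨n, hn⟩ := exists_pow_of_mem_zpowers h1
    have hcb : Commute ⁅b, a⁆ b := by
      rw [hba]
      exact (show Commute z b from hzc b hb).inv_left
    have e1 : ⁅b ^ n, a⁆ = ⁅b, a⁆ ^ n := Cfsg.Agent.Lib.Transfer.comm_pow_left hcb n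
    have h2 : ((b ^ n)⁻¹ * s) * a = a * ((b ^ n)⁻¹ * s) := comm_of_comm_eq (by rw [e1, hn])
    obtain ⟨s₁, hs₁⟩ : ∃ s₁, s₁ = (b ^ n)⁻¹ * s := ⟨_, rfl⟩
    have hs₁R : s₁ ∈ R := hs₁ ▸ mul_mem (inv_mem (pow_mem (hXR hb) n)) hs
    rw [← hs₁] at h2
    have h3 := hcomm_z s₁ hs₁R b hb
    obtain ⟨m, hm⟩ := exists_pow_of_mem_zpowers (y := ⁅a, b⁆) (by rw [← hz]; exact h3)
    have hca : Commute ⁅a, b⁆ a := by
      rw [← hz]
      exact hzc a ha
    have e2 : ⁅a ^ m, b⁆ = ⁅a, b⁆ ^ m := Cfsg.Agent.Lib.Transfer.comm_pow_left hca m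
    have h4 : ((a ^ m)⁻¹ * s₁) * b = b * ((a ^ m)⁻¹ * s₁) := comm_of_comm_eq (by rw [e2, hm])
    refine ⟨b ^ n * a ^ m, ?_, (a ^ m)⁻¹ * s₁, ?_, ?_, h4, ?_⟩
    · exact mul_mem (pow_mem (subset_closure (by simp)) n) (pow_mem (subset_closure (by simp)) m)
    · exact mul_mem (inv_mem (pow_mem (hXR ha) m)) hs₁R
    · have h5 : Commute ((a ^ m)⁻¹) a := ((Commute.refl a).pow_left m).inv_left
      exact h5.mul_left h2
    · rw [hs₁]; group
  have hDX : closure ({a, b} : Set Γ) ≤ X := by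
    rw [closure_le]
    rintro x (hx | hx)
    · rw [hx]; exact ha
    · rw [Set.mem_singleton_iff.1 hx]; exact hb
  have hzD : z ∈ closure ({a, b} : Set Γ) := by
    have h1 : a ∈ closure ({a, b} : Set Γ) := subset_closure (by simp)
    have h2 : b ∈ closure ({a, b} : Set Γ) := subset_closure (by simp)
    rw [hz, commutatorElement_def]
    exact mul_mem (mul_mem (mul_mem h1 h2) (inv_mem h1)) (inv_mem h2)
  have hXD : X ≤ closure ({a, b} : Set Γ) := by
    intro x hx
    obtain ⟨d, hd, y, hyR, hya, hyb, e⟩ := hdec x (hXR hx)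
    have hyX : y ∈ X := by
      have : y = d⁻¹ * x := by rw [e]; group
      rw [this]
      exact mul_mem (inv_mem (hDX hd)) hx
    have hyz : y ∈ zpowers z := hW y hyR (hXe y hyX) hya hyb (hzc y hyX).symm
    rw [e]
    exact mul_mem hd ((zpowers_le.2 hzD) hyz)
  obtain ⟨Y, hY⟩ : ∃ Y : Subgroup Γ, Y = R ⊓ centralizer (X : Set Γ) := ⟨_, rfl⟩
  have hYn : Y.Normal := by
    rw [hY]
    haveI : (centralizer (X : Set Γ)).Normal := Subgroup.normal_centralizer (H := X)
    exact Subgroup.normal_inf_normal _ _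
  have hYR : Y ≤ R := by rw [hY]; exact inf_le_left
  have hdecY : ∀ s ∈ R, ∃ d ∈ closure ({a, b} : Set Γ), ∃ y ∈ Y, s = d * y := by
    intro s hs
    obtain ⟨d, hd, y, hyR, hya, hyb, e⟩ := hdec s hs
    refine ⟨d, hd, y, ?_, e⟩
    rw [hY]
    refine ⟨hyR, ?_⟩
    have h1 : closure ({a, b} : Set Γ) ≤ centralizer ({y} : Set Γ) := by
      rw [closure_le]
      rintro x (hx | hx)
      · rw [hx, SetLike.mem_coe, mem_centralizer_iff]
        intro u hu
        rw [Set.mem_singleton_iff.1 hu]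
        exact hya
      · rw [Set.mem_singleton_iff.1 hx, SetLike.mem_coe, mem_centralizer_iff]
        intro u hu
        rw [Set.mem_singleton_iff.1 hu]
        exact hyb
    show y ∈ centralizer (X : Set Γ)
    rw [mem_centralizer_iff]
    intro x hx
    have := mem_centralizer_iff.1 (h1 (hXD hx)) y (by simp)
    exact this.symm
  have hDR : closure ({a, b} : Set Γ) ≤ R := hDX.trans hXR
  rcases hirr Y hYn hYR with h | h
  · apply relIndex_le_of_two_gen R R₀ hle hR₀n hpow hcm a b (hXR ha) (hXR hb)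
    apply le_antisymm (sup_le hDR hle)
    intro s hs
    obtain ⟨d, hd, y, hy, e⟩ := hdecY s hs
    rw [e]
    exact mul_mem (mem_sup_left hd) (mem_sup_right (h hy))
  · have hYp : IsPGroup p Y := hRp.to_le hYR
    have hYc : ∀ y ∈ Y, ∀ x ∈ X, x * y = y * x := by
      intro y hy x hx
      rw [hY] at hy
      exact mem_centralizer_iff.1 hy.2 x hx
    have hYz : ∀ y ∈ Y, y ^ p = 1 → y ∈ zpowers z := by
      intro y hy hyp
      exact hW y (hYR hy) hyp (hYc y hy a ha).symm (hYc y hy b hb).symm (hYc y hy z hzX).symm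
    have hcY : PCentral p Y := by
      intro y hy y'
      have h1 : (y : Γ) ^ p = 1 := by simpa using congrArg Subtype.val hy
      have h2 := hYz y y.2 h1
      have h3 : (y : Γ) ∈ X := (zpowers_le.2 hzX) h2
      exact Subtype.ext (hYc y' y'.2 y h3)
    have hcnt : Nat.card (omegaOne hcY) ≤ p := by
      have h0 : Nat.card (zpowers z) = p := by rw [Nat.card_zpowers, hzo]
      refine le_of_le_of_eq (Nat.card_le_card_of_injective
        (fun y : omegaOne hcY => (⟨(y : Y).1, hYz _ (y : Y).2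
          (by simpa using congrArg Subtype.val y.2)⟩ : zpowers z)) ?_) h0
      intro u v huv
      have h5 := congrArg (fun w : zpowers z => (w : Γ)) huv
      exact Subtype.ext (Subtype.ext h5)
    have hcyc : IsCyclic Y := isCyclic_of_count hp2 _ Y rfl hYp hcY hcnt
    obtain ⟨y₀, hy₀⟩ := IsCyclic.exists_generator (α := Y)
    apply relIndex_le_of_two_gen R R₀ hle hR₀n hpow hcm (y₀ : Γ) (1 : Γ) (hYR y₀.2) (one_mem _)
    have hYle : Y ≤ closure ({(y₀ : Γ), 1} : Set Γ) ⊔ R₀ := by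
      intro y hy
      obtain ⟨k, hk⟩ := mem_zpowers_iff.1 (hy₀ ⟨y, hy⟩)
      have e : (y₀ : Γ) ^ k = y := by simpa using congrArg Subtype.val hk
      rw [← e]
      exact mem_sup_left (zpow_mem (subset_closure (by simp)) k)
    apply le_antisymm
    · refine sup_le ?_ hle
      rw [closure_le]
      rintro x (hx | hx)
      · rw [hx]; exact hYR y₀.2
      · rw [Set.mem_singleton_iff.1 hx]; exact one_mem _
    · rw [← h]
      exact sup_le hYle le_sup_right

end gamma

section gamma2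

variable {p : ℕ} [hp : Fact p.Prime] {Γ : Type u} [Group Γ] [Finite Γ]

theorem case_cyclic (hp2 : p ≠ 2) (R R₀ E : Subgroup Γ) (hRp : IsPGroup p R) (hR₀n : R₀.Normal)
    (hle : R₀ ≤ R) (hpow : ∀ x ∈ R, x ^ p ∈ R₀) (hcm : ∀ x ∈ R, ∀ y ∈ R, ⁅x, y⁆ ∈ R₀)
    (hEn : E.Normal) (hER : E ≤ R) (hself : R ⊓ centralizer (E : Set Γ) ≤ E) (hcE : IsCyclic E) :
    R₀.relIndex R ≤ p ^ 2 := by
  haveI := hEn
  have hEp : IsPGroup p E := hRp.to_le hER
  obtain ⟨k, hk⟩ := IsPGroup.iff_card.mp hEp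
  haveI hu : IsCyclic (ZMod (Nat.card E))ˣ := by
    rw [hk]
    exact ZMod.isCyclic_units_of_prime_pow p hp.out hp2 k
  haveI hA : IsCyclic (MulAut E) :=
    isCyclic_of_injective (IsCyclic.mulAutMulEquiv E).toMonoidHom (IsCyclic.mulAutMulEquiv E).injective
  let ρ : Γ →* MulAut E := MulAut.conjNormal
  have hcomm_ρ : ∀ u : Γ, ρ u = 1 → u ∈ centralizer (E : Set Γ) := by
    intro u hu e
    intro he
    have h1 : ((ρ u) ⟨e, he⟩ : E) = ⟨e, he⟩ := by rw [hu]; rfl
    have h2 : ((ρ u) ⟨e, he⟩ : Γ) = u * e * u⁻¹ := MulAut.conjNormal_apply u ⟨e, he⟩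
    have h3 : u * e * u⁻¹ = e := by rw [← h2, h1]
    exact (mul_inv_eq_iff_eq_mul.1 h3).symm
  obtain ⟨⟨γ, g, hgR, rfl⟩, hgen⟩ : ∃ x : ((R.map ρ) : Subgroup (MulAut E)), ∀ y, y ∈ zpowers x := by
    exact IsCyclic.exists_generator
  obtain ⟨e₀, he₀⟩ := IsCyclic.exists_generator (α := E)
  apply relIndex_le_of_two_gen R R₀ hle hR₀n hpow hcm g (e₀ : Γ) hgR (hER e₀.2)
  apply le_antisymm
  · refine sup_le ?_ hle
    rw [closure_le]
    rintro x (hx | hx)
    · rw [hx]; exact hgR
    · rw [Set.mem_singleton_iff.1 hx]; exact hER e₀.2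
  · intro s hs
    have hm : ρ s ∈ R.map ρ := ⟨s, hs, rfl⟩
    obtain ⟨k, hk⟩ := mem_zpowers_iff.1 (hgen ⟨ρ s, hm⟩)
    have hk' : (ρ g) ^ k = ρ s := by simpa using congrArg Subtype.val hk
    have h1 : ρ ((g ^ k)⁻¹ * s) = 1 := by
      rw [map_mul, map_inv, map_zpow, hk', inv_mul_cancel]
    have h2 : (g ^ k)⁻¹ * s ∈ R ⊓ centralizer (E : Set Γ) :=
      mem_inf.2 ⟨mul_mem (inv_mem (zpow_mem hgR k)) hs, hcomm_ρ _ h1⟩
    have h3 := hself h2
    obtain ⟨l, hl⟩ := mem_zpowers_iff.1 (he₀ ⟨_, h3⟩)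
    have hl' : (e₀ : Γ) ^ l = (g ^ k)⁻¹ * s := by simpa using congrArg Subtype.val hl
    have e : s = g ^ k * (e₀ : Γ) ^ l := by rw [hl']; group
    rw [e]
    exact mem_sup_left (mul_mem (zpow_mem (subset_closure (by simp)) k)
      (zpow_mem (subset_closure (by simp)) l))

theorem case_big (hp2 : p ≠ 2) (R R₀ X : Subgroup Γ) (hRp : IsPGroup p R) (hR₀n : R₀.Normal)
    (hRn : R.Normal) (hle : R₀ ≤ R) (hne : R₀ ≠ R) (hpow : ∀ x ∈ R, x ^ p ∈ R₀)
    (hcm : ∀ x ∈ R, ∀ y ∈ R, ⁅x, y⁆ ∈ R₀)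
    (hrank : ∀ A : Subgroup Γ, A ≤ R → (∀ a ∈ A, ∀ b ∈ A, a * b = b * a) → (∀ a ∈ A, a ^ p = 1) →
      Nat.card A ≤ p ^ 2)
    (hirr : ∀ L : Subgroup Γ, L.Normal → L ≤ R → L ≤ R₀ ∨ L ⊔ R₀ = R)
    (hXn : X.Normal) (hXR : X ≤ R) (hXe : ∀ x ∈ X, x ^ p = 1) (hXab : ∀ a ∈ X, ∀ b ∈ X, a * b = b * a)
    (hXcard : Nat.card X = p ^ 2) : R₀.relIndex R ≤ p ^ 2 := by
  haveI := hXn
  haveI := hRn
  haveI := hR₀n
  obtain ⟨T, hT⟩ : ∃ T : Subgroup Γ, T = R ⊓ centralizer (X : Set Γ) := ⟨_, rfl⟩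
  have hTn : T.Normal := by
    rw [hT]
    haveI : (centralizer (X : Set Γ)).Normal := Subgroup.normal_centralizer (H := X)
    exact Subgroup.normal_inf_normal _ _
  have hTR : T ≤ R := by rw [hT]; exact inf_le_left
  have hTc : ∀ t ∈ T, ∀ x ∈ X, x * t = t * x := by
    intro t ht x hx
    rw [hT] at ht
    exact mem_centralizer_iff.1 ht.2 x hx
  have hXT : X ≤ T := by
    intro x hx
    rw [hT]
    refine ⟨hXR hx, ?_⟩
    show x ∈ centralizer (X : Set Γ)
    rw [mem_centralizer_iff]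
    intro y hy
    exact hXab y hy x hx
  have hp2le : 2 ≤ p := hp.out.two_le
  rcases hirr T hTn hTR with h | h
  · -- `T ≤ R₀`
    haveI hX'n : (X.subgroupOf R).Normal := Subgroup.Normal.subgroupOf hXn R
    have hX'ne : X.subgroupOf R ≠ ⊥ := by
      intro hb
      have h0 : X = ⊥ := by
        rw [eq_bot_iff]
        intro x hx
        have h1 : (⟨x, hXR hx⟩ : R) ∈ X.subgroupOf R := by rw [mem_subgroupOf]; exact hx
        rw [hb, mem_bot] at h1
        simpa using congrArg Subtype.val h1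
      rw [h0, Subgroup.card_bot] at hXcard
      have : 1 < p ^ 2 := Nat.one_lt_pow (by norm_num) hp.out.one_lt
      omega
    obtain ⟨z, hzX, hzc, hzo⟩ := Cfsg.Agent.Lib.PGroup.exists_central_of_order_prime hRp hX'ne
    have hzX' : (z : Γ) ∈ X := by rw [mem_subgroupOf] at hzX; exact hzX
    have hzo' : orderOf (z : Γ) = p := by rw [Subgroup.orderOf_coe]; exact hzo
    have hzc' : ∀ r ∈ R, (z : Γ) * r = r * z := by
      intro r hr
      have := mem_center_iff.1 hzc ⟨r, hr⟩
      exact (congrArg Subtype.val this).symm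
    -- central modulo `⟨z⟩`
    haveI hZn : (zpowers z).Normal := by
      refine ⟨fun x hx g => ?_⟩
      have h1 : x ∈ center R := (zpowers_le.2 hzc) hx
      have h2 := mem_center_iff.1 h1 g
      rw [h2, mul_inv_cancel_right]
      exact hx
    have hcz : Nat.card (zpowers (z : Γ)) = p := by rw [Nat.card_zpowers, hzo']
    have hnotle : ¬ X ≤ zpowers (z : Γ) := by
      intro hle'
      have h1 := Subgroup.card_le_of_le hle'
      rw [hXcard, hcz] at h1
      nlinarith
    obtain ⟨x, hx, hxz⟩ := SetLike.not_le_iff_exists.1 hnotle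
    have hcoe : ∀ u : R, u ∈ zpowers z → (u : Γ) ∈ zpowers (z : Γ) := by
      intro u hu
      obtain ⟨k, hk⟩ := mem_zpowers_iff.1 hu
      refine mem_zpowers_iff.2 ⟨k, ?_⟩
      simpa using congrArg Subtype.val hk
    have hAne : (X.subgroupOf R).map (QuotientGroup.mk' (zpowers z)) ≠ ⊥ := by
      intro hb
      have h1 : QuotientGroup.mk' (zpowers z) (⟨x, hXR hx⟩ : R) ∈
          (X.subgroupOf R).map (QuotientGroup.mk' (zpowers z)) :=
        ⟨⟨x, hXR hx⟩, by rw [SetLike.mem_coe, mem_subgroupOf]; exact hx, rfl⟩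
      rw [hb, mem_bot, QuotientGroup.mk'_apply, QuotientGroup.eq_one_iff] at h1
      exact hxz (hcoe _ h1)
    haveI hAn : ((X.subgroupOf R).map (QuotientGroup.mk' (zpowers z))).Normal :=
      hX'n.map _ (QuotientGroup.mk'_surjective _)
    obtain ⟨ubar, ⟨v, hvX, hv⟩, hucent, huo⟩ :=
      Cfsg.Agent.Lib.PGroup.exists_central_of_order_prime (hRp.to_quotient (zpowers z)) hAne
    have hvX' : (v : Γ) ∈ X := by
      rw [SetLike.mem_coe, mem_subgroupOf] at hvX; exact hvX
    have hvz : (v : Γ) ∉ zpowers (z : Γ) := by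
      intro hh
      have h1 : v ∈ zpowers z := by
        obtain ⟨k, hk⟩ := mem_zpowers_iff.1 hh
        refine mem_zpowers_iff.2 ⟨k, Subtype.ext ?_⟩
        simpa using hk
      have h2 : ubar = 1 := by
        rw [← hv, QuotientGroup.mk'_apply, QuotientGroup.eq_one_iff]; exact h1
      rw [h2, orderOf_one] at huo
      exact hp.out.one_lt.ne huo
    have hsv : ∀ s ∈ R, ⁅s, (v : Γ)⁆ ∈ zpowers (z : Γ) := by
      intro s hs
      have h1 := mem_center_iff.1 hucent (QuotientGroup.mk' (zpowers z) (⟨s, hs⟩ : R))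
      rw [← hv, ← map_mul, ← map_mul] at h1
      have h2 : (QuotientGroup.mk' (zpowers z)) ⁅(⟨s, hs⟩ : R), v⁆ = 1 := by
        rw [map_commutatorElement, commutatorElement_eq_one_iff_mul_comm, ← map_mul, ← map_mul]
        exact h1
      rw [QuotientGroup.mk'_apply, QuotientGroup.eq_one_iff] at h2
      have h3 := hcoe _ h2
      simpa [commutatorElement_def] using h3
    -- `X = ⟨z, v⟩`
    have hclX : closure ({(z : Γ), (v : Γ)} : Set Γ) ≤ X := by
      rw [closure_le]
      rintro u (hu | hu)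
      · rw [hu]; exact hzX'
      · rw [Set.mem_singleton_iff.1 hu]; exact hvX'
    have hlt : zpowers (z : Γ) < closure ({(z : Γ), (v : Γ)} : Set Γ) := by
      refine lt_of_le_of_ne (zpowers_le.2 (subset_closure (by simp))) ?_
      intro hh
      have : (v : Γ) ∈ closure ({(z : Γ), (v : Γ)} : Set Γ) := subset_closure (by simp)
      rw [← hh] at this
      exact hvz this
    have hXcl : closure ({(z : Γ), (v : Γ)} : Set Γ) = X := by
      apply Subgroup.eq_of_le_of_card_ge hclX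
      have h1 := p_mul_card_le hlt (hRp.to_le (hclX.trans hXR))
      rw [hcz] at h1
      rw [hXcard, sq]
      exact h1
    have hcentX : ∀ u : Γ, u * (z : Γ) = (z : Γ) * u → u * (v : Γ) = (v : Γ) * u →
        u ∈ centralizer (X : Set Γ) := by
      intro u h1 h2
      have h3 : closure ({(z : Γ), (v : Γ)} : Set Γ) ≤ centralizer ({u} : Set Γ) := by
        rw [closure_le]
        rintro y (hy | hy)
        · rw [hy, SetLike.mem_coe, mem_centralizer_iff]
          intro w hw
          rw [Set.mem_singleton_iff.1 hw]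
          exact h1
        · rw [Set.mem_singleton_iff.1 hy, SetLike.mem_coe, mem_centralizer_iff]
          intro w hw
          rw [Set.mem_singleton_iff.1 hw]
          exact h2
      rw [mem_centralizer_iff]
      intro y hy
      have hy' : y ∈ closure ({(z : Γ), (v : Γ)} : Set Γ) := by rw [hXcl]; exact hy
      exact (mem_centralizer_iff.1 (h3 hy') u (by simp)).symm
    have hRT : ¬ R ≤ T := fun hh => hne (le_antisymm hle (hh.trans h))
    obtain ⟨g, hgR, hgT⟩ := SetLike.not_le_iff_exists.1 hRT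
    have hgv : ⁅g, (v : Γ)⁆ ≠ 1 := by
      intro hh
      apply hgT
      rw [hT]
      refine ⟨hgR, hcentX g (hzc' g hgR).symm (commutatorElement_eq_one_iff_mul_comm.1 hh)⟩
    have hzz : ∀ c ∈ zpowers (z : Γ), ∀ r ∈ R, c * r = r * c := by
      intro c hc r hr
      obtain ⟨k, rfl⟩ := mem_zpowers_iff.1 hc
      exact ((show Commute (z : Γ) r from hzc' r hr).zpow_left k)
    have hzp : (z : Γ) ^ p = 1 := by rw [← hzo']; exact pow_orderOf_eq_one _
    have hgz : zpowers ⁅g, (v : Γ)⁆ = zpowers (z : Γ) := by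
      apply Subgroup.eq_of_le_of_card_ge (zpowers_le.2 (hsv g hgR))
      rw [hcz, Nat.card_zpowers]
      have h1 : ⁅g, (v : Γ)⁆ ^ p = 1 := by
        obtain ⟨k, hk⟩ := mem_zpowers_iff.1 (hsv g hgR)
        rw [← hk, ← zpow_natCast, zpow_comm, zpow_natCast, hzp, one_zpow]
      rw [orderOf_eq_prime h1 hgv]
    apply relIndex_le_of_two_gen R R₀ hle hR₀n hpow hcm g (1 : Γ) hgR (one_mem _)
    apply le_antisymm
    · refine sup_le ?_ hle
      rw [closure_le]
      rintro y (hy | hy)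
      · rw [hy]; exact hgR
      · rw [Set.mem_singleton_iff.1 hy]; exact one_mem _
    · intro s hs
      have h1 := hsv s hs
      rw [← hgz] at h1
      obtain ⟨n, hn⟩ := exists_pow_of_mem_zpowers h1
      have hcg : Commute ⁅g, (v : Γ)⁆ g := hzz _ (hsv g hgR) g hgR
      have e1 : ⁅g ^ n, (v : Γ)⁆ = ⁅g, (v : Γ)⁆ ^ n := Cfsg.Agent.Lib.Transfer.comm_pow_left hcg n
      have h2 : ((g ^ n)⁻¹ * s) * (v : Γ) = (v : Γ) * ((g ^ n)⁻¹ * s) :=
        comm_of_comm_eq (by rw [e1, hn])
      have huR : (g ^ n)⁻¹ * s ∈ R := mul_mem (inv_mem (pow_mem hgR n)) hs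
      have h3 : (g ^ n)⁻¹ * s ∈ T := by
        rw [hT]
        exact ⟨huR, hcentX _ (hzc' _ huR).symm h2⟩
      have e : s = g ^ n * ((g ^ n)⁻¹ * s) := by group
      rw [e]
      exact mul_mem (mem_sup_left (pow_mem (subset_closure (by simp)) n)) (mem_sup_right (h h3))
  · -- `T ⊔ R₀ = R`
    have hTX : ∀ t ∈ T, t ^ p = 1 → t ∈ X := by
      intro t ht htp
      have hkc : ∀ x ∈ ((X : Set Γ) ∪ {t}), ∀ y ∈ ((X : Set Γ) ∪ {t}), x * y = y * x := by
        intro x hx y hy
        rcases hx with hx | hx <;> rcases hy with hy | hy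
        · exact hXab x hx y hy
        · rw [Set.mem_singleton_iff.1 hy]; exact hTc t ht x hx
        · rw [Set.mem_singleton_iff.1 hx]; exact (hTc t ht y hy).symm
        · rw [Set.mem_singleton_iff.1 hx, Set.mem_singleton_iff.1 hy]
      have hke : ∀ x ∈ ((X : Set Γ) ∪ {t}), x ^ p = 1 := by
        intro x hx
        rcases hx with hx | hx
        · exact hXe x hx
        · rw [Set.mem_singleton_iff.1 hx]; exact htp
      have hA : closure ((X : Set Γ) ∪ {t}) ≤ R := by
        rw [closure_le]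
        intro x hx
        rcases hx with hx | hx
        · exact hXR hx
        · rw [Set.mem_singleton_iff.1 hx]; exact hTR ht
      have hcard := hrank _ hA (comm_closure hkc) (exp_closure hkc hke)
      have hXA : X ≤ closure ((X : Set Γ) ∪ {t}) := fun x hx => subset_closure (Or.inl hx)
      have heq := Subgroup.eq_of_le_of_card_ge hXA (by rw [hXcard]; exact hcard)
      have : t ∈ closure ((X : Set Γ) ∪ {t}) := subset_closure (Or.inr rfl)
      rw [← heq] at this
      exact this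
    have hcT : PCentral p T := by
      intro y hy y'
      have h1 : (y : Γ) ^ p = 1 := by simpa using congrArg Subtype.val hy
      exact Subtype.ext (hTc y' y'.2 y (hTX y y.2 h1))
    have hcnt : Nat.card (omegaOne hcT) ≤ p ^ 2 := by
      refine le_of_le_of_eq (Nat.card_le_card_of_injective
        (fun y : omegaOne hcT => (⟨(y : T).1, hTX _ (y : T).2
          (by simpa using congrArg Subtype.val y.2)⟩ : X)) ?_) hXcard
      intro u v huv
      have h5 := congrArg (fun w : X => (w : Γ)) huv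
      exact Subtype.ext (Subtype.ext h5)
    rw [← h, Subgroup.relIndex_sup_right]
    show (R₀.subgroupOf T).index ≤ p ^ 2
    refine index_le_sq hp2 _ T rfl (hRp.to_le hTR) hcT hcnt _ (Subgroup.Normal.subgroupOf hR₀n T) ?_ ?_
    · intro x
      rw [mem_subgroupOf]
      simpa using hpow _ (hTR x.2)
    · intro x y
      rw [mem_subgroupOf]
      have e : ((⁅x, y⁆ : T) : Γ) = ⁅(x : Γ), (y : Γ)⁆ := by simp [commutatorElement_def]
      rw [e]
      exact hcm _ (hTR x.2) _ (hTR y.2)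

/-- The main result: an irreducible section of a `p`-group of rank at most two, `p` odd. -/
theorem index_le (hp2 : p ≠ 2) (R R₀ : Subgroup Γ) (hRn : R.Normal) (hR₀n : R₀.Normal)
    (hRp : IsPGroup p R) (hle : R₀ ≤ R) (hne : R₀ ≠ R)
    (hrank : ∀ A : Subgroup Γ, A ≤ R → (∀ a ∈ A, ∀ b ∈ A, a * b = b * a) → (∀ a ∈ A, a ^ p = 1) →
      Nat.card A ≤ p ^ 2)
    (hirr : ∀ L : Subgroup Γ, L.Normal → L ≤ R → L ≤ R₀ ∨ L ⊔ R₀ = R) :
    R₀.relIndex R ≤ p ^ 2 := by
  obtain ⟨hpow, hcm⟩ := frat_part R R₀ hRn hRp hR₀n hle hne hirr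
  haveI := hRn
  obtain ⟨E, hEn, hER, hc1, hc2⟩ := Cfsg.Agent.Lib.Geo.exists_critical R hRn hRp.isNilpotent
  haveI := hEn
  have hEc : ∀ r ∈ R, ∀ c ∈ E, ∀ e ∈ E, ⁅r, c⁆ * e = e * ⁅r, c⁆ := by
    intro r hr c hc e he
    exact (mem_centralizer_iff.1 (hc1 r hr c hc).2 e he).symm
  let X : Subgroup Γ :=
    { carrier := {e | e ∈ E ∧ e ^ p = 1}
      mul_mem' := by
        rintro a b ⟨ha, hap⟩ ⟨hb, hbp⟩
        refine ⟨mul_mem ha hb, ?_⟩
        have h1 : ∀ w : E, ⁅(b : Γ), a⁆ * (w : Γ) = (w : Γ) * ⁅(b : Γ), a⁆ :=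
          fun w => hEc b (hER hb) a ha w w.2
        have hc : Commute ⁅b, a⁆ b := h1 ⟨b, hb⟩
        have h2 : ⁅b, a⁆ ^ p = 1 := by
          rw [← Cfsg.Agent.Lib.Transfer.comm_pow_left hc p, hbp, commutatorElement_one_left]
        have h3 := Cfsg.Agent.Lib.Transfer.mul_pow_class2 (x := a) (y := b) (h1 ⟨a, ha⟩) hc p
        obtain ⟨k, hk⟩ := dvd_choose (p := p) hp2
        rw [h3, hk, pow_mul, h2, one_pow, hap, hbp, one_mul, mul_one]
      one_mem' := ⟨one_mem _, one_pow _⟩
      inv_mem' := by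
        rintro a ⟨ha, hap⟩
        exact ⟨inv_mem ha, by rw [inv_pow, hap, inv_one]⟩ }
  have hXE : ∀ x ∈ X, x ∈ E := fun x hx => hx.1
  have hXR : X ≤ R := fun x hx => hER hx.1
  have hXe : ∀ x ∈ X, x ^ p = 1 := fun x hx => hx.2
  have hXn : X.Normal := by
    refine ⟨fun x hx g => ⟨hEn.conj_mem x hx.1 g, ?_⟩⟩
    rw [conj_pow, hx.2]; group
  by_cases hab : ∀ a ∈ X, ∀ b ∈ X, a * b = b * a
  · have hXcard := hrank X hXR hab hXe
    by_cases hbig : Nat.card X = p ^ 2
    · exact case_big hp2 R R₀ X hRp hR₀n hRn hle hne hpow hcm hrank hirr hXn hXR hXe hab hbig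
    · have hXp : IsPGroup p X := hRp.to_le hXR
      obtain ⟨k, hk⟩ := IsPGroup.iff_card.mp hXp
      have hk1 : k ≤ 1 := by
        by_contra hk2
        push Not at hk2
        have h1 : p ^ 2 ≤ p ^ k := Nat.pow_le_pow_right hp.out.pos hk2
        rw [hk] at hbig hXcard
        exact hbig (le_antisymm hXcard h1)
      have hcnt : Nat.card X ≤ p := by
        rw [hk]
        calc p ^ k ≤ p ^ 1 := Nat.pow_le_pow_right hp.out.pos hk1
          _ = p := pow_one p
      have hcentral : ∀ x ∈ X, ∀ r ∈ R, x * r = r * x := by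
        by_cases hXb : X = ⊥
        · intro x hx r _
          rw [hXb, mem_bot] at hx
          rw [hx, one_mul, mul_one]
        · haveI hX'n : (X.subgroupOf R).Normal := Subgroup.Normal.subgroupOf hXn R
          have hX'ne : X.subgroupOf R ≠ ⊥ := by
            intro hb
            apply hXb
            rw [eq_bot_iff]
            intro x hx
            have h1 : (⟨x, hXR hx⟩ : R) ∈ X.subgroupOf R := by rw [mem_subgroupOf]; exact hx
            rw [hb, mem_bot] at h1
            simpa using congrArg Subtype.val h1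
          obtain ⟨z, hzX, hzc, hzo⟩ :=
            Cfsg.Agent.Lib.PGroup.exists_central_of_order_prime hRp hX'ne
          have hzX' : (z : Γ) ∈ X := by rw [mem_subgroupOf] at hzX; exact hzX
          have hzo' : orderOf (z : Γ) = p := by rw [Subgroup.orderOf_coe]; exact hzo
          have hzc' : ∀ r ∈ R, (z : Γ) * r = r * z := by
            intro r hr
            have := mem_center_iff.1 hzc ⟨r, hr⟩
            exact (congrArg Subtype.val this).symm
          have heq : zpowers (z : Γ) = X := by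
            apply Subgroup.eq_of_le_of_card_ge (zpowers_le.2 hzX')
            rw [Nat.card_zpowers, hzo']
            exact hcnt
          intro x hx r hr
          rw [← heq] at hx
          obtain ⟨k, rfl⟩ := mem_zpowers_iff.1 hx
          exact (show Commute (z : Γ) r from hzc' r hr).zpow_left k
      have hEX : ∀ e : E, (e : Γ) ^ p = 1 → (e : Γ) ∈ X := fun e he => ⟨e.2, he⟩
      have hcE : PCentral p E := by
        intro y hy y'
        have h1 : (y : Γ) ^ p = 1 := by simpa using congrArg Subtype.val hy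
        exact Subtype.ext (hcentral _ (hEX y h1) _ (hER y'.2))
      have hcnt' : Nat.card (omegaOne hcE) ≤ p := by
        refine le_trans (Nat.card_le_card_of_injective
          (fun y : omegaOne hcE => (⟨(y : E).1, hEX _
            (by simpa using congrArg Subtype.val y.2)⟩ : X)) ?_) hcnt
        intro u v huv
        have h5 := congrArg (fun w : X => (w : Γ)) huv
        exact Subtype.ext (Subtype.ext h5)
      have hcyc : IsCyclic E := isCyclic_of_count hp2 _ E rfl (hRp.to_le hER) hcE hcnt'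
      exact case_cyclic hp2 R R₀ E hRp hR₀n hle hpow hcm hEn hER hc2 hcyc
  · push Not at hab
    obtain ⟨a, ha, b, hb, hne'⟩ := hab
    refine case_nonab hp2 R R₀ X hRp hR₀n hRn hle hpow hcm hrank hirr hXn hXR hXe ?_ a b ha hb hne'
    intro s hs x hx x' hx'
    exact hEc s hs x (hXE x hx) x' (hXE x' hx')

end gamma2

end Cfsg.Agent.Lib.Techniques.RankTwo
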