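import Cfsg.Agent.Lib.Techniques.S4Class2
import Cfsg.Agent.Lib.FStar.PConstrained
import Cfsg.Agent.S0199
import Mathlib

/-! Groups not involving `S₄`, with Sylow `2`-subgroups of class at most `2`: the spread argument. -/

set_option autoImplicit false
set_option linter.style.haveILetI false

namespace Cfsg.Agent.Lib.Techniques

open Cfsg Cfsg.Agent.Lib.FrobThm Cfsg.Agent.Lib.FrobThm.Rel
open scoped commutatorElement

universe u

section spread

variable {X : Type u} [Group X] [Finite X]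

/-- Largest elementary abelian subgroups of Sylow `2`-subgroups. -/
def SpMem (A : Subgroup X) : Prop := ∃ Q : Sylow 2 X, A ∈ AA 2 (Q : Subgroup X)

/-- The common setting. -/
structure SpSetup (V : Subgroup X) : Prop where
  comm : ∀ a ∈ V, ∀ b ∈ V, a * b = b * a
  exp : ∀ v ∈ V, v * v = 1
  normal : V.Normal
  le_sylow : ∀ Q : Sylow 2 X, V ≤ (Q : Subgroup X)
  class2 : ∀ Q : Sylow 2 X, ∀ r ∈ (Q : Subgroup X), ∀ s ∈ (Q : Subgroup X), ∀ t ∈ (Q : Subgroup X), ⁅⁅r, s⁆, t⁆ = 1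
  noS4 : ¬ Involves (Equiv.Perm (Fin 4)) X

/-- Odd elements act trivially. -/
def TwoOn (L W : Subgroup X) : Prop :=
  ∀ g ∈ L, Odd (orderOf g) → g ∈ Subgroup.centralizer (W : Set X)

theorem AA_conj_mem {T A : Subgroup X} (hA : A ∈ AA 2 T) (g : X) : conjS g A ∈ AA 2 (conjS g T) := by
  refine ⟨conjS_mono g hA.1, hA.2.1.map _, ?_⟩
  intro B hB hBe
  have h1 : conjS g⁻¹ B ≤ T := by
    have h2 := conjS_mono g⁻¹ hB
    rwa [conjS_inv_conjS] at h2
  have h2 := hA.2.2 _ h1 (hBe.map _)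
  rw [card_conjS] at h2 ⊢
  exact h2

theorem SpMem.conj {A : Subgroup X} (h : SpMem A) (g : X) : SpMem (conjS g A) := by
  obtain ⟨Q, hQ⟩ := h
  refine ⟨MulAut.conj g • Q, ?_⟩
  exact AA_conj_mem hQ g

theorem SpMem.exp {A : Subgroup X} (h : SpMem A) : ∀ a ∈ A, a * a = 1 := by
  obtain ⟨Q, hQ⟩ := h
  intro a ha
  rw [← pow_two]
  exact hQ.2.1.2 a ha

theorem SpMem.comm {A : Subgroup X} (h : SpMem A) : ∀ a ∈ A, ∀ b ∈ A, a * b = b * a := by
  obtain ⟨Q, hQ⟩ := h
  exact hQ.2.1.1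

theorem mem_AA_of_commute {T A : Subgroup X} (hA : A ∈ AA 2 T) {c : X} (hcT : c ∈ T) (hc2 : c * c = 1)
    (hcA : ∀ a ∈ A, a * c = c * a) : c ∈ A := by
  have hz : EA 2 (Subgroup.zpowers c) := EA_zpowers (by rw [pow_two]; exact hc2)
  have hcomm : ∀ a ∈ A, ∀ b ∈ Subgroup.zpowers c, a * b = b * a := by
    rintro a ha _ ⟨i, rfl⟩
    exact ((show Commute a c from hcA a ha).zpow_right i).eq
  have hE := EA.sup hA.2.1 hz hcomm
  have hle : A ⊔ Subgroup.zpowers c ≤ T := sup_le hA.1 (by rw [Subgroup.zpowers_le]; exact hcT)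
  have h1 := hA.2.2 _ hle hE
  have h2 : A = A ⊔ Subgroup.zpowers c := Subgroup.eq_of_le_of_card_ge le_sup_left h1
  rw [h2]
  exact Subgroup.mem_sup_right (Subgroup.mem_zpowers c)

section setup

variable {V : Subgroup X} (h : SpSetup V)
include h

theorem SpSetup.conj_mem (g : X) {v : X} (hv : v ∈ V) : g * v * g⁻¹ ∈ V := h.normal.conj_mem v hv g

theorem SpSetup.comm_mem_V (g : X) {v : X} (hv : v ∈ V) : ⁅g, v⁆ ∈ V := by
  rw [commutatorElement_def]
  exact V.mul_mem (h.conj_mem g hv) (V.inv_mem hv)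

/-- The commutator of an element of a largest elementary abelian subgroup with `V` lies in it. -/
theorem SpSetup.comm_mem_A {A : Subgroup X} {Q : Sylow 2 X} (hA : A ∈ AA 2 (Q : Subgroup X)) {a v : X} (ha : a ∈ A)
    (hv : v ∈ V) : ⁅a, v⁆ ∈ A := by
  have hcV := h.comm_mem_V a hv
  refine mem_AA_of_commute hA (h.le_sylow Q hcV) (h.exp _ hcV) fun b hb => ?_
  have h1 := h.class2 Q a (hA.1 ha) v (h.le_sylow Q hv) b (hA.1 hb)
  rw [commutatorElement_eq_one_iff_commute] at h1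
  exact h1.eq.symm

theorem SpSetup.comm_mem_A' {A : Subgroup X} (hA : SpMem A) {a v : X} (ha : a ∈ A)
    (hv : v ∈ V) : ⁅a, v⁆ ∈ A := by
  obtain ⟨Q, hQ⟩ := hA
  exact h.comm_mem_A hQ ha hv

/-- An element of `V` centralizing a member lies in it. -/
theorem SpSetup.mem_of_commute {A : Subgroup X} (hA : SpMem A) {v : X} (hv : v ∈ V)
    (hc : ∀ a ∈ A, a * v = v * a) : v ∈ A := by
  obtain ⟨Q, hQ⟩ := hA
  exact mem_AA_of_commute hQ (h.le_sylow Q hv) (h.exp v hv) hc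

/-- Two elements of a `2`-subgroup act in a commuting way on `V`. -/
theorem SpSetup.act_comm {Q : Sylow 2 X} {x s v : X} (hx : x ∈ (Q : Subgroup X)) (hs : s ∈ (Q : Subgroup X))
    (hv : v ∈ V) : x * (s * v * s⁻¹) * x⁻¹ = s * (x * v * x⁻¹) * s⁻¹ := by
  have hvQ := h.le_sylow Q hv
  have h1 := h.class2 Q s hs v hvQ x hx
  have h2 := h.class2 Q x hx v hvQ s hs
  rw [commutatorElement_eq_one_iff_commute] at h1 h2
  have e1 : s * v * s⁻¹ = ⁅s, v⁆ * v := by rw [commutatorElement_def]; group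
  have e2 : x * v * x⁻¹ = ⁅x, v⁆ * v := by rw [commutatorElement_def]; group
  have h3 := h.comm _ (h.comm_mem_V s hv) _ (h.comm_mem_V x hv)
  calc x * (s * v * s⁻¹) * x⁻¹ = (x * ⁅s, v⁆ * x⁻¹) * (x * v * x⁻¹) := by rw [e1]; group
    _ = ⁅s, v⁆ * (⁅x, v⁆ * v) := by
        rw [e2, ← h1.eq]
        group
    _ = ⁅x, v⁆ * (⁅s, v⁆ * v) := by rw [← mul_assoc, h3, mul_assoc]
    _ = (s * ⁅x, v⁆ * s⁻¹) * (s * v * s⁻¹) := by
        rw [e1, ← h2.eq]
        group
    _ = s * (x * v * x⁻¹) * s⁻¹ := by rw [e2]; group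

/-- The offender inequality. -/
theorem SpSetup.offender {A W : Subgroup X} (hA : SpMem A) (hWV : W ≤ V) :
    Nat.card W * Nat.card (A ⊓ Subgroup.centralizer (W : Set X) : Subgroup X) ≤
      Nat.card A * Nat.card (W ⊓ A : Subgroup X) := by
  obtain ⟨Q, hQ⟩ := hA
  obtain ⟨C, hC⟩ : ∃ C : Subgroup X, C = A ⊓ Subgroup.centralizer (W : Set X) := ⟨_, rfl⟩
  rw [← hC]
  have hcomm : ∀ w ∈ W, ∀ c ∈ C, w * c = c * w := by
    intro w hw c hc
    rw [hC] at hc
    exact (Subgroup.mem_centralizer_iff.1 hc.2 w hw)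
  have hWE : EA 2 W := ⟨fun a ha b hb => h.comm a (hWV ha) b (hWV hb), fun a ha => by
    rw [pow_two]; exact h.exp a (hWV ha)⟩
  have hCE : EA 2 C := hQ.2.1.mono (by rw [hC]; exact inf_le_left)
  have hE := EA.sup hWE hCE hcomm
  have hle : W ⊔ C ≤ (Q : Subgroup X) := sup_le (hWV.trans (h.le_sylow Q)) ((by rw [hC]; exact inf_le_left : C ≤ A).trans hQ.1)
  have h1 := hQ.2.2 _ hle hE
  have h2 := card_sup_mul_inf (le_normalizer_of_commute hcomm)
  have h3 : C ⊓ W ≤ W ⊓ A := by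
    rintro x ⟨hx, hxW⟩
    rw [hC] at hx
    exact ⟨hxW, hx.1⟩
  calc Nat.card W * Nat.card C = Nat.card (W ⊔ C : Subgroup X) * Nat.card (C ⊓ W : Subgroup X) := h2.symm
    _ ≤ Nat.card A * Nat.card (W ⊓ A : Subgroup X) := Nat.mul_le_mul h1 (Subgroup.card_le_of_le h3)

end setup

/-- Elements of a group generated by two involutions. -/
theorem mem_dihedral {a b : X} (ha : a * a = 1) (hb : b * b = 1) {x : X}
    (hx : x ∈ Subgroup.zpowers a ⊔ Subgroup.zpowers b) :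
    (∃ k : ℤ, x = (a * b) ^ k) ∨ ∃ k : ℤ, x = a * (a * b) ^ k := by
  have haa : a⁻¹ = a := inv_eq_of_mul_eq_one_left ha
  have hbb : b⁻¹ = b := inv_eq_of_mul_eq_one_left hb
  have hconj : ∀ k : ℤ, a * (a * b) ^ k * a⁻¹ = ((a * b) ^ k)⁻¹ := by
    intro k
    rw [← conj_zpow]
    have h1 : a * (a * b) * a⁻¹ = (a * b)⁻¹ := by
      rw [mul_inv_rev, hbb, haa, ← mul_assoc, ha, one_mul]
    rw [h1, inv_zpow]
  have hconj' : ∀ k : ℤ, a * (a * b) ^ k = (a * b) ^ (-k) * a := by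
    intro k
    have h1 := hconj k
    rw [mul_inv_eq_iff_eq_mul] at h1
    rw [h1, zpow_neg]
  let D : Subgroup X :=
    { carrier := {x | (∃ k : ℤ, x = (a * b) ^ k) ∨ ∃ k : ℤ, x = a * (a * b) ^ k}
      mul_mem' := by
        rintro x y (⟨i, rfl⟩ | ⟨i, rfl⟩) (⟨j, rfl⟩ | ⟨j, rfl⟩)
        · exact Or.inl ⟨i + j, (zpow_add _ _ _).symm⟩
        · right
          refine ⟨-i + j, ?_⟩
          have h1 := hconj' (-i)
          rw [neg_neg] at h1
          rw [zpow_add, ← mul_assoc, ← mul_assoc, h1]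
        · right
          exact ⟨i + j, by rw [zpow_add]; group⟩
        · left
          refine ⟨-i + j, ?_⟩
          rw [zpow_add]
          calc a * (a * b) ^ i * (a * ((a * b) ^ j)) = (a * (a * b) ^ i) * a * (a * b) ^ j := by group
            _ = (a * b) ^ (-i) * a * a * (a * b) ^ j := by rw [hconj' i]
            _ = (a * b) ^ (-i) * (a * a) * (a * b) ^ j := by group
            _ = _ := by rw [ha, mul_one]
      one_mem' := Or.inl ⟨0, by simp⟩
      inv_mem' := by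
        rintro x (⟨i, rfl⟩ | ⟨i, rfl⟩)
        · exact Or.inl ⟨-i, by rw [zpow_neg]⟩
        · right
          refine ⟨i, ?_⟩
          rw [mul_inv_rev, haa, ← zpow_neg, ← hconj' i] }
  have h1 : Subgroup.zpowers a ≤ D := by
    rw [Subgroup.zpowers_le]
    exact Or.inr ⟨0, by simp⟩
  have h2 : Subgroup.zpowers b ≤ D := by
    rw [Subgroup.zpowers_le]
    exact Or.inr ⟨1, by rw [zpow_one, ← mul_assoc, ha, one_mul]⟩
  exact sup_le h1 h2 hx

/-- An element of odd order from an annihilating odd power. -/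
theorem odd_orderOf_of_pow {τ : X} {m : ℕ} (hm : Odd m) (h : τ ^ m = 1) : Odd (orderOf τ) :=
  Odd.of_dvd_nat hm (orderOf_dvd_of_pow_eq_one h)

/-- An involution inverts the product with another involution. -/
theorem invol_conj_zpow {a b : X} (ha : a * a = 1) (hb : b * b = 1) (k : ℤ) :
    a * (a * b) ^ k * a⁻¹ = ((a * b) ^ k)⁻¹ := by
  have haa : a⁻¹ = a := inv_eq_of_mul_eq_one_left ha
  have hbb : b⁻¹ = b := inv_eq_of_mul_eq_one_left hb
  rw [← conj_zpow]
  have h1 : a * (a * b) * a⁻¹ = (a * b)⁻¹ := by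
    rw [mul_inv_rev, hbb, haa, ← mul_assoc, ha, one_mul]
  rw [h1, inv_zpow]

/-- Two involutions whose product is a `2`-element generate a `2`-group. -/
theorem isPGroup_sup_of_invol_pair {u v : X} (hu : u * u = 1) (hv : v * v = 1) {e : ℕ}
    (h : (u * v) ^ 2 ^ e = 1) : IsPGroup 2 ↥(Subgroup.zpowers u ⊔ Subgroup.zpowers v) := by
  rintro ⟨x, hx⟩
  obtain ⟨k, rfl⟩ | ⟨k, rfl⟩ := mem_dihedral hu hv hx
  · refine ⟨e, Subtype.ext ?_⟩
    show ((u * v) ^ k) ^ 2 ^ e = 1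
    rw [← zpow_natCast, ← zpow_mul, mul_comm, zpow_mul, zpow_natCast, h, one_zpow]
  · refine ⟨1, Subtype.ext ?_⟩
    show (u * (u * v) ^ k) ^ 2 ^ 1 = 1
    have h1 := invol_conj_zpow hu hv k
    have huu : u⁻¹ = u := inv_eq_of_mul_eq_one_left hu
    rw [huu] at h1
    rw [pow_one, pow_two]
    calc u * (u * v) ^ k * (u * (u * v) ^ k) = (u * (u * v) ^ k * u) * (u * v) ^ k := by group
      _ = 1 := by rw [h1, inv_mul_cancel]

/-- If a group generated by two subgroups of exponent `2` induces automorphisms of odd order on `W`, some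
member inverts such an element. -/
theorem exists_inverted {A B W : Subgroup X} (hA : ∀ a ∈ A, a * a = 1) (hB : ∀ b ∈ B, b * b = 1)
    (hN : A ⊔ B ≤ Subgroup.normalizer (W : Set X)) {g₀ : X} (hg₀ : g₀ ∈ A ⊔ B) (hodd : Odd (orderOf g₀))
    (hne : g₀ ∉ Subgroup.centralizer (W : Set X)) :
    ∃ a y : X, (a ∈ A ∨ a ∈ B) ∧ y ∈ A ⊔ B ∧ a * y * a⁻¹ = y⁻¹ ∧ Odd (orderOf y) ∧
      y ∉ Subgroup.centralizer (W : Set X) := by
  classical
  by_contra hcon
  push Not at hcon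
  obtain ⟨L, hL⟩ : ∃ L : Subgroup X, L = A ⊔ B := ⟨_, rfl⟩
  rw [← hL] at hN hg₀ hcon
  let C : Subgroup L := (Subgroup.centralizer (W : Set X)).subgroupOf L
  haveI hCn : C.Normal := by
    constructor
    intro c hc g
    rw [Subgroup.mem_subgroupOf, Subgroup.mem_centralizer_iff] at hc ⊢
    intro w hw
    have hg : (g : X) ∈ Subgroup.normalizer (W : Set X) := hN g.2
    have hw' : (g : X)⁻¹ * w * (g : X) ∈ W := by
      have h1 := (Subgroup.mem_normalizer_iff.1 hg) ((g : X)⁻¹ * w * (g : X))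
      apply h1.2
      have e : (g : X) * ((g : X)⁻¹ * w * (g : X)) * (g : X)⁻¹ = w := by group
      rw [e]
      exact hw
    have h2 : ((g : X)⁻¹ * w * (g : X)) * (c : X) = (c : X) * ((g : X)⁻¹ * w * (g : X)) := hc _ hw'
    show w * ((g : X) * (c : X) * (g : X)⁻¹) = ((g : X) * (c : X) * (g : X)⁻¹) * w
    calc w * ((g : X) * (c : X) * (g : X)⁻¹) = (g : X) * (((g : X)⁻¹ * w * (g : X)) * (c : X)) * (g : X)⁻¹ := by group
      _ = (g : X) * ((c : X) * ((g : X)⁻¹ * w * (g : X))) * (g : X)⁻¹ := by rw [h2]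
      _ = _ := by group
  let f : L →* L ⧸ C := QuotientGroup.mk' C
  have hfs : Function.Surjective f := QuotientGroup.mk'_surjective C
  have hfC : ∀ t : L, f t = 1 ↔ (t : X) ∈ Subgroup.centralizer (W : Set X) := by
    intro t
    exact (QuotientGroup.eq_one_iff t).trans Subgroup.mem_subgroupOf
  have key : ∀ a : X, (a ∈ A ∨ a ∈ B) → ∀ ha : a ∈ L, f ⟨a, ha⟩ ∈ pCore 2 (L ⧸ C) := by
    intro a haAB ha
    have ha2 : a * a = 1 := haAB.elim (hA a) (hB a)
    obtain ⟨x, hx⟩ : ∃ x : L, x = ⟨a, ha⟩ := ⟨_, rfl⟩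
    rw [← hx]
    have hxa : (x : X) = a := by rw [hx]
    have hx2 : x * x = 1 := Subtype.ext (by
      show (x : X) * (x : X) = 1
      rw [hxa]
      exact ha2)
    have hfx : f x * f x = 1 := by rw [← map_mul, hx2, map_one]
    have hX₀ : IsPGroup 2 (Subgroup.zpowers (f x)) :=
      (isPGroup_sup_of_invol_pair hfx hfx (e := 0) (by simpa using hfx)).to_le le_sup_left
    have hS : ∀ g₁ : L ⧸ C, IsPGroup 2 ↥(Subgroup.zpowers (f x) ⊔
        (Subgroup.zpowers (f x)).map (MulAut.conj g₁).toMonoidHom) := by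
      intro g₁
      obtain ⟨g, rfl⟩ := hfs g₁
      have hmap : (Subgroup.zpowers (f x)).map (MulAut.conj (f g)).toMonoidHom =
          Subgroup.zpowers (f (g * x * g⁻¹)) := by
        rw [MonoidHom.map_zpowers]
        simp [MulAut.conj_apply, map_mul, map_inv]
      rw [hmap]
      obtain ⟨x', hx'⟩ : ∃ x' : L, x' = g * x * g⁻¹ := ⟨_, rfl⟩
      rw [← hx']
      have hx'2 : x' * x' = 1 := by
        rw [hx']
        calc g * x * g⁻¹ * (g * x * g⁻¹) = g * (x * x) * g⁻¹ := by group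
          _ = 1 := by rw [hx2]; group
      obtain ⟨t, ht⟩ : ∃ t : L, t = x * x' := ⟨_, rfl⟩
      obtain ⟨e, m, hm, hem⟩ := Nat.exists_eq_pow_mul_and_not_dvd (n := orderOf t) (orderOf_pos t).ne' 2 (by norm_num)
      have hmodd : Odd m := Nat.not_even_iff_odd.1 (fun h => hm h.two_dvd)
      obtain ⟨y, hy⟩ : ∃ y : L, y = t ^ 2 ^ e := ⟨_, rfl⟩
      have hym : y ^ m = 1 := by
        rw [hy, ← pow_mul, ← hem, pow_orderOf_eq_one]
      have hyodd : Odd (orderOf (y : X)) := by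
        rw [Subgroup.orderOf_coe]
        exact odd_orderOf_of_pow hmodd hym
      have hay : a * (y : X) * a⁻¹ = (y : X)⁻¹ := by
        have h1 := invol_conj_zpow hx2 hx'2 ((2 ^ e : ℕ) : ℤ)
        rw [zpow_natCast, ← ht, ← hy] at h1
        have h2 := congrArg (Subtype.val) h1
        simp only [Subgroup.coe_mul, Subgroup.coe_inv, hxa] at h2
        exact h2
      have hyC := hcon a y haAB y.2 hay hyodd
      have hfy : f y = 1 := (hfC y).2 hyC
      refine isPGroup_sup_of_invol_pair hfx (by rw [← map_mul, hx'2, map_one]) (e := e) ?_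
      rw [← map_mul, ← ht, ← map_pow, ← hy, hfy]
    obtain ⟨N, hNn, hNp, hXN⟩ := Cfsg.Agent.S0199.result _ hX₀ hS
    exact Lib.Core.le_pCore hNn hNp (hXN (Subgroup.mem_zpowers _))
  obtain ⟨D, hD⟩ : ∃ D : Subgroup X, D = ((pCore 2 (L ⧸ C)).comap f).map L.subtype := ⟨_, rfl⟩
  have hLD : L ≤ D := by
    rw [hL]
    apply sup_le
    · intro a ha
      have haL : a ∈ L := by rw [hL]; exact Subgroup.mem_sup_left ha
      rw [hD]
      exact ⟨⟨a, haL⟩, key a (Or.inl ha) haL, rfl⟩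
    · intro a ha
      have haL : a ∈ L := by rw [hL]; exact Subgroup.mem_sup_right ha
      rw [hD]
      exact ⟨⟨a, haL⟩, key a (Or.inr ha) haL, rfl⟩
  have hg₁ := hLD hg₀
  rw [hD] at hg₁
  obtain ⟨g, hg, rfl⟩ := hg₁
  apply hne
  rw [Subgroup.subtype_apply, ← hfC]
  have hp := Lib.Core.pCore_isPGroup 2 (L ⧸ C)
  obtain ⟨k, hk⟩ := hp ⟨f g, hg⟩
  have hk' : f g ^ 2 ^ k = 1 := congrArg Subtype.val hk
  have hm : f g ^ orderOf (g : X) = 1 := by
    rw [Subgroup.orderOf_coe, ← map_pow, pow_orderOf_eq_one, map_one]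
  have h1 : orderOf (f g) ∣ 2 ^ k := orderOf_dvd_of_pow_eq_one hk'
  have h2 : orderOf (f g) ∣ orderOf (g : X) := orderOf_dvd_of_pow_eq_one hm
  have h3 : Nat.Coprime (2 ^ k) (orderOf (g : X)) :=
    Nat.Coprime.pow_left k (Nat.coprime_two_left.2 hodd)
  have h4 : orderOf (f g) = 1 := Nat.eq_one_of_dvd_coprimes h3 h1 h2
  exact orderOf_eq_one_iff.1 h4

/-- Commutators with the generators landing in `W'` give commutators with the generated group landing in `W'`. -/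
theorem sup_comm_mem {A B W W' : Subgroup X} (hN : A ⊔ B ≤ Subgroup.normalizer (W : Set X))
    (hN' : A ⊔ B ≤ Subgroup.normalizer (W' : Set X))
    (hA : ∀ x ∈ A, ∀ w ∈ W, ⁅x, w⁆ ∈ W') (hB : ∀ x ∈ B, ∀ w ∈ W, ⁅x, w⁆ ∈ W') :
    ∀ g ∈ A ⊔ B, ∀ w ∈ W, ⁅g, w⁆ ∈ W' := by
  let E : Subgroup X :=
    { carrier := {g | g ∈ Subgroup.normalizer (W : Set X) ∧ g ∈ Subgroup.normalizer (W' : Set X) ∧ ∀ w ∈ W, ⁅g, w⁆ ∈ W'}
      mul_mem' := by
        rintro g₁ g₂ ⟨h1, h2, h3⟩ ⟨h4, h5, h6⟩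
        refine ⟨Subgroup.mul_mem _ h1 h4, Subgroup.mul_mem _ h2 h5, fun w hw => ?_⟩
        have e : ⁅g₁ * g₂, w⁆ = (g₁ * ⁅g₂, w⁆ * g₁⁻¹) * ⁅g₁, w⁆ := by
          simp only [commutatorElement_def]; group
        rw [e]
        exact W'.mul_mem ((Subgroup.mem_normalizer_iff.1 h2 _).1 (h6 w hw)) (h3 w hw)
      one_mem' := ⟨Subgroup.one_mem _, Subgroup.one_mem _, fun w _ => by
        simp [commutatorElement_def]⟩
      inv_mem' := by
        rintro g ⟨h1, h2, h3⟩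
        refine ⟨Subgroup.inv_mem _ h1, Subgroup.inv_mem _ h2, fun w hw => ?_⟩
        have hw' : g⁻¹ * w * g ∈ W := by
          have h4 := Subgroup.inv_mem _ h1
          have h5 := (Subgroup.mem_normalizer_iff.1 h4 w).1 hw
          simpa using h5
        have e : ⁅g⁻¹, w⁆ = (⁅g, g⁻¹ * w * g⁆)⁻¹ := by
          simp only [commutatorElement_def]; group
        rw [e]
        exact W'.inv_mem (h3 _ hw') }
  have hle : A ⊔ B ≤ E := sup_le
    (fun x hx => ⟨hN (Subgroup.mem_sup_left hx), hN' (Subgroup.mem_sup_left hx), hA x hx⟩)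
    (fun x hx => ⟨hN (Subgroup.mem_sup_right hx), hN' (Subgroup.mem_sup_right hx), hB x hx⟩)
  intro g hg w hw
  exact (hle hg).2.2 w hw

section setup2

variable {V : Subgroup X} (h : SpSetup V)
include h

/-- If the odd part of the square of a product of involutions centralizes `W`, the square does. -/
theorem SpSetup.act_comm_of_two {x b : X} (hx : x * x = 1) (hb : b * b = 1) {W : Subgroup X} (hWV : W ≤ V)
    (hodd : ∀ τ ∈ Subgroup.zpowers ((x * b) * (x * b)), Odd (orderOf τ) →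
      τ ∈ Subgroup.centralizer (W : Set X)) :
    (x * b) * (x * b) ∈ Subgroup.centralizer (W : Set X) := by
  classical
  obtain ⟨t, ht⟩ : ∃ t : X, t = x * b := ⟨_, rfl⟩
  rw [← ht] at hodd ⊢
  obtain ⟨e, m, hm, hem⟩ := Nat.exists_eq_pow_mul_and_not_dvd (n := orderOf t) (orderOf_pos t).ne' 2 (by norm_num)
  have hmodd : Odd m := Nat.not_even_iff_odd.1 (fun h => hm h.two_dvd)
  have htt : t ^ (2 ^ e * m) = 1 := by rw [← hem, pow_orderOf_eq_one]
  have h1 : (t * t) ^ 2 ^ e ∈ Subgroup.centralizer (W : Set X) := by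
    apply hodd _ (Subgroup.npow_mem_zpowers _ _)
    apply odd_orderOf_of_pow hmodd
    rw [← pow_two, ← pow_mul, ← pow_mul, mul_comm 2, pow_mul, htt, one_pow]
  obtain ⟨s, hs⟩ : ∃ s : X, s = t ^ m := ⟨_, rfl⟩
  have hse : s ^ 2 ^ e = 1 := by
    rw [hs, ← pow_mul, mul_comm, htt]
  have hxs : x * s * x⁻¹ = s⁻¹ := by
    have h2 := invol_conj_zpow hx hb (m : ℤ)
    rw [zpow_natCast, ← ht, ← hs] at h2
    exact h2
  have hxinv : x⁻¹ = x := inv_eq_of_mul_eq_one_left hx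
  have hxs2 : (x * s) * (x * s) = 1 := by
    rw [hxinv] at hxs
    calc (x * s) * (x * s) = (x * s * x) * s := by group
      _ = 1 := by rw [hxs, inv_mul_cancel]
  have hR := isPGroup_sup_of_invol_pair hx hxs2 (e := e) (by
    rw [← mul_assoc, hx, one_mul]
    exact hse)
  obtain ⟨Q, hQ⟩ := hR.exists_le_sylow
  have hxQ : x ∈ (Q : Subgroup X) := hQ (Subgroup.mem_sup_left (Subgroup.mem_zpowers x))
  have hsQ : s ∈ (Q : Subgroup X) := by
    have h3 : x * s ∈ (Q : Subgroup X) := hQ (Subgroup.mem_sup_right (Subgroup.mem_zpowers _))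
    have h4 := Subgroup.mul_mem _ hxQ h3
    rwa [← mul_assoc, hx, one_mul] at h4
  have hss : s * s ∈ Subgroup.centralizer (W : Set X) := by
    rw [Subgroup.mem_centralizer_iff]
    intro w hw
    have hv : x⁻¹ * w * x ∈ V := by
      have := h.conj_mem x⁻¹ (hWV hw)
      simpa using this
    have h3 := h.act_comm hxQ hsQ hv
    have e1 : x * (s * (x⁻¹ * w * x) * s⁻¹) * x⁻¹ = (x * s * x⁻¹) * w * (x * s * x⁻¹)⁻¹ := by group
    have e2 : s * (x * (x⁻¹ * w * x) * x⁻¹) * s⁻¹ = s * w * s⁻¹ := by group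
    rw [e1, e2, hxs, inv_inv] at h3
    calc w * (s * s) = s * (s⁻¹ * w * s) * s := by group
      _ = s * (s * w * s⁻¹) * s := by rw [h3]
      _ = s * s * w := by group
  -- Bezout
  have hcop : Nat.Coprime m (2 ^ e) := Nat.Coprime.pow_right e (Nat.coprime_two_right.2 hmodd)
  have hbez := Nat.gcd_eq_gcd_ab m (2 ^ e)
  rw [hcop.gcd_eq_one, Nat.cast_one] at hbez
  have hm' : (t * t) ^ m = s * s := by
    rw [hs, ← pow_two, ← pow_two, ← pow_mul, ← pow_mul, mul_comm]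
  have e3 : t * t = ((t * t) ^ m) ^ (Nat.gcdA m (2 ^ e)) * ((t * t) ^ 2 ^ e) ^ (Nat.gcdB m (2 ^ e)) := by
    rw [← zpow_natCast, ← zpow_natCast, ← zpow_mul, ← zpow_mul, ← zpow_add, ← hbez, zpow_one]
  rw [e3, hm']
  exact Subgroup.mul_mem _ (Subgroup.zpow_mem _ hss _) (Subgroup.zpow_mem _ h1 _)

/-- The dichotomy: an element of `A` either centralizes `W`, or moves every element of `W ∩ B \ A` out of `B`. -/
theorem SpSetup.spread_dich {A B W L : Subgroup X} (hA : SpMem A) (hB : SpMem B) (hL : L = A ⊔ B) (hWV : W ≤ V)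
    (hLW : L ≤ Subgroup.normalizer (W : Set X)) {y : X} (hy : y ∈ L) (hyodd : Odd (orderOf y))
    (hyW : y ∉ Subgroup.centralizer (W : Set X))
    (h1 : ∀ B₁, SpMem B₁ → B ⊔ B₁ ≤ L → B ⊔ B₁ ≠ L → TwoOn (B ⊔ B₁) W)
    (h2 : ∀ W', W' ≤ W → W' ≠ W → L ≤ Subgroup.normalizer (W' : Set X) → TwoOn L W')
    {x : X} (hx : x ∈ A) :
    x ∈ Subgroup.centralizer (W : Set X) ∨ ∀ u ∈ W, u ∈ B → ⁅x, u⁆ ∈ B → u ∈ A := by
  classical
  have hAL : A ≤ L := by rw [hL]; exact le_sup_left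
  have hBL : B ≤ L := by rw [hL]; exact le_sup_right
  have hxL : x ∈ L := hAL hx
  obtain ⟨B', hB'⟩ : ∃ B' : Subgroup X, B' = conjS x B := ⟨_, rfl⟩
  have hB'mem : SpMem B' := by rw [hB']; exact hB.conj x
  have hB'L : B' ≤ L := by
    rw [hB', ← conjS_eq_of_mem hxL]
    exact conjS_mono x hBL
  have hxinv : x⁻¹ = x := inv_eq_of_mul_eq_one_left (hA.exp x hx)
  by_cases hcase : B ⊔ B' = L
  · right
    intro u hu huB hk
    have hkW : ⁅x, u⁆ ∈ W := by
      rw [commutatorElement_def]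
      exact W.mul_mem ((Subgroup.mem_normalizer_iff.1 (hLW hxL) u).1 hu) (W.inv_mem hu)
    have hkA : ⁅x, u⁆ ∈ A := h.comm_mem_A' hA hx (hWV hu)
    have hkL : L ≤ Subgroup.centralizer ({⁅x, u⁆} : Set X) := by
      rw [hL]
      apply sup_le
      · intro a ha
        rw [Subgroup.mem_centralizer_singleton_iff]
        exact hA.comm a ha _ hkA
      · intro a ha
        rw [Subgroup.mem_centralizer_singleton_iff]
        exact hB.comm a ha _ hk
    have hLu : L ≤ Subgroup.centralizer ({u} : Set X) := by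
      rw [← hcase]
      apply sup_le
      · intro b hb
        rw [Subgroup.mem_centralizer_singleton_iff]
        exact hB.comm b hb u huB
      · intro b' hb'
        rw [Subgroup.mem_centralizer_singleton_iff]
        have h3 := hkL (hB'L hb')
        rw [Subgroup.mem_centralizer_singleton_iff] at h3
        obtain ⟨b, hb, hbb⟩ : ∃ b ∈ B, b' = x * b * x⁻¹ := by
          rw [hB'] at hb'
          obtain ⟨b, hb, rfl⟩ := hb'
          exact ⟨b, hb, rfl⟩
        have h4 : b' * (x * u * x⁻¹) = (x * u * x⁻¹) * b' := by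
          rw [hbb]
          have h5 := hB.comm b hb u huB
          calc x * b * x⁻¹ * (x * u * x⁻¹) = x * (b * u) * x⁻¹ := by group
            _ = x * (u * b) * x⁻¹ := by rw [h5]
            _ = _ := by group
        have e : u = ⁅x, u⁆⁻¹ * (x * u * x⁻¹) := by
          rw [commutatorElement_def]; group
        have hc3 := (show Commute b' ⁅x, u⁆ from h3).inv_right.mul_right (show Commute b' (x * u * x⁻¹) from h4)
        rw [← e] at hc3
        exact hc3
    refine h.mem_of_commute hA (hWV hu) fun a ha => ?_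
    have h3 := hLu (hAL ha)
    rwa [Subgroup.mem_centralizer_singleton_iff] at h3
  · left
    by_contra hxW
    have hB2 : B ⊔ B' ≤ L := sup_le hBL hB'L
    have hTwo := h1 B' hB'mem hB2 hcase
    have hstar : ∀ b ∈ B, (x * b) * (x * b) ∈ Subgroup.centralizer (W : Set X) := by
      intro b hb
      refine h.act_comm_of_two (hA.exp x hx) (hB.exp b hb) hWV fun τ hτ hτodd => hTwo τ ?_ hτodd
      have h3 : (x * b) * (x * b) ∈ B ⊔ B' := by
        have e : (x * b) * (x * b) = (x * b * x⁻¹) * b := by rw [hxinv]; group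
        rw [e]
        refine Subgroup.mul_mem _ (Subgroup.mem_sup_right ?_) (Subgroup.mem_sup_left hb)
        rw [hB']
        exact conj_mem_conjS hb
      exact (Subgroup.zpowers_le.2 h3) hτ
    have hstar' : ∀ b ∈ B, ∀ w ∈ W, x * (b * w * b⁻¹) * x⁻¹ = b * (x * w * x⁻¹) * b⁻¹ := by
      intro b hb w hw
      have hbinv : b⁻¹ = b := inv_eq_of_mul_eq_one_left (hB.exp b hb)
      have h3 := Subgroup.mem_centralizer_iff.1 (hstar b hb) w hw
      calc x * (b * w * b⁻¹) * x⁻¹ = (x * b)⁻¹ * ((x * b) * (x * b) * w) * (x * b)⁻¹ := by group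
        _ = (x * b)⁻¹ * (w * ((x * b) * (x * b))) * (x * b)⁻¹ := by rw [h3]
        _ = b⁻¹ * (x⁻¹ * w * x) * b := by group
        _ = _ := by rw [hxinv, hbinv]
    let E : Subgroup X :=
      { carrier := {g | g ∈ Subgroup.normalizer (W : Set X) ∧ ∀ w ∈ W, x * (g * w * g⁻¹) * x⁻¹ = g * (x * w * x⁻¹) * g⁻¹}
        mul_mem' := by
          rintro g₁ g₂ ⟨h3, h4⟩ ⟨h5, h6⟩
          refine ⟨Subgroup.mul_mem _ h3 h5, fun w hw => ?_⟩
          have hw2 : g₂ * w * g₂⁻¹ ∈ W := (Subgroup.mem_normalizer_iff.1 h5 w).1 hw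
          have h7 := h4 _ hw2
          have h8 := h6 w hw
          calc x * (g₁ * g₂ * w * (g₁ * g₂)⁻¹) * x⁻¹ = x * (g₁ * (g₂ * w * g₂⁻¹) * g₁⁻¹) * x⁻¹ := by group
            _ = g₁ * (x * (g₂ * w * g₂⁻¹) * x⁻¹) * g₁⁻¹ := h7
            _ = g₁ * (g₂ * (x * w * x⁻¹) * g₂⁻¹) * g₁⁻¹ := by rw [h8]
            _ = _ := by group
        one_mem' := ⟨Subgroup.one_mem _, fun w _ => by simp⟩
        inv_mem' := by
          rintro g ⟨h3, h4⟩
          refine ⟨Subgroup.inv_mem _ h3, fun w hw => ?_⟩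
          have hw' : g⁻¹ * w * g ∈ W := by
            have h5 := (Subgroup.mem_normalizer_iff.1 (Subgroup.inv_mem _ h3) w).1 hw
            simpa using h5
          have h6 := h4 _ hw'
          have e1 : g * (g⁻¹ * w * g) * g⁻¹ = w := by group
          rw [e1] at h6
          calc x * (g⁻¹ * w * g⁻¹⁻¹) * x⁻¹ = x * (g⁻¹ * w * g) * x⁻¹ := by simp
            _ = g⁻¹ * (g * (x * (g⁻¹ * w * g) * x⁻¹) * g⁻¹) * g := by group
            _ = g⁻¹ * (x * w * x⁻¹) * g := by rw [← h6]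
            _ = _ := by simp }
    have hLE : L ≤ E := by
      rw [hL]
      apply sup_le
      · intro a ha
        refine ⟨hLW (hAL ha), fun w _ => ?_⟩
        have h3 := hA.comm x hx a ha
        calc x * (a * w * a⁻¹) * x⁻¹ = (x * a) * w * (x * a)⁻¹ := by group
          _ = (a * x) * w * (a * x)⁻¹ := by rw [h3]
          _ = _ := by group
      · intro b hb
        exact ⟨hLW (hBL hb), hstar' b hb⟩
    obtain ⟨W₁, hW₁⟩ : ∃ W₁ : Subgroup X, W₁ = W ⊓ Subgroup.centralizer ({x} : Set X) := ⟨_, rfl⟩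
    have hW₁le : W₁ ≤ W := by rw [hW₁]; exact inf_le_left
    have hW₁ne : W₁ ≠ W := by
      intro he
      apply hxW
      rw [Subgroup.mem_centralizer_iff]
      intro w hw
      rw [← he, hW₁] at hw
      have h3 : w ∈ Subgroup.centralizer ({x} : Set X) := hw.2
      rw [Subgroup.mem_centralizer_singleton_iff] at h3
      exact h3
    have hW₁N : L ≤ Subgroup.normalizer (W₁ : Set X) := by
      intro g hg
      apply mem_normalizer_of_forall_conj_mem
      intro w hw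
      rw [hW₁] at hw ⊢
      have hgE := hLE hg
      refine ⟨(Subgroup.mem_normalizer_iff.1 hgE.1 w).1 hw.1, ?_⟩
      show g * w * g⁻¹ ∈ Subgroup.centralizer ({x} : Set X)
      rw [Subgroup.mem_centralizer_singleton_iff]
      have h3 : w ∈ Subgroup.centralizer ({x} : Set X) := hw.2
      rw [Subgroup.mem_centralizer_singleton_iff] at h3
      have h4 := hgE.2 w hw.1
      have h5 : x * w * x⁻¹ = w := by rw [← h3]; group
      rw [h5, mul_inv_eq_iff_eq_mul] at h4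
      exact h4.symm
    have hyW₁ := h2 W₁ hW₁le hW₁ne hW₁N y hy hyodd
    apply hyW
    rw [Subgroup.mem_centralizer_iff]
    intro w hw
    have hcA : ⁅x, w⁆ ∈ A := h.comm_mem_A' hA hx (hWV hw)
    have hcW : ⁅x, w⁆ ∈ W := by
      rw [commutatorElement_def]
      exact W.mul_mem ((Subgroup.mem_normalizer_iff.1 (hLW hxL) w).1 hw) (W.inv_mem hw)
    have hdW : ⁅y, w⁆ ∈ W := by
      rw [commutatorElement_def]
      exact W.mul_mem ((Subgroup.mem_normalizer_iff.1 (hLW hy) w).1 hw) (W.inv_mem hw)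
    have hcW₁ : ⁅x, w⁆ ∈ W₁ := by
      rw [hW₁]
      refine ⟨hcW, ?_⟩
      show ⁅x, w⁆ ∈ Subgroup.centralizer ({x} : Set X)
      rw [Subgroup.mem_centralizer_singleton_iff]
      exact hA.comm _ hcA x hx
    have hyc : y * ⁅x, w⁆ = ⁅x, w⁆ * y := (Subgroup.mem_centralizer_iff.1 hyW₁ _ hcW₁).symm
    have hcomm := h.comm _ (hWV hcW) _ (hWV hdW)
    obtain ⟨c, hc⟩ : ∃ c : X, c = ⁅x, w⁆ := ⟨_, rfl⟩
    obtain ⟨d, hd⟩ : ∃ d : X, d = ⁅y, w⁆ := ⟨_, rfl⟩
    rw [← hc] at hyc hcomm hcW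
    rw [← hd] at hcomm hdW
    have hdd : d = y * w * y⁻¹ * w⁻¹ := hd
    have e1 : x * w * x⁻¹ = c * w := by rw [hc, commutatorElement_def]; group
    have h3 := (hLE hy).2 w hw
    have hxd : x * d * x⁻¹ = d := by
      calc x * d * x⁻¹ = (x * (y * w * y⁻¹) * x⁻¹) * (x * w * x⁻¹)⁻¹ := by rw [hdd]; group
        _ = (y * (x * w * x⁻¹) * y⁻¹) * (x * w * x⁻¹)⁻¹ := by rw [h3]
        _ = (y * (c * w) * y⁻¹) * (c * w)⁻¹ := by rw [e1]
        _ = (y * c) * (w * y⁻¹ * w⁻¹ * c⁻¹) := by group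
        _ = (c * y) * (w * y⁻¹ * w⁻¹ * c⁻¹) := by rw [hyc]
        _ = (c * d) * c⁻¹ := by rw [hdd]; group
        _ = d := by rw [hcomm]; group
    have hdW₁ : d ∈ W₁ := by
      rw [hW₁]
      refine ⟨hdW, ?_⟩
      show d ∈ Subgroup.centralizer ({x} : Set X)
      rw [Subgroup.mem_centralizer_singleton_iff]
      rw [mul_inv_eq_iff_eq_mul] at hxd
      exact hxd.symm
    have hyd : y * d = d * y := (Subgroup.mem_centralizer_iff.1 hyW₁ _ hdW₁).symm
    have hdone : ⁅y, w⁆ = 1 := by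
      refine comm_eq_one_of_coprime (p := 2) (Nat.coprime_two_right.2 hyodd) ⟨1, ?_⟩ ?_
      · rw [← hd, pow_one, pow_two]
        exact h.exp d (hWV hdW)
      · rw [← hd]
        exact hyd
    rw [commutatorElement_eq_one_iff_mul_comm] at hdone
    exact hdone.symm

end setup2

section plane

/-- The final configuration: two involutions moving a Klein four-group modulo `K` in the right way give `S₄`. -/
theorem involves_of_plane {V K : Subgroup X} (hVc : ∀ a ∈ V, ∀ b ∈ V, a * b = b * a) (hVe : ∀ v ∈ V, v * v = 1)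
    (hKV : K ≤ V) {u v k₁ k₂ x z : X} (hu : u ∈ V) (hv : v ∈ V) (hk₁ : k₁ ∈ K) (hk₂ : k₂ ∈ K)
    (hx : x * x = 1) (hz : z * z = 1)
    (hxK : ∀ k ∈ K, x * k = k * x) (hzK : ∀ k ∈ K, z * k = k * z)
    (hxv : x * v = v * x) (hzu : z * u = u * z)
    (hxu : x * u * x⁻¹ = k₁ * (v * u)) (hzv : z * v * z⁻¹ = k₂ * (u * v))
    (huK : u ∉ K) (hvK : v ∉ K) (huvK : u * v ∉ K) : Involves (Equiv.Perm (Fin 4)) X := by
  classical
  have hq3 : Nat.Prime 3 := by norm_num
  haveI : Fact (Nat.Prime 3) := ⟨hq3⟩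
  have hxinv : x⁻¹ = x := inv_eq_of_mul_eq_one_left hx
  have hzinv : z⁻¹ = z := inv_eq_of_mul_eq_one_left hz
  have hk₁V := hKV hk₁
  have hk₂V := hKV hk₂
  have hxkfix : ∀ k ∈ K, x * k * x⁻¹ = k := fun k hk => by rw [hxK k hk]; group
  have hzkfix : ∀ k ∈ K, z * k * z⁻¹ = k := fun k hk => by rw [hzK k hk]; group
  have hxvfix : x * v * x⁻¹ = v := by rw [hxv]; group
  have hzufix : z * u * z⁻¹ = u := by rw [hzu]; group
  obtain ⟨g, hg⟩ : ∃ g : X, g = x * z := ⟨_, rfl⟩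
  have hgconj : ∀ a : X, g * a * g⁻¹ = x * (z * a * z⁻¹) * x⁻¹ := by
    intro a
    rw [hg]
    group
  -- the action on the three cosets
  have hgk : ∀ k ∈ K, g * k * g⁻¹ = k := by
    intro k hk
    rw [hgconj, hzkfix k hk, hxkfix k hk]
  have hgu : g * u * g⁻¹ = k₁ * (v * u) := by
    rw [hgconj, hzufix, hxu]
  have hgvu : g * (v * u) * g⁻¹ = k₂ * v := by
    rw [hgconj]
    have e1 : z * (v * u) * z⁻¹ = (z * v * z⁻¹) * (z * u * z⁻¹) := by group
    rw [e1, hzv, hzufix]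
    have e2 : k₂ * (u * v) * u = k₂ * v := by
      rw [mul_assoc, mul_assoc, hVc v hv u hu, ← mul_assoc u u v, hVe u hu, one_mul]
    rw [e2]
    have e3 : x * (k₂ * v) * x⁻¹ = (x * k₂ * x⁻¹) * (x * v * x⁻¹) := by group
    rw [e3, hxkfix k₂ hk₂, hxvfix]
  have hgv : g * v * g⁻¹ = k₂ * (k₁ * u) := by
    rw [hgconj, hzv]
    have e3 : x * (k₂ * (u * v)) * x⁻¹ = (x * k₂ * x⁻¹) * ((x * u * x⁻¹) * (x * v * x⁻¹)) := by group
    rw [e3, hxkfix k₂ hk₂, hxvfix, hxu]
    have e4 : k₁ * (v * u) * v = k₁ * u := by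
      rw [mul_assoc, mul_assoc, hVc u hu v hv, ← mul_assoc v v u, hVe v hv, one_mul]
    rw [e4]
  have hconjmul : ∀ a b : X, g * (a * b) * g⁻¹ = (g * a * g⁻¹) * (g * b * g⁻¹) := fun a b => by group
  have hP : ∀ j : ℕ, (j % 3 = 0 → ∃ κ ∈ K, g ^ j * u * (g ^ j)⁻¹ = κ * u) ∧
      (j % 3 = 1 → ∃ κ ∈ K, g ^ j * u * (g ^ j)⁻¹ = κ * (v * u)) ∧
      (j % 3 = 2 → ∃ κ ∈ K, g ^ j * u * (g ^ j)⁻¹ = κ * v) := by
    intro j
    induction j with
    | zero =>
      refine ⟨fun _ => ⟨1, K.one_mem, by simp⟩, fun h => by omega, fun h => by omega⟩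
    | succ j ih =>
      obtain ⟨ih0, ih1, ih2⟩ := ih
      have hstep : g ^ (j + 1) * u * (g ^ (j + 1))⁻¹ = g * (g ^ j * u * (g ^ j)⁻¹) * g⁻¹ := by
        rw [pow_succ']
        group
      refine ⟨fun h => ?_, fun h => ?_, fun h => ?_⟩
      · obtain ⟨κ, hκ, e⟩ := ih2 (by omega)
        refine ⟨κ * (k₂ * k₁), K.mul_mem hκ (K.mul_mem hk₂ hk₁), ?_⟩
        rw [hstep, e, hconjmul, hgk κ hκ, hgv]
        group
      · obtain ⟨κ, hκ, e⟩ := ih0 (by omega)
        refine ⟨κ * k₁, K.mul_mem hκ hk₁, ?_⟩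
        rw [hstep, e, hconjmul, hgk κ hκ, hgu]
        group
      · obtain ⟨κ, hκ, e⟩ := ih1 (by omega)
        refine ⟨κ * k₂, K.mul_mem hκ hk₂, ?_⟩
        rw [hstep, e, hconjmul, hgk κ hκ, hgvu]
        group
  obtain ⟨i, s, hs, his⟩ := Nat.exists_eq_pow_mul_and_not_dvd (n := orderOf g) (orderOf_pos g).ne' 3 (by norm_num)
  obtain ⟨r, hr⟩ : ∃ r : X, r = g ^ s := ⟨_, rfl⟩
  have hr3 : r ^ 3 ^ i = 1 := by
    rw [hr, ← pow_mul, mul_comm, ← his, pow_orderOf_eq_one]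
  have hrodd : Odd (3 ^ i) := Odd.pow (by decide)
  have hru : r * u * r⁻¹ ≠ u := by
    rw [hr]
    intro he
    have hs3 : s % 3 = 1 ∨ s % 3 = 2 := by omega
    obtain ⟨-, h1, h2⟩ := hP s
    rcases hs3 with hs3 | hs3
    · obtain ⟨κ, hκ, e⟩ := h1 hs3
      rw [he] at e
      apply hvK
      have e2 : v = κ⁻¹ := by
        have e3 : u = (κ * v) * u := by rw [mul_assoc]; exact e
        have e4 := mul_eq_right.1 e3.symm
        exact eq_inv_of_mul_eq_one_right e4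
      rw [e2]
      exact K.inv_mem hκ
    · obtain ⟨κ, hκ, e⟩ := h2 hs3
      rw [he] at e
      apply huvK
      rw [e, mul_assoc, hVe v hv, mul_one]
      exact hκ
  -- the Klein group
  obtain ⟨CA, hCAd⟩ : ∃ CA : Subgroup X, CA = Subgroup.zpowers v ⊔ K := ⟨_, rfl⟩
  obtain ⟨V1, hV1d⟩ : ∃ V1 : Subgroup X, V1 = Subgroup.zpowers u ⊔ CA := ⟨_, rfl⟩
  have hCAV1 : CA ≤ V1 := by rw [hV1d]; exact le_sup_right
  have hCAV : CA ≤ V := by
    rw [hCAd]
    exact sup_le (by rw [Subgroup.zpowers_le]; exact hv) hKV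
  have hV1V : V1 ≤ V := by
    rw [hV1d]
    exact sup_le (by rw [Subgroup.zpowers_le]; exact hu) hCAV
  have huV1 : u ∈ V1 := by rw [hV1d]; exact Subgroup.mem_sup_left (Subgroup.mem_zpowers u)
  have hvCA : v ∈ CA := by rw [hCAd]; exact Subgroup.mem_sup_left (Subgroup.mem_zpowers v)
  have hKCA : K ≤ CA := by rw [hCAd]; exact le_sup_right
  have hvV1 : v ∈ V1 := hCAV1 hvCA
  have hKV1 : K ≤ V1 := hKCA.trans hCAV1
  have hN : ∀ t : X, t * u * t⁻¹ ∈ V1 → t * v * t⁻¹ ∈ V1 → (∀ k ∈ K, t * k * t⁻¹ ∈ V1) →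
      t ∈ Subgroup.normalizer (V1 : Set X) := by
    intro t h1 h2 h3
    apply mem_normalizer_of_forall_conj_mem
    have hle : V1 ≤ V1.comap (MulAut.conj t).toMonoidHom := by
      rw [hV1d, hCAd] at *
      apply sup_le
      · rw [Subgroup.zpowers_le]; exact h1
      · apply sup_le
        · rw [Subgroup.zpowers_le]; exact h2
        · intro k hk; exact h3 k hk
    intro a ha
    exact hle ha
  have hxN : x ∈ Subgroup.normalizer (V1 : Set X) := by
    refine hN x ?_ ?_ ?_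
    · rw [hxu]
      exact V1.mul_mem (hKV1 hk₁) (V1.mul_mem hvV1 huV1)
    · rw [hxvfix]
      exact hvV1
    · intro k hk
      rw [hxkfix k hk]
      exact hKV1 hk
  have hzN : z ∈ Subgroup.normalizer (V1 : Set X) := by
    refine hN z ?_ ?_ ?_
    · rw [hzufix]
      exact huV1
    · rw [hzv]
      exact V1.mul_mem (hKV1 hk₂) (V1.mul_mem huV1 hvV1)
    · intro k hk
      rw [hzkfix k hk]
      exact hKV1 hk
  have hrN : r ∈ Subgroup.normalizer (V1 : Set X) := by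
    rw [hr, hg]
    exact Subgroup.pow_mem _ (Subgroup.mul_mem _ hxN hzN) _
  have hxr : x * r * x⁻¹ = r⁻¹ := by
    have h1 := invol_conj_zpow hx hz (s : ℤ)
    rw [zpow_natCast, ← hg, ← hr] at h1
    exact h1
  have hcard : Nat.card V1 ≤ 2 * Nat.card CA := by
    have h1 : Subgroup.zpowers u ≤ Subgroup.normalizer (CA : Set X) := by
      apply le_normalizer_of_commute
      rintro _ ⟨j, rfl⟩ b hb
      exact (Commute.zpow_left (show Commute u b from hVc u hu b (hCAV hb)) j).eq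
    have h2 := card_sup_mul_inf h1
    rw [← hV1d] at h2
    have h3 : Nat.card (Subgroup.zpowers u) ≤ 2 := by
      rw [Nat.card_zpowers]
      exact Nat.le_of_dvd (by norm_num) (orderOf_dvd_of_pow_eq_one (by rw [pow_two]; exact hVe u hu))
    have h4 : 0 < Nat.card (CA ⊓ Subgroup.zpowers u : Subgroup X) := Nat.card_pos
    calc Nat.card V1 ≤ Nat.card V1 * Nat.card (CA ⊓ Subgroup.zpowers u : Subgroup X) := Nat.le_mul_of_pos_right _ h4
      _ = Nat.card (Subgroup.zpowers u) * Nat.card CA := h2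
      _ ≤ 2 * Nat.card CA := Nat.mul_le_mul_right _ h3
  have hCAfix : ∀ c ∈ CA, x * c * x⁻¹ = c := by
    have hle : CA ≤ Subgroup.centralizer ({x} : Set X) := by
      rw [hCAd]
      apply sup_le
      · rw [Subgroup.zpowers_le, Subgroup.mem_centralizer_singleton_iff]
        exact hxv.symm
      · intro k hk
        rw [Subgroup.mem_centralizer_singleton_iff]
        exact (hxK k hk).symm
    intro c hc
    have h1 := hle hc
    rw [Subgroup.mem_centralizer_singleton_iff] at h1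
    rw [← h1]
    group
  obtain ⟨W, hWV1, hW4, hWr, hWa, hWf, w₁, hw₁, hw₁a⟩ := exists_klein (V1 := V1) (CA := CA) (r := r)
    (a := x) hrodd hr3 (fun a ha b hb => hVc a (hV1V ha) b (hV1V hb)) (fun a ha => hVe a (hV1V ha))
    (fun a ha => (Subgroup.mem_normalizer_iff.1 hrN a).1 ha)
    (fun a ha => by
      have h1 := (Subgroup.mem_normalizer_iff.1 (Subgroup.inv_mem _ hrN) a).1 ha
      simpa using h1)
    (fun a ha => (Subgroup.mem_normalizer_iff.1 hxN a).1 ha)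
    (fun a _ => by
      calc x * (r * a * r⁻¹) * x⁻¹ = (x * r * x⁻¹) * (x * a * x⁻¹) * (x * r * x⁻¹)⁻¹ := by group
        _ = r⁻¹ * (x * a * x⁻¹) * (r⁻¹)⁻¹ := by rw [hxr]
        _ = _ := by group)
    hCAV1 hCAfix hcard huV1 hru
  have hWV : W ≤ V := hWV1.trans hV1V
  have hWe : ∀ a ∈ W, a * a = 1 := fun a ha => hVe a (hWV ha)
  let Y : Subgroup X := Subgroup.zpowers r
  have hYq : IsPGroup 3 Y := by
    have h1 : orderOf r ∣ 3 ^ i := orderOf_dvd_of_pow_eq_one hr3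
    obtain ⟨l, _, hl⟩ := (Nat.dvd_prime_pow hq3).1 h1
    exact IsPGroup.of_card (n := l) (by rw [Nat.card_zpowers]; exact hl)
  have hzYle : Subgroup.zpowers x ≤ Subgroup.normalizer (Y : Set X) := by
    rw [Subgroup.zpowers_le]
    apply mem_normalizer_of_forall_conj_mem
    rintro _ ⟨j, rfl⟩
    refine ⟨-j, ?_⟩
    show r ^ (-j) = x * r ^ j * x⁻¹
    rw [← conj_zpow, hxr, inv_zpow, zpow_neg]
  let H : Subgroup X := Subgroup.zpowers x ⊔ Y
  have hxH : x ∈ H := Subgroup.mem_sup_left (Subgroup.mem_zpowers x)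
  have hrH : r ∈ H := Subgroup.mem_sup_right (Subgroup.mem_zpowers r)
  have hHW : H ≤ Subgroup.normalizer (W : Set X) := by
    apply sup_le
    · rw [Subgroup.zpowers_le]
      apply mem_normalizer_of_forall_conj_mem
      exact hWa
    · rw [Subgroup.zpowers_le]
      apply mem_normalizer_of_forall_conj_mem
      exact hWr
  have hW2 : ¬ 3 ∣ Nat.card W := by
    rw [hW4]
    norm_num
  have hWY : W ⊓ Y = ⊥ := inf_eq_bot_of_pprime hW2 hYq
  have hYz : Y ⊓ Subgroup.zpowers x = ⊥ := by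
    rw [inf_comm]
    refine inf_eq_bot_of_pprime ?_ hYq
    rw [Nat.card_zpowers]
    intro hd2
    have h1 : orderOf x ∣ 2 := orderOf_dvd_of_pow_eq_one (by rw [pow_two]; exact hx)
    have h2 := Nat.le_of_dvd (by norm_num) (hd2.trans h1)
    omega
  have hWH : W ⊓ H = ⊥ := by
    rw [eq_bot_iff]
    intro a ha'
    rw [Subgroup.mem_bot]
    by_contra ha1
    have hra : r * a * r⁻¹ ∈ W ⊓ H :=
      ⟨hWr a ha'.1, H.mul_mem (H.mul_mem hrH ha'.2) (H.inv_mem hrH)⟩
    have hne1 : r * a * r⁻¹ ≠ a := fun h3 => ha1 (hWf a ha'.1 h3)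
    have hne2 : r * a * r⁻¹ ≠ 1 := by
      intro h3
      apply ha1
      have e1 : a = r⁻¹ * (r * a * r⁻¹) * r := by group
      rw [e1, h3]
      group
    have h3 := three_le_card (W := W ⊓ H) (one_mem _) ha' hra (Ne.symm ha1) (Ne.symm hne2) (Ne.symm hne1)
    have hdvd : Nat.card (W ⊓ H : Subgroup X) ∣ 4 := by
      rw [← hW4]; exact Subgroup.card_dvd_of_le inf_le_left
    have h4 : Nat.card (W ⊓ H : Subgroup X) = 4 := by
      have h5 := Nat.le_of_dvd (by norm_num) hdvd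
      generalize Nat.card (W ⊓ H : Subgroup X) = m at *
      have h6 : m = 3 ∨ m = 4 := by omega
      rcases h6 with rfl | rfl
      · norm_num at hdvd
      · rfl
    have hWle : W ≤ H := by
      have h5 : W ⊓ H = W := Subgroup.eq_of_le_of_card_ge inf_le_left (by omega)
      exact inf_eq_left.1 h5
    exact not_le_sup_of_klein hzYle hYz hWY hWe (by omega) hWle
  refine involves_S4_of_config hW4 hHW hWH hq3 (by norm_num) (u := r) (v := x) hrH hr3 ?_ hxH (j := 1) (by rw [pow_one, pow_two]; exact hx) ?_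
  · have hw1 : ∃ w ∈ W, w ≠ 1 := by
      by_contra hcon2
      push Not at hcon2
      have h1 : W = ⊥ := by
        rw [eq_bot_iff]
        intro w hw
        exact hcon2 w hw
      rw [h1, Subgroup.card_bot] at hW4
      omega
    obtain ⟨w, hw, hw1⟩ := hw1
    intro hc
    apply hw1
    apply hWf w hw
    have := Subgroup.mem_centralizer_iff.1 hc w hw
    rw [← this]
    group
  · intro hc
    apply hw₁a
    have := Subgroup.mem_centralizer_iff.1 hc w₁ hw₁
    rw [← this]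
    group

end plane

/-- An element of odd order whose square lies in a subgroup lies in it. -/
theorem mem_of_sq_mem_of_odd {L : Subgroup X} {y : X} (hy : y * y ∈ L) (hodd : Odd (orderOf y)) : y ∈ L := by
  obtain ⟨k, hk⟩ := hodd
  have e : y = (y * y) ^ (k + 1) := by
    rw [← pow_two, ← pow_mul]
    have h1 : 2 * (k + 1) = orderOf y + 1 := by omega
    rw [h1, pow_succ, pow_orderOf_eq_one, one_mul]
  rw [e]
  exact L.pow_mem hy _

/-- An element of odd order inverted by `a ∈ A` lies in `⟨A, A^y⟩`. -/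
theorem mem_sup_conjS_of_inverted {A : Subgroup X} {a y : X} (ha : a ∈ A) (ha2 : a * a = 1)
    (hay : a * y * a⁻¹ = y⁻¹) (hodd : Odd (orderOf y)) : y ∈ A ⊔ conjS y A := by
  apply mem_of_sq_mem_of_odd _ hodd
  have hainv : a⁻¹ = a := inv_eq_of_mul_eq_one_left ha2
  have e : y * y = (y * a * y⁻¹) * a := by
    have h1 : a * y⁻¹ * a⁻¹ = y := by
      have h2 : a * y⁻¹ * a⁻¹ = (a * y * a⁻¹)⁻¹ := by group
      rw [h2, hay, inv_inv]
    rw [hainv] at h1
    calc y * y = y * (a * y⁻¹ * a) := by rw [h1]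
      _ = _ := by group
  rw [e]
  exact Subgroup.mul_mem _ (Subgroup.mem_sup_right (conj_mem_conjS ha)) (Subgroup.mem_sup_left ha)

section setup3

variable {V : Subgroup X} (h : SpSetup V)
include h

/-- The surjectivity step. -/
theorem SpSetup.spread_surj {A B W K : Subgroup X} (hA : SpMem A) (hWV : W ≤ V)
    (hAW : A ≤ Subgroup.normalizer (W : Set X))
    (hdich : ∀ x ∈ A, x ∈ Subgroup.centralizer (W : Set X) ∨ ∀ u ∈ W, u ∈ B → ⁅x, u⁆ ∈ B → u ∈ A)
    (hK : K = (W ⊓ A) ⊓ (W ⊓ B))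
    (hcard : Nat.card W * Nat.card K = Nat.card (W ⊓ A : Subgroup X) * Nat.card (W ⊓ A : Subgroup X))
    {u v : X} (hu : u ∈ W) (huB : u ∈ B) (huA : u ∉ A) (hv : v ∈ W) (hvA : v ∈ A) :
    ∃ x ∈ A, ⁅x, u⁆ * v ∈ K := by
  classical
  have hcmA : ∀ x ∈ A, ⁅x, u⁆ ∈ A := fun x hx => h.comm_mem_A' hA hx (hWV hu)
  have hcmW : ∀ x ∈ A, ⁅x, u⁆ ∈ W := by
    intro x hx
    rw [commutatorElement_def]
    exact W.mul_mem ((Subgroup.mem_normalizer_iff.1 (hAW hx) u).1 hu) (W.inv_mem hu)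
  let θ : A →* X := MonoidHom.mk' (fun x => ⁅(x : X), u⁆) (by
    intro a b
    have h1 := hA.comm (a : X) a.2 ⁅(b : X), u⁆ (hcmA b b.2)
    have h2 := hA.comm ⁅(b : X), u⁆ (hcmA b b.2) ⁅(a : X), u⁆ (hcmA a a.2)
    show ⁅(a : X) * (b : X), u⁆ = ⁅(a : X), u⁆ * ⁅(b : X), u⁆
    have e : ⁅(a : X) * (b : X), u⁆ = ((a : X) * ⁅(b : X), u⁆ * (a : X)⁻¹) * ⁅(a : X), u⁆ := by
      simp only [commutatorElement_def]
      group
    rw [e, h1, mul_inv_cancel_right, h2])
  obtain ⟨R, hR⟩ : ∃ R : Subgroup X, R = θ.range := ⟨_, rfl⟩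
  have hRle : R ≤ W ⊓ A := by
    rw [hR]
    rintro _ ⟨x, rfl⟩
    exact ⟨hcmW x x.2, hcmA x x.2⟩
  have hKle : K ≤ W ⊓ A := by rw [hK]; exact inf_le_left
  have hWAV : W ⊓ A ≤ V := inf_le_left.trans hWV
  have hkerdich : ∀ x ∈ A, ⁅x, u⁆ ∈ B → x ∈ Subgroup.centralizer (W : Set X) := by
    intro x hx hb
    rcases hdich x hx with h1 | h1
    · exact h1
    · exact absurd (h1 u hu huB hb) huA
  obtain ⟨C, hC⟩ : ∃ C : Subgroup X, C = A ⊓ Subgroup.centralizer (W : Set X) := ⟨_, rfl⟩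
  have hkermap : θ.ker.map A.subtype = C := by
    ext x
    constructor
    · rintro ⟨a, ha, rfl⟩
      have h1 : ⁅(a : X), u⁆ = 1 := ha
      rw [hC]
      exact ⟨a.2, hkerdich a a.2 (by rw [h1]; exact B.one_mem)⟩
    · intro hx
      rw [hC] at hx
      refine ⟨⟨x, hx.1⟩, ?_, rfl⟩
      show ⁅x, u⁆ = 1
      rw [commutatorElement_eq_one_iff_mul_comm]
      exact (Subgroup.mem_centralizer_iff.1 hx.2 u hu).symm
  have hcardker : Nat.card θ.ker = Nat.card C := by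
    rw [← hkermap]
    exact (Subgroup.card_map_of_injective A.subtype_injective).symm
  have hmulker : Nat.card C * Nat.card R = Nat.card A := by
    rw [← hcardker, hR, ← Subgroup.index_ker]
    exact Subgroup.card_mul_index θ.ker
  have hRKcomm : ∀ a ∈ R, ∀ b ∈ K, a * b = b * a := fun a ha b hb =>
    h.comm a (hWAV (hRle ha)) b (hWAV (hKle hb))
  have hinf : K ⊓ R = ⊥ := by
    rw [eq_bot_iff]
    rintro x ⟨hk, hr⟩
    rw [hR] at hr
    obtain ⟨x, rfl⟩ := hr
    rw [Subgroup.mem_bot]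
    have hb : ⁅(x : X), u⁆ ∈ B := by
      rw [hK] at hk
      exact hk.2.2
    have h1 := hkerdich x x.2 hb
    show ⁅(x : X), u⁆ = 1
    rw [commutatorElement_eq_one_iff_mul_comm]
    exact (Subgroup.mem_centralizer_iff.1 h1 u hu).symm
  have h3 := card_sup_mul_inf (le_normalizer_of_commute hRKcomm)
  rw [hinf, Subgroup.card_bot, mul_one] at h3
  have hoff := h.offender hA hWV
  rw [← hC, ← hmulker] at hoff
  have hle : Nat.card (W ⊓ A : Subgroup X) ≤ Nat.card (R ⊔ K : Subgroup X) := by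
    rw [h3]
    have hCpos : 0 < Nat.card C := Nat.card_pos
    have hwapos : 0 < Nat.card (W ⊓ A : Subgroup X) := Nat.card_pos
    have h4 : Nat.card W ≤ Nat.card R * Nat.card (W ⊓ A : Subgroup X) := by
      refine Nat.le_of_mul_le_mul_left ?_ hCpos
      calc Nat.card C * Nat.card W = Nat.card W * Nat.card C := mul_comm _ _
        _ ≤ Nat.card C * Nat.card R * Nat.card (W ⊓ A : Subgroup X) := hoff
        _ = _ := mul_assoc _ _ _
    refine Nat.le_of_mul_le_mul_left ?_ hwapos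
    calc Nat.card (W ⊓ A : Subgroup X) * Nat.card (W ⊓ A : Subgroup X) = Nat.card W * Nat.card K := hcard.symm
      _ ≤ (Nat.card R * Nat.card (W ⊓ A : Subgroup X)) * Nat.card K := Nat.mul_le_mul_right _ h4
      _ = _ := by ring
  have hsup : R ⊔ K = W ⊓ A := Subgroup.eq_of_le_of_card_ge (sup_le hRle hKle) hle
  have hvm : v ∈ R ⊔ K := by
    rw [hsup]
    exact ⟨hv, hvA⟩
  obtain ⟨ρ, hρ, κ, hκ, rfl⟩ := (mem_sup_of_le_normalizer
    (le_normalizer_of_commute fun a ha b hb => (hRKcomm b hb a ha).symm)).1 hvm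
  have hρρ : ρ * ρ = 1 := h.exp ρ (hWAV (hRle hρ))
  rw [hR] at hρ
  obtain ⟨x, rfl⟩ := hρ
  refine ⟨x, x.2, ?_⟩
  have e : ⁅(x : X), u⁆ = θ x := rfl
  rw [e, ← mul_assoc, hρρ, one_mul]
  exact hκ

/-- `A` normalizes the product of the two intersections. -/
theorem SpSetup.normalizes_sup {A W : Subgroup X} (B : Subgroup X) (hA : SpMem A) (hWV : W ≤ V)
    (hAW : A ≤ Subgroup.normalizer (W : Set X)) {g : X} (hg : g ∈ A) :
    g ∈ Subgroup.normalizer (((W ⊓ A) ⊔ (W ⊓ B) : Subgroup X) : Set X) := by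
  apply mem_normalizer_of_forall_conj_mem
  have hle : (W ⊓ A) ⊔ (W ⊓ B) ≤ ((W ⊓ A) ⊔ (W ⊓ B)).comap (MulAut.conj g).toMonoidHom := by
    apply sup_le
    · rintro w ⟨hw, hwA⟩
      have e : g * w * g⁻¹ = w := by
        rw [hA.comm g hg w hwA]
        group
      show g * w * g⁻¹ ∈ (W ⊓ A) ⊔ (W ⊓ B)
      rw [e]
      exact Subgroup.mem_sup_left ⟨hw, hwA⟩
    · rintro w ⟨hw, hwB⟩
      show g * w * g⁻¹ ∈ (W ⊓ A) ⊔ (W ⊓ B)
      have e : g * w * g⁻¹ = ⁅g, w⁆ * w := by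
        rw [commutatorElement_def]
        group
      rw [e]
      refine Subgroup.mul_mem _ (Subgroup.mem_sup_left ⟨?_, h.comm_mem_A' hA hg (hWV hw)⟩) (Subgroup.mem_sup_right ⟨hw, hwB⟩)
      rw [commutatorElement_def]
      exact W.mul_mem ((Subgroup.mem_normalizer_iff.1 (hAW hg) w).1 hw) (W.inv_mem hw)
  intro a ha
  exact hle ha

/-- The final contradiction. -/
theorem SpSetup.spread_final {A W : Subgroup X} (hA : SpMem A) {a y : X} (ha : a ∈ A)
    (hay : a * y * a⁻¹ = y⁻¹) (hyodd : Odd (orderOf y)) (hWV : W ≤ V)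
    (hyW : y ∉ Subgroup.centralizer (W : Set X))
    (hLW : A ⊔ conjS y A ≤ Subgroup.normalizer (W : Set X))
    (h1 : ∀ A' B', SpMem A' → SpMem B' → A' ⊔ B' ≤ A ⊔ conjS y A → A' ⊔ B' ≠ A ⊔ conjS y A →
      TwoOn (A' ⊔ B') W)
    (h2 : ∀ W', W' ≤ W → W' ≠ W → A ⊔ conjS y A ≤ Subgroup.normalizer (W' : Set X) →
      TwoOn (A ⊔ conjS y A) W') : False := by
  classical
  have hyL : y ∈ A ⊔ conjS y A := mem_sup_conjS_of_inverted ha (hA.exp a ha) hay hyodd
  obtain ⟨B, hBd⟩ : ∃ B : Subgroup X, B = conjS y A := ⟨_, rfl⟩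
  rw [← hBd] at hLW h1 h2 hyL
  have hB : SpMem B := by rw [hBd]; exact hA.conj y
  obtain ⟨L, hL⟩ : ∃ L : Subgroup X, L = A ⊔ B := ⟨_, rfl⟩
  rw [← hL] at hLW h1 h2 hyL
  have hAL : A ≤ L := by rw [hL]; exact le_sup_left
  have hBL : B ≤ L := by rw [hL]; exact le_sup_right
  have hAW : A ≤ Subgroup.normalizer (W : Set X) := hAL.trans hLW
  have hBW : B ≤ Subgroup.normalizer (W : Set X) := hBL.trans hLW
  obtain ⟨WA, hWA⟩ : ∃ WA : Subgroup X, WA = W ⊓ A := ⟨_, rfl⟩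
  obtain ⟨WB, hWB⟩ : ∃ WB : Subgroup X, WB = W ⊓ B := ⟨_, rfl⟩
  obtain ⟨K, hK⟩ : ∃ K : Subgroup X, K = WA ⊓ WB := ⟨_, rfl⟩
  have hKA : K ≤ WA := by rw [hK]; exact inf_le_left
  have hKB : K ≤ WB := by rw [hK]; exact inf_le_right
  have hWAW : WA ≤ W := by rw [hWA]; exact inf_le_left
  have hWBW : WB ≤ W := by rw [hWB]; exact inf_le_left
  have hWAA : WA ≤ A := by rw [hWA]; exact inf_le_right
  have hWBB : WB ≤ B := by rw [hWB]; exact inf_le_right
  -- commutators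
  have hcW : ∀ g ∈ L, ∀ w ∈ W, ⁅g, w⁆ ∈ W := by
    intro g hg w hw
    rw [commutatorElement_def]
    exact W.mul_mem ((Subgroup.mem_normalizer_iff.1 (hLW hg) w).1 hw) (W.inv_mem hw)
  have hcA : ∀ x ∈ A, ∀ w ∈ W, ⁅x, w⁆ ∈ WA := fun x hx w hw => by
    rw [hWA]
    exact ⟨hcW x (hAL hx) w hw, h.comm_mem_A' hA hx (hWV hw)⟩
  have hcB : ∀ x ∈ B, ∀ w ∈ W, ⁅x, w⁆ ∈ WB := fun x hx w hw => by
    rw [hWB]
    exact ⟨hcW x (hBL hx) w hw, h.comm_mem_A' hB hx (hWV hw)⟩
  have hW'N : L ≤ Subgroup.normalizer ((WA ⊔ WB : Subgroup X) : Set X) := by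
    rw [hL]
    apply sup_le
    · intro g hg
      rw [hWA, hWB]
      exact h.normalizes_sup B hA hWV hAW hg
    · intro g hg
      rw [hWA, hWB, sup_comm]
      exact h.normalizes_sup A hB hWV hBW hg
  have hW' : WA ⊔ WB = W := by
    by_contra hne
    have hle : WA ⊔ WB ≤ W := sup_le hWAW hWBW
    have hT := h2 _ hle hne hW'N y hyL hyodd
    apply hyW
    rw [Subgroup.mem_centralizer_iff]
    intro w hw
    have hd : ⁅y, w⁆ ∈ WA ⊔ WB := by
      refine sup_comm_mem (A := A) (B := B) (W := W) (by rw [← hL]; exact hLW) (by rw [← hL]; exact hW'N)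
        (fun x hx w hw => Subgroup.mem_sup_left (hcA x hx w hw)) (fun x hx w hw => Subgroup.mem_sup_right (hcB x hx w hw))
        y (by rw [← hL]; exact hyL) w hw
    have hyd : y * ⁅y, w⁆ = ⁅y, w⁆ * y := (Subgroup.mem_centralizer_iff.1 hT _ hd).symm
    have hone : ⁅y, w⁆ = 1 := by
      refine comm_eq_one_of_coprime (p := 2) (Nat.coprime_two_right.2 hyodd) ⟨1, ?_⟩ hyd
      rw [pow_one, pow_two]
      exact h.exp _ (hWV (hcW y hyL w hw))
    rw [commutatorElement_eq_one_iff_mul_comm] at hone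
    exact hone.symm
  have hcomm : ∀ a ∈ WA, ∀ b ∈ WB, a * b = b * a := fun a ha b hb =>
    h.comm a (hWV (hWAW ha)) b (hWV (hWBW hb))
  have hcard1 : Nat.card W * Nat.card K = Nat.card WA * Nat.card WB := by
    have h3 := card_sup_mul_inf (le_normalizer_of_commute hcomm)
    rw [hW', inf_comm, ← hK] at h3
    exact h3
  have hcard2 : Nat.card WA = Nat.card WB := by
    have h3 : conjS y W = W := mem_normalizer_iff_conjS.1 (hLW hyL)
    have h4 : conjS y WA = WB := by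
      rw [hWA, hWB, conjS_inf, h3, hBd]
    rw [← h4, card_conjS]
  -- `K` is central
  have hKcentral : W ≤ K → False := by
    intro hWK
    apply hyW
    have hle : L ≤ Subgroup.centralizer (W : Set X) := by
      rw [hL]
      apply sup_le
      · intro g hg
        rw [Subgroup.mem_centralizer_iff]
        intro w hw
        exact hA.comm w (hWAA (hKA (hWK hw))) g hg
      · intro g hg
        rw [Subgroup.mem_centralizer_iff]
        intro w hw
        exact hB.comm w (hWBB (hKB (hWK hw))) g hg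
    exact hle hyL
  obtain ⟨u₀, hu₀, hu₀K⟩ : ∃ u₀ ∈ WB, u₀ ∉ K := by
    by_contra hcon
    push Not at hcon
    have hBK : WB ≤ K := fun x hx => hcon x hx
    have hAK : WA = K := (Subgroup.eq_of_le_of_card_ge hKA (by
      rw [hcard2]
      exact Subgroup.card_le_of_le hBK)).symm
    apply hKcentral
    rw [← hW']
    exact sup_le hAK.le hBK
  obtain ⟨v₀, hv₀, hv₀K⟩ : ∃ v₀ ∈ WA, v₀ ∉ K := by
    by_contra hcon
    push Not at hcon
    have hAK : WA ≤ K := fun x hx => hcon x hx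
    have hBK : WB = K := (Subgroup.eq_of_le_of_card_ge hKB (by
      rw [← hcard2]
      exact Subgroup.card_le_of_le hAK)).symm
    apply hKcentral
    rw [← hW']
    exact sup_le hAK hBK.le
  have hu₀A : u₀ ∉ A := fun h3 => hu₀K (by
    rw [hK, hWA]
    exact ⟨⟨hWBW hu₀, h3⟩, hu₀⟩)
  have hv₀B : v₀ ∉ B := fun h3 => hv₀K (by
    rw [hK, hWB]
    exact ⟨hv₀, ⟨hWAW hv₀, h3⟩⟩)
  have hd1 := fun x (hx : x ∈ A) => h.spread_dich hA hB hL hWV hLW hyL hyodd hyW
    (fun B₁ hB₁ hle hne => h1 B B₁ hB hB₁ hle hne) h2 hx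
  have hL' : L = B ⊔ A := by rw [hL, sup_comm]
  have hd2 := fun x (hx : x ∈ B) => h.spread_dich hB hA hL' hWV hLW hyL hyodd hyW
    (fun B₁ hB₁ hle hne => h1 A B₁ hA hB₁ hle hne) h2 hx
  have hK' : K = (W ⊓ B) ⊓ (W ⊓ A) := by rw [hK, hWA, hWB, inf_comm]
  obtain ⟨x, hx, hxk⟩ := h.spread_surj (B := B) (K := K) hA hWV hAW hd1 (by rw [hK, hWA, hWB])
    (by rw [← hWA, hcard1, hcard2])
    (hWBW hu₀) (hWBB hu₀) hu₀A (hWAW hv₀) (hWAA hv₀)
  obtain ⟨z, hz, hzk⟩ := h.spread_surj (B := A) (K := K) hB hWV hBW hd2 hK'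
    (by rw [← hWB, hcard1, hcard2])
    (hWAW hv₀) (hWAA hv₀) hv₀B (hWBW hu₀) (hWBB hu₀)
  have hKV : K ≤ V := hKA.trans (hWAW.trans hWV)
  have hu₀V := hWV (hWBW hu₀)
  have hv₀V := hWV (hWAW hv₀)
  apply h.noS4
  refine involves_of_plane (V := V) (K := K) h.comm h.exp hKV (u := u₀) (v := v₀) hu₀V hv₀V hxk hzk
    (hA.exp x hx) (hB.exp z hz)
    (fun k hk => hA.comm x hx k (hWAA (hKA hk))) (fun k hk => hB.comm z hz k (hWBB (hKB hk)))
    (hA.comm x hx v₀ (hWAA hv₀)) (hB.comm z hz u₀ (hWBB hu₀)) ?_ ?_ hu₀K hv₀K ?_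
  · have e1 : x * u₀ * x⁻¹ = ⁅x, u₀⁆ * u₀ := by
      rw [commutatorElement_def]
      group
    rw [e1, mul_assoc, ← mul_assoc v₀, h.exp v₀ hv₀V, one_mul]
  · have e1 : z * v₀ * z⁻¹ = ⁅z, v₀⁆ * v₀ := by
      rw [commutatorElement_def]
      group
    rw [e1, mul_assoc, ← mul_assoc u₀, h.exp u₀ hu₀V, one_mul]
  · intro h3
    apply hu₀A
    have h4 := hWAA (hKA h3)
    have e : u₀ = (u₀ * v₀) * v₀ := by
      rw [mul_assoc, h.exp v₀ hv₀V, mul_one]
    rw [e]
    exact A.mul_mem h4 (hWAA hv₀)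

/-- **The spread argument.** -/
theorem SpSetup.spread_core : ∀ (n : ℕ) (A B W : Subgroup X), SpMem A → SpMem B → W ≤ V →
    A ⊔ B ≤ Subgroup.normalizer (W : Set X) →
    Nat.card (A ⊔ B : Subgroup X) * (Nat.card X + 1) + Nat.card W = n → TwoOn (A ⊔ B) W := by
  intro n
  induction n using Nat.strong_induction_on with
  | _ n ih =>
    intro A B W hA hB hWV hLW hn
    by_contra hcon
    unfold TwoOn at hcon
    push Not at hcon
    obtain ⟨g₀, hg₀, hg₀odd, hg₀W⟩ := hcon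
    obtain ⟨a, y, ha, hy, hay, hyodd, hyW⟩ := exists_inverted hA.exp hB.exp hLW hg₀ hg₀odd hg₀W
    have hlt : ∀ L' W' : Subgroup X, L' ≤ A ⊔ B → L' ≠ A ⊔ B →
        Nat.card L' * (Nat.card X + 1) + Nat.card W' < n := by
      intro L' W' hle hne
      have h3 : Nat.card L' < Nat.card (A ⊔ B : Subgroup X) := by
        refine lt_of_le_of_ne (Subgroup.card_le_of_le hle) fun he => hne ?_
        exact Subgroup.eq_of_le_of_card_ge hle he.ge
      have h4 : Nat.card W' ≤ Nat.card X := Subgroup.card_le_card_group W'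
      have h5 : (Nat.card L' + 1) * (Nat.card X + 1) ≤ Nat.card (A ⊔ B : Subgroup X) * (Nat.card X + 1) :=
        Nat.mul_le_mul_right _ h3
      have h6 : (Nat.card L' + 1) * (Nat.card X + 1) = Nat.card L' * (Nat.card X + 1) + (Nat.card X + 1) := by ring
      omega
    have hlt2 : ∀ W' : Subgroup X, W' ≤ W → W' ≠ W →
        Nat.card (A ⊔ B : Subgroup X) * (Nat.card X + 1) + Nat.card W' < n := by
      intro W' hle hne
      have h3 : Nat.card W' < Nat.card W := by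
        refine lt_of_le_of_ne (Subgroup.card_le_of_le hle) fun he => hne ?_
        exact Subgroup.eq_of_le_of_card_ge hle he.ge
      omega
    have step : ∀ A₀, SpMem A₀ → a ∈ A₀ → A₀ ≤ A ⊔ B → False := by
      intro A₀ hA₀ ha₀ hA₀L
      have hy' := mem_sup_conjS_of_inverted ha₀ (hA₀.exp a ha₀) hay hyodd
      have hA₁L : conjS y A₀ ≤ A ⊔ B := by
        rw [← conjS_eq_of_mem hy]
        exact conjS_mono y hA₀L
      have hL₁ : A₀ ⊔ conjS y A₀ ≤ A ⊔ B := sup_le hA₀L hA₁L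
      by_cases hne : A₀ ⊔ conjS y A₀ = A ⊔ B
      · refine h.spread_final hA₀ ha₀ hay hyodd hWV hyW ?_ ?_ ?_
        · rw [hne]
          exact hLW
        · intro A' B' hA' hB' hle hne'
          rw [hne] at hle hne'
          exact ih _ (hlt _ W hle hne') A' B' W hA' hB' hWV (hle.trans hLW) rfl
        · intro W' hW'le hW'ne hN'
          have h3 := ih _ (hlt2 W' hW'le hW'ne) A₀ (conjS y A₀) W' hA₀ (hA₀.conj y) (hW'le.trans hWV) hN'
            (by rw [hne])
          exact h3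
      · have hT := ih _ (hlt _ W hL₁ hne) A₀ (conjS y A₀) W hA₀ (hA₀.conj y) hWV (hL₁.trans hLW) rfl
        exact hyW (hT y hy' hyodd)
    rcases ha with ha | ha
    · exact step A hA ha le_sup_left
    · exact step B hB ha le_sup_right

end setup3

section main2

open Cfsg.Agent.Lib.Core in
/-- With `C(O₂(X)) ≤ O₂(X)`, every member of `𝒜(P)` lies in `O₂(X)`. -/
theorem AA_le_of_class_two' (hC : Subgroup.centralizer ((pCore 2 X : Subgroup X) : Set X) ≤ pCore 2 X)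
    (hinv : ¬ Involves (Equiv.Perm (Fin 4)) X) (P : Sylow 2 X)
    (hcl : Subgroup.lowerCentralSeries (P : Subgroup X) 2 = ⊥) :
    ∀ A ∈ AA 2 (P : Subgroup X), A ≤ pCore 2 X := by
  classical
  intro A hA
  obtain ⟨D, hDd⟩ : ∃ D : Subgroup X, D = pCore 2 X := ⟨_, rfl⟩
  rw [← hDd] at hC ⊢
  haveI hDn : D.Normal := by
    rw [hDd]
    exact pCore_normal 2 X
  have hDS : ∀ Q : Sylow 2 X, D ≤ (Q : Subgroup X) := by
    rw [hDd]
    exact fun Q => pCore_le_sylow Q
  have hDP := hDS P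
  have hDp : IsPGroup 2 D := P.isPGroup'.to_le hDP
  have hclP : ∀ r ∈ (P : Subgroup X), ∀ s ∈ (P : Subgroup X), ∀ t ∈ (P : Subgroup X), ⁅⁅r, s⁆, t⁆ = 1 := by
    intro r hr s hs t ht
    have h2 : ⁅⁅r, s⁆, t⁆ ∈ Subgroup.lowerCentralSeries (P : Subgroup X) 2 :=
      Subgroup.commutator_mem_commutator (Subgroup.commutator_mem_commutator hr hs) ht
    rw [hcl, Subgroup.mem_bot] at h2
    exact h2
  have hclQ : ∀ Q : Sylow 2 X, ∀ r ∈ (Q : Subgroup X), ∀ s ∈ (Q : Subgroup X), ∀ t ∈ (Q : Subgroup X),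
      ⁅⁅r, s⁆, t⁆ = 1 := by
    intro Q r hr s hs t ht
    obtain ⟨g, hg⟩ := MulAction.exists_smul_eq X P Q
    have hgQ : (Q : Subgroup X) = conjS g (P : Subgroup X) := by
      rw [← hg]
      rfl
    rw [hgQ, mem_conjS] at hr hs ht
    have h3 := hclP _ hr _ hs _ ht
    have e : ⁅⁅g⁻¹ * r * g, g⁻¹ * s * g⁆, g⁻¹ * t * g⁆ = g⁻¹ * ⁅⁅r, s⁆, t⁆ * g := by
      simp only [commutatorElement_def]
      group
    rw [e] at h3
    have e2 : ⁅⁅r, s⁆, t⁆ = g * (g⁻¹ * ⁅⁅r, s⁆, t⁆ * g) * g⁻¹ := by group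
    rw [e2, h3]
    group
  obtain ⟨V, hVd⟩ : ∃ V : Subgroup X, V = OmegaZ 2 D := ⟨_, rfl⟩
  have hS : SpSetup V := by
    rw [hVd]
    exact ⟨(EA_OmegaZ 2 D).1, fun v hv => by rw [← pow_two]; exact hv.2.2, OmegaZ_normal 2 D,
      fun Q v hv => hDS Q hv.1, hclQ, hinv⟩
  haveI hVn : V.Normal := hS.normal
  haveI hVC : (Subgroup.centralizer (V : Set X)).Normal := Subgroup.normal_centralizer
  let f : X →* X ⧸ Subgroup.centralizer (V : Set X) := QuotientGroup.mk' _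
  have hfs : Function.Surjective f := QuotientGroup.mk'_surjective _
  have hfC : ∀ t, f t = 1 ↔ t ∈ Subgroup.centralizer (V : Set X) := fun t => QuotientGroup.eq_one_iff t
  have hAmem : SpMem A := ⟨P, hA⟩
  intro a ha
  have ha2 : a * a = 1 := hAmem.exp a ha
  have hfa2 : f a * f a = 1 := by rw [← map_mul, ha2, map_one]
  have hX₀ : IsPGroup 2 (Subgroup.zpowers (f a)) :=
    (isPGroup_sup_of_invol_pair hfa2 hfa2 (e := 0) (by simpa using hfa2)).to_le le_sup_left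
  have hSS : ∀ g₁ : X ⧸ Subgroup.centralizer (V : Set X), IsPGroup 2 ↥(Subgroup.zpowers (f a) ⊔
      (Subgroup.zpowers (f a)).map (MulAut.conj g₁).toMonoidHom) := by
    intro g₁
    obtain ⟨g, rfl⟩ := hfs g₁
    have hmap : (Subgroup.zpowers (f a)).map (MulAut.conj (f g)).toMonoidHom =
        Subgroup.zpowers (f (g * a * g⁻¹)) := by
      rw [MonoidHom.map_zpowers]
      simp [MulAut.conj_apply, map_mul, map_inv]
    rw [hmap]
    have hTwo := hS.spread_core _ A (conjS g A) V hAmem (hAmem.conj g) le_rfl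
      (by rw [Subgroup.normalizer_eq_top_iff.2 hVn]; exact le_top) rfl
    obtain ⟨a', ha'⟩ : ∃ a' : X, a' = g * a * g⁻¹ := ⟨_, rfl⟩
    rw [← ha']
    have ha'mem : a' ∈ conjS g A := by rw [ha']; exact conj_mem_conjS ha
    have ha'2 : a' * a' = 1 := (hAmem.conj g).exp a' ha'mem
    obtain ⟨t, ht⟩ : ∃ t : X, t = a * a' := ⟨_, rfl⟩
    obtain ⟨e, m, hm, hem⟩ := Nat.exists_eq_pow_mul_and_not_dvd (n := orderOf t) (orderOf_pos t).ne' 2 (by norm_num)
    have hmodd : Odd m := Nat.not_even_iff_odd.1 (fun h => hm h.two_dvd)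
    obtain ⟨y, hy⟩ : ∃ y : X, y = t ^ 2 ^ e := ⟨_, rfl⟩
    have hym : y ^ m = 1 := by
      rw [hy, ← pow_mul, ← hem, pow_orderOf_eq_one]
    have hyodd : Odd (orderOf y) := odd_orderOf_of_pow hmodd hym
    have htL : t ∈ A ⊔ conjS g A := by
      rw [ht]
      exact Subgroup.mul_mem _ (Subgroup.mem_sup_left ha) (Subgroup.mem_sup_right ha'mem)
    have hyL : y ∈ A ⊔ conjS g A := by
      rw [hy]
      exact Subgroup.pow_mem _ htL _
    have hyC := hTwo y hyL hyodd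
    have hfy : f y = 1 := (hfC y).2 hyC
    refine isPGroup_sup_of_invol_pair hfa2 (by rw [← map_mul, ha'2, map_one]) (e := e) ?_
    rw [← map_mul, ← ht, ← map_pow, ← hy, hfy]
  obtain ⟨Nb, hNbn, hNbp, hXN⟩ := Cfsg.Agent.S0199.result _ hX₀ hSS
  have hfaN : f a ∈ Nb := hXN (Subgroup.mem_zpowers _)
  obtain ⟨R, hR⟩ : ∃ R : Subgroup X, R = Subgroup.normalClosure ({a} : Set X) := ⟨_, rfl⟩
  haveI hRn : R.Normal := by
    rw [hR]
    exact Subgroup.normalClosure_normal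
  have haR : a ∈ R := by
    rw [hR]
    exact Subgroup.subset_normalClosure rfl
  haveI hNbc : (Nb.comap f).Normal := Subgroup.Normal.comap hNbn f
  have hRN : R ≤ Nb.comap f := by
    rw [hR]
    apply Subgroup.normalClosure_le_normal
    rintro _ rfl
    exact hfaN
  -- the centralizer of `D/Z(D)`
  obtain ⟨ZD, hZD⟩ : ∃ ZD : Subgroup X, ZD = D ⊓ Subgroup.centralizer (D : Set X) := ⟨_, rfl⟩
  have hZDn : ∀ z ∈ ZD, ∀ g : X, g * z * g⁻¹ ∈ ZD := by
    intro z hz g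
    rw [hZD] at hz ⊢
    refine ⟨hDn.conj_mem z hz.1 g, Subgroup.mem_centralizer_iff.2 fun y hy => ?_⟩
    have h1 := Subgroup.mem_centralizer_iff.1 hz.2 _ (hDn.conj_mem y hy g⁻¹)
    have h2 : g⁻¹ * y * g⁻¹⁻¹ * z = z * (g⁻¹ * y * g⁻¹⁻¹) := h1
    calc y * (g * z * g⁻¹) = g * (g⁻¹ * y * g⁻¹⁻¹ * z) * g⁻¹ := by group
      _ = g * (z * (g⁻¹ * y * g⁻¹⁻¹)) * g⁻¹ := by rw [h2]
      _ = g * z * g⁻¹ * y := by group
  let E : Subgroup X :=
    { carrier := {g | ∀ d ∈ D, g * d * g⁻¹ * d⁻¹ ∈ ZD}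
      mul_mem' := by
        intro a b ha hb d hd
        have h1 := hZDn _ (hb d hd) a
        have e : a * b * d * (a * b)⁻¹ * d⁻¹ = (a * (b * d * b⁻¹ * d⁻¹) * a⁻¹) * (a * d * a⁻¹ * d⁻¹) := by group
        rw [e]
        exact ZD.mul_mem h1 (ha d hd)
      one_mem' := fun d _ => by simp
      inv_mem' := by
        intro a ha d hd
        have hd' : a⁻¹ * d * a⁻¹⁻¹ ∈ D := hDn.conj_mem d hd a⁻¹
        have h1 := ZD.inv_mem (ha _ hd')
        have e : a⁻¹ * d * a⁻¹⁻¹ * d⁻¹ = (a * (a⁻¹ * d * a⁻¹⁻¹) * a⁻¹ * (a⁻¹ * d * a⁻¹⁻¹)⁻¹)⁻¹ := by group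
        rw [e]
        exact h1 }
  haveI hEn : E.Normal := by
    constructor
    intro g hg x d hd
    have hd' : x⁻¹ * d * x⁻¹⁻¹ ∈ D := hDn.conj_mem d hd x⁻¹
    have h1 := hZDn _ (hg _ hd') x
    have e : x * g * x⁻¹ * d * (x * g * x⁻¹)⁻¹ * d⁻¹ = x * (g * (x⁻¹ * d * x⁻¹⁻¹) * g⁻¹ * (x⁻¹ * d * x⁻¹⁻¹)⁻¹) * x⁻¹ := by group
    rw [e]
    exact h1
  have haE : a ∈ E := by
    intro d hd
    have h1 : a * d * a⁻¹ * d⁻¹ ∈ D := D.mul_mem (hDn.conj_mem d hd a) (D.inv_mem hd)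
    rw [hZD]
    refine ⟨h1, Subgroup.mem_centralizer_iff.2 fun d' hd' => ?_⟩
    have h2 := hclP a (hA.1 ha) d (hDP hd) d' (hDP hd')
    rw [commutatorElement_eq_one_iff_commute] at h2
    have h3 : ⁅a, d⁆ = a * d * a⁻¹ * d⁻¹ := rfl
    rw [h3] at h2
    exact h2.eq.symm
  have hRE : R ≤ E := by
    rw [hR]
    apply Subgroup.normalClosure_le_normal
    rintro _ rfl
    exact haE
  -- elements of odd order in `R` are trivial
  have hodd1 : ∀ y ∈ R, Odd (orderOf y) → y = 1 := by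
    intro y hyR hyodd
    have hyco : (orderOf y).Coprime 2 := Nat.coprime_two_right.2 hyodd
    have hfy : f y = 1 := by
      have h1 : f y ∈ Nb := hRN hyR
      obtain ⟨k, hk⟩ := hNbp ⟨f y, h1⟩
      have hk' : f y ^ 2 ^ k = 1 := congrArg Subtype.val hk
      have h2 : f y ^ orderOf y = 1 := by rw [← map_pow, pow_orderOf_eq_one, map_one]
      have h3 : orderOf (f y) ∣ 2 ^ k := orderOf_dvd_of_pow_eq_one hk'
      have h4 : orderOf (f y) ∣ orderOf y := orderOf_dvd_of_pow_eq_one h2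
      have h5 : Nat.Coprime (2 ^ k) (orderOf y) := Nat.Coprime.pow_left k (Nat.coprime_two_left.2 hyodd)
      exact orderOf_eq_one_iff.1 (Nat.eq_one_of_dvd_coprimes h5 h3 h4)
    have hyV : y ∈ Subgroup.centralizer (V : Set X) := (hfC y).1 hfy
    have hyE : y ∈ E := hRE hyR
    have hZfix : ∀ z ∈ ZD, y * z * y⁻¹ = z := by
      intro z hz
      have hzD : z ∈ D := by
        rw [hZD] at hz
        exact hz.1
      obtain ⟨j, hj⟩ := hDp ⟨z, hzD⟩
      have hj' : z ^ 2 ^ j = 1 := congrArg Subtype.val hj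
      refine centralize_of_omega (p := 2) (Z := ZD) (m := orderOf y) ?_ (fun z hz => hZDn z hz y) ?_
        hyco ?_ j z hz hj'
      · intro a ha b hb
        rw [hZD] at ha hb
        exact Subgroup.mem_centralizer_iff.1 hb.2 a ha.1
      · intro v hv hv2
        rw [hZD] at hv
        have h1 : v ∈ V := by
          rw [hVd]
          exact ⟨hv.1, hv.2, hv2⟩
        have h2 := Subgroup.mem_centralizer_iff.1 hyV v h1
        rw [← h2]
        group
      · intro z _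
        rw [pow_orderOf_eq_one]
        simp
    have hyD : y ∈ D := by
      refine hC (Subgroup.mem_centralizer_iff.2 fun d hd => ?_)
      have h1 : ⁅y, d⁆ ∈ ZD := hyE d hd
      have h2 := hZfix _ h1
      have h3 : ⁅y, d⁆ = 1 := by
        refine comm_eq_one_of_coprime (p := 2) hyco ?_ ?_
        · have hzD : ⁅y, d⁆ ∈ D := by
            rw [hZD] at h1
            exact h1.1
          obtain ⟨j, hj⟩ := hDp ⟨_, hzD⟩
          exact ⟨j, congrArg Subtype.val hj⟩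
        · rw [mul_inv_eq_iff_eq_mul] at h2
          exact h2
      rw [commutatorElement_eq_one_iff_commute] at h3
      exact h3.eq.symm
    obtain ⟨j, hj⟩ := hDp ⟨y, hyD⟩
    have hj' : y ^ 2 ^ j = 1 := congrArg Subtype.val hj
    have h6 : orderOf y ∣ 2 ^ j := orderOf_dvd_of_pow_eq_one hj'
    have h7 : Nat.Coprime (2 ^ j) (orderOf y) := Nat.Coprime.pow_left j (Nat.coprime_two_left.2 hyodd)
    exact orderOf_eq_one_iff.1 (Nat.eq_one_of_dvd_coprimes h7 h6 dvd_rfl)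
  have hRp : IsPGroup 2 R := by
    rintro ⟨x, hx⟩
    obtain ⟨e, m, hm, hem⟩ := Nat.exists_eq_pow_mul_and_not_dvd (n := orderOf x) (orderOf_pos x).ne' 2 (by norm_num)
    have hmodd : Odd m := Nat.not_even_iff_odd.1 (fun h => hm h.two_dvd)
    refine ⟨e, Subtype.ext ?_⟩
    show x ^ 2 ^ e = 1
    refine hodd1 _ (R.pow_mem hx _) (odd_orderOf_of_pow hmodd ?_)
    rw [← pow_mul, ← hem, pow_orderOf_eq_one]
  rw [hDd]
  exact le_pCore hRn hRp haR

open Cfsg.Agent.Lib.Core in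
theorem normalizer_JJ_eq_top_of_class_two' (hC : Subgroup.centralizer ((pCore 2 X : Subgroup X) : Set X) ≤ pCore 2 X)
    (hinv : ¬ Involves (Equiv.Perm (Fin 4)) X) (P : Sylow 2 X)
    (hcl : Subgroup.lowerCentralSeries (P : Subgroup X) 2 = ⊥) :
    Subgroup.normalizer (JJ 2 (P : Subgroup X) : Set X) = ⊤ := by
  have hle := AA_le_of_class_two' hC hinv P hcl
  haveI hDn : (pCore 2 X).Normal := pCore_normal 2 X
  have hDP : pCore 2 X ≤ (P : Subgroup X) := pCore_le_sylow P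
  have hsets : AA 2 (P : Subgroup X) = AA 2 (pCore 2 X) := by
    ext A
    constructor
    · intro hA
      exact ⟨hle A hA, hA.2.1, fun B hB hBe => hA.2.2 B (hB.trans hDP) hBe⟩
    · intro hA
      obtain ⟨A₁, hA₁⟩ := exists_mem_AA 2 (P : Subgroup X)
      refine ⟨hA.1.trans hDP, hA.2.1, fun B hB hBe => ?_⟩
      exact (hA₁.2.2 B hB hBe).trans (hA.2.2 A₁ (hle A₁ hA₁) hA₁.2.1)
  have : JJ 2 (P : Subgroup X) = JJ 2 (pCore 2 X) := by
    unfold JJ
    rw [hsets]
  rw [this]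
  exact normalizer_JJ_eq_top _

end main2

end spread

section top2

variable {G : Type u} [Group G] [Finite G]

open Cfsg.Agent.Lib.Core in
/-- **The theorem.** -/
theorem class_two_constrained_main (hcon : IsPConstrained 2 G) (hS4 : ¬ Involves (Equiv.Perm (Fin 4)) G) (S : Sylow 2 G)
    (hcl : Subgroup.lowerCentralSeries (S : Subgroup G) 2 = ⊥) :
    Subgroup.normalizer ((thompsonSubgroupOf 2 (S : Subgroup G)) : Set G) ⊔ pPrimeCore 2 G = ⊤ := by
  classical
  haveI : Fact (Nat.Prime 2) := ⟨Nat.prime_two⟩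
  rw [thompsonSubgroupOf_eq_JJ]
  obtain ⟨N₀, hN₀⟩ : ∃ N₀ : Subgroup G, N₀ = pPrimeCore 2 G := ⟨_, rfl⟩
  rw [← hN₀]
  haveI hNn : N₀.Normal := by
    rw [hN₀]
    exact pPrimeCore_normal 2 G
  have hCq : Subgroup.centralizer ((pCore 2 (G ⧸ N₀) : Subgroup (G ⧸ N₀)) : Set (G ⧸ N₀)) ≤ pCore 2 (G ⧸ N₀) := by
    subst hN₀
    exact Cfsg.Agent.Lib.FStar.centralizer_pCore_quotient_le_of_constrained hcon
  have hNc : (Nat.card N₀).Coprime 2 := by
    rw [hN₀]
    exact pPrimeCore_coprime 2 G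
  let π : G →* G ⧸ N₀ := QuotientGroup.mk' N₀
  have hπ : Function.Surjective π := QuotientGroup.mk'_surjective N₀
  have hker : ∀ x, π x = 1 ↔ x ∈ N₀ := fun x => QuotientGroup.eq_one_iff x
  have hinv : ¬ Involves (Equiv.Perm (Fin 4)) (G ⧸ N₀) := not_involves_quotient hS4 N₀
  let S' : Sylow 2 (G ⧸ N₀) := S.mapSurjective hπ
  have hS' : (S' : Subgroup (G ⧸ N₀)) = (S : Subgroup G).map π := Sylow.coe_mapSurjective hπ S
  have hcl' : Subgroup.lowerCentralSeries (S' : Subgroup (G ⧸ N₀)) 2 = ⊥ := by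
    rw [hS']
    have h1 : Subgroup.lowerCentralSeries ((S : Subgroup G).map π) 2 = (Subgroup.lowerCentralSeries (S : Subgroup G) 2).map π := by
      show ⁅⁅(S : Subgroup G).map π, (S : Subgroup G).map π⁆, (S : Subgroup G).map π⁆ = (⁅⁅(S : Subgroup G), (S : Subgroup G)⁆, (S : Subgroup G)⁆).map π
      rw [Subgroup.map_commutator, Subgroup.map_commutator]
    rw [h1, hcl, Subgroup.map_bot]
  have hN := normalizer_JJ_eq_top_of_class_two' hCq hinv S' hcl'
  have hinj : Set.InjOn π (S : Subgroup G) := by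
    intro a ha b hb hab
    have h1 : a⁻¹ * b ∈ N₀ := by
      rw [← hker, map_mul, map_inv, hab]
      simp
    have h2 : a⁻¹ * b ∈ (S : Subgroup G) := Subgroup.mul_mem _ (Subgroup.inv_mem _ ha) hb
    exact eq_of_inv_mul_eq_one (eq_one_of_mem_isPGroup_of_mem_coprime S.isPGroup' hNc h2 h1)
  rw [hS', JJ_map π hinj] at hN
  obtain ⟨J, hJ⟩ : ∃ J : Subgroup G, J = JJ 2 (S : Subgroup G) := ⟨_, rfl⟩
  rw [← hJ] at hN ⊢
  have hJS : J ≤ (S : Subgroup G) := by
    rw [hJ]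
    exact JJ_le
  have hJp : IsPGroup 2 J := S.isPGroup'.to_le hJS
  haveI hn : (J.map π).Normal := Subgroup.normalizer_eq_top_iff.1 hN
  have hM : (J.map π).comap π = J ⊔ N₀ := by
    rw [Subgroup.comap_map_eq, QuotientGroup.ker_mk']
  have hMn : (J ⊔ N₀).Normal := by
    rw [← hM]
    exact Subgroup.Normal.comap hn π
  have hsyl : SylowIn 2 J (J ⊔ N₀) := by
    have h1 : SylowIn 2 (J ⊓ N₀) N₀ := by
      refine ⟨inf_le_right, hJp.to_le inf_le_left, fun hd => ?_⟩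
      have h2 : (J ⊓ N₀).relIndex N₀ ∣ Nat.card N₀ := Subgroup.relIndex_dvd_card _ _
      exact (Nat.Prime.coprime_iff_not_dvd Nat.prime_two).1 hNc.symm (hd.trans h2)
    have h2 := sylowIn_sup hJp (by
      rw [Subgroup.normalizer_eq_top_iff.2 hNn]
      exact le_top) h1
    rwa [sup_comm] at h2
  rw [eq_top_iff]
  intro y _
  have hy : conjS y (J ⊔ N₀) = J ⊔ N₀ := by
    have h1 : y ∈ Subgroup.normalizer ((J ⊔ N₀ : Subgroup G) : Set G) := by
      rw [Subgroup.normalizer_eq_top_iff.2 hMn]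
      trivial
    exact mem_normalizer_iff_conjS.1 h1
  obtain ⟨k, hk, hky⟩ := frattini_in hsyl hy
  obtain ⟨j, hj, n, hn', rfl⟩ := Subgroup.mem_sup_of_normal_right.1 hk
  have e : y = j * n * ((j * n)⁻¹ * y) := by group
  rw [e]
  refine Subgroup.mul_mem _ (Subgroup.mul_mem _ (Subgroup.mem_sup_left (Subgroup.le_normalizer hj)) (Subgroup.mem_sup_right hn'))
    (Subgroup.mem_sup_left hky)

end top2

end Cfsg.Agent.Lib.Techniques
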