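import Cfsg.Agent.Lib.Techniques.Goldschmidt
import Cfsg.Agent.Lib.Techniques.Complement
import Cfsg.Agent.Lib.FF.ChainConn
import Cfsg.Agent.S3058
import Cfsg.Prelude.Def_SylowChains
import Mathlib

/-! Strong form of the Alperin--Goldschmidt fusion theorem: the smallest normal subgroup of order
divisible by `p` in a group with disconnected Sylow graph, and the transport of the family under
conjugation. -/

set_option autoImplicit false
set_option linter.style.haveILetI false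

namespace Cfsg.Agent.Lib.Techniques

open Cfsg Cfsg.Agent.Lib.Core

section Least

variable {L : Type*} [Group L] [Finite L] {p : ℕ} [hp : Fact p.Prime]

theorem sag_connected_of_not_dvd (h : ¬ p ∣ Nat.card L) : IsSylowChainConnected p L := by
  refine Cfsg.Agent.Lib.FF.connected_of_adj fun S T => ?_
  have key : ∀ S : Sylow p L, (S : Subgroup L) = ⊥ := by
    intro S
    by_contra hS
    exact h ((Cfsg.Agent.Lib.FF.dvd_card_of_isPGroup_of_ne_bot S.isPGroup' hS).trans
      (Subgroup.card_subgroup_dvd_card _))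
  have : S = T := Sylow.ext (by rw [key S, key T])
  rw [this]

/-- With a disconnected Sylow graph there is a smallest normal subgroup of order divisible by `p`. -/
theorem sag_exists_least (hL : ¬ IsSylowChainConnected p L) :
    ∃ X₀ : Subgroup L, X₀.Normal ∧ p ∣ Nat.card X₀ ∧
      ∀ Y : Subgroup L, Y.Normal → p ∣ Nat.card Y → X₀ ≤ Y := by
  classical
  have hd : p ∣ Nat.card L := by
    by_contra h
    exact hL (sag_connected_of_not_dvd h)
  set F : Set (Subgroup L) := {Y | Y.Normal ∧ p ∣ Nat.card Y} with hF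
  have hne : F.Nonempty := ⟨⊤, inferInstance, by simpa using hd⟩
  obtain ⟨X₀, hX₀⟩ := F.toFinite.exists_minimal hne
  refine ⟨X₀, hX₀.1.1, hX₀.1.2, ?_⟩
  intro Y hY hYd
  haveI := hX₀.1.1
  have h1 : X₀ ⊓ Y ∈ F := ⟨inferInstance, Cfsg.Agent.S3058.result p hL X₀ Y hX₀.1.2 hYd⟩
  have h2 : X₀ ≤ X₀ ⊓ Y := hX₀.2 h1 inf_le_left
  exact h2.trans inf_le_right

end Least

section Lift

variable {G : Type*} [Group G] [Finite G] {p : ℕ} [hp : Fact p.Prime]

/-- The order of the image of `X` in `N / H`. -/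
theorem sag_card_map_mk {H N X : Subgroup G} [(H.subgroupOf N).Normal] (hHX : H ≤ X) (hXN : X ≤ N) :
    Nat.card ((X.subgroupOf N).map (QuotientGroup.mk' (H.subgroupOf N))) = H.relIndex X := by
  set π := QuotientGroup.mk' (H.subgroupOf N) with hπ
  let f : ↥X →* (↥N ⧸ H.subgroupOf N) := π.comp (Subgroup.inclusion hXN)
  have h1 : f.ker = H.subgroupOf X := by
    ext x
    rw [MonoidHom.mem_ker, Subgroup.mem_subgroupOf]
    show π (Subgroup.inclusion hXN x) = 1 ↔ _
    rw [hπ, QuotientGroup.mk'_apply, QuotientGroup.eq_one_iff, Subgroup.mem_subgroupOf]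
    rfl
  have h2 : f.range = (X.subgroupOf N).map π := by
    ext z
    constructor
    · rintro ⟨x, rfl⟩
      exact ⟨Subgroup.inclusion hXN x, by simp [Subgroup.mem_subgroupOf], rfl⟩
    · rintro ⟨n, hn, rfl⟩
      exact ⟨⟨n, hn⟩, rfl⟩
  rw [← h2, ← Subgroup.index_ker, h1]
  rfl

/-- Pull the smallest normal subgroup of `N / H` back to `N`. -/
theorem sag_exists_X {H N : Subgroup G} [hn : (H.subgroupOf N).Normal] (hHN : H ≤ N)
    (hL : ¬ IsSylowChainConnected p (↥N ⧸ H.subgroupOf N)) :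
    ∃ X : Subgroup G, H ≤ X ∧ X ≤ N ∧ (X.subgroupOf N).Normal ∧ p ∣ H.relIndex X ∧
      ∀ Y : Subgroup G, H ≤ Y → Y ≤ N → (Y.subgroupOf N).Normal → p ∣ H.relIndex Y → X ≤ Y := by
  obtain ⟨X₀, hX₀n, hX₀d, hX₀⟩ := sag_exists_least hL
  set π := QuotientGroup.mk' (H.subgroupOf N) with hπ
  have hπs : Function.Surjective π := QuotientGroup.mk'_surjective _
  set X : Subgroup G := (X₀.comap π).map N.subtype with hX
  have hXN : X ≤ N := Subgroup.map_subtype_le _
  have hXs : X.subgroupOf N = X₀.comap π := by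
    rw [hX]
    exact Subgroup.comap_map_eq_self_of_injective N.subtype_injective _
  have hHX : H ≤ X := by
    intro x hx
    refine ⟨⟨x, hHN hx⟩, ?_, rfl⟩
    show π ⟨x, hHN hx⟩ ∈ X₀
    have : π ⟨x, hHN hx⟩ = 1 := by
      rw [hπ, QuotientGroup.mk'_apply, QuotientGroup.eq_one_iff, Subgroup.mem_subgroupOf]
      exact hx
    rw [this]
    exact X₀.one_mem
  have hmap : (X.subgroupOf N).map π = X₀ := by
    rw [hXs]
    exact Subgroup.map_comap_eq_self_of_surjective hπs _
  refine ⟨X, hHX, hXN, ?_, ?_, ?_⟩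
  · rw [hXs]
    exact hX₀n.comap _
  · rw [← sag_card_map_mk hHX hXN, hmap]
    exact hX₀d
  · intro Y hHY hYN hYn hYd
    have h1 : ((Y.subgroupOf N).map π).Normal := hYn.map _ hπs
    have h2 : p ∣ Nat.card ((Y.subgroupOf N).map π) := by
      rw [sag_card_map_mk hHY hYN]
      exact hYd
    have h3 := hX₀ _ h1 h2
    rintro _ ⟨x, hx, rfl⟩
    obtain ⟨z, hz, hzx⟩ := h3 hx
    have h4 : z⁻¹ * x ∈ H.subgroupOf N := by
      rw [← QuotientGroup.eq_one_iff, QuotientGroup.mk_mul, QuotientGroup.mk_inv]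
      have h5 : ((z : ↥N) : ↥N ⧸ H.subgroupOf N) = ((x : ↥N) : ↥N ⧸ H.subgroupOf N) := hzx
      rw [h5, inv_mul_cancel]
    have h6 : ((z⁻¹ * x : ↥N) : G) ∈ Y := hHY h4
    have h7 : (z : G) ∈ Y := hz
    have h8 : (x : G) = z * ((z⁻¹ * x : ↥N) : G) := by simp
    show (x : G) ∈ Y
    rw [h8]
    exact Y.mul_mem h7 h6

end Lift

section Transport

variable {p : ℕ}

theorem sag_mem_pPrimePCore_equiv {A B : Type*} [Group A] [Group B] (e : A ≃* B) {x : A}
    (hx : x ∈ pPrimePCore p A) : e x ∈ pPrimePCore p B := by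
  have hK : (pPrimeCore p A).map e.toMonoidHom = pPrimeCore p B :=
    Cfsg.Agent.Lib.Core.map_pPrimeCore_equiv e
  let e' : A ⧸ pPrimeCore p A ≃* B ⧸ pPrimeCore p B := QuotientGroup.congr _ _ e hK
  have h1 : QuotientGroup.mk' (pPrimeCore p A) x ∈ pCore p (A ⧸ pPrimeCore p A) := hx
  have h2 : e' (QuotientGroup.mk' (pPrimeCore p A) x) ∈ pCore p (B ⧸ pPrimeCore p B) := by
    rw [← Cfsg.Agent.Lib.Core.map_pCore_equiv e']
    exact ⟨_, h1, rfl⟩
  exact h2

variable {G : Type*} [Group G]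

/-- Conjugation as an isomorphism between subgroups. -/
noncomputable abbrev sagConj (y : G) (N : Subgroup G) : ↥N ≃* ↥(conjS y N) :=
  (MulAut.conj y).subgroupMap N

theorem sag_coe_conj (y : G) (N : Subgroup G) (z : ↥N) : ((sagConj y N z : ↥(conjS y N)) : G) = y * z * y⁻¹ :=
  rfl

theorem sag_conj_coreX_le (y : G) (N : Subgroup G) : conjS y (coreX p N) ≤ coreX p (conjS y N) := by
  rintro _ ⟨_, ⟨z, hz, rfl⟩, rfl⟩
  exact ⟨sagConj y N z, sag_mem_pPrimePCore_equiv _ hz, rfl⟩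

theorem sag_conj_coreX (y : G) (N : Subgroup G) : coreX p (conjS y N) = conjS y (coreX p N) := by
  refine le_antisymm ?_ (sag_conj_coreX_le y N)
  have h := sag_conj_coreX_le (p := p) y⁻¹ (conjS y N)
  rw [conjS_inv_conjS] at h
  exact (conjS_le_iff y⁻¹).1 h |>.trans (by rw [inv_inv])

theorem sag_connected_equiv [Finite G] [hp : Fact p.Prime] {B : Type*} [Group B] [Finite B] (e : G ≃* B)
    (h : IsSylowChainConnected p G) : IsSylowChainConnected p B := by
  refine Cfsg.Agent.Lib.FF.connected_of_adj fun S T => ?_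
  let f : Sylow p G → Sylow p B := Sylow.mapSurjective (f := e.toMonoidHom) e.surjective
  have hf : Function.Surjective f := Sylow.mapSurjective_surjective e.surjective p
  have hfc : ∀ a, ((f a : Sylow p B) : Subgroup B) = (a : Subgroup G).map e.toMonoidHom := fun _ => rfl
  have hinj : Function.Injective f := by
    intro a b hab
    apply Sylow.ext
    apply Subgroup.map_injective (f := e.toMonoidHom) e.injective
    rw [← hfc, ← hfc, hab]
  obtain ⟨S', rfl⟩ := hf S
  obtain ⟨T', rfl⟩ := hf T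
  refine Relation.ReflTransGen.lift f ?_ S' T' (Cfsg.Agent.Lib.FF.adj_of_connected h S' T')
  rintro a b ⟨h1, h2⟩
  refine ⟨fun hh => h1 (hinj hh), fun hh => h2 ?_⟩
  rw [hfc, hfc, ← Subgroup.map_inf _ _ _ e.injective] at hh
  exact (Subgroup.map_eq_bot_iff_of_injective _ e.injective).mp hh

theorem sag_connected_conj [Finite G] [hp : Fact p.Prime] {N₁ N₂ H₁ H₂ : Subgroup G}
    [(H₁.subgroupOf N₁).Normal] [(H₂.subgroupOf N₂).Normal]
    (y : G) (hN : N₂ = conjS y N₁) (hH : H₂ = conjS y H₁)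
    (h : IsSylowChainConnected p (↥N₁ ⧸ H₁.subgroupOf N₁)) :
    IsSylowChainConnected p (↥N₂ ⧸ H₂.subgroupOf N₂) := by
  subst hN hH
  refine sag_connected_equiv (QuotientGroup.congr _ _ (sagConj y N₁) ?_) h
  ext z
  constructor
  · rintro ⟨w, hw, rfl⟩
    exact ⟨w, hw, rfl⟩
  · rintro ⟨w, hw, hwz⟩
    have hwN : w ∈ N₁ := by
      have h1 := z.2
      rw [mem_conjS] at h1
      have e : y⁻¹ * (z : G) * y = w := by
        rw [← show y * w * y⁻¹ = (z : G) from hwz]
        group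
      rwa [e] at h1
    refine ⟨⟨w, hwN⟩, hw, Subtype.ext hwz⟩

theorem sag_conj_normal {Y N : Subgroup G} (y : G) (h : (Y.subgroupOf N).Normal) :
    ((conjS y Y).subgroupOf (conjS y N)).Normal := by
  constructor
  rintro ⟨a, ha⟩ hay ⟨b, hb⟩
  rw [Subgroup.mem_subgroupOf] at hay ⊢
  rw [mem_conjS] at ha hb hay
  have h1 := h.conj_mem ⟨y⁻¹ * a * y, ha⟩ (by rw [Subgroup.mem_subgroupOf]; exact hay) ⟨y⁻¹ * b * y, hb⟩
  rw [Subgroup.mem_subgroupOf] at h1
  show b * a * b⁻¹ ∈ conjS y Y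
  rw [mem_conjS]
  have e1 : y⁻¹ * (b * a * b⁻¹) * y = (y⁻¹ * b * y) * (y⁻¹ * a * y) * (y⁻¹ * b * y)⁻¹ := by group
  rw [e1]
  exact h1

theorem sag_conj_mem_residual {X : Subgroup G} (y : G) {x : G} (hx : x ∈ (pResidual p ↥X).map X.subtype) :
    y * x * y⁻¹ ∈ (pResidual p ↥(conjS y X)).map (conjS y X).subtype := by
  obtain ⟨z, hz, rfl⟩ := hx
  have key : pResidual p ↥X ≤ (pResidual p ↥(conjS y X)).comap (sagConj y X).toMonoidHom := by
    unfold pResidual
    rw [Subgroup.closure_le]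
    intro g hg
    refine Subgroup.subset_closure ?_
    show Nat.Coprime (orderOf (sagConj y X g)) p
    rw [MulEquiv.orderOf_eq]
    exact hg
  exact ⟨_, key hz, rfl⟩

theorem sag_relIndex_conj (y : G) (A B : Subgroup G) : (conjS y A).relIndex (conjS y B) = A.relIndex B :=
  Subgroup.relIndex_map_map_of_injective _ _ (MulAut.conj y).injective

end Transport

section Family

variable {G : Type*} [Group G] [Finite G] {p : ℕ} [hp : Fact p.Prime]

/-- The family in the strong Alperin--Goldschmidt theorem. -/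
def SAGFam (p : ℕ) (P H X : Subgroup G) : Prop :=
  H ≤ P ∧
  ¬ p ∣ (P ⊓ Subgroup.normalizer (H : Set G)).relIndex (Subgroup.normalizer (H : Set G)) ∧
  P ⊓ Subgroup.centralizer (H : Set G) ≤ H ∧
  (Cfsg.pPrimePCore p ↥(Subgroup.normalizer (H : Set G))).map (Subgroup.normalizer (H : Set G)).subtype =
    H ⊔ Subgroup.centralizer (H : Set G) ∧
  ¬ Cfsg.IsSylowChainConnected p
      (↥(Subgroup.normalizer (H : Set G)) ⧸ H.subgroupOf (Subgroup.normalizer (H : Set G))) ∧
  (H ≤ X ∧ X ≤ Subgroup.normalizer (H : Set G) ∧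
    (X.subgroupOf (Subgroup.normalizer (H : Set G))).Normal ∧ p ∣ H.relIndex X ∧
    ∀ Y : Subgroup G, H ≤ Y → Y ≤ Subgroup.normalizer (H : Set G) →
      (Y.subgroupOf (Subgroup.normalizer (H : Set G))).Normal → p ∣ H.relIndex Y → X ≤ Y)

/-- The step relation. -/
def SAGStep (p : ℕ) (P T : Subgroup G) (x : G) : Prop :=
  ∃ X : Subgroup G, SAGFam p P T X ∧ x ∈ (pResidual p ↥X).map X.subtype

theorem SAGFam.conj {P T X : Subgroup G} {y : G} (hy : conjS y P = P) (h : SAGFam p P T X) :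
    SAGFam p P (conjS y T) (conjS y X) := by
  obtain ⟨h1, h2, h3, h4, h5, h6, h7, h8, h9, h10⟩ := h
  have hN := conj_normalizer y T
  refine ⟨?_, ?_, ?_, ?_, ?_, ?_, ?_, ?_, ?_, ?_⟩
  · rw [← hy]
    exact conjS_mono y h1
  · rw [hN]
    have e : P ⊓ conjS y (Subgroup.normalizer (T : Set G)) =
        conjS y (P ⊓ Subgroup.normalizer (T : Set G)) := by
      rw [conjS_inf, hy]
    rw [e, sag_relIndex_conj]
    exact h2
  · rw [conj_centralizer_subgroup]
    have e : P ⊓ conjS y (Subgroup.centralizer (T : Set G)) =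
        conjS y (P ⊓ Subgroup.centralizer (T : Set G)) := by
      rw [conjS_inf, hy]
    rw [e]
    exact conjS_mono y h3
  · have e1 : coreX p (Subgroup.normalizer ((conjS y T : Subgroup G) : Set G)) =
        coreX p (conjS y (Subgroup.normalizer (T : Set G))) := by rw [hN]
    have e2 : coreX p (Subgroup.normalizer ((conjS y T : Subgroup G) : Set G)) =
        conjS y T ⊔ Subgroup.centralizer ((conjS y T : Subgroup G) : Set G) := by
      rw [e1, sag_conj_coreX, conj_centralizer_subgroup]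
      have e3 : coreX p (Subgroup.normalizer (T : Set G)) = T ⊔ Subgroup.centralizer (T : Set G) := h4
      rw [e3]
      exact Subgroup.map_sup _ _ _
    exact e2
  · intro hc
    apply h5
    refine sag_connected_conj y⁻¹ ?_ ?_ hc
    · rw [hN, conjS_inv_conjS]
    · rw [conjS_inv_conjS]
  · exact conjS_mono y h6
  · rw [hN]
    exact conjS_mono y h7
  · rw [hN]
    exact sag_conj_normal y h8
  · rw [sag_relIndex_conj]
    exact h9
  · intro Y hTY hYN hYn hYd
    rw [conjS_le_iff]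
    have hYN' : Y ≤ conjS y (Subgroup.normalizer (T : Set G)) := by rw [← hN]; exact hYN
    apply h10
    · exact (conjS_le_iff y).1 hTY
    · rw [conjS_le_iff, inv_inv]
      exact hYN'
    · have := sag_conj_normal y⁻¹ hYn
      rwa [hN, conjS_inv_conjS] at this
    · rw [← sag_relIndex_conj y, conjS_conjS_inv]
      exact hYd

theorem SAGStep.conj {P T : Subgroup G} {x y : G} (hy : conjS y P = P) (h : SAGStep p P T x) :
    SAGStep p P (conjS y T) (y * x * y⁻¹) := by
  obtain ⟨X, hX, hx⟩ := h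
  exact ⟨conjS y X, hX.conj hy, sag_conj_mem_residual y hx⟩

theorem SAGStep.inv {P T : Subgroup G} {x : G} (h : SAGStep p P T x) :
    x ∈ Subgroup.normalizer (T : Set G) ∧ SAGStep p P T x⁻¹ := by
  obtain ⟨X, hX, hx⟩ := h
  refine ⟨?_, X, hX, Subgroup.inv_mem _ hx⟩
  exact hX.2.2.2.2.2.2.1 ((Subgroup.map_subtype_le _) hx)

/-- Conjugating a chain. -/
theorem sag_chain_conj {R : Subgroup G → G → Prop} {y : G}
    (hR : ∀ T x, R T x → R (conjS y T) (y * x * y⁻¹)) {A : Set G} {g : G} (h : CChain R A g) :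
    CChain R (lconj y A) (y * g * y⁻¹) := by
  induction h with
  | nil A =>
    have : y * 1 * y⁻¹ = 1 := by group
    rw [this]
    exact CChain.nil _
  | @cons A T x g hR' hA _ ih =>
    have e : y * (x * g) * y⁻¹ = (y * x * y⁻¹) * (y * g * y⁻¹) := by group
    rw [e]
    refine CChain.cons (hR _ _ hR') ?_ ?_
    · rintro _ ⟨a, ha, rfl⟩
      exact conj_mem_conjS (hA ha)
    · have e2 : rconj (y * x * y⁻¹) (lconj y A) = lconj y (rconj x A) := by
        ext z
        simp only [Set.mem_image, exists_exists_and_eq_and]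
        constructor
        · rintro ⟨a, ha, rfl⟩
          exact ⟨a, ha, by group⟩
        · rintro ⟨a, ha, rfl⟩
          exact ⟨a, ha, by group⟩
      rw [e2]
      exact ih

/-- Good conjugations for the strong form. -/
def SGood (p : ℕ) (P : Subgroup G) (A : Set G) (h : G) : Prop :=
  ∃ g' y : G, CChain (SAGStep p P) A g' ∧ conjS y P = P ∧ ∀ a ∈ A, (g' * y)⁻¹ * a * (g' * y) = h * a * h⁻¹

theorem sgood_congr {P : Subgroup G} {A : Set G} {g h : G} (hg : SGood p P A g)
    (e : ∀ a ∈ A, h * a * h⁻¹ = g * a * g⁻¹) : SGood p P A h := by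
  obtain ⟨g', y, hg', hy, hgg⟩ := hg
  exact ⟨g', y, hg', hy, fun a ha => (hgg a ha).trans (e a ha).symm⟩

theorem sgoodGroupoid (P : Subgroup G) : IsConjGroupoid (SGood p P) := by
  refine ⟨?_, ?_, ?_⟩
  · rintro A B g hAB ⟨g', y, hg', hy, hgg⟩
    exact ⟨g', y, hg'.mono_set hAB, hy, fun a ha => hgg a (hAB ha)⟩
  · rintro A g h ⟨g', y, hg', hy, hgg⟩ ⟨h', y₁, hh', hy₁, hhh⟩
    have e1 : lconj g A = rconj (g' * y) A := (Set.image_congr (fun a ha => hgg a ha)).symm
    rw [e1] at hh'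
    have e2 : lconj y (rconj (g' * y) A) = rconj g' A := by
      ext z
      simp only [Set.mem_image, exists_exists_and_eq_and]
      constructor
      · rintro ⟨a, ha, rfl⟩
        exact ⟨a, ha, by group⟩
      · rintro ⟨a, ha, rfl⟩
        exact ⟨a, ha, by group⟩
    have h3 := sag_chain_conj (fun T x hx => SAGStep.conj hy hx) hh'
    rw [e2] at h3
    refine ⟨g' * (y * h' * y⁻¹), y * y₁, hg'.trans h3, ?_, fun a ha => ?_⟩
    · rw [conjS_mul, hy₁, hy]
    · have h1 := hhh (g * a * g⁻¹) ⟨a, ha, rfl⟩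
      calc (g' * (y * h' * y⁻¹) * (y * y₁))⁻¹ * a * (g' * (y * h' * y⁻¹) * (y * y₁))
          = (h' * y₁)⁻¹ * ((g' * y)⁻¹ * a * (g' * y)) * (h' * y₁) := by group
        _ = (h' * y₁)⁻¹ * (g * a * g⁻¹) * (h' * y₁) := by rw [hgg a ha]
        _ = h * (g * a * g⁻¹) * h⁻¹ := h1
        _ = h * g * a * (h * g)⁻¹ := by group
  · rintro A g ⟨g', y, hg', hy, hgg⟩
    have e1 : lconj g A = rconj (g' * y) A := (Set.image_congr (fun a ha => hgg a ha)).symm
    have hy' : conjS y⁻¹ P = P := by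
      have := conjS_inv_conjS y P
      rwa [hy] at this
    have h2 := hg'.inv (fun T x hx => SAGStep.inv hx)
    have h3 := sag_chain_conj (y := y⁻¹) (fun T x hx => SAGStep.conj hy' hx) h2
    have e2 : lconj y⁻¹ (rconj g' A) = rconj (g' * y) A := by
      ext z
      simp only [Set.mem_image, exists_exists_and_eq_and]
      constructor
      · rintro ⟨a, ha, rfl⟩
        exact ⟨a, ha, by group⟩
      · rintro ⟨a, ha, rfl⟩
        exact ⟨a, ha, by group⟩
    rw [e2, ← e1] at h3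
    refine ⟨_, y⁻¹, h3, hy', ?_⟩
    rintro _ ⟨a, ha, rfl⟩
    show (y⁻¹ * g'⁻¹ * y⁻¹⁻¹ * y⁻¹)⁻¹ * (g * a * g⁻¹) * (y⁻¹ * g'⁻¹ * y⁻¹⁻¹ * y⁻¹) =
      g⁻¹ * (g * a * g⁻¹) * g⁻¹⁻¹
    calc (y⁻¹ * g'⁻¹ * y⁻¹⁻¹ * y⁻¹)⁻¹ * (g * a * g⁻¹) * (y⁻¹ * g'⁻¹ * y⁻¹⁻¹ * y⁻¹)
        = (g' * y) * (g * a * g⁻¹) * (g' * y)⁻¹ := by group
      _ = (g' * y) * ((g' * y)⁻¹ * a * (g' * y)) * (g' * y)⁻¹ := by rw [hgg a ha]
      _ = a := by group
      _ = g⁻¹ * (g * a * g⁻¹) * g⁻¹⁻¹ := by group

end Family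

end Cfsg.Agent.Lib.Techniques
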