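import Cfsg.Agent.Lib.Techniques.StrongAG
import Mathlib

/-! Strong form of the Alperin--Goldschmidt fusion theorem: the local step and the main induction. -/

set_option autoImplicit false
set_option linter.style.haveILetI false

namespace Cfsg.Agent.Lib.Techniques

open Cfsg Cfsg.Agent.Lib.Core

section Tilde

variable {G : Type*} [Group G] [Finite G] {p : ℕ} [hp : Fact p.Prime]

omit [Finite G] hp in
theorem sag_conjS_lt (g : G) {S T : Subgroup G} (h : S < T) : conjS g S < conjS g T := by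
  refine lt_of_le_not_ge (conjS_mono g h.le) (fun h2 => h.not_ge ?_)
  have := conjS_mono g⁻¹ h2
  rwa [conjS_inv_conjS, conjS_inv_conjS] at this

/-- The preimage in `G` of a subgroup of `N / H`. -/
abbrev sagTilde {H N : Subgroup G} [(H.subgroupOf N).Normal] (T : Subgroup (↥N ⧸ H.subgroupOf N)) :
    Subgroup G :=
  (T.comap (QuotientGroup.mk' (H.subgroupOf N))).map N.subtype

omit [Finite G] hp in
theorem sagTilde_le {H N : Subgroup G} [(H.subgroupOf N).Normal] (T : Subgroup (↥N ⧸ H.subgroupOf N)) :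
    sagTilde T ≤ N := Subgroup.map_subtype_le _

omit [Finite G] hp in
theorem mem_sagTilde {H N : Subgroup G} [(H.subgroupOf N).Normal] {T : Subgroup (↥N ⧸ H.subgroupOf N)}
    {x : ↥N} : (x : G) ∈ sagTilde T ↔ ((x : ↥N) : ↥N ⧸ H.subgroupOf N) ∈ T := by
  constructor
  · rintro ⟨z, hz, hzx⟩
    have : z = x := Subtype.ext hzx
    rw [← this]
    exact hz
  · intro h
    exact ⟨x, h, rfl⟩

omit [Finite G] hp in
theorem le_sagTilde {H N : Subgroup G} [(H.subgroupOf N).Normal] (hHN : H ≤ N)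
    (T : Subgroup (↥N ⧸ H.subgroupOf N)) : H ≤ sagTilde T := by
  intro x hx
  have h1 : ((⟨x, hHN hx⟩ : ↥N) : G) ∈ sagTilde T := by
    rw [mem_sagTilde]
    have : ((⟨x, hHN hx⟩ : ↥N) : ↥N ⧸ H.subgroupOf N) = 1 := by
      rw [QuotientGroup.eq_one_iff, Subgroup.mem_subgroupOf]
      exact hx
    rw [this]
    exact T.one_mem
  exact h1

theorem sylowIn_sagTilde {H N : Subgroup G} [(H.subgroupOf N).Normal] (hH : IsPGroup p H) (hHN : H ≤ N)
    (T : Sylow p (↥N ⧸ H.subgroupOf N)) : SylowIn p (sagTilde (T : Subgroup (↥N ⧸ H.subgroupOf N))) N := by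
  refine ⟨sagTilde_le _, ?_, ?_⟩
  · refine IsPGroup.map ?_ _
    refine T.isPGroup'.comap_of_ker_isPGroup _ ?_
    rw [QuotientGroup.ker_mk']
    exact isPGroup_subgroupOf hHN hH
  · have e : (sagTilde (T : Subgroup (↥N ⧸ H.subgroupOf N))).relIndex N = (T : Subgroup (↥N ⧸ H.subgroupOf N)).index := by
      have e1 : (sagTilde (T : Subgroup (↥N ⧸ H.subgroupOf N))).subgroupOf N =
          (T : Subgroup (↥N ⧸ H.subgroupOf N)).comap (QuotientGroup.mk' (H.subgroupOf N)) :=
        Subgroup.comap_map_eq_self_of_injective N.subtype_injective _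
      rw [Subgroup.relIndex, e1]
      exact Subgroup.index_comap_of_surjective _ (QuotientGroup.mk'_surjective _)
    rw [e]
    exact T.not_dvd_index

theorem exists_sylow_ge_sagTilde {H N : Subgroup G} [(H.subgroupOf N).Normal] {R : Subgroup G}
    (hRN : R ≤ N) (hR : IsPGroup p R) :
    ∃ T : Sylow p (↥N ⧸ H.subgroupOf N), R ≤ sagTilde (T : Subgroup (↥N ⧸ H.subgroupOf N)) := by
  have h1 : IsPGroup p ((R.subgroupOf N).map (QuotientGroup.mk' (H.subgroupOf N))) :=
    (isPGroup_subgroupOf hRN hR).map _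
  obtain ⟨T, hT⟩ := h1.exists_le_sylow
  refine ⟨T, fun x hx => ?_⟩
  have h2 : ((⟨x, hRN hx⟩ : ↥N) : G) ∈ sagTilde (T : Subgroup (↥N ⧸ H.subgroupOf N)) := by
    rw [mem_sagTilde]
    exact hT ⟨⟨x, hRN hx⟩, by simpa [Subgroup.mem_subgroupOf] using hx, rfl⟩
  exact h2

/-- Conjugations between members of the Sylow family with large overlap. -/
theorem sag_adj {P U N Q : Subgroup G} (hQP : Q ≤ P) (hUQ : U ≤ Q)
    (hNU : ∀ n ∈ N, conjS n U = U)
    (IH : ∀ T : Subgroup G, T ≤ P → Nat.card U < Nat.card T → ∀ g : G, conjS g T ≤ P → SGood p P (T : Set G) g)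
    {u : G} (hu : u ∈ N) (hlt : U < Q ⊓ conjS u Q) : SGood p P (U : Set G) u := by
  have h1 : conjS u⁻¹ (Q ⊓ conjS u Q) ≤ P := by
    rw [conjS_inf, conjS_inv_conjS]
    exact inf_le_right.trans hQP
  have h2 : Nat.card U < Nat.card (conjS u⁻¹ (Q ⊓ conjS u Q)) := by
    rw [card_conjS]
    exact card_lt_of_lt' hlt
  have h3 : conjS u (conjS u⁻¹ (Q ⊓ conjS u Q)) ≤ P := by
    rw [conjS_conjS_inv]
    exact inf_le_left.trans hQP
  have h4 := IH _ h1 h2 u h3
  have h5 : U ≤ conjS u⁻¹ (Q ⊓ conjS u Q) := by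
    rw [← conjS_le_iff, hNU u hu]
    exact hlt.le
  exact (sgoodGroupoid P).mono h5 h4

/-- The connected case. -/
theorem sag_connected_case {P U N : Subgroup G} [(U.subgroupOf N).Normal] (hU : U ≤ P) (hPp : IsPGroup p P)
    (hUN : U ≤ N) (hNU : ∀ n ∈ N, conjS n U = U)
    (hfn : SylowIn p (P ⊓ N) N) (hlt : U < P ⊓ N)
    (IH : ∀ T : Subgroup G, T ≤ P → Nat.card U < Nat.card T → ∀ g : G, conjS g T ≤ P → SGood p P (T : Set G) g)
    (hconn : IsSylowChainConnected p (↥N ⧸ U.subgroupOf N))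
    {y : G} (hy : y ∈ N) : SGood p P (U : Set G) y := by
  classical
  have hUp : IsPGroup p U := hPp.to_le hU
  obtain ⟨Q, hQdef⟩ : ∃ Q, Q = P ⊓ N := ⟨_, rfl⟩
  rw [← hQdef] at hfn hlt
  have hQP : Q ≤ P := hQdef ▸ inf_le_left
  have hG := sgoodGroupoid (p := p) P
  -- conjugates of `U`
  have hlc : ∀ u ∈ N, lconj u (U : Set G) = U := by
    intro u hu
    rw [lconj_coe, hNU u hu]
  -- composition
  have hcomp : ∀ u w : G, u ∈ N → SGood p P (U : Set G) u → SGood p P (U : Set G) w →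
      SGood p P (U : Set G) (w * u) := by
    intro u w hu h1 h2
    refine hG.comp h1 ?_
    rwa [hlc u hu]
  let Φ : Sylow p (↥N ⧸ U.subgroupOf N) → Prop := fun T =>
    ∃ w ∈ N, SGood p P (U : Set G) w ∧ conjS w Q = sagTilde (T : Subgroup (↥N ⧸ U.subgroupOf N))
  have hstep : ∀ T T' : Sylow p (↥N ⧸ U.subgroupOf N), Φ T → Cfsg.Agent.Lib.FF.SAdj T T' → Φ T' := by
    rintro T T' ⟨w, hw, hwg, he⟩ ⟨-, hne⟩
    obtain ⟨⟨t, ht⟩, ht1'⟩ := Subgroup.ne_bot_iff_exists_ne_one.1 hne
    have ht1 : t ≠ 1 := fun h => ht1' (Subtype.ext h)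
    obtain ⟨x, rfl⟩ := QuotientGroup.mk_surjective t
    have hT := sylowIn_sagTilde hUp hUN T
    have hT' := sylowIn_sagTilde hUp hUN T'
    obtain ⟨v, hv, hve⟩ := hT.exists_conj_eq hT'
    have hxU : (x : G) ∉ U := by
      intro hxU
      apply ht1
      rw [QuotientGroup.eq_one_iff, Subgroup.mem_subgroupOf]
      exact hxU
    have hD : U < sagTilde (T : Subgroup (↥N ⧸ U.subgroupOf N)) ⊓
        sagTilde (T' : Subgroup (↥N ⧸ U.subgroupOf N)) := by
      refine lt_of_le_of_ne (le_inf (le_sagTilde hUN _) (le_sagTilde hUN _)) ?_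
      intro h
      apply hxU
      rw [h]
      exact ⟨mem_sagTilde.2 ht.1, mem_sagTilde.2 ht.2⟩
    set u := w⁻¹ * v * w with hu
    have huN : u ∈ N := N.mul_mem (N.mul_mem (N.inv_mem hw) hv) hw
    have e1 : conjS u Q = conjS w⁻¹ (sagTilde (T' : Subgroup (↥N ⧸ U.subgroupOf N))) := by
      rw [hu, conjS_mul, conjS_mul, he, hve]
    have e2 : Q = conjS w⁻¹ (sagTilde (T : Subgroup (↥N ⧸ U.subgroupOf N))) := by
      rw [← he, conjS_inv_conjS]
    have hlt2 : U < Q ⊓ conjS u Q := by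
      have h3 := sag_conjS_lt w⁻¹ hD
      rw [hNU _ (N.inv_mem hw), conjS_inf, ← e1, ← e2] at h3
      exact h3
    have hug := sag_adj hQP hlt.le hNU IH huN hlt2
    refine ⟨w * u, N.mul_mem hw huN, hcomp u w huN hug hwg, ?_⟩
    have e3 : w * u = v * w := by rw [hu]; group
    rw [e3, conjS_mul, he, hve]
  -- start and end
  have hcq : SylowIn p (conjS y Q) N := by
    have := hfn.conj y
    rwa [conjS_eq_of_mem hy] at this
  obtain ⟨T₀, hT₀⟩ := exists_sylow_ge_sagTilde (H := U) hfn.1 hfn.2.1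
  have e₀ : sagTilde (T₀ : Subgroup (↥N ⧸ U.subgroupOf N)) = Q :=
    hfn.eq_of_le hT₀ (sagTilde_le _) (sylowIn_sagTilde hUp hUN T₀).2.1
  have hΦ₀ : Φ T₀ := ⟨1, N.one_mem, ⟨1, 1, CChain.nil _, conjS_one _, fun a _ => by simp⟩, by
    rw [conjS_one, e₀]⟩
  have hall : ∀ T, Φ T := by
    intro T
    have hr := Cfsg.Agent.Lib.FF.adj_of_connected hconn T₀ T
    induction hr with
    | refl => exact hΦ₀
    | tail _ hab ih => exact hstep _ _ ih hab
  obtain ⟨T₁, hT₁⟩ := exists_sylow_ge_sagTilde (H := U) hcq.1 hcq.2.1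
  have e₁ : sagTilde (T₁ : Subgroup (↥N ⧸ U.subgroupOf N)) = conjS y Q :=
    hcq.eq_of_le hT₁ (sagTilde_le _) (sylowIn_sagTilde hUp hUN T₁).2.1
  obtain ⟨w, hw, hwg, he⟩ := hall T₁
  rw [e₁] at he
  have huN : w⁻¹ * y ∈ N := N.mul_mem (N.inv_mem hw) hy
  have e2 : conjS (w⁻¹ * y) Q = Q := by
    rw [conjS_mul, ← he, conjS_inv_conjS]
  have hu1 : SGood p P (Q : Set G) (w⁻¹ * y) :=
    IH Q hQP (card_lt_of_lt' hlt) _ (by rw [e2]; exact hQP)
  have hu2 : SGood p P (U : Set G) (w⁻¹ * y) := hG.mono hlt.le hu1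
  have := hcomp _ w huN hu2 hwg
  simpa using this

/-- The disconnected case. -/
theorem sag_disconnected_case {P U : Subgroup G} (hU : U ≤ P) (hPp : IsPGroup p P)
    (hfn : FullyNorm p P U)
    (h1 : (P ⊓ Subgroup.normalizer (U : Set G)) ⊓ coreX p (Subgroup.normalizer (U : Set G)) ≤ U)
    (h2 : (P ⊓ Subgroup.normalizer (U : Set G)) ⊓ Subgroup.centralizer (U : Set G) ≤ U)
    (IH : ∀ T : Subgroup G, T ≤ P → Nat.card U < Nat.card T → ∀ g : G, conjS g T ≤ P → SGood p P (T : Set G) g)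
    (hc : ¬ IsSylowChainConnected p (↥(Subgroup.normalizer (U : Set G)) ⧸
      U.subgroupOf (Subgroup.normalizer (U : Set G))))
    {y : G} (hy : y ∈ Subgroup.normalizer (U : Set G)) : SGood p P (U : Set G) y := by
  classical
  have hUp : IsPGroup p U := hPp.to_le hU
  have hG := sgoodGroupoid (p := p) P
  have hUN : U ≤ Subgroup.normalizer (U : Set G) := Subgroup.le_normalizer
  obtain ⟨X, hUX, hXN, hXn, hXd, hXm⟩ := sag_exists_X hUN hc
  have hfam : SAGFam p P U X := by
    refine ⟨hU, hfn.2.2, ?_, ?_, hc, hUX, hXN, hXn, hXd, hXm⟩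
    · rintro x ⟨hx1, hx2⟩
      exact h2 ⟨⟨hx1, Subgroup.centralizer_le_normalizer _ hx2⟩, hx2⟩
    · refine le_antisymm ?_ ?_
      · refine (coreX_le_sup hfn).trans (sup_le (h1.trans le_sup_left) ?_)
        refine le_trans ?_ le_sup_right
        intro e he
        rw [Subgroup.mem_centralizer_iff]
        intro u hu
        exact (commute_of_coreE Subgroup.le_normalizer le_rfl hUp he hu).symm
      · exact sup_le (le_coreX Subgroup.le_normalizer le_rfl hUp) (centralizer_le_coreX hUp hfn h2)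
  set N := Subgroup.normalizer (U : Set G) with hNdef
  set Q := P ⊓ N with hQdef
  have hNX : N ≤ Subgroup.normalizer (X : Set G) := by
    intro n hn
    apply mem_normalizer_of_conjS_le
    rintro _ ⟨x, hx, rfl⟩
    have h3 := hXn.conj_mem ⟨x, hXN hx⟩ hx ⟨n, hn⟩
    exact h3
  have hT : SylowIn p (Q ⊓ X) X := hfn.inf_of_normal hXN hNX
  obtain ⟨k, hk, hkn⟩ := frattini_in hT (mem_normalizer_iff_conjS.1 (hNX hy))
  obtain ⟨t, ht, v, hv, hkv⟩ := exists_mul_pResidual hT.toSylow (⟨k, hk⟩ : ↥X)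
  have ht' : (t : G) ∈ Q ⊓ X := ht
  have hkv' : k = (t : G) * (v : G) := congrArg Subtype.val hkv
  haveI := pResidual_normal (↥X) p
  have hx : ((t * v * t⁻¹ : ↥X) : G) ∈ (pResidual p ↥X).map X.subtype :=
    ⟨t * v * t⁻¹, (inferInstance : (pResidual p ↥X).Normal).conj_mem v hv t, rfl⟩
  set x : G := ((t * v * t⁻¹ : ↥X) : G) with hxdef
  set n : G := (t : G) * (k⁻¹ * y) with hndef
  have hyxn : y = x * n := by
    rw [hxdef, hndef, hkv']
    simp only [Subgroup.coe_mul, InvMemClass.coe_inv]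
    group
  have htN : (t : G) ∈ N := hXN t.2
  have hkN : k ∈ N := hXN hk
  have hnN : n ∈ N := N.mul_mem htN (N.mul_mem (N.inv_mem hkN) hy)
  have hnn : n ∈ Subgroup.normalizer ((Q ⊓ X : Subgroup G) : Set G) :=
    Subgroup.mul_mem _ (Subgroup.le_normalizer ht') hkn
  have hUQ : U ≤ Q := le_inf hU hUN
  have hlt : U < Q ⊓ X := by
    refine lt_of_le_of_ne (le_inf hUQ hUX) ?_
    intro he
    apply hT.2.2
    rw [← he]
    exact hXd
  have hT₁P : Q ⊓ X ≤ P := inf_le_left.trans inf_le_left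
  have h3 : SGood p P ((Q ⊓ X : Subgroup G) : Set G) n :=
    IH _ hT₁P (card_lt_of_lt' hlt) n (by rw [mem_normalizer_iff_conjS.1 hnn]; exact hT₁P)
  have h4 : SGood p P (U : Set G) n := hG.mono hlt.le h3
  have h5 : SGood p P (U : Set G) x := by
    refine ⟨x⁻¹, 1, CChain.single ⟨X, hfam, Subgroup.inv_mem _ hx⟩ subset_rfl, conjS_one _, fun a _ => ?_⟩
    group
  have h6 : SGood p P (lconj n (U : Set G)) x := by
    rwa [lconj_coe, mem_normalizer_iff_conjS.1 hnN]
  rw [hyxn]
  exact hG.comp h4 h6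

/-- The local step. -/
theorem sagStep_main {P : Subgroup G} (hP : SylowIn p P ⊤) {U : Subgroup G} (hU : U ≤ P)
    (hfn : FullyNorm p P U)
    (IH : ∀ T : Subgroup G, T ≤ P → Nat.card U < Nat.card T → ∀ g : G, conjS g T ≤ P → SGood p P (T : Set G) g)
    {y : G} (hy : y ∈ Subgroup.normalizer (U : Set G)) : SGood p P (U : Set G) y := by
  classical
  have hUp : IsPGroup p U := hP.2.1.to_le hU
  by_cases hUP : U = P
  · subst hUP
    refine ⟨1, y⁻¹, CChain.nil _, ?_, fun a _ => by group⟩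
    exact mem_normalizer_iff_conjS.1 (Subgroup.inv_mem _ hy)
  set N := Subgroup.normalizer (U : Set G) with hNdef
  set Q := P ⊓ N with hQdef
  have hUQ : U ≤ Q := le_inf hU Subgroup.le_normalizer
  have hG := sgoodGroupoid (p := p) P
  by_cases h1 : Q ⊓ coreX p N ≤ U
  · by_cases h2 : Q ⊓ Subgroup.centralizer (U : Set G) ≤ U
    · by_cases hc : IsSylowChainConnected p (↥N ⧸ U.subgroupOf N)
      · have hQlt : U < Q := lt_inf_normalizer hP.2.1 (lt_of_le_of_ne hU hUP)
        exact sag_connected_case hU hP.2.1 Subgroup.le_normalizer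
          (fun n hn => mem_normalizer_iff_conjS.1 hn) hfn hQlt IH hc hy
      · exact sag_disconnected_case hU hP.2.1 hfn h1 h2 IH hc hy
    · -- enlarge by the centralizer
      set C := Subgroup.centralizer (U : Set G) with hCdef
      have hCN : C ≤ N := Subgroup.centralizer_le_normalizer _
      have hNC : N ≤ Subgroup.normalizer (C : Set G) := by
        intro y hy
        rw [mem_normalizer_iff_conjS, hCdef, ← conj_centralizer_subgroup, mem_normalizer_iff_conjS.1 hy]
      have hQ₂ : SylowIn p (Q ⊓ C) C := hfn.inf_of_normal hCN hNC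
      obtain ⟨k, hk, hn⟩ := frattini_in hQ₂ (mem_normalizer_iff_conjS.1 (hNC hy))
      set n := k⁻¹ * y with hn'
      have hnN : n ∈ N := N.mul_mem (N.inv_mem (hCN hk)) hy
      set T₂ := U ⊔ (Q ⊓ C) with hT₂
      have hT₂P : T₂ ≤ P := sup_le hU (inf_le_left.trans inf_le_left)
      have hlt : U < T₂ := by
        refine lt_of_le_of_ne le_sup_left ?_
        intro he
        exact h2 (by rw [he]; exact le_sup_right)
      have hnT : conjS n T₂ = T₂ := by
        unfold conjS
        rw [hT₂, Subgroup.map_sup]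
        congr 1
        · exact mem_normalizer_iff_conjS.1 hnN
        · exact mem_normalizer_iff_conjS.1 hn
      have h3 : SGood p P (T₂ : Set G) n := IH T₂ hT₂P (card_lt_of_lt' hlt) n (by rw [hnT]; exact hT₂P)
      have h4 : SGood p P (U : Set G) n := hG.mono (fun x hx => (le_sup_left : U ≤ T₂) hx) h3
      refine sgood_congr h4 ?_
      intro a ha
      have e : y = k * n := by rw [hn']; group
      rw [e]
      exact conj_mul_eq_of_commute (fun u hu => (Subgroup.mem_centralizer_iff.1 hk u hu).symm) hnN ha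
  · -- enlarge by `O_{p',p}`
    obtain ⟨e, he, hn⟩ := exists_frattini_coreE hfn hy
    set n := e⁻¹ * y with hn'
    have heN : e ∈ N := coreE_le N he
    have hnN : n ∈ N := N.mul_mem (N.inv_mem heN) hy
    set T₁ := Q ⊓ coreX p N with hT₁
    have hT₁P : T₁ ≤ P := inf_le_left.trans inf_le_left
    have hUT : U ≤ T₁ := le_inf hUQ (le_coreX Subgroup.le_normalizer le_rfl hUp)
    have hlt : U < T₁ := lt_of_le_of_ne hUT (fun he => h1 (by rw [he]))
    have h3 : SGood p P (T₁ : Set G) n :=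
      IH T₁ hT₁P (card_lt_of_lt' hlt) n (by rw [mem_normalizer_iff_conjS.1 hn]; exact hT₁P)
    have h4 : SGood p P (U : Set G) n := hG.mono hUT h3
    refine sgood_congr h4 ?_
    intro a ha
    have e' : y = e * n := by rw [hn']; group
    rw [e']
    exact conj_mul_eq_of_commute (fun u hu => commute_of_coreE Subgroup.le_normalizer le_rfl hUp he hu) hnN ha

/-- The strong Alperin--Goldschmidt theorem, chain form. -/
theorem sag_main {P : Subgroup G} (hP : SylowIn p P ⊤) :
    ∀ T : Subgroup G, T ≤ P → ∀ g : G, conjS g T ≤ P → SGood p P (T : Set G) g := by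
  have key : ∀ (n m : ℕ), Nat.card P - m = n → ∀ T : Subgroup G, T ≤ P → m < Nat.card T →
      ∀ g : G, conjS g T ≤ P → SGood p P (T : Set G) g := by
    intro n
    induction n using Nat.strong_induction_on with
    | _ n ih =>
      intro m hm
      by_cases hle : Nat.card P ≤ m
      · intro T hT hlt
        have := Subgroup.card_le_of_le hT
        omega
      · refine good_main' hP (sgoodGroupoid P) m ?_
        intro U hU hmU hfn y hy
        have hIH : ∀ T : Subgroup G, T ≤ P → m + 1 < Nat.card T → ∀ g : G, conjS g T ≤ P →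
            SGood p P (T : Set G) g := ih _ (by omega) (m + 1) rfl
        refine sagStep_main hP hU hfn ?_ hy
        intro T hT hlt g hg
        exact hIH T hT (by omega) g hg
  intro T hT g hg
  exact key _ 0 rfl T hT Nat.card_pos g hg

end Tilde

end Cfsg.Agent.Lib.Techniques
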