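import Mathlib
import Cfsg.Agent.Lib.Core.Subnormal
import Cfsg.Agent.Lib.Subnormal.Join
import Cfsg.Agent.S0064
import Cfsg.Agent.Lib.FF.SylowIn

/-!
# Counting the subnormalizer of a `p`-subgroup

For a `p`-subgroup `H` of a finite group `G`, the set of `g` with `H` subnormal in `⟨H, g⟩` is the
set of elements normalizing some `p`-subgroup over `H`.  Its size is the number of Sylow subgroups
over `H` times the order of a Sylow normalizer.  The proof uses the signed chain count `chi` of a
finite poset: `chi` is `1` on posets with a least element, and it is unchanged by a closure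
retraction.
-/

set_option autoImplicit false

namespace Cfsg.Agent.Lib.Techniques.SubnormCount

open Subgroup

section Poset

variable {α : Type*} (lt : α → α → Prop)

open Classical in
/-- Fuel version of the signed chain count. -/
noncomputable def chiAux : ℕ → Finset α → ℤ
  | 0, _ => 0
  | n + 1, s => ∑ x ∈ s, (1 - chiAux n (s.filter (lt x)))

/-- Signed count of the nonempty chains of the finite set `s` with order relation `lt`. -/
noncomputable def chi (s : Finset α) : ℤ := chiAux lt s.card s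

variable {lt}

open Classical in
theorem card_filter_lt (hirr : ∀ a, ¬ lt a a) {s : Finset α} {x : α} (hx : x ∈ s) :
    (s.filter (lt x)).card < s.card := by
  apply Finset.card_lt_card
  refine ⟨Finset.filter_subset _ _, fun h => ?_⟩
  exact hirr x (Finset.mem_filter.mp (h hx)).2

open Classical in
theorem chiAux_stable (hirr : ∀ a, ¬ lt a a) : ∀ (n m : ℕ) (s : Finset α), s.card ≤ n → s.card ≤ m →
    chiAux lt n s = chiAux lt m s := by
  intro n
  induction n with
  | zero =>
    intro m s h1 h2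
    have : s = ∅ := Finset.card_eq_zero.mp (by omega)
    subst this
    cases m <;> simp [chiAux]
  | succ n ih =>
    intro m s h1 h2
    cases m with
    | zero =>
      have : s = ∅ := Finset.card_eq_zero.mp (by omega)
      subst this
      simp [chiAux]
    | succ m =>
      simp only [chiAux]
      refine Finset.sum_congr rfl fun x hx => ?_
      have := card_filter_lt hirr hx
      rw [ih m _ (by omega) (by omega)]

open Classical in
theorem chi_eq (hirr : ∀ a, ¬ lt a a) (s : Finset α) :
    chi lt s = ∑ x ∈ s, (1 - chi lt (s.filter (lt x))) := by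
  by_cases hs : s = ∅
  · subst hs; simp [chi, chiAux]
  · obtain ⟨k, hk⟩ : ∃ k, s.card = k + 1 := Nat.exists_eq_succ_of_ne_zero (by simpa using hs)
    unfold chi
    rw [hk]
    simp only [chiAux]
    refine Finset.sum_congr rfl fun x hx => ?_
    have := card_filter_lt hirr hx
    rw [chiAux_stable hirr k (s.filter (lt x)).card _ (by omega) le_rfl]

theorem chi_empty : chi lt (∅ : Finset α) = 0 := by
  simp [chi, chiAux]

open Classical in
theorem sum_wt (hirr : ∀ a, ¬ lt a a) (htr : ∀ a b c, lt a b → lt b c → lt a c)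
    {s : Finset α} {x : α} (hx : x ∈ s) :
    ∑ y ∈ s.filter (fun y => y = x ∨ lt x y), (1 - chi lt (s.filter (lt y))) = 1 := by
  have h1 : s.filter (fun y => y = x ∨ lt x y) = insert x (s.filter (lt x)) := by
    ext y
    simp only [Finset.mem_filter, Finset.mem_insert]
    constructor
    · rintro ⟨hy, rfl | h⟩
      · exact Or.inl rfl
      · exact Or.inr ⟨hy, h⟩
    · rintro (rfl | ⟨hy, h⟩)
      · exact ⟨hx, Or.inl rfl⟩
      · exact ⟨hy, Or.inr h⟩
  have hnot : x ∉ s.filter (lt x) := fun h => hirr x (Finset.mem_filter.mp h).2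
  rw [h1, Finset.sum_insert hnot]
  have h2 : ∑ y ∈ s.filter (lt x), (1 - chi lt (s.filter (lt y))) = chi lt (s.filter (lt x)) := by
    rw [chi_eq hirr (s.filter (lt x))]
    refine Finset.sum_congr rfl fun y hy => ?_
    have : s.filter (lt y) = (s.filter (lt x)).filter (lt y) := by
      ext z
      simp only [Finset.mem_filter]
      constructor
      · rintro ⟨h1, h2⟩
        exact ⟨⟨h1, htr _ _ _ (Finset.mem_filter.mp hy).2 h2⟩, h2⟩
      · rintro ⟨⟨h1, _⟩, h2⟩
        exact ⟨h1, h2⟩
    rw [this]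
  rw [h2]; ring

open Classical in
theorem chi_of_min (hirr : ∀ a, ¬ lt a a) (htr : ∀ a b c, lt a b → lt b c → lt a c)
    {s : Finset α} {m : α} (hm : m ∈ s) (hmin : ∀ x ∈ s, x = m ∨ lt m x) : chi lt s = 1 := by
  have h := sum_wt hirr htr hm
  have h2 : s.filter (fun y => y = m ∨ lt m y) = s :=
    Finset.filter_true_of_mem hmin
  rw [h2] at h
  rw [chi_eq hirr, h]

open Classical in
theorem chi_closure_flip (hirr : ∀ a, ¬ lt a a) (htr : ∀ a b c, lt a b → lt b c → lt a c)
    {s t : Finset α} (hts : t ⊆ s) (f : α → α) (hf : ∀ x ∈ s, f x ∈ t)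
    (hc : ∀ y ∈ t, ∀ x ∈ s, (y = x ∨ lt y x) ↔ (y = f x ∨ lt y (f x))) :
    chi lt s = chi (fun a b => lt b a) t := by
  have hirr' : ∀ a, ¬ (fun a b => lt b a) a a := hirr
  have htr' : ∀ a b c, (fun a b => lt b a) a b → (fun a b => lt b a) b c → (fun a b => lt b a) a c :=
    fun a b c h1 h2 => htr c b a h2 h1
  obtain ⟨W, hW⟩ : ∃ W : α → ℤ, W = fun x => 1 - chi lt (s.filter (lt x)) := ⟨_, rfl⟩
  obtain ⟨D, hD⟩ : ∃ D : α → ℤ, D = fun y => 1 - chi (fun a b => lt b a) (t.filter (fun z => lt z y)) :=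
    ⟨_, rfl⟩
  have h1 : ∀ x ∈ s, ∑ y ∈ t, (if y = x ∨ lt y x then D y else 0) = 1 := by
    intro x hx
    rw [← Finset.sum_filter]
    have h3 := sum_wt (lt := fun a b => lt b a) hirr' htr' (hf x hx)
    have h4 : t.filter (fun y => y = x ∨ lt y x) = t.filter (fun y => y = f x ∨ lt y (f x)) :=
      Finset.filter_congr fun y hy => hc y hy x hx
    rw [h4, hD]
    exact h3
  have h2 : ∀ y ∈ t, ∑ x ∈ s, (if y = x ∨ lt y x then W x else 0) = 1 := by
    intro y hy
    rw [← Finset.sum_filter]
    have h3 := sum_wt hirr htr (hts hy)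
    have h4 : s.filter (fun x => y = x ∨ lt y x) = s.filter (fun x => x = y ∨ lt y x) :=
      Finset.filter_congr fun x _ => by rw [eq_comm]
    rw [h4, hW]
    exact h3
  calc chi lt s = ∑ x ∈ s, W x := by rw [chi_eq hirr, hW]
    _ = ∑ x ∈ s, W x * ∑ y ∈ t, (if y = x ∨ lt y x then D y else 0) := by
        refine Finset.sum_congr rfl fun x hx => ?_
        rw [h1 x hx, mul_one]
    _ = ∑ x ∈ s, ∑ y ∈ t, (if y = x ∨ lt y x then W x * D y else 0) := by
        refine Finset.sum_congr rfl fun x _ => ?_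
        rw [Finset.mul_sum]
        refine Finset.sum_congr rfl fun y _ => ?_
        split_ifs <;> simp
    _ = ∑ y ∈ t, ∑ x ∈ s, (if y = x ∨ lt y x then W x * D y else 0) := Finset.sum_comm
    _ = ∑ y ∈ t, D y * ∑ x ∈ s, (if y = x ∨ lt y x then W x else 0) := by
        refine Finset.sum_congr rfl fun y _ => ?_
        rw [Finset.mul_sum]
        refine Finset.sum_congr rfl fun x _ => ?_
        split_ifs <;> simp [mul_comm]
    _ = ∑ y ∈ t, D y := by
        refine Finset.sum_congr rfl fun y hy => ?_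
        rw [h2 y hy, mul_one]
    _ = chi (fun a b => lt b a) t := by
        rw [chi_eq (lt := fun a b => lt b a) hirr' t, hD]

open Classical in
/-- A closure retraction `f` of `s` onto `t` does not change the signed chain count. -/
theorem chi_closure (hirr : ∀ a, ¬ lt a a) (htr : ∀ a b c, lt a b → lt b c → lt a c)
    {s t : Finset α} (hts : t ⊆ s) (f : α → α) (hf : ∀ x ∈ s, f x ∈ t)
    (hc : ∀ y ∈ t, ∀ x ∈ s, (y = x ∨ lt y x) ↔ (y = f x ∨ lt y (f x))) :
    chi lt s = chi lt t := by
  rw [chi_closure_flip hirr htr hts f hf hc,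
    chi_closure_flip hirr htr (Finset.Subset.refl t) id (fun _ h => h) (fun _ _ _ _ => Iff.rfl)]

end Poset

section Group

variable {G : Type*} [Group G] [Fintype G] [Fintype (Subgroup G)] (p : ℕ) [Fact p.Prime]

/-- The order relation on subgroups, as a bare relation. -/
abbrev sl : Subgroup G → Subgroup G → Prop := fun a b => a < b

theorem sl_irr : ∀ a : Subgroup G, ¬ sl a a := fun a => lt_irrefl a

theorem sl_tr : ∀ a b c : Subgroup G, sl a b → sl b c → sl a c := fun _ _ _ h1 h2 => lt_trans h1 h2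

open Classical in
/-- The poset of `p`-subgroups of `K` strictly above `R` normalized by `g`. -/
noncomputable def Tset (K R : Subgroup G) (g : G) : Finset (Subgroup G) :=
  Finset.univ.filter fun S => IsPGroup p S ∧ R < S ∧ S ≤ K ∧ g ∈ normalizer (S : Set G)

/-- `S` is a maximal `p`-subgroup of `K`. -/
def MaxIn (S K : Subgroup G) : Prop :=
  IsPGroup p S ∧ S ≤ K ∧ ∀ S' : Subgroup G, IsPGroup p S' → S' ≤ K → S ≤ S' → S' = S

variable {p}

theorem lt_inf_normalizer {S S' : Subgroup G} (hS' : IsPGroup p S') (h : S < S') :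
    S < S' ⊓ normalizer (S : Set G) := by
  haveI : Group.IsNilpotent S' := hS'.isNilpotent
  have hnc := Group.normalizerCondition_of_isNilpotent (G := S')
  have hlt : S.subgroupOf S' < ⊤ := by
    refine lt_of_le_of_ne le_top fun htop => h.not_ge ?_
    intro x hx
    have : (⟨x, hx⟩ : S') ∈ S.subgroupOf S' := htop ▸ mem_top _
    exact this
  have h2 := hnc _ hlt
  obtain ⟨hle, x, hx, hx2⟩ := SetLike.lt_iff_le_and_exists.mp h2
  refine SetLike.lt_iff_le_and_exists.mpr ⟨le_inf h.le le_normalizer, x.1, Subgroup.mem_inf.mpr ⟨x.2, ?_⟩, fun h3 => hx2 h3⟩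
  rw [mem_normalizer_iff] at hx ⊢
  intro z
  constructor
  · intro hz
    have hzS' : z ∈ S' := h.le hz
    have := (hx ⟨z, hzS'⟩).mp hz
    exact this
  · intro hz
    have h3 : x.1 * z * x.1⁻¹ ∈ S' := h.le hz
    have hzS' : z ∈ S' := by
      have := S'.mul_mem (S'.mul_mem (S'.inv_mem x.2) h3) x.2
      simpa [mul_assoc] using this
    have := (hx ⟨z, hzS'⟩).mpr hz
    exact this

theorem inf_normalizer_mem {S S' : Subgroup G} {g : G} (h1 : g ∈ normalizer (S' : Set G))
    (h2 : g ∈ normalizer (S : Set G)) : g ∈ normalizer ((S' ⊓ normalizer (S : Set G) : Subgroup G) : Set G) := by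
  rw [mem_normalizer_iff] at h1 ⊢
  intro z
  constructor
  · rintro ⟨hz1, hz2⟩
    exact ⟨(h1 z).mp hz1, Subgroup.mul_mem _ (Subgroup.mul_mem _ h2 hz2) (Subgroup.inv_mem _ h2)⟩
  · rintro ⟨hz1, hz2⟩
    refine ⟨(h1 z).mpr hz1, ?_⟩
    have := Subgroup.mul_mem _ (Subgroup.mul_mem _ (Subgroup.inv_mem _ h2) hz2) h2
    simpa [mul_assoc] using this

open Classical in
/-- Replacing `K` by `N_K(S)`: the retraction `S' ↦ N_{S'}(S)`. -/
theorem chi_T_normalizer {K S : Subgroup G} {g : G} (hgS : g ∈ normalizer (S : Set G)) :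
    chi sl (Tset p K S g) = chi sl (Tset p (K ⊓ normalizer (S : Set G)) S g) := by
  refine chi_closure sl_irr sl_tr ?_ (fun S' => S' ⊓ normalizer (S : Set G)) ?_ ?_
  · intro T hT
    simp only [Tset, Finset.mem_filter, Finset.mem_univ, true_and] at hT ⊢
    exact ⟨hT.1, hT.2.1, hT.2.2.1.trans inf_le_left, hT.2.2.2⟩
  · intro T hT
    simp only [Tset, Finset.mem_filter, Finset.mem_univ, true_and] at hT ⊢
    refine ⟨hT.1.to_le inf_le_left, lt_inf_normalizer hT.1 hT.2.1,
      inf_le_inf_right _ hT.2.2.1, inf_normalizer_mem hT.2.2.2 hgS⟩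
  · intro y hy x _
    simp only [Tset, Finset.mem_filter, Finset.mem_univ, true_and] at hy
    have hyN : y ≤ normalizer (S : Set G) := hy.2.2.1.trans inf_le_right
    show y = x ∨ y < x ↔ y = x ⊓ normalizer (S : Set G) ∨ y < x ⊓ normalizer (S : Set G)
    rw [← le_iff_eq_or_lt, ← le_iff_eq_or_lt]
    exact ⟨fun h => le_inf h hyN, fun h => h.trans inf_le_left⟩

theorem maxIn_inf_normalizer_iff {S K : Subgroup G} :
    MaxIn p S (K ⊓ normalizer (S : Set G)) ↔ MaxIn p S K := by
  constructor
  · rintro ⟨h1, h2, h3⟩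
    refine ⟨h1, h2.trans inf_le_left, fun S' hS' hK hle => ?_⟩
    by_contra hne
    have hlt : S < S' := lt_of_le_of_ne hle (Ne.symm hne)
    have h4 := lt_inf_normalizer hS' hlt
    have h5 := h3 (S' ⊓ normalizer (S : Set G)) (hS'.to_le inf_le_left)
      (inf_le_inf_right _ hK) h4.le
    exact h4.ne' h5
  · rintro ⟨h1, h2, h3⟩
    exact ⟨h1, le_inf h2 le_normalizer, fun S' hS' hK hle => h3 S' hS' (hK.trans inf_le_left) hle⟩

open Classical in
/-- The elements of `K`, as a finset. -/
noncomputable def elts (K : Subgroup G) : Finset G := Finset.univ.filter (· ∈ K)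

theorem mem_elts {K : Subgroup G} {g : G} : g ∈ elts K ↔ g ∈ K := by
  simp [elts]

theorem card_elts (K : Subgroup G) : ((elts K).card : ℤ) = Nat.card K := by
  classical
  have : (elts K).card = Nat.card K := by
    rw [Nat.card_eq_fintype_card, Fintype.card_subtype]
    simp only [elts]
  exact_mod_cast this

open Classical in
/-- The statement proved by induction on the `p`-subgroup `S`. -/
def PP (p : ℕ) (S : Subgroup G) : Prop :=
  ∀ K : Subgroup G, S ≤ K → K ≤ normalizer (S : Set G) →
    ∑ g ∈ elts K, chi sl (Tset p K S g) = if MaxIn p S K then 0 else (Nat.card K : ℤ)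

open Classical in
/-- Sum over a family closed upward among the `p`-subgroups of `K`. -/
theorem sum_family {K : Subgroup G} {U : Subgroup G → Prop} (hU1 : ∀ S, U S → IsPGroup p S)
    (hU2 : ∀ S, U S → S ≤ K)
    (hup : ∀ S S', U S → S < S' → IsPGroup p S' → S' ≤ K → U S') (hP : ∀ S, U S → PP p S) :
    ∑ g ∈ elts K, chi sl (Finset.univ.filter fun S => U S ∧ g ∈ normalizer (S : Set G)) =
      ∑ S ∈ Finset.univ.filter (fun S => U S ∧ MaxIn p S K),
        (Nat.card (K ⊓ normalizer (S : Set G) : Subgroup G) : ℤ) := by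
  have step1 : ∀ g ∈ elts K, chi sl (Finset.univ.filter fun S => U S ∧ g ∈ normalizer (S : Set G)) =
      ∑ S : Subgroup G, if U S ∧ g ∈ normalizer (S : Set G) then
        (1 - chi sl (Tset p (K ⊓ normalizer (S : Set G)) S g)) else 0 := by
    intro g _
    rw [chi_eq sl_irr, Finset.sum_filter]
    refine Finset.sum_congr rfl fun S _ => ?_
    split_ifs with hS
    · have h1 : (Finset.univ.filter fun S => U S ∧ g ∈ normalizer (S : Set G)).filter (sl S) =
          Tset p K S g := by
        ext T
        simp only [Tset, Finset.mem_filter, Finset.mem_univ, true_and]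
        constructor
        · rintro ⟨⟨h1, h2⟩, h3⟩
          exact ⟨hU1 T h1, h3, hU2 T h1, h2⟩
        · rintro ⟨h1, h2, h3, h4⟩
          exact ⟨⟨hup S T hS.1 h2 h1 h3, h4⟩, h2⟩
      rw [h1, chi_T_normalizer hS.2]
    · rfl
  rw [Finset.sum_congr rfl step1, Finset.sum_comm, Finset.sum_filter]
  refine Finset.sum_congr rfl fun S _ => ?_
  by_cases hS : U S
  · have hSK := hU2 S hS
    have h2 : ∑ g ∈ elts K, (if U S ∧ g ∈ normalizer (S : Set G) then
        (1 - chi sl (Tset p (K ⊓ normalizer (S : Set G)) S g)) else 0) =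
        ∑ g ∈ elts (K ⊓ normalizer (S : Set G)), (1 - chi sl (Tset p (K ⊓ normalizer (S : Set G)) S g)) := by
      have : elts (K ⊓ normalizer (S : Set G)) = (elts K).filter (fun g => U S ∧ g ∈ normalizer (S : Set G)) := by
        ext g
        simp only [mem_elts, Finset.mem_filter, mem_inf]
        tauto
      rw [this, Finset.sum_filter]
    rw [h2, Finset.sum_sub_distrib, hP S hS _ (le_inf hSK le_normalizer) inf_le_right]
    simp only [Finset.sum_const, smul_eq_mul, mul_one, nsmul_eq_mul, card_elts]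
    by_cases hM : MaxIn p S K
    · have hM' : MaxIn p S (K ⊓ normalizer (S : Set G)) := maxIn_inf_normalizer_iff.mpr hM
      simp [hS, hM, hM']
    · have hM' : ¬ MaxIn p S (K ⊓ normalizer (S : Set G)) := fun h => hM (maxIn_inf_normalizer_iff.mp h)
      simp [hM, hM']
  · simp [hS]

open Classical in
/-- The maximal `p`-subgroups of `K` and their normalizers in `K`. -/
theorem sum_maxIn (K : Subgroup G) :
    ∑ Q ∈ Finset.univ.filter (fun Q => MaxIn p Q K),
      (Nat.card (K ⊓ normalizer (Q : Set G) : Subgroup G) : ℤ) = Nat.card K := by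
  haveI : Fintype (Sylow p K) := Fintype.ofFinite _
  obtain ⟨Φ, hΦ⟩ : ∃ Φ : Sylow p K → Subgroup G, Φ = fun P : Sylow p K => (P : Subgroup K).map K.subtype := ⟨_, rfl⟩
  have hΦ' : ∀ P : Sylow p K, Φ P = (P : Subgroup K).map K.subtype := fun P => by rw [hΦ]
  have hΦinj : Function.Injective Φ := by
    intro P P' h
    rw [hΦ', hΦ'] at h
    exact Sylow.ext (Subgroup.map_injective K.subtype_injective h)
  have himg : Finset.univ.filter (fun Q => MaxIn p Q K) = Finset.univ.image Φ := by
    ext Q
    simp only [Finset.mem_filter, Finset.mem_univ, true_and, Finset.mem_image]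
    constructor
    · rintro ⟨h1, h2, h3⟩
      have hp : IsPGroup p (Q.subgroupOf K) := h1.comap_of_injective K.subtype K.subtype_injective
      obtain ⟨P, hP⟩ := hp.exists_le_sylow
      refine ⟨P, ?_⟩
      have hle : Q ≤ Φ P := by
        intro x hx
        rw [hΦ']
        exact ⟨⟨x, h2 hx⟩, hP hx, rfl⟩
      have hpP : IsPGroup p (Φ P) := by
        rw [hΦ']
        exact P.isPGroup'.map K.subtype
      have hK : Φ P ≤ K := by
        rw [hΦ']
        exact Subgroup.map_subtype_le _
      exact h3 _ hpP hK hle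
    · rintro ⟨P, rfl⟩
      rw [hΦ']
      refine ⟨P.isPGroup'.map K.subtype, Subgroup.map_subtype_le _, fun S' hS' hK hle => ?_⟩
      have hp : IsPGroup p (S'.subgroupOf K) := hS'.comap_of_injective K.subtype K.subtype_injective
      have hle2 : (P : Subgroup K) ≤ S'.subgroupOf K := by
        intro x hx
        exact hle ⟨x, hx, rfl⟩
      have := P.is_maximal' hp hle2
      rw [← this, Subgroup.map_subgroupOf_eq_of_le hK]
  rw [himg, Finset.sum_image (fun a _ b _ h => hΦinj h)]
  have hcard : ∀ P : Sylow p K, Nat.card (K ⊓ normalizer ((Φ P : Subgroup G) : Set G) : Subgroup G) =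
      Nat.card (normalizer ((P : Subgroup K) : Set K)) := by
    intro P
    have : K ⊓ normalizer ((Φ P : Subgroup G) : Set G) = (normalizer ((P : Subgroup K) : Set K)).map K.subtype := by
      rw [hΦ']
      apply le_antisymm
      · intro x hx
        obtain ⟨hxK, hxN⟩ := Subgroup.mem_inf.mp hx
        refine ⟨⟨x, hxK⟩, ?_, rfl⟩
        rw [mem_normalizer_iff] at hxN
        change (⟨x, hxK⟩ : K) ∈ normalizer ((P : Subgroup K) : Set K)
        rw [mem_normalizer_iff]
        intro z
        have h1 := hxN z.1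
        constructor
        · intro hz
          obtain ⟨w, hw, hw2⟩ := h1.mp ⟨z, hz, rfl⟩
          have : w = ⟨x, hxK⟩ * z * ⟨x, hxK⟩⁻¹ := Subtype.ext (by simpa using hw2)
          rwa [← this]
        · intro hz
          obtain ⟨w, hw, hw2⟩ := h1.mpr ⟨_, hz, rfl⟩
          have : w = z := Subtype.ext hw2
          rwa [← this]
      · rintro x ⟨y, hy, rfl⟩
        refine Subgroup.mem_inf.mpr ⟨y.2, ?_⟩
        rw [SetLike.mem_coe, mem_normalizer_iff] at hy
        rw [mem_normalizer_iff]
        intro z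
        constructor
        · rintro ⟨w, hw, rfl⟩
          exact ⟨y * w * y⁻¹, (hy w).mp hw, rfl⟩
        · rintro ⟨w, hw, hw2⟩
          have hzK : z = (y⁻¹ * w * y : K) := by
            have h3 : (y : G) * z * (y : G)⁻¹ = w := hw2.symm
            simp only [Subgroup.coe_mul, Subgroup.coe_inv, ← h3]
            group
          have h4 : y⁻¹ * w * y ∈ (P : Subgroup K) := by
            refine (hy _).mpr ?_
            have h5 : y * (y⁻¹ * w * y) * y⁻¹ = w := by group
            rw [h5]
            exact hw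
          exact ⟨_, h4, hzK.symm⟩
    rw [this]
    exact Subgroup.card_map_of_injective K.subtype_injective
  have hmul : ∀ P : Sylow p K, Nat.card (normalizer ((P : Subgroup K) : Set K)) * Nat.card (Sylow p K) = Nat.card K := by
    intro P
    rw [P.card_eq_index_normalizer]
    exact Subgroup.card_mul_index _
  have hne : Nat.card (Sylow p K) ≠ 0 := Nat.card_pos.ne'
  have hconst : ∀ P : Sylow p K, Nat.card (normalizer ((P : Subgroup K) : Set K)) = Nat.card K / Nat.card (Sylow p K) := by
    intro P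
    rw [← hmul P, Nat.mul_div_cancel _ (Nat.pos_of_ne_zero hne)]
  have hdvd : Nat.card (Sylow p K) ∣ Nat.card K := ⟨_, (by rw [← hmul default, mul_comm])⟩
  have hsum : ∑ P : Sylow p K, Nat.card (K ⊓ normalizer ((Φ P : Subgroup G) : Set G) : Subgroup G) = Nat.card K := by
    rw [Finset.sum_congr rfl (fun P _ => (hcard P).trans (hconst P))]
    rw [Finset.sum_const, Finset.card_univ, ← Nat.card_eq_fintype_card, smul_eq_mul,
      Nat.mul_div_cancel' hdvd]
  exact_mod_cast hsum

open Classical in
theorem pp_all : ∀ (n : ℕ) (R : Subgroup G), Nat.card G - Nat.card R = n → IsPGroup p R → PP p R := by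
  intro n
  induction n using Nat.strong_induction_on with
  | _ n ih =>
    intro R hn hR K hRK hKN
    obtain ⟨U, hU⟩ : ∃ U : Subgroup G → Prop, U = fun S : Subgroup G => IsPGroup p S ∧ R < S ∧ S ≤ K := ⟨_, rfl⟩
    have hfam : ∀ g, Tset p K R g = Finset.univ.filter fun S : Subgroup G => U S ∧ g ∈ normalizer (S : Set G) := by
      intro g
      ext T
      simp only [Tset, hU, Finset.mem_filter, Finset.mem_univ, true_and]
      tauto
    have hP : ∀ S, U S → PP p S := by
      intro S hS
      rw [hU] at hS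
      have hlt : Nat.card R < Nat.card S := by
        refine lt_of_le_of_ne (Subgroup.card_le_of_le hS.2.1.le) fun h => ?_
        exact hS.2.1.ne (Subgroup.eq_of_le_of_card_ge hS.2.1.le h.ge)
      have hle : Nat.card S ≤ Nat.card G := Subgroup.card_le_card_group S
      exact ih (Nat.card G - Nat.card S) (by omega) S rfl hS.1
    have h := sum_family (K := K) (U := U) (fun S hS => by rw [hU] at hS; exact hS.1)
      (fun S hS => by rw [hU] at hS; exact hS.2.2)
      (fun S S' hS hlt hp hK => by rw [hU] at hS ⊢; exact ⟨hp, hS.2.1.trans hlt, hK⟩) hP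
    simp only [hfam]
    rw [h]
    by_cases hM : MaxIn p R K
    · rw [if_pos hM]
      refine Finset.sum_eq_zero fun Q hQ => ?_
      exfalso
      simp only [hU, Finset.mem_filter, Finset.mem_univ, true_and] at hQ
      have := hM.2.2 Q hQ.1.1 hQ.1.2.2 hQ.1.2.1.le
      exact hQ.1.2.1.ne this.symm
    · rw [if_neg hM, ← sum_maxIn (p := p) K]
      refine Finset.sum_congr ?_ fun _ _ => rfl
      ext Q
      simp only [hU, Finset.mem_filter, Finset.mem_univ, true_and]
      constructor
      · exact fun h => h.2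
      · intro hQ
        have hsup : IsPGroup p (R ⊔ Q : Subgroup G) :=
          IsPGroup.to_sup_of_normal_left' hR hQ.1 (hQ.2.1.trans hKN)
        have h1 := hQ.2.2 _ hsup (sup_le hRK hQ.2.1) le_sup_right
        have h2 : R ≤ Q := by rw [← h1]; exact le_sup_left
        have h3 : R ≠ Q := by
          rintro rfl
          exact hM hQ
        exact ⟨⟨hQ.1, lt_of_le_of_ne h2 h3, hQ.2.1⟩, hQ⟩

/-- The `p`-subgroups over `H`. -/
def Uov (p : ℕ) (H S : Subgroup G) : Prop := IsPGroup p S ∧ H ≤ S

open Classical in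
/-- The count of the elements normalizing a `p`-subgroup over `H`, as a sum. -/
theorem sum_over {H : Subgroup G} :
    ∑ g ∈ elts (⊤ : Subgroup G),
        chi sl (Finset.univ.filter fun S : Subgroup G => Uov p H S ∧ g ∈ normalizer (S : Set G)) =
      ∑ S ∈ Finset.univ.filter (fun S : Subgroup G => Uov p H S ∧ MaxIn p S (⊤ : Subgroup G)),
        (Nat.card ((⊤ : Subgroup G) ⊓ normalizer (S : Set G) : Subgroup G) : ℤ) :=
  sum_family (K := ⊤) (U := Uov p H) (fun _ h => h.1)
    (fun _ _ => le_top) (fun _ _ h1 h2 h3 _ => ⟨h3, h1.2.trans h2.le⟩)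
    (fun S h => pp_all _ S rfl h.1)

open Classical in
theorem chi_fam {H : Subgroup G} (g : G) :
    chi sl (Finset.univ.filter fun S : Subgroup G => Uov p H S ∧ g ∈ normalizer (S : Set G)) =
      if ∃ S : Subgroup G, IsPGroup p S ∧ H ≤ S ∧ g ∈ normalizer (S : Set G) then 1 else 0 := by
  split_ifs with h
  · obtain ⟨S₀, h0, h1, h2⟩ := h
    obtain ⟨fam, hfam⟩ : ∃ fam : Finset (Subgroup G), fam = Finset.univ.filter fun S : Subgroup G =>
      Uov p H S ∧ g ∈ normalizer (S : Set G) := ⟨_, rfl⟩
    have hmem : ∀ S, S ∈ fam ↔ Uov p H S ∧ g ∈ normalizer (S : Set G) := by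
      intro S; simp [hfam]
    rw [← hfam]
    have hS₀ : S₀ ∈ fam := (hmem _).mpr ⟨⟨h0, h1⟩, h2⟩
    obtain ⟨m, hm⟩ : ∃ m : Subgroup G, m = sInf (fam : Set (Subgroup G)) := ⟨_, rfl⟩
    have hmle : ∀ S ∈ fam, m ≤ S := fun S hS => hm ▸ sInf_le hS
    have hmfam : m ∈ fam := by
      rw [hmem]
      refine ⟨⟨h0.to_le (hmle _ hS₀), ?_⟩, ?_⟩
      · rw [hm]
        exact le_sInf fun S hS => ((hmem S).mp hS).1.2
      · rw [mem_normalizer_iff]
        intro z
        rw [hm]
        simp only [Subgroup.mem_sInf]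
        constructor
        · intro hz S hS
          have := ((hmem S).mp hS).2
          rw [mem_normalizer_iff] at this
          exact (this z).mp (hz S hS)
        · intro hz S hS
          have := ((hmem S).mp hS).2
          rw [mem_normalizer_iff] at this
          exact (this z).mpr (hz S hS)
    exact chi_of_min sl_irr sl_tr hmfam fun x hx => by
      rcases eq_or_lt_of_le (hmle x hx) with h | h
      · exact Or.inl h.symm
      · exact Or.inr h
  · have : (Finset.univ.filter fun S : Subgroup G => Uov p H S ∧ g ∈ normalizer (S : Set G)) = ∅ := by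
      ext S
      simp only [Finset.mem_filter, Finset.mem_univ, true_and, Finset.notMem_empty, iff_false]
      rintro ⟨⟨h1, h2⟩, h3⟩
      exact h ⟨S, h1, h2, h3⟩
    rw [this, chi_empty]

end Group

section Count

/-- All fibres of size `m`. -/
theorem card_fiber {Y Z : Type*} [Finite Y] [Finite Z] (f : Y → Z) (m : ℕ)
    (hm : ∀ z, Nat.card {y // f y = z} = m) : Nat.card Y = Nat.card Z * m := by
  classical
  haveI : Fintype Z := Fintype.ofFinite Z
  rw [Nat.card_congr (Equiv.sigmaFiberEquiv f).symm, Nat.card_sigma]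
  simp [hm, Nat.card_eq_fintype_card]

/-- A function on a group whose fibres are the left cosets of `S`. -/
theorem coset_count {G Z : Type*} [Group G] [Finite G] (act : G → Z) (S : Subgroup G)
    (hact : ∀ g g', act g = act g' ↔ g⁻¹ * g' ∈ S) (A : Z → Prop) :
    Nat.card {g // A (act g)} = Nat.card {z // A z ∧ ∃ g, act g = z} * Nat.card S := by
  classical
  haveI : Finite {z // A z ∧ ∃ g, act g = z} := by
    have hinj : Function.Injective (fun z : {z // A z ∧ ∃ g, act g = z} => (⟨z.1, z.2.2⟩ : Set.range act)) := by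
      intro a b h
      exact Subtype.ext (congrArg (fun x : Set.range act => x.1) h)
    exact Finite.of_injective _ hinj
  refine card_fiber (fun g : {g // A (act g)} => (⟨act g.1, g.2, g.1, rfl⟩ : {z // A z ∧ ∃ g, act g = z}))
    _ ?_
  rintro ⟨z, hz, g₀, rfl⟩
  refine Nat.card_congr ⟨fun y => ⟨g₀⁻¹ * y.1.1, (hact _ _).mp (congrArg Subtype.val y.2).symm⟩,
    fun s => ⟨⟨g₀ * s.1, ?_⟩, ?_⟩, ?_, ?_⟩
  · have := (hact g₀ (g₀ * s.1)).mpr (by simpa using s.2)
    rw [← this]
    exact hz
  · have := (hact g₀ (g₀ * s.1)).mpr (by simpa using s.2)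
    exact Subtype.ext this.symm
  · rintro ⟨⟨y, h1⟩, h2⟩
    simp
  · rintro ⟨s, hs⟩
    simp

end Count

section Main

variable {G : Type*} [Group G] [Finite G] {p : ℕ} [Fact p.Prime]

/-- Subnormality in `⟨H, g⟩` means normalizing a `p`-subgroup over `H`. -/
theorem sn_iff {H : Subgroup G} (hH : IsPGroup p H) (g : G) :
    (H.subgroupOf (H ⊔ zpowers g)).IsSubnormal ↔
      ∃ S : Subgroup G, IsPGroup p S ∧ H ≤ S ∧ g ∈ normalizer (S : Set G) := by
  constructor
  · intro hsn
    obtain ⟨L, hL⟩ : ∃ L : Subgroup G, L = H ⊔ zpowers g := ⟨_, rfl⟩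
    rw [← hL] at hsn
    have hp2 : IsPGroup p (H.subgroupOf L) := hH.comap_of_injective L.subtype L.subtype_injective
    have h1 := Cfsg.Agent.Lib.Core.subnormal_pgroup_le_pCore p _ hsn hp2
    have hHL : H ≤ L := hL ▸ le_sup_left
    have hgL : g ∈ L := hL ▸ (le_sup_right : zpowers g ≤ H ⊔ zpowers g) (mem_zpowers g)
    refine ⟨(Cfsg.pCore p L).map L.subtype, (Cfsg.Agent.Lib.Core.pCore_isPGroup p L).map L.subtype,
      ?_, ?_⟩
    · intro h hh
      exact ⟨⟨h, hHL hh⟩, h1 hh, rfl⟩
    · have h2 := Subgroup.le_normalizer_map (H := Cfsg.pCore p L) L.subtype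
      refine h2 ⟨⟨g, hgL⟩, ?_, rfl⟩
      rw [Subgroup.normalizer_eq_top_iff.mpr (Cfsg.Agent.Lib.Core.pCore_normal p L)]
      exact mem_top _
  · rintro ⟨S, hS, hHS, hg⟩
    open Cfsg.Agent.Lib.Subnormal in
    have sn1 : SN (S ⊔ zpowers g) S :=
      SN.of_normal le_sup_left (sup_le le_normalizer ((zpowers_le).mpr hg))
    open Cfsg.Agent.Lib.Subnormal in
    have sn2 : SN S H :=
      sn_of_subgroupOf hHS (Cfsg.Agent.S0064.result.mp hS.isNilpotent _)
    open Cfsg.Agent.Lib.Subnormal in
    have sn3 := (sn1.trans sn2).of_le (le_sup_left : H ≤ H ⊔ zpowers g)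
      (sup_le (hHS.trans le_sup_left) le_sup_right)
    exact sn3.subgroupOf

end Main

section Main2

variable {G : Type*} [Group G] [Finite G] {p : ℕ} [Fact p.Prime]

/-- A maximal `p`-subgroup of `G`, as a Sylow subgroup. -/
def sylowOfMax {S : Subgroup G} (hS : MaxIn p S (⊤ : Subgroup G)) : Sylow p G where
  toSubgroup := S
  isPGroup' := hS.1
  is_maximal' := fun {Q'} hQ' hle => hS.2.2 Q' hQ' le_top hle

theorem card_normalizer_sylow (Q P : Sylow p G) :
    Nat.card (normalizer ((Q : Subgroup G) : Set G)) = Nat.card (normalizer ((P : Subgroup G) : Set G)) := by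
  have h1 : Nat.card (normalizer ((Q : Subgroup G) : Set G)) * Nat.card (Sylow p G) = Nat.card G := by
    rw [Q.card_eq_index_normalizer]
    exact Subgroup.card_mul_index _
  have h2 : Nat.card (normalizer ((P : Subgroup G) : Set G)) * Nat.card (Sylow p G) = Nat.card G := by
    rw [P.card_eq_index_normalizer]
    exact Subgroup.card_mul_index _
  have hne : 0 < Nat.card (Sylow p G) := Nat.card_pos
  exact Nat.eq_of_mul_eq_mul_right hne (h1.trans h2.symm)

/-- The size of the set of elements normalizing a `p`-subgroup over `H`. -/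
theorem count_sn (H : Subgroup G) (P : Sylow p G) :
    Nat.card {g : G // ∃ S : Subgroup G, IsPGroup p S ∧ H ≤ S ∧ g ∈ normalizer (S : Set G)} =
      Nat.card {Q : Sylow p G // H ≤ (Q : Subgroup G)} * Nat.card (normalizer ((P : Subgroup G) : Set G)) := by
  classical
  haveI : Fintype G := Fintype.ofFinite G
  haveI : Fintype (Subgroup G) := Fintype.ofFinite _
  have h := sum_over (p := p) (H := H)
  simp_rw [chi_fam] at h
  obtain ⟨F, hF⟩ : ∃ F : Finset (Subgroup G), F = Finset.univ.filter (fun S : Subgroup G =>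
      Uov p H S ∧ MaxIn p S (⊤ : Subgroup G)) := ⟨_, rfl⟩
  have hmemF : ∀ S, S ∈ F ↔ Uov p H S ∧ MaxIn p S (⊤ : Subgroup G) := by
    intro S; simp [hF]
  have hR : ∑ S ∈ Finset.univ.filter (fun S : Subgroup G => Uov p H S ∧ MaxIn p S (⊤ : Subgroup G)),
        (Nat.card ((⊤ : Subgroup G) ⊓ normalizer (S : Set G) : Subgroup G) : ℤ) =
      (F.card : ℤ) * Nat.card (normalizer ((P : Subgroup G) : Set G)) := by
    rw [← hF, Finset.card_eq_sum_ones, Nat.cast_sum, Finset.sum_mul]
    refine Finset.sum_congr rfl fun S hS => ?_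
    obtain ⟨_, hM⟩ := (hmemF S).mp hS
    rw [top_inf_eq]
    have := card_normalizer_sylow (sylowOfMax hM) P
    simp only [Nat.cast_one, one_mul]
    exact_mod_cast this
  have hcardF : F.card = Nat.card {Q : Sylow p G // H ≤ (Q : Subgroup G)} := by
    have e : {Q : Sylow p G // H ≤ (Q : Subgroup G)} ≃ {S // S ∈ F} :=
      Equiv.ofBijective (fun Q => ⟨(Q.1 : Subgroup G), (hmemF _).mpr
        ⟨⟨Q.1.isPGroup', Q.2⟩, Q.1.isPGroup', le_top, fun S' hS' _ hle => Q.1.is_maximal' hS' hle⟩⟩)
        ⟨fun Q Q' hQ => Subtype.ext (Sylow.ext (congrArg Subtype.val hQ)),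
          fun S => by
            obtain ⟨hU, hM⟩ := (hmemF _).mp S.2
            exact ⟨⟨sylowOfMax hM, hU.2⟩, Subtype.ext rfl⟩⟩
    rw [Nat.card_congr e, Nat.card_eq_fintype_card, Fintype.card_coe]
  have hL : ∑ g ∈ elts (⊤ : Subgroup G),
      (if ∃ S : Subgroup G, IsPGroup p S ∧ H ≤ S ∧ g ∈ normalizer (S : Set G) then (1 : ℤ) else 0) =
      Nat.card {g : G // ∃ S : Subgroup G, IsPGroup p S ∧ H ≤ S ∧ g ∈ normalizer (S : Set G)} := by
    rw [Finset.sum_boole, Nat.card_eq_fintype_card, Fintype.card_subtype]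
    congr 2
    ext g
    simp [mem_elts]
  rw [hL, hR, hcardF] at h
  exact_mod_cast h

theorem conj_eq_iff (K : Subgroup G) (g g' : G) :
    K.map (MulAut.conj g).toMonoidHom = K.map (MulAut.conj g').toMonoidHom ↔
      g⁻¹ * g' ∈ normalizer (K : Set G) := by
  rw [Cfsg.Agent.Lib.FF.mem_normalizer_iff_conj]
  constructor
  · intro h
    rw [← Cfsg.Agent.Lib.FF.conj_mul_conj, ← h, Cfsg.Agent.Lib.FF.conj_mul_conj, inv_mul_cancel,
      Cfsg.Agent.Lib.FF.conj_one']
  · intro h
    conv_lhs => rw [← h]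
    rw [Cfsg.Agent.Lib.FF.conj_mul_conj, mul_inv_cancel_left]

theorem sylow_smul_eq_map (g : G) (P : Sylow p G) :
    ((g • P : Sylow p G) : Subgroup G) = (P : Subgroup G).map (MulAut.conj g).toMonoidHom := rfl

theorem card_conj_fiber_sylow (H : Subgroup G) (P : Sylow p G) :
    Nat.card {g : G // H ≤ (P : Subgroup G).map (MulAut.conj g).toMonoidHom} =
      Nat.card {Q : Sylow p G // H ≤ (Q : Subgroup G)} * Nat.card (normalizer ((P : Subgroup G) : Set G)) := by
  have hc := coset_count (fun g : G => (P : Subgroup G).map (MulAut.conj g).toMonoidHom)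
    (normalizer ((P : Subgroup G) : Set G)) (conj_eq_iff _) (fun K => H ≤ K)
  rw [hc]
  congr 1
  refine (Nat.card_congr (Equiv.ofBijective (fun Q : {Q : Sylow p G // H ≤ (Q : Subgroup G)} =>
    (⟨(Q.1 : Subgroup G), Q.2, ?_⟩ : {z : Subgroup G // H ≤ z ∧ ∃ g : G, (P : Subgroup G).map (MulAut.conj g).toMonoidHom = z})) ⟨?_, ?_⟩)).symm
  · obtain ⟨g, hg⟩ := MulAction.exists_smul_eq G P Q.1
    exact ⟨g, by rw [← hg]; rfl⟩
  · intro Q Q' h
    exact Subtype.ext (Sylow.ext (congrArg Subtype.val h))
  · rintro ⟨z, hz, g, rfl⟩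
    exact ⟨⟨g • P, hz⟩, Subtype.ext rfl⟩

theorem card_conj_fiber_sub (H : Subgroup G) (P : Subgroup G) :
    Nat.card {g : G // H.map (MulAut.conj g).toMonoidHom ≤ P} =
      Nat.card {K : Subgroup G // K ≤ P ∧ ∃ g : G, K = H.map (MulAut.conj g).toMonoidHom} *
        Nat.card (normalizer (H : Set G)) := by
  have hc := coset_count (fun g : G => H.map (MulAut.conj g).toMonoidHom)
    (normalizer (H : Set G)) (conj_eq_iff _) (fun K => K ≤ P)
  rw [hc]
  congr 1
  exact Nat.card_congr (Equiv.subtypeEquivRight fun z => by simp only [eq_comm])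

theorem card_conj_inv (H P : Subgroup G) :
    Nat.card {g : G // H ≤ P.map (MulAut.conj g).toMonoidHom} =
      Nat.card {g : G // H.map (MulAut.conj g).toMonoidHom ≤ P} := by
  refine Nat.card_congr (Equiv.subtypeEquiv (Equiv.inv G) fun g => ?_)
  constructor
  · intro h
    rintro x ⟨y, hy, rfl⟩
    have := Cfsg.Agent.Lib.FF.mem_conj_iff.mp (h hy)
    simpa using this
  · intro h y hy
    rw [Cfsg.Agent.Lib.FF.mem_conj_iff]
    have := h ⟨y, hy, rfl⟩
    simpa using this

/-- Both counts of the subnormalizer of a `p`-subgroup. -/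
theorem main {H : Subgroup G} (hH : IsPGroup p H) (P : Sylow p G) :
    Nat.card {g : G // (H.subgroupOf (H ⊔ zpowers g)).IsSubnormal} =
        Nat.card {Q : Sylow p G // H ≤ (Q : Subgroup G)} * Nat.card (normalizer ((P : Subgroup G) : Set G)) ∧
    Nat.card {g : G // (H.subgroupOf (H ⊔ zpowers g)).IsSubnormal} =
        Nat.card {K : Subgroup G // K ≤ (P : Subgroup G) ∧ ∃ g : G, K = H.map (MulAut.conj g).toMonoidHom} *
          Nat.card (normalizer (H : Set G)) := by
  have h1 : Nat.card {g : G // (H.subgroupOf (H ⊔ zpowers g)).IsSubnormal} =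
      Nat.card {Q : Sylow p G // H ≤ (Q : Subgroup G)} * Nat.card (normalizer ((P : Subgroup G) : Set G)) := by
    rw [← count_sn H P]
    exact Nat.card_congr (Equiv.subtypeEquivRight fun g => sn_iff hH g)
  refine ⟨h1, ?_⟩
  rw [h1, ← card_conj_fiber_sylow H P, card_conj_inv, card_conj_fiber_sub]

end Main2

end Cfsg.Agent.Lib.Techniques.SubnormCount
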