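import Mathlib
import Cfsg.Agent.Lib.Techniques.SubnormCount

/-!
# The subnormalizer count along a normal chain

`Tc H P N` is the number of `g` with `H ≤ P^g N`.  Going down a normal series it changes by nothing
on `p`-factors and by the factor `|C_{M/N}(H)| / |M/N|` on `p'`-factors.
-/

set_option autoImplicit false

namespace Cfsg.Agent.Lib.Techniques.SubnormCount

open Subgroup
open Cfsg.Agent.Lib.FF (mem_conj_iff conj_mem_conj conj_mul_conj conj_one' conj_mono conj_eq_of_mem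
  mem_normalizer_iff_conj normal_conj_eq card_conj)

variable {G : Type*} [Group G] [Finite G] {p : ℕ} [Fact p.Prime]

/-- The elements `u` of `M` centralizing `H` modulo `N`. -/
def cSub (H N M : Subgroup G) [hN : N.Normal] [hM : M.Normal] : Subgroup G where
  carrier := {u | u ∈ M ∧ ∀ h ∈ H, h * u * h⁻¹ * u⁻¹ ∈ N}
  mul_mem' := by
    rintro a b ⟨ha, ha2⟩ ⟨hb, hb2⟩
    refine ⟨M.mul_mem ha hb, fun h hh => ?_⟩
    have h1 := N.mul_mem (ha2 h hh) (hN.conj_mem _ (hb2 h hh) a)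
    have h2 : h * (a * b) * h⁻¹ * (a * b)⁻¹ =
        h * a * h⁻¹ * a⁻¹ * (a * (h * b * h⁻¹ * b⁻¹) * a⁻¹) := by group
    rw [h2]; exact h1
  one_mem' := ⟨M.one_mem, fun h _ => by simp⟩
  inv_mem' := by
    rintro a ⟨ha, ha2⟩
    refine ⟨M.inv_mem ha, fun h hh => ?_⟩
    have h1 := hN.conj_mem _ (N.inv_mem (ha2 h hh)) a⁻¹
    have h2 : h * a⁻¹ * h⁻¹ * a⁻¹⁻¹ = a⁻¹ * (h * a * h⁻¹ * a⁻¹)⁻¹ * a⁻¹⁻¹ := by group
    rw [h2]; exact h1

theorem mem_cSub {H N M : Subgroup G} [N.Normal] [M.Normal] {u : G} :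
    u ∈ cSub H N M ↔ u ∈ M ∧ ∀ h ∈ H, h * u * h⁻¹ * u⁻¹ ∈ N := Iff.rfl

theorem le_cSub {H N M : Subgroup G} [hN : N.Normal] [M.Normal] (hNM : N ≤ M) : N ≤ cSub H N M := by
  intro u hu
  refine ⟨hNM hu, fun h _ => ?_⟩
  have h1 := N.mul_mem (hN.conj_mem _ hu h) (N.inv_mem hu)
  exact h1

/-- In a `p'`-factor `M/N`, a `p`-element of `M` lies in `N`. -/
theorem mem_of_pow_of_coprime {N M : Subgroup G} [hN : N.Normal] (hNM : N ≤ M)
    (hc : (N.relIndex M).Coprime p) {q : G} (hqM : q ∈ M) {k : ℕ} (hq : q ^ p ^ k = 1) : q ∈ N := by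
  have h1 : q ^ N.relIndex M ∈ N := by
    haveI : (N.subgroupOf M).Normal := inferInstance
    have := Subgroup.pow_index_mem (N.subgroupOf M) (⟨q, hqM⟩ : M)
    exact this
  have h2 : ((q : G) : G ⧸ N) ^ N.relIndex M = 1 := by
    rw [← QuotientGroup.mk_pow]
    exact (QuotientGroup.eq_one_iff _).mpr h1
  have h3 : ((q : G) : G ⧸ N) ^ p ^ k = 1 := by
    rw [← QuotientGroup.mk_pow, hq]; rfl
  have h4 : Nat.gcd (N.relIndex M) (p ^ k) = 1 := Nat.Coprime.pow_right k hc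
  have h5 := pow_gcd_eq_one.2 ⟨h2, h3⟩
  rw [h4, pow_one] at h5
  exact (QuotientGroup.eq_one_iff _).mp h5

/-- In a `p'`-factor, `QN ∩ M = N` for a `p`-subgroup `Q`. -/
theorem sup_inf_le {Q N M : Subgroup G} [hN : N.Normal] [hM : M.Normal] (hNM : N ≤ M)
    (hc : (N.relIndex M).Coprime p) (hQ : IsPGroup p Q) {c : G} (h1 : c ∈ Q ⊔ N) (h2 : c ∈ M) : c ∈ N := by
  obtain ⟨q, hq, n, hn, rfl⟩ := Subgroup.mem_sup_of_normal_right.mp h1
  have hqM : q ∈ M := by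
    have := M.mul_mem h2 (M.inv_mem (hNM hn))
    simpa using this
  obtain ⟨k, hk⟩ := hQ ⟨q, hq⟩
  have hqk : q ^ p ^ k = 1 := by
    have := congrArg Subtype.val hk
    simpa using this
  exact N.mul_mem (mem_of_pow_of_coprime hNM hc hqM hqk) hn

/-- In a `p`-factor, `M ≤ Q N` for a Sylow subgroup `Q`. -/
theorem le_sup_of_pfactor {N M : Subgroup G} [hN : N.Normal] [hM : M.Normal] (hNM : N ≤ M)
    {m : ℕ} (hc : N.relIndex M = p ^ m) (Q : Sylow p G) : M ≤ (Q : Subgroup G) ⊔ N := by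
  obtain ⟨π, hπ⟩ : ∃ π : G →* G ⧸ N, π = QuotientGroup.mk' N := ⟨_, rfl⟩
  have hsurj : Function.Surjective π := by rw [hπ]; exact QuotientGroup.mk'_surjective N
  have hMp : IsPGroup p (M.map π) := by
    rintro ⟨x, y, hy, rfl⟩
    refine ⟨m, Subtype.ext ?_⟩
    have h1 : y ^ N.relIndex M ∈ N := Subgroup.pow_index_mem (N.subgroupOf M) (⟨y, hy⟩ : M)
    rw [hc] at h1
    have : π (y ^ p ^ m) = 1 := by
      rw [hπ]
      exact (QuotientGroup.eq_one_iff _).mpr h1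
    simpa using this
  haveI : (M.map π).Normal := hM.map π hsurj
  have h2 := hMp.le_sylow_of_normal (Q.mapSurjective hsurj)
  intro x hx
  obtain ⟨⟨q, hq, hqx⟩⟩ : Nonempty {q // q ∈ (Q : Subgroup G) ∧ π q = π x} := by
    have := h2 ⟨x, hx, rfl⟩
    rw [Sylow.coe_mapSurjective] at this
    obtain ⟨q, hq, hqx⟩ := this
    exact ⟨⟨q, hq, hqx⟩⟩
  have h3 : q⁻¹ * x ∈ N := by
    have : π (q⁻¹ * x) = 1 := by rw [map_mul, map_inv, hqx]; simp
    rw [hπ] at this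
    exact (QuotientGroup.eq_one_iff _).mp this
  have h5 : x = q * (q⁻¹ * x) := by group
  rw [h5]
  exact Subgroup.mul_mem _ ((le_sup_left : (Q : Subgroup G) ≤ _) hq) ((le_sup_right : N ≤ _) h3)

/-- `H ≤ P^g N`. -/
def TT (H : Subgroup G) (P : Sylow p G) (N : Subgroup G) (g : G) : Prop :=
  H ≤ (P : Subgroup G).map (MulAut.conj g).toMonoidHom ⊔ N

theorem conj_sup_eq (P : Subgroup G) (N : Subgroup G) [N.Normal] (u g : G) :
    P.map (MulAut.conj (u * g)).toMonoidHom ⊔ N =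
      (P.map (MulAut.conj g).toMonoidHom ⊔ N).map (MulAut.conj u).toMonoidHom := by
  rw [Subgroup.map_sup, conj_mul_conj, normal_conj_eq (N := N)]

theorem TT_iff {H : Subgroup G} {P : Sylow p G} {N M : Subgroup G} [hN : N.Normal] [hM : M.Normal]
    (hNM : N ≤ M) (hc : (N.relIndex M).Coprime p) {g u : G} (hg : TT H P N g) (hu : u ∈ M) :
    TT H P N (u * g) ↔ u ∈ cSub H N M := by
  have hQ : IsPGroup p ((P : Subgroup G).map (MulAut.conj g).toMonoidHom) :=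
    P.isPGroup'.map _
  unfold TT at hg ⊢
  rw [conj_sup_eq]
  constructor
  · intro h1
    refine ⟨hu, fun h hh => ?_⟩
    have h2 := mem_conj_iff.mp (h1 hh)
    have h3 := hg hh
    have hcL : h⁻¹ * (u⁻¹ * h * u) ∈ (P : Subgroup G).map (MulAut.conj g).toMonoidHom ⊔ N :=
      Subgroup.mul_mem _ (Subgroup.inv_mem _ h3) h2
    have hcM : h⁻¹ * (u⁻¹ * h * u) ∈ M := by
      have h4 : h⁻¹ * (u⁻¹ * h * u) = (h⁻¹ * u⁻¹ * h⁻¹⁻¹) * u := by group
      rw [h4]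
      exact M.mul_mem (hM.conj_mem _ (M.inv_mem hu) _) hu
    have hcN := sup_inf_le hNM hc hQ hcL hcM
    have h5 := hN.conj_mem _ hcN (u * h)
    have h6 : u * h * (h⁻¹ * (u⁻¹ * h * u)) * (u * h)⁻¹ = h * u * h⁻¹ * u⁻¹ := by group
    rwa [h6] at h5
  · rintro ⟨_, h1⟩ h hh
    rw [mem_conj_iff]
    have h2 := hN.conj_mem _ (h1 h hh) (u * h)⁻¹
    have h3 : u⁻¹ * h * u = h * ((u * h)⁻¹ * (h * u * h⁻¹ * u⁻¹) * (u * h)⁻¹⁻¹) := by group
    rw [h3]
    exact Subgroup.mul_mem _ (hg hh) ((le_sup_right : N ≤ _) h2)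

theorem TT_mono {H : Subgroup G} {P : Sylow p G} {N M : Subgroup G} (hNM : N ≤ M) {g : G}
    (h : TT H P N g) : TT H P M g :=
  h.trans (sup_le_sup_left hNM _)

theorem TT_closed {H : Subgroup G} {P : Sylow p G} {M : Subgroup G} [hM : M.Normal] {g u : G}
    (h : TT H P M g) (hu : u ∈ M) : TT H P M (u * g) := by
  unfold TT at h ⊢
  rw [conj_sup_eq, conj_eq_of_mem ((le_sup_right : M ≤ _) hu)]
  exact h

theorem TT_exists {H : Subgroup G} (hH : IsPGroup p H) {P : Sylow p G} {M : Subgroup G} [hM : M.Normal]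
    {g : G} (h : TT H P M g) : ∃ u ∈ M, H ≤ (P : Subgroup G).map (MulAut.conj (u * g)).toMonoidHom := by
  obtain ⟨Q, hQ⟩ : ∃ Q : Sylow p G, (Q : Subgroup G) = (P : Subgroup G).map (MulAut.conj g).toMonoidHom :=
    ⟨g • P, rfl⟩
  obtain ⟨L, hL⟩ : ∃ L : Subgroup G, L = (Q : Subgroup G) ⊔ M := ⟨_, rfl⟩
  have hHL : H ≤ L := by
    rw [hL, hQ]; exact h
  have hQL : (Q : Subgroup G) ≤ L := hL ▸ le_sup_left
  obtain ⟨Q', hQ'⟩ : ∃ Q' : Sylow p L, (Q' : Subgroup L) = (Q : Subgroup G).subgroupOf L :=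
    ⟨Q.subtype hQL, rfl⟩
  have hH' : IsPGroup p (H.subgroupOf L) := hH.comap_of_injective L.subtype L.subtype_injective
  obtain ⟨R, hR⟩ := hH'.exists_le_sylow
  obtain ⟨l, hl⟩ := MulAction.exists_smul_eq L Q' R
  have hlm : (l : G) ∈ (Q : Subgroup G) ⊔ M := hL ▸ l.2
  obtain ⟨q, hq, z, hz, hqz⟩ := Subgroup.mem_sup_of_normal_right.mp hlm
  refine ⟨q * z * q⁻¹, hM.conj_mem _ hz _, ?_⟩
  intro x hx
  have h1 : (⟨x, hHL hx⟩ : L) ∈ (R : Subgroup L) := hR hx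
  rw [← hl] at h1
  have h2 : (⟨x, hHL hx⟩ : L) ∈ ((Q' : Subgroup L).map (MulAut.conj l).toMonoidHom) := h1
  have h3 := mem_conj_iff.mp h2
  rw [hQ'] at h3
  have h4 : (l : G)⁻¹ * x * l ∈ (Q : Subgroup G) := h3
  rw [← conj_mul_conj, ← hQ, mem_conj_iff]
  have h5 := Subgroup.mul_mem _ (Subgroup.mul_mem _ hq h4) (Subgroup.inv_mem _ hq)
  have h6 : (q * z * q⁻¹)⁻¹ * x * (q * z * q⁻¹) = q * ((l : G)⁻¹ * x * l) * q⁻¹ := by
    rw [← hqz]; group
  rw [h6]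
  exact h5

/-- The `p'`-step of the count. -/
theorem tc_coprime {H : Subgroup G} (hH : IsPGroup p H) (P : Sylow p G) {N M : Subgroup G}
    [hN : N.Normal] [hM : M.Normal] (hNM : N ≤ M) (hc : (N.relIndex M).Coprime p) :
    Nat.card {g // TT H P N g} * Nat.card M = Nat.card (cSub H N M) * Nat.card {g // TT H P M g} := by
  obtain ⟨π, hπ⟩ : ∃ π : G →* G ⧸ M, π = QuotientGroup.mk' M := ⟨_, rfl⟩
  have hπ1 : ∀ x, π x = 1 ↔ x ∈ M := fun x => by
    rw [hπ]; exact QuotientGroup.eq_one_iff x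
  obtain ⟨Z, hZ⟩ : ∃ Z : Type _, Z = {x : G ⧸ M // ∃ g, TT H P N g ∧ π g = x} := ⟨_, rfl⟩
  subst hZ
  have h1 : Nat.card {g // TT H P N g} = Nat.card {x : G ⧸ M // ∃ g, TT H P N g ∧ π g = x} * Nat.card (cSub H N M) := by
    refine card_fiber (fun g : {g // TT H P N g} => (⟨π g.1, g.1, g.2, rfl⟩ : {x : G ⧸ M // ∃ g, TT H P N g ∧ π g = x})) _ ?_
    rintro ⟨x, g₁, hg₁, rfl⟩
    have hy : ∀ y : {y : {g // TT H P N g} // (⟨π y.1, y.1, y.2, rfl⟩ : {x : G ⧸ M // ∃ g, TT H P N g ∧ π g = x}) = ⟨π g₁, g₁, hg₁, rfl⟩},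
        y.1.1 * g₁⁻¹ ∈ M := by
      intro y
      have h' : π y.1.1 = π g₁ := congrArg Subtype.val y.2
      rw [← hπ1, map_mul, map_inv, h']
      simp
    refine Nat.card_congr ⟨fun y => ⟨y.1.1 * g₁⁻¹, ?_⟩, fun s => ⟨⟨s.1 * g₁, ?_⟩, ?_⟩, ?_, ?_⟩
    · refine (TT_iff hNM hc hg₁ (hy y)).mp ?_
      rw [inv_mul_cancel_right]
      exact y.1.2
    · exact (TT_iff hNM hc hg₁ s.2.1).mpr s.2
    · refine Subtype.ext ?_
      show π (s.1 * g₁) = π g₁
      rw [map_mul, (hπ1 _).mpr s.2.1, one_mul]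
    · rintro ⟨⟨y, h1⟩, h2⟩
      simp
    · rintro ⟨s, hs⟩
      simp
  have h2 : Nat.card {g // TT H P M g} = Nat.card {x : G ⧸ M // ∃ g, TT H P N g ∧ π g = x} * Nat.card M := by
    have hval : ∀ g : {g // TT H P M g}, ∃ g', TT H P N g' ∧ π g' = π g.1 := by
      intro g
      obtain ⟨u, hu, hu2⟩ := TT_exists hH g.2
      refine ⟨u * g.1, hu2.trans le_sup_left, ?_⟩
      rw [map_mul, (hπ1 _).mpr hu, one_mul]
    refine card_fiber (fun g : {g // TT H P M g} => (⟨π g.1, hval g⟩ : {x : G ⧸ M // ∃ g, TT H P N g ∧ π g = x})) _ ?_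
    rintro ⟨x, g₁, hg₁, rfl⟩
    have hy : ∀ y : {y : {g // TT H P M g} // (⟨π y.1, hval y⟩ : {x : G ⧸ M // ∃ g, TT H P N g ∧ π g = x}) = ⟨π g₁, g₁, hg₁, rfl⟩},
        y.1.1 * g₁⁻¹ ∈ M := by
      intro y
      have h' : π y.1.1 = π g₁ := congrArg Subtype.val y.2
      rw [← hπ1, map_mul, map_inv, h']
      simp
    refine Nat.card_congr ⟨fun y => ⟨y.1.1 * g₁⁻¹, hy y⟩, fun s => ⟨⟨s.1 * g₁, TT_closed (TT_mono hNM hg₁) s.2⟩, ?_⟩, ?_, ?_⟩
    · refine Subtype.ext ?_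
      show π (s.1 * g₁) = π g₁
      rw [map_mul, (hπ1 _).mpr s.2, one_mul]
    · rintro ⟨⟨y, h1⟩, h2⟩
      simp
    · rintro ⟨s, hs⟩
      simp
  rw [h1, h2]
  ring

/-- The `p`-step of the count. -/
theorem tc_pfactor (H : Subgroup G) (P : Sylow p G) {N M : Subgroup G}
    [hN : N.Normal] [hM : M.Normal] (hNM : N ≤ M) {m : ℕ} (hc : N.relIndex M = p ^ m) :
    Nat.card {g // TT H P N g} = Nat.card {g // TT H P M g} := by
  refine Nat.card_congr (Equiv.subtypeEquivRight fun g => ?_)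
  refine ⟨TT_mono hNM, fun h => h.trans (sup_le le_sup_left ?_)⟩
  exact le_sup_of_pfactor hNM hc (g • P)

theorem tt_bot_iff (H : Subgroup G) (P : Sylow p G) (g : G) :
    TT H P (⊥ : Subgroup G) g ↔ H ≤ (P : Subgroup G).map (MulAut.conj g).toMonoidHom := by
  unfold TT; rw [sup_bot_eq]

theorem tc_top (H : Subgroup G) (P : Sylow p G) :
    Nat.card {g // TT H P (⊤ : Subgroup G) g} = Nat.card G := by
  refine Nat.card_congr (Equiv.subtypeUnivEquiv fun g => ?_)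
  unfold TT; rw [sup_top_eq]; exact le_top

theorem rel_mul_card {H K : Subgroup G} (h : H ≤ K) : H.relIndex K * Nat.card H = Nat.card K := by
  have h1 := Subgroup.relIndex_mul_index h
  have h2 := Subgroup.card_mul_index H
  have h3 := Subgroup.card_mul_index K
  have h4 : 0 < K.index := Nat.pos_of_ne_zero Subgroup.index_ne_zero_of_finite
  refine Nat.eq_of_mul_eq_mul_right h4 ?_
  rw [h3, ← h2, ← h1]
  ring

end Cfsg.Agent.Lib.Techniques.SubnormCount
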