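import Mathlib
import Cfsg.Agent.S1958
import Cfsg.Prelude.Def_PLocal

/-! Abelian groups with two commuting automorphisms of prime order whose other "lines" act without fixed
points: the norm identity. -/

set_option autoImplicit false

namespace Cfsg.Agent.Lib.Techniques

open scoped commutatorElement

theorem fixed_of_decomp {A : Type*} [CommGroup A] (α β : MulAut A) (hc : α * β = β * α)
    (hdec : ∀ a : A, ∃ a₁ a₂ : A, α a₁ = a₁ ∧ β a₂ = a₂ ∧ a = a₁ * a₂) (u : A) :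
    α (u⁻¹ * β u) = u⁻¹ * β u := by
  obtain ⟨a₁, a₂, ha₁, ha₂, rfl⟩ := hdec u
  have h3 : (a₁ * a₂)⁻¹ * β (a₁ * a₂) = a₁⁻¹ * β a₁ := by
    rw [map_mul, ha₂, mul_comm a₁ a₂, mul_comm (β a₁) a₂, mul_inv_rev]
    group
  have hcomm : α (β a₁) = β (α a₁) := by
    rw [← MulAut.mul_apply, hc, MulAut.mul_apply]
  rw [h3, map_mul, map_inv, ha₁, hcomm, ha₁]

section abstract

variable {A : Type*} [CommGroup A] [Finite A] {q : ℕ} [hq : Fact q.Prime]

theorem pow_val_eq_of_pow_eq_one {H : Type*} [Monoid H] {α : H} (hα : α ^ q = 1) (n : ℕ) :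
    α ^ ((n : ZMod q).val) = α ^ n := by
  rw [ZMod.val_natCast, ← pow_mod_orderOf]
  have h1 : orderOf α ∣ q := orderOf_dvd_of_pow_eq_one hα
  conv_rhs => rw [← pow_mod_orderOf]
  congr 1
  exact Nat.mod_mod_of_dvd n h1

/-- The norm identity. -/
theorem decomp_of_commuting (hcop : Nat.Coprime (Nat.card A) q) (α β : MulAut A) (hα : α ^ q = 1) (hβ : β ^ q = 1)
    (hc : α * β = β * α)
    (h : ∀ j : ℕ, 0 < j → j < q → ∀ a : A, (α * β ^ j) a = a → a = 1) (a₀ : A) :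
    ∃ a₁ a₂ : A, α a₁ = a₁ ∧ β a₂ = a₂ ∧ a₀ = a₁ * a₂ := by
  classical
  haveI : NeZero q := ⟨(Fact.out : q.Prime).ne_zero⟩
  obtain ⟨a, rfl⟩ : ∃ a : A, a ^ q = a₀ := ⟨(powCoprime hcop).symm a₀, (powCoprime hcop).apply_symm_apply a₀⟩
  have hcomm : Commute α β := hc
  let f : ZMod q → ZMod q → A := fun i k => (α ^ i.val * β ^ k.val) a
  have hαs : ∀ i : ZMod q, α ^ (i + 1).val = α * α ^ i.val := by
    intro i
    have h1 := pow_val_eq_of_pow_eq_one hα (i.val + 1)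
    have h2 : ((i.val + 1 : ℕ) : ZMod q) = i + 1 := by simp
    rw [h2] at h1
    rw [h1, pow_succ']
  have hβs : ∀ i : ZMod q, β ^ (i + 1).val = β * β ^ i.val := by
    intro i
    have h1 := pow_val_eq_of_pow_eq_one hβ (i.val + 1)
    have h2 : ((i.val + 1 : ℕ) : ZMod q) = i + 1 := by simp
    rw [h2] at h1
    rw [h1, pow_succ']
  -- the element `T j`
  let T : ZMod q → A := fun j => ∏ i : ZMod q, f i (i * j)
  have hTfix : ∀ j : ZMod q, (α * β ^ j.val) (T j) = T j := by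
    intro j
    have hstep : ∀ i : ZMod q, (α * β ^ j.val) (f i (i * j)) = f (i + 1) ((i + 1) * j) := by
      intro i
      have h3 : β ^ ((i + 1) * j).val = β ^ j.val * β ^ (i * j).val := by
        have h4 := pow_val_eq_of_pow_eq_one hβ (j.val + (i * j).val)
        have h5 : ((j.val + (i * j).val : ℕ) : ZMod q) = (i + 1) * j := by
          simp; ring
        rw [h5] at h4
        rw [h4, pow_add]
      show (α * β ^ j.val) ((α ^ i.val * β ^ (i * j).val) a) = (α ^ (i + 1).val * β ^ ((i + 1) * j).val) a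
      rw [hαs, h3]
      have hc2 : Commute (β ^ j.val) (α ^ i.val) := (hcomm.symm.pow_pow _ _)
      have : α * β ^ j.val * (α ^ i.val * β ^ (i * j).val) = α * α ^ i.val * (β ^ j.val * β ^ (i * j).val) := by
        calc α * β ^ j.val * (α ^ i.val * β ^ (i * j).val)
            = α * (β ^ j.val * α ^ i.val) * β ^ (i * j).val := by group
          _ = α * (α ^ i.val * β ^ j.val) * β ^ (i * j).val := by rw [hc2.eq]
          _ = _ := by group
      rw [← MulAut.mul_apply, this]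
    show (α * β ^ j.val) (∏ i : ZMod q, f i (i * j)) = ∏ i : ZMod q, f i (i * j)
    rw [map_prod]
    simp only [hstep]
    exact Equiv.prod_comp (Equiv.addRight (1 : ZMod q)) (fun i => f i (i * j))
  have hT0 : ∀ j : ZMod q, j ≠ 0 → T j = 1 := by
    intro j hj
    refine h j.val ?_ (ZMod.val_lt j) _ (hTfix j)
    exact Nat.pos_of_ne_zero (fun h0 => hj ((ZMod.val_eq_zero j).1 h0))
  -- the elements `U`, `V`
  let U : A := ∏ i : ZMod q, ∏ k : ZMod q, f i k
  let V : A := ∏ k : ZMod q, f 0 k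
  have hq1 : 1 < q := (Fact.out : q.Prime).one_lt
  haveI : Fact (1 < q) := ⟨hq1⟩
  have hU1 : U = 1 := by
    have hne : (1 : ZMod q) ≠ 0 := one_ne_zero
    have hval : (1 : ZMod q).val = 1 := ZMod.val_one q
    refine h 1 one_pos hq1 _ ?_
    rw [pow_one]
    show (α * β) (∏ i : ZMod q, ∏ k : ZMod q, f i k) = ∏ i : ZMod q, ∏ k : ZMod q, f i k
    have hstep : ∀ i k : ZMod q, (α * β) (f i k) = f (i + 1) (k + 1) := by
      intro i k
      show (α * β) ((α ^ i.val * β ^ k.val) a) = (α ^ (i + 1).val * β ^ (k + 1).val) a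
      rw [hαs, hβs, ← MulAut.mul_apply]
      have hc2 : Commute β (α ^ i.val) := (hcomm.symm.pow_right _)
      have : α * β * (α ^ i.val * β ^ k.val) = α * α ^ i.val * (β * β ^ k.val) := by
        calc α * β * (α ^ i.val * β ^ k.val)
            = α * (β * α ^ i.val) * β ^ k.val := by group
          _ = α * (α ^ i.val * β) * β ^ k.val := by rw [hc2.eq]
          _ = _ := by group
      rw [this]
    rw [map_prod]
    simp only [map_prod, hstep]
    have h6 := Equiv.prod_comp (Equiv.addRight (1 : ZMod q)) (fun i => ∏ k : ZMod q, f i (k + 1))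
    simp only [Equiv.coe_addRight] at h6
    rw [h6]
    refine Finset.prod_congr rfl fun i _ => ?_
    exact Equiv.prod_comp (Equiv.addRight (1 : ZMod q)) (fun k => f i k)
  -- the identity
  have hid : (∏ j : ZMod q, T j) = a ^ q * ∏ i ∈ Finset.univ.erase (0 : ZMod q), ∏ k : ZMod q, f i k := by
    show (∏ j : ZMod q, ∏ i : ZMod q, f i (i * j)) = _
    rw [Finset.prod_comm, ← Finset.mul_prod_erase Finset.univ _ (Finset.mem_univ (0 : ZMod q))]
    congr 1
    · have h0 : ∀ j : ZMod q, f 0 (0 * j) = a := by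
        intro j
        show (α ^ (0 : ZMod q).val * β ^ (0 * j).val) a = a
        rw [zero_mul, ZMod.val_zero, pow_zero, pow_zero, mul_one]; rfl
      simp only [h0]
      rw [Finset.prod_const, Finset.card_univ, ZMod.card]
    · refine Finset.prod_congr rfl fun i hi => ?_
      have hi0 : i ≠ 0 := (Finset.mem_erase.1 hi).1
      exact Equiv.prod_comp (Equiv.mulLeft₀ i hi0) (fun k => f i k)
  have hU2 : U = V * ∏ i ∈ Finset.univ.erase (0 : ZMod q), ∏ k : ZMod q, f i k :=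
    (Finset.mul_prod_erase Finset.univ (fun i => ∏ k : ZMod q, f i k) (Finset.mem_univ (0 : ZMod q))).symm
  have hTT : (∏ j : ZMod q, T j) = T 0 := by
    rw [← Finset.mul_prod_erase Finset.univ _ (Finset.mem_univ (0 : ZMod q))]
    rw [Finset.prod_eq_one (fun j hj => hT0 j (Finset.mem_erase.1 hj).1), mul_one]
  have hmain : a ^ q = T 0 * V := by
    have h1 : (∏ i ∈ Finset.univ.erase (0 : ZMod q), ∏ k : ZMod q, f i k) = V⁻¹ := by
      rw [hU1] at hU2
      exact (inv_eq_of_mul_eq_one_right hU2.symm).symm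
    rw [hTT, h1] at hid
    rw [hid]; group
  refine ⟨T 0, V, ?_, ?_, hmain⟩
  · have := hTfix 0
    rw [ZMod.val_zero, pow_zero, mul_one] at this
    exact this
  · show β (∏ k : ZMod q, f 0 k) = ∏ k : ZMod q, f 0 k
    rw [map_prod]
    have hstep : ∀ k : ZMod q, β (f 0 k) = f 0 (k + 1) := by
      intro k
      show β ((α ^ (0 : ZMod q).val * β ^ k.val) a) = (α ^ (0 : ZMod q).val * β ^ (k + 1).val) a
      rw [hβs, ZMod.val_zero, pow_zero, one_mul, one_mul]
      rfl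
    simp only [hstep]
    exact Equiv.prod_comp (Equiv.addRight (1 : ZMod q)) (fun k => f 0 k)

end abstract

section level

variable {S : Type*} [Group S] [Finite S] {p q : ℕ} [Fact p.Prime] [Fact q.Prime]

/-- Decomposition of an abelian section of a `p`-group. -/
theorem section_decomp {P M M' : Subgroup S} [hMn : M.Normal] [hMn' : M'.Normal] (hP : IsPGroup p P) (hpq : p ≠ q)
    (hMP : M ≤ P) (hM'M : M' ≤ M) (hcM : ⁅M, M⁆ ≤ M') {x₁ x₂ : S} (h₁ : x₁ ^ q = 1) (h₂ : x₂ ^ q = 1)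
    (hx : x₁ * x₂ = x₂ * x₁)
    (hfree : ∀ j : ℕ, 0 < j → j < q → ∀ v ∈ P, (x₁ * x₂ ^ j) * v = v * (x₁ * x₂ ^ j) → v = 1) :
    (∀ m ∈ M, ∃ m₁ ∈ M, ∃ m₂ ∈ M, x₁ * m₁ = m₁ * x₁ ∧ x₂ * m₂ = m₂ * x₂ ∧ m⁻¹ * (m₁ * m₂) ∈ M') ∧
    (∀ z ∈ M, ∀ u ∈ M, ∀ w ∈ M, z⁻¹ * (u⁻¹ * (x₂ * u * x₂⁻¹)) ∈ M' → z⁻¹ * (w⁻¹ * (x₁ * w * x₁⁻¹)) ∈ M' → z ∈ M') := by
  classical
  let M₀ : Subgroup ↥M := M'.subgroupOf M
  haveI hM₀ : M₀.Normal := inferInstance
  have hmem₀ : ∀ m : ↥M, m ∈ M₀ ↔ (m : S) ∈ M' := fun m => Iff.rfl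
  letI : CommGroup (↥M ⧸ M₀) :=
    { (inferInstance : Group (↥M ⧸ M₀)) with
      mul_comm := by
        intro a b
        obtain ⟨a, rfl⟩ := QuotientGroup.mk_surjective a
        obtain ⟨b, rfl⟩ := QuotientGroup.mk_surjective b
        rw [← QuotientGroup.mk_mul, ← QuotientGroup.mk_mul, QuotientGroup.eq, hmem₀]
        have h3 : ((a * b : ↥M)⁻¹ * (b * a) : ↥M) = ⁅(b : ↥M)⁻¹, (a : ↥M)⁻¹⁆ := by
          simp only [commutatorElement_def]; group
        have h4 := congrArg Subtype.val h3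
        rw [h4]
        exact hcM (Subgroup.commutator_mem_commutator (inv_mem b.2) (inv_mem a.2)) }
  let A := ↥M ⧸ M₀
  have hmap : ∀ s : S, M₀.map (MulAut.conjNormal s : ↥M ≃* ↥M).toMonoidHom = M₀ := by
    intro s
    ext x
    constructor
    · rintro ⟨y, hy, rfl⟩
      show (MulAut.conjNormal s y : S) ∈ M'
      rw [MulAut.conjNormal_apply]
      exact hMn'.conj_mem _ hy s
    · intro hx'
      refine ⟨(MulAut.conjNormal s).symm x, ?_, by simp⟩
      show ((MulAut.conjNormal s).symm x : S) ∈ M'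
      rw [MulAut.conjNormal_symm_apply]
      have := hMn'.conj_mem _ hx' s⁻¹
      simpa using this
  let act : S →* MulAut A :=
    { toFun := fun s => QuotientGroup.congr M₀ M₀ (MulAut.conjNormal s) (hmap s)
      map_one' := by
        apply MulEquiv.ext
        intro a
        obtain ⟨m, rfl⟩ := QuotientGroup.mk_surjective a
        show ((MulAut.conjNormal (1 : S) m : ↥M) : A) = m
        simp
      map_mul' := by
        intro s t
        apply MulEquiv.ext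
        intro a
        obtain ⟨m, rfl⟩ := QuotientGroup.mk_surjective a
        show ((MulAut.conjNormal (s * t) m : ↥M) : A) = ((MulAut.conjNormal s (MulAut.conjNormal t m) : ↥M) : A)
        rw [map_mul]; rfl }
  have hact : ∀ (s : S) (m : ↥M), act s (m : A) = ((MulAut.conjNormal s m : ↥M) : A) := fun _ _ => rfl
  have hM'p : IsPGroup p M' := hP.to_le (hM'M.trans hMP)
  have hM'c : (Nat.card M').Coprime q := by
    obtain ⟨n, hn⟩ := IsPGroup.iff_card.1 hM'p
    rw [hn]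
    exact Nat.Coprime.pow_left n ((Nat.coprime_primes Fact.out Fact.out).2 hpq)
  have hAc : Nat.Coprime (Nat.card A) q := by
    have h1 : IsPGroup p A := by
      have h2 : IsPGroup p ↥M := hP.to_le hMP
      exact h2.to_quotient M₀
    obtain ⟨n, hn⟩ := IsPGroup.iff_card.1 h1
    rw [hn]
    exact Nat.Coprime.pow_left n ((Nat.coprime_primes Fact.out Fact.out).2 hpq)
  -- fixed points lift
  have hlift : ∀ (s : S), s ^ q = 1 → ∀ m : ↥M, act s (m : A) = (m : A) →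
      ∃ v ∈ M, s * v = v * s ∧ v⁻¹ * (m : S) ∈ M' := by
    intro s hs m hm
    rw [hact, QuotientGroup.eq, hmem₀] at hm
    have hm2 : s * (m : S) * s⁻¹ * (m : S)⁻¹ ∈ M' := by
      have h3 : (((MulAut.conjNormal s m : ↥M)⁻¹ * m : ↥M) : S) = (s * (m : S) * s⁻¹)⁻¹ * m := by
        simp [MulAut.conjNormal_apply]
      rw [h3] at hm
      have h6 := hMn'.conj_mem _ (inv_mem hm) (m : S)
      have h7 : (m : S) * ((s * (m : S) * s⁻¹)⁻¹ * (m : S))⁻¹ * (m : S)⁻¹ = s * (m : S) * s⁻¹ * (m : S)⁻¹ := by group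
      rwa [h7] at h6
    obtain ⟨v, hv, hvf⟩ := Cfsg.Agent.S1958.exists_lift_comm (p := q) (k := 1) M' hM'c
      (by rw [pow_one]; exact hs) hm2
    have hvM : v ∈ M := by
      have h8 : v = (v * (m : S)⁻¹) * m := by group
      rw [h8]
      exact mul_mem (hM'M hv) m.2
    refine ⟨v, hvM, ?_, ?_⟩
    · calc s * v = (s * v * s⁻¹) * s := by group
        _ = v * s := by rw [hvf]
    · have h9 := inv_mem hv
      have h10 : (v * (m : S)⁻¹)⁻¹ = (m : S) * v⁻¹ := by group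
      rw [h10] at h9
      have h11 := hMn'.conj_mem _ h9 v⁻¹
      have h12 : v⁻¹ * ((m : S) * v⁻¹) * v⁻¹⁻¹ = v⁻¹ * (m : S) := by group
      rwa [h12] at h11
  have hfreeA : ∀ j : ℕ, 0 < j → j < q → ∀ a : A, (act x₁ * act x₂ ^ j) a = a → a = 1 := by
    intro j hj hjq a ha
    obtain ⟨m, rfl⟩ := QuotientGroup.mk_surjective a
    rw [← map_pow, ← map_mul] at ha
    have hγ : (x₁ * x₂ ^ j) ^ q = 1 := by
      have hcomm : Commute x₁ (x₂ ^ j) := (show Commute x₁ x₂ from hx).pow_right j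
      rw [hcomm.mul_pow, h₁, one_mul, ← pow_mul, mul_comm, pow_mul, h₂, one_pow]
    obtain ⟨v, hv, hvc, hvm⟩ := hlift _ hγ m ha
    have hv1 : v = 1 := hfree j hj hjq v (hMP hv) hvc
    rw [hv1, inv_one, one_mul] at hvm
    exact (QuotientGroup.eq_one_iff m).2 hvm
  have hα : act x₁ ^ q = 1 := by rw [← map_pow, h₁, map_one]
  have hβ : act x₂ ^ q = 1 := by rw [← map_pow, h₂, map_one]
  have hc : act x₁ * act x₂ = act x₂ * act x₁ := by rw [← map_mul, hx, map_mul]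
  have hdec := decomp_of_commuting hAc (act x₁) (act x₂) hα hβ hc hfreeA
  constructor
  · intro m hm
    obtain ⟨a₁, a₂, ha₁, ha₂, he⟩ := hdec ((⟨m, hm⟩ : ↥M) : A)
    obtain ⟨n₁, rfl⟩ := QuotientGroup.mk_surjective a₁
    obtain ⟨n₂, rfl⟩ := QuotientGroup.mk_surjective a₂
    obtain ⟨v₁, hv₁, hc₁, hvm₁⟩ := hlift x₁ h₁ n₁ ha₁
    obtain ⟨v₂, hv₂, hc₂, hvm₂⟩ := hlift x₂ h₂ n₂ ha₂
    refine ⟨v₁, hv₁, v₂, hv₂, hc₁, hc₂, ?_⟩
    have he1 : ((⟨v₁, hv₁⟩ : ↥M) : A) = (n₁ : A) := QuotientGroup.eq.2 hvm₁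
    have he2 : ((⟨v₂, hv₂⟩ : ↥M) : A) = (n₂ : A) := QuotientGroup.eq.2 hvm₂
    rw [← he1, ← he2, ← QuotientGroup.mk_mul, QuotientGroup.eq] at he
    exact he
  · intro z hz u hu w hw h1 h2
    -- in the quotient
    set z' : A := ((⟨z, hz⟩ : ↥M) : A) with hz'
    set u' : A := ((⟨u, hu⟩ : ↥M) : A) with hu'
    set w' : A := ((⟨w, hw⟩ : ↥M) : A) with hw'
    have hzu : z' = u'⁻¹ * act x₂ u' := by
      rw [hu', hz', hact, ← QuotientGroup.mk_inv, ← QuotientGroup.mk_mul, QuotientGroup.eq]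
      show z⁻¹ * (u⁻¹ * ((MulAut.conjNormal x₂ (⟨u, hu⟩ : ↥M) : ↥M) : S)) ∈ M'
      rw [MulAut.conjNormal_apply]
      exact h1
    have hzw : z' = w'⁻¹ * act x₁ w' := by
      rw [hw', hz', hact, ← QuotientGroup.mk_inv, ← QuotientGroup.mk_mul, QuotientGroup.eq]
      show z⁻¹ * (w⁻¹ * ((MulAut.conjNormal x₁ (⟨w, hw⟩ : ↥M) : ↥M) : S)) ∈ M'
      rw [MulAut.conjNormal_apply]
      exact h2
    have hα' : act x₁ z' = z' := by
      rw [hzu]
      exact fixed_of_decomp (act x₁) (act x₂) hc hdec u'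
    have hβ' : act x₂ z' = z' := by
      rw [hzw]
      refine fixed_of_decomp (act x₂) (act x₁) hc.symm ?_ w'
      intro a
      obtain ⟨a₁, a₂, h₁', h₂', he⟩ := hdec a
      exact ⟨a₂, a₁, h₂', h₁', by rw [he, mul_comm]⟩
    have hq1 : 1 < q := (Fact.out : q.Prime).one_lt
    have hz1 : z' = 1 := by
      apply hfreeA 1 one_pos hq1
      rw [pow_one, MulAut.mul_apply, hβ', hα']
    have := (QuotientGroup.eq_one_iff _).1 hz1
    exact this

theorem comm_quot_split {G : Type*} [Group G] {c d b u u₂ : G} (hu : u = c * b * c⁻¹ * b⁻¹)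
    (hu₂ : u₂ = d * b * d⁻¹ * b⁻¹) (h1 : c * u = u * c) (h2 : c * u₂ = u₂ * c) (h3 : u * u₂ = u₂ * u) :
    (c⁻¹ * d) * b * (c⁻¹ * d)⁻¹ * b⁻¹ = u⁻¹ * u₂ := by
  have hb : b * c * b⁻¹ = u⁻¹ * c := by rw [hu]; group
  have hdb : d * b * d⁻¹ = u₂ * b := by rw [hu₂]; group
  have h1' : c⁻¹ * u⁻¹ * c = u⁻¹ := by
    have : c * u⁻¹ = u⁻¹ * c := (show Commute c u from h1).inv_right.eq
    rw [mul_assoc, ← this]; group
  have h2' : c⁻¹ * u₂ * c = u₂ := by
    rw [mul_assoc, ← h2]; group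
  calc (c⁻¹ * d) * b * (c⁻¹ * d)⁻¹ * b⁻¹ = c⁻¹ * (d * b * d⁻¹) * (c * b⁻¹) := by group
    _ = c⁻¹ * (u₂ * b) * (c * b⁻¹) := by rw [hdb]
    _ = (c⁻¹ * u₂ * c) * (c⁻¹ * (b * c * b⁻¹)) := by group
    _ = u₂ * (c⁻¹ * (u⁻¹ * c)) := by rw [h2', hb]
    _ = u₂ * (c⁻¹ * u⁻¹ * c) := by group
    _ = u₂ * u⁻¹ := by rw [h1']
    _ = u⁻¹ * u₂ := ((show Commute u u₂ from h3).inv_left.eq).symm

theorem comm_quot_split' {G : Type*} [Group G] {a f k w w₂ : G} (hw : w = a * f * a⁻¹ * f⁻¹)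
    (hw₂ : w₂ = a * k * a⁻¹ * k⁻¹) (h1 : f * w = w * f) (h2 : f * w₂ = w₂ * f) (h3 : w * w₂ = w₂ * w) :
    a * (f⁻¹ * k) * a⁻¹ * (f⁻¹ * k)⁻¹ = w⁻¹ * w₂ := by
  have hf : a * f⁻¹ * a⁻¹ = f⁻¹ * w⁻¹ := by rw [hw]; group
  have hk : a * k * a⁻¹ = w₂ * k := by rw [hw₂]; group
  have h1' : f⁻¹ * w⁻¹ * f = w⁻¹ := by
    have : f * w⁻¹ = w⁻¹ * f := (show Commute f w from h1).inv_right.eq
    rw [mul_assoc, ← this]; group
  have h2' : f⁻¹ * w₂ * f = w₂ := by
    rw [mul_assoc, ← h2]; group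
  calc a * (f⁻¹ * k) * a⁻¹ * (f⁻¹ * k)⁻¹ = (a * f⁻¹ * a⁻¹) * (a * k * a⁻¹) * (k⁻¹ * f) := by group
    _ = (f⁻¹ * w⁻¹) * (w₂ * k) * (k⁻¹ * f) := by rw [hf, hk]
    _ = f⁻¹ * (w⁻¹ * w₂) * f := by group
    _ = (f⁻¹ * w⁻¹ * f) * (f⁻¹ * w₂ * f) := by group
    _ = w⁻¹ * w₂ := by rw [h1', h2']

theorem two_fixed_main {P : Subgroup S} [hPn : P.Normal] (hP : IsPGroup p P) (hpq : p ≠ q) {x₁ x₂ : S}
    (h₁ : x₁ ^ q = 1) (h₂ : x₂ ^ q = 1) (hx : x₁ * x₂ = x₂ * x₁)
    (hfree : ∀ j : ℕ, 0 < j → j < q → ∀ v ∈ P, (x₁ * x₂ ^ j) * v = v * (x₁ * x₂ ^ j) → v = 1) :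
    (∀ a ∈ P, ∀ b ∈ P, x₁ * a = a * x₁ → x₂ * b = b * x₂ → a * b = b * a) ∧
    (∀ g ∈ P, ∃ a ∈ P, ∃ b ∈ P, x₁ * a = a * x₁ ∧ x₂ * b = b * x₂ ∧ g = a * b) := by
  classical
  let L : ℕ → Subgroup S := P.lowerCentralSeries
  have hLn : ∀ i, (L i).Normal := by
    intro i
    induction i with
    | zero => exact hPn
    | succ i ih =>
      haveI := ih
      exact Subgroup.commutator_normal _ _
  have hLP : ∀ i, L i ≤ P := fun i => Subgroup.lowerCentralSeries_le_self P i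
  -- (Hilbert 90)
  have hq1 : 1 < q := (Fact.out : q.Prime).one_lt
  have h1free : ∀ v ∈ P, x₁ * v = v * x₁ → x₂ * v = v * x₂ → v = 1 := by
    intro v hv h3 h4
    refine hfree 1 one_pos hq1 v hv ?_
    rw [pow_one]
    calc x₁ * x₂ * v = x₁ * (x₂ * v) := by group
      _ = x₁ * (v * x₂) := by rw [h4]
      _ = (x₁ * v) * x₂ := by group
      _ = (v * x₁) * x₂ := by rw [h3]
      _ = v * (x₁ * x₂) := by group
  have hilbert : ∀ (y y' : S), y ^ q = 1 → y' ^ q = 1 → y * y' = y' * y →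
      (∀ v ∈ P, y * v = v * y → y' * v = v * y' → v = 1) →
      ∀ a ∈ P, y * a = a * y → ∃ c ∈ P, y * c = c * y ∧ a = c⁻¹ * (y' * c * y'⁻¹) := by
    intro y y' _ _ hyy' hfr a ha hya
    -- the set of `y`-fixed elements
    let Fx : Subgroup S := P ⊓ Subgroup.centralizer ({y} : Set S)
    have hmem : ∀ c, c ∈ Fx ↔ c ∈ P ∧ y * c = c * y := by
      intro c
      rw [Subgroup.mem_inf, Subgroup.mem_centralizer_singleton_iff]
      constructor
      · rintro ⟨h1, h2⟩; exact ⟨h1, h2.symm⟩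
      · rintro ⟨h1, h2⟩; exact ⟨h1, h2.symm⟩
    have hconj : ∀ c ∈ Fx, y' * c * y'⁻¹ ∈ Fx := by
      intro c hc
      obtain ⟨h3, h4⟩ := (hmem c).1 hc
      refine (hmem _).2 ⟨hPn.conj_mem c h3 y', ?_⟩
      have h5 : y * y'⁻¹ = y'⁻¹ * y := (show Commute y y' from hyy').inv_right.eq
      calc y * (y' * c * y'⁻¹) = (y * y') * c * y'⁻¹ := by group
        _ = (y' * y) * c * y'⁻¹ := by rw [hyy']
        _ = y' * (y * c) * y'⁻¹ := by group
        _ = y' * (c * y) * y'⁻¹ := by rw [h4]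
        _ = y' * c * (y * y'⁻¹) := by group
        _ = y' * c * (y'⁻¹ * y) := by rw [h5]
        _ = y' * c * y'⁻¹ * y := by group
    let φ : ↥Fx → ↥Fx := fun c => ⟨(c : S)⁻¹ * (y' * (c : S) * y'⁻¹), mul_mem (inv_mem c.2) (hconj _ c.2)⟩
    have hinj : Function.Injective φ := by
      intro c d hcd
      have h3 : (c : S)⁻¹ * (y' * (c : S) * y'⁻¹) = (d : S)⁻¹ * (y' * (d : S) * y'⁻¹) := congrArg Subtype.val hcd
      set v : S := (d : S) * (c : S)⁻¹ with hv
      have hvF : v ∈ Fx := mul_mem d.2 (inv_mem c.2)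
      obtain ⟨h5, h6⟩ := (hmem v).1 hvF
      have h7 : y' * v = v * y' := by
        have h8 : (d : S) * (c : S)⁻¹ * (y' * (c : S) * y'⁻¹) = y' * (d : S) * y'⁻¹ := by
          calc (d : S) * (c : S)⁻¹ * (y' * (c : S) * y'⁻¹) = (d : S) * ((c : S)⁻¹ * (y' * (c : S) * y'⁻¹)) := by group
            _ = (d : S) * ((d : S)⁻¹ * (y' * (d : S) * y'⁻¹)) := by rw [h3]
            _ = _ := by group
        calc y' * v = y' * (d : S) * y'⁻¹ * (y' * (c : S) * y'⁻¹)⁻¹ * y' := by rw [hv]; group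
          _ = (d : S) * (c : S)⁻¹ * (y' * (c : S) * y'⁻¹) * (y' * (c : S) * y'⁻¹)⁻¹ * y' := by rw [h8]
          _ = v * y' := by rw [hv]; group
      have hv1 := hfr v h5 h6 h7
      apply Subtype.ext
      have : (d : S) = (c : S) := by
        have := mul_inv_eq_one.1 hv1
        exact this
      exact this.symm
    haveI : Finite ↥Fx := inferInstance
    have hsurj := Finite.surjective_of_injective hinj
    obtain ⟨c, hc⟩ := hsurj ⟨a, (hmem a).2 ⟨ha, hya⟩⟩
    obtain ⟨h5, h6⟩ := (hmem _).1 c.2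
    exact ⟨c, h5, h6, (congrArg Subtype.val hc).symm⟩
  have key : ∀ i, (∀ g ∈ P, ∃ a ∈ P, ∃ b ∈ P, x₁ * a = a * x₁ ∧ x₂ * b = b * x₂ ∧ g⁻¹ * (a * b) ∈ L i) ∧
      (∀ a ∈ P, ∀ b ∈ P, x₁ * a = a * x₁ → x₂ * b = b * x₂ → a * b * a⁻¹ * b⁻¹ ∈ L i) := by
    intro i
    induction i with
    | zero =>
      refine ⟨fun g hg => ⟨1, one_mem _, 1, one_mem _, by group, by group, ?_⟩, ?_⟩
      · show _ ∈ P
        simpa using hg
      · intro a ha b hb _ _
        exact mul_mem (mul_mem (mul_mem ha hb) (inv_mem ha)) (inv_mem hb)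
    | succ i ih =>
      obtain ⟨ih1, ih2⟩ := ih
      haveI hMn := hLn i
      haveI hM'n : (L (i + 1)).Normal := hLn (i + 1)
      have hcommP : ∀ m ∈ L i, ∀ t ∈ P, m * t * m⁻¹ * t⁻¹ ∈ L (i + 1) := by
        intro m hm t ht
        exact Subgroup.commutator_mem_commutator hm ht
      have hM'M : L (i + 1) ≤ L i := Subgroup.commutator_le_left _ _
      have hcM : ⁅L i, L i⁆ ≤ L (i + 1) := Subgroup.commutator_mono le_rfl (hLP i)
      obtain ⟨hs1, hs2⟩ := section_decomp (P := P) (M := L i) (M' := L (i + 1)) hP hpq (hLP i) hM'M hcM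
        h₁ h₂ hx hfree
      let π : S →* S ⧸ L (i + 1) := QuotientGroup.mk' (L (i + 1))
      have hπ1 : ∀ y, π y = 1 ↔ y ∈ L (i + 1) := fun y => QuotientGroup.eq_one_iff y
      have hπc : ∀ m ∈ L i, ∀ t ∈ P, π m * π t = π t * π m := by
        intro m hm t ht
        have h3 := (hπ1 _).2 (hcommP m hm t ht)
        rw [map_mul, map_mul, map_mul, map_inv, map_inv] at h3
        have h4 : π m * π t * (π m)⁻¹ = π t := mul_inv_eq_one.1 h3
        exact mul_inv_eq_iff_eq_mul.1 h4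
      constructor
      · intro g hg
        obtain ⟨a, ha, b, hb, hax, hbx, hm⟩ := ih1 g hg
        set m : S := g⁻¹ * (a * b) with hmdef
        obtain ⟨m₁, hm₁, m₂, hm₂, hc₁, hc₂, hmm⟩ := hs1 m⁻¹ (inv_mem hm)
        refine ⟨a * m₁, mul_mem ha (hLP i hm₁), b * m₂, mul_mem hb (hLP i hm₂), ?_, ?_, ?_⟩
        · calc x₁ * (a * m₁) = (x₁ * a) * m₁ := by group
            _ = (a * x₁) * m₁ := by rw [hax]
            _ = a * (x₁ * m₁) := by group
            _ = a * (m₁ * x₁) := by rw [hc₁]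
            _ = a * m₁ * x₁ := by group
        · calc x₂ * (b * m₂) = (x₂ * b) * m₂ := by group
            _ = (b * x₂) * m₂ := by rw [hbx]
            _ = b * (x₂ * m₂) := by group
            _ = b * (m₂ * x₂) := by rw [hc₂]
            _ = b * m₂ * x₂ := by group
        · rw [← hπ1]
          have h3 := (hπ1 _).2 hmm
          rw [inv_inv, hmdef] at h3
          simp only [map_mul, map_inv] at h3 ⊢
          have h4 := hπc m₁ hm₁ b hb
          calc (π g)⁻¹ * (π a * π m₁ * (π b * π m₂)) = (π g)⁻¹ * (π a * (π m₁ * π b) * π m₂) := by group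
            _ = (π g)⁻¹ * (π a * (π b * π m₁) * π m₂) := by rw [h4]
            _ = (π g)⁻¹ * (π a * π b) * (π m₁ * π m₂) := by group
            _ = 1 := h3
      · intro a ha b hb hax hbx
        have hzM : a * b * a⁻¹ * b⁻¹ ∈ L i := ih2 a ha b hb hax hbx
        -- `a = c⁻¹ (x₂ c x₂⁻¹)`
        obtain ⟨c, hc, hcx, hce⟩ := hilbert x₁ x₂ h₁ h₂ hx h1free a ha hax
        obtain ⟨f, hf, hfx, hfe⟩ := hilbert x₂ x₁ h₂ h₁ hx.symm
          (fun v hv h3 h4 => h1free v hv h4 h3) b hb hbx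
        set d : S := x₂ * c * x₂⁻¹ with hd
        set k : S := x₁ * f * x₁⁻¹ with hk
        have hdP : d ∈ P := hPn.conj_mem c hc x₂
        have hkP : k ∈ P := hPn.conj_mem f hf x₁
        have hdx : x₁ * d = d * x₁ := by
          have h5 : x₁ * x₂⁻¹ = x₂⁻¹ * x₁ := (show Commute x₁ x₂ from hx).inv_right.eq
          calc x₁ * d = (x₁ * x₂) * c * x₂⁻¹ := by rw [hd]; group
            _ = (x₂ * x₁) * c * x₂⁻¹ := by rw [hx]
            _ = x₂ * (x₁ * c) * x₂⁻¹ := by group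
            _ = x₂ * (c * x₁) * x₂⁻¹ := by rw [hcx]
            _ = x₂ * c * (x₁ * x₂⁻¹) := by group
            _ = x₂ * c * (x₂⁻¹ * x₁) := by rw [h5]
            _ = d * x₁ := by rw [hd]; group
        have hkx : x₂ * k = k * x₂ := by
          have h5 : x₂ * x₁⁻¹ = x₁⁻¹ * x₂ := (show Commute x₂ x₁ from hx.symm).inv_right.eq
          calc x₂ * k = (x₂ * x₁) * f * x₁⁻¹ := by rw [hk]; group
            _ = (x₁ * x₂) * f * x₁⁻¹ := by rw [hx]
            _ = x₁ * (x₂ * f) * x₁⁻¹ := by group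
            _ = x₁ * (f * x₂) * x₁⁻¹ := by rw [hfx]
            _ = x₁ * f * (x₂ * x₁⁻¹) := by group
            _ = x₁ * f * (x₁⁻¹ * x₂) := by rw [h5]
            _ = k * x₂ := by rw [hk]; group
        have hbx' : x₂ * b * x₂⁻¹ = b := by rw [hbx]; group
        have hax' : x₁ * a * x₁⁻¹ = a := by rw [hax]; group
        -- `u`, `w`
        set u : S := c * b * c⁻¹ * b⁻¹ with hu
        set u₂ : S := d * b * d⁻¹ * b⁻¹ with hu₂
        set w : S := a * f * a⁻¹ * f⁻¹ with hw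
        set w₂ : S := a * k * a⁻¹ * k⁻¹ with hw₂
        have huM : u ∈ L i := ih2 c hc b hb hcx hbx
        have hu₂M : u₂ ∈ L i := ih2 d hdP b hb hdx hbx
        have hwM : w ∈ L i := ih2 a ha f hf hax hfx
        have hw₂M : w₂ ∈ L i := ih2 a ha k hkP hax hkx
        have hu₂e : x₂ * u * x₂⁻¹ = u₂ := by
          have : x₂ * u * x₂⁻¹ = d * (x₂ * b * x₂⁻¹) * d⁻¹ * (x₂ * b * x₂⁻¹)⁻¹ := by
            rw [hu, hd]; group
          rw [this, hbx']
        have hw₂e : x₁ * w * x₁⁻¹ = w₂ := by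
          have : x₁ * w * x₁⁻¹ = (x₁ * a * x₁⁻¹) * k * (x₁ * a * x₁⁻¹)⁻¹ * k⁻¹ := by
            rw [hw, hk]; group
          rw [this, hax']
        -- modulo `M'`
        have hA : (a * b * a⁻¹ * b⁻¹)⁻¹ * (u⁻¹ * (x₂ * u * x₂⁻¹)) ∈ L (i + 1) := by
          rw [hu₂e, ← hπ1]
          have e := comm_quot_split (c := π c) (d := π d) (b := π b) (u := π u) (u₂ := π u₂)
            (by simp only [hu, map_mul, map_inv]) (by simp only [hu₂, map_mul, map_inv])
            (hπc u huM c hc).symm (hπc u₂ hu₂M c hc).symm (hπc u huM u₂ (hLP i hu₂M))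
          have e' : π (a * b * a⁻¹ * b⁻¹) = π u⁻¹ * π u₂ := by
            rw [hce, map_inv]
            rw [← e]
            simp only [map_mul, map_inv]
          rw [map_mul, map_inv, map_mul π u⁻¹, e']
          group
        have hB : (a * b * a⁻¹ * b⁻¹)⁻¹ * (w⁻¹ * (x₁ * w * x₁⁻¹)) ∈ L (i + 1) := by
          rw [hw₂e, ← hπ1]
          have e := comm_quot_split' (a := π a) (f := π f) (k := π k) (w := π w) (w₂ := π w₂)
            (by simp only [hw, map_mul, map_inv]) (by simp only [hw₂, map_mul, map_inv])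
            (hπc w hwM f hf).symm (hπc w₂ hw₂M f hf).symm (hπc w hwM w₂ (hLP i hw₂M))
          have e' : π (a * b * a⁻¹ * b⁻¹) = π w⁻¹ * π w₂ := by
            rw [hfe, map_inv]
            rw [← e]
            simp only [map_mul, map_inv]
          rw [map_mul, map_inv, map_mul π w⁻¹, e']
          group
        exact hs2 _ hzM u huM w hwM hA hB
  obtain ⟨n, hn⟩ : ∃ n, L n = ⊥ := by
    haveI : Group.IsNilpotent P := hP.isNilpotent
    exact (Subgroup.isNilpotent_iff_lowerCentralSeries P).1 inferInstance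
  obtain ⟨k1, k2⟩ := key n
  rw [hn] at k1 k2
  constructor
  · intro a ha b hb h3 h4
    have h5 := k2 a ha b hb h3 h4
    rw [Subgroup.mem_bot] at h5
    have h6 : a * b * a⁻¹ = b := mul_inv_eq_one.1 h5
    rw [mul_inv_eq_iff_eq_mul] at h6
    exact h6
  · intro g hg
    obtain ⟨a, ha, b, hb, h3, h4, h5⟩ := k1 g hg
    rw [Subgroup.mem_bot] at h5
    exact ⟨a, ha, b, hb, h3, h4, (inv_mul_eq_one.1 h5)⟩

end level

end Cfsg.Agent.Lib.Techniques
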