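import Cfsg.Agent.Lib.Techniques.KFour
import Cfsg.Agent.Lib.Techniques.WeakMain
import Cfsg.Agent.Lib.Techniques.KInfIso
import Mathlib

/-! The hypotheses of the weak-closure theorems for the lower `K`-infinity subgroup. -/

set_option autoImplicit false
set_option linter.style.haveILetI false

namespace Cfsg.Agent.Lib.Techniques

open Cfsg

universe u

section

variable {G : Type u} [Group G] [Finite G] {p : ℕ} [hp : Fact p.Prime]

/-- `Z(P)` lies in the lower `K`-infinity subgroup. -/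
theorem kInf_hwz (P : Subgroup G) (hP : IsPGroup p ↥P) :
    P ⊓ Subgroup.centralizer (P : Set G) ≤ inducedFunctor kInfLower P := by
  intro a ha
  obtain ⟨h1, h2, -⟩ := Cfsg.Agent.S1978.result (P := ↥P) hP
  refine ⟨⟨a, ha.1⟩, h1 (h2 ?_), rfl⟩
  rw [Subgroup.mem_center_iff]
  intro q
  apply Subtype.ext
  exact (Subgroup.mem_centralizer_iff.1 ha.2) q q.2

omit [Finite G] in
theorem map_inf_centralizer_subtype (H : Subgroup G) (X : Subgroup ↥H) :
    (X ⊓ Subgroup.centralizer (X : Set ↥H)).map H.subtype =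
      X.map H.subtype ⊓ Subgroup.centralizer ((X.map H.subtype : Subgroup G) : Set G) := by
  ext a
  constructor
  · rintro ⟨b, hb, rfl⟩
    refine ⟨⟨b, hb.1, rfl⟩, Subgroup.mem_centralizer_iff.2 ?_⟩
    rintro _ ⟨c, hc, rfl⟩
    exact congrArg Subtype.val ((Subgroup.mem_centralizer_iff.1 hb.2) c hc)
  · rintro ⟨⟨b, hb, rfl⟩, h2⟩
    refine ⟨b, ⟨hb, Subgroup.mem_centralizer_iff.2 ?_⟩, rfl⟩
    intro c hc
    apply Subtype.ext
    exact (Subgroup.mem_centralizer_iff.1 h2) _ ⟨c, hc, rfl⟩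

/-- The quadratic element inside a subgroup. -/
theorem kInf_quad (H T : Subgroup G) (hTH : T ≤ H) (hTp : IsPGroup p ↥T) (hidx : ¬ p ∣ T.relIndex H)
    (hnot : ¬ H ≤ Subgroup.normalizer ((inducedFunctor kInfLower T : Subgroup G) : Set G)) :
    ∃ g : G, g ∈ T ∧ g ∉ pCoreOf p H ∧
      ⁅⁅pCoreOf p H ⊓ Subgroup.centralizer ((pCoreOf p H : Subgroup G) : Set G), Subgroup.zpowers g⁆, Subgroup.zpowers g⁆ = ⊥ := by
  classical
  have hT : SylowIn p T H := ⟨hTH, hTp, hidx⟩
  let S : Sylow p ↥H := hT.toSylow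
  have hSc : (S : Subgroup ↥H) = T.subgroupOf H := hT.coe_toSylow
  have hTm : (T.subgroupOf H).map H.subtype = T := Subgroup.map_subgroupOf_eq_of_le hTH
  have hmap : (inducedFunctor kInfLower (T.subgroupOf H)).map H.subtype = inducedFunctor kInfLower T := by
    have := map_inducedFunctor (p := p) (isCharPFunctor_kInfLower (p := p)) H.subtype
      (P := T.subgroupOf H) (isPGroup_subgroupOf hTH hTp) (H.subtype_injective.injOn)
    rwa [hTm] at this
  have hK : ¬ (inducedFunctor kInfLower (S : Subgroup ↥H)).Normal := by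
    rw [hSc]
    intro hn
    apply hnot
    intro a ha
    have h1 := (mem_normalizer_subtype_iff H (inducedFunctor kInfLower (T.subgroupOf H)) ⟨a, ha⟩).1 (by
      rw [Subgroup.normalizer_eq_top_iff.2 hn]
      trivial)
    rwa [hmap] at h1
  obtain ⟨g, hg1, hg2, -, hg4⟩ := exists_g_four S (Or.inl hK)
  refine ⟨(g : G), hg1, ?_, ?_⟩
  · rintro ⟨b, hb, e⟩
    have : b = g := Subtype.ext e
    rw [this] at hb
    exact hg2 hb
  · have h1 := congrArg (Subgroup.map H.subtype) hg4
    rw [Subgroup.map_commutator, Subgroup.map_commutator, map_inf_centralizer_subtype, Subgroup.map_bot,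
      MonoidHom.map_zpowers] at h1
    exact h1

theorem iterCommutator_eq_bot_of_two {X A : Subgroup G} (h : iterCommutator X A 2 = ⊥) (k : ℕ) :
    iterCommutator X A (k + 2) = ⊥ := by
  induction k with
  | zero => exact h
  | succ k ih =>
    show ⁅iterCommutator X A (k + 2), A⁆ = ⊥
    rw [ih]
    exact Subgroup.commutator_bot_left A

/-- The chief factor form for odd `p`. -/
theorem kInf_chief (hp2 : p ≠ 2) (H T : Subgroup G) (hTH : T ≤ H) (hTp : IsPGroup p ↥T) (hidx : ¬ p ∣ T.relIndex H)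
    (hnot : ¬ H ≤ Subgroup.normalizer ((inducedFunctor kInfLower T : Subgroup G) : Set G)) :
    ∃ g : G, g ∈ T ∧ g ∉ pCoreOf p H ∧ ∀ U V : Subgroup ↥H, IsChiefFactor U V →
      U.map H.subtype ≤ pCoreOf p H ⊓ Subgroup.centralizer ((pCoreOf p H : Subgroup G) : Set G) →
      iterCommutator (U.map H.subtype) (Subgroup.zpowers g) (p - 1) ≤ V.map H.subtype := by
  obtain ⟨g, hg1, hg2, hg3⟩ := kInf_quad H T hTH hTp hidx hnot
  refine ⟨g, hg1, hg2, ?_⟩
  intro U V _ hU
  have hp3 : 3 ≤ p := by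
    have := hp.out.two_le
    omega
  obtain ⟨k, hk⟩ : ∃ k, p - 1 = k + 2 := ⟨p - 3, by omega⟩
  rw [hk]
  have h2 : iterCommutator (U.map H.subtype) (Subgroup.zpowers g) 2 = ⊥ := by
    rw [eq_bot_iff, ← hg3]
    exact iterCommutator_mono_left hU 2
  rw [iterCommutator_eq_bot_of_two h2 k]
  exact bot_le

end

end Cfsg.Agent.Lib.Techniques
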